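import Mathlib
import Cfsg.Agent.Lib.H7.LowRank

/-!
Dimension four, plus type: `SL_2 × SL_2` acting on 2 × 2 matrices.
-/
set_option autoImplicit false

namespace H7.LowRank

open H7.Hyp H7.HypStd H7.HypOrd H7.Omega H7.OmegaIso H7.OmegaOrd QuadraticMap
open H48.QuadStd Matrix
open scoped commutatorElement

variable {F : Type*} [Field F]

/-- `(b, c) ↦ - b c` -/
def qneg (F : Type*) [Field F] : QuadraticForm F (F × F) :=
  -(QuadraticMap.linMulLin (LinearMap.fst F F F) (LinearMap.snd F F F))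

theorem qneg_apply (v : F × F) : qneg F v = -(v.1 * v.2) := by
  simp [qneg]

theorem polar_qneg (v w : F × F) : polar (qneg F) v w = -(v.1 * w.2 + w.1 * v.2) := by
  simp only [QuadraticMap.polar, qneg_apply, Prod.fst_add, Prod.snd_add]; ring

theorem nd_qneg : ND (qneg F) := by
  intro v hv
  have h1 := hv (1, 0)
  have h2 := hv (0, 1)
  rw [polar_qneg] at h1 h2
  refine Prod.ext ?_ ?_
  · simpa using h2
  · simpa using h1

/-- `M ↦ g M hᵀ` on 2 × 2 matrices -/
def act4 (g h : Matrix (Fin 2) (Fin 2) F) : (F × F × (F × F)) →ₗ[F] (F × F × (F × F)) where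
  toFun p := ((g 0 0 * p.1 + g 0 1 * p.2.2.2) * h 0 0 + (g 0 0 * p.2.2.1 + g 0 1 * p.2.1) * h 0 1,
    (g 1 0 * p.1 + g 1 1 * p.2.2.2) * h 1 0 + (g 1 0 * p.2.2.1 + g 1 1 * p.2.1) * h 1 1,
    ((g 0 0 * p.1 + g 0 1 * p.2.2.2) * h 1 0 + (g 0 0 * p.2.2.1 + g 0 1 * p.2.1) * h 1 1,
    (g 1 0 * p.1 + g 1 1 * p.2.2.2) * h 0 0 + (g 1 0 * p.2.2.1 + g 1 1 * p.2.1) * h 0 1))
  map_add' p q := by
    refine Prod.ext ?_ (Prod.ext ?_ (Prod.ext ?_ ?_)) <;> simp only [Prod.fst_add, Prod.snd_add] <;> ring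
  map_smul' c p := by
    refine Prod.ext ?_ (Prod.ext ?_ (Prod.ext ?_ ?_)) <;>
      simp only [Prod.smul_fst, Prod.smul_snd, smul_eq_mul, RingHom.id_apply] <;> ring

theorem act4_apply (g h : Matrix (Fin 2) (Fin 2) F) (x y b c : F) : act4 g h (x, y, (b, c)) =
    ((g 0 0 * x + g 0 1 * c) * h 0 0 + (g 0 0 * b + g 0 1 * y) * h 0 1,
    (g 1 0 * x + g 1 1 * c) * h 1 0 + (g 1 0 * b + g 1 1 * y) * h 1 1,
    ((g 0 0 * x + g 0 1 * c) * h 1 0 + (g 0 0 * b + g 0 1 * y) * h 1 1,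
    (g 1 0 * x + g 1 1 * c) * h 0 0 + (g 1 0 * b + g 1 1 * y) * h 0 1)) := rfl

theorem act4_mul (g h g' h' : Matrix (Fin 2) (Fin 2) F) : act4 (g * g') (h * h') = act4 g h * act4 g' h' := by
  apply LinearMap.ext
  rintro ⟨x, y, b, c⟩
  rw [Module.End.mul_apply]
  simp only [act4_apply, Matrix.mul_apply, Fin.sum_univ_two]
  refine Prod.ext ?_ (Prod.ext ?_ (Prod.ext ?_ ?_)) <;> simp only <;> ring

theorem act4_one : act4 (1 : Matrix (Fin 2) (Fin 2) F) 1 = 1 := by
  apply LinearMap.ext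
  rintro ⟨x, y, b, c⟩
  simp [act4_apply]

/-- `SL_2 × SL_2` acting on `F ^ 4` -/
noncomputable def rho4 (F : Type*) [Field F] : SpecialLinearGroup (Fin 2) F × SpecialLinearGroup (Fin 2) F →*
    ((F × F × (F × F)) ≃ₗ[F] (F × F × (F × F))) :=
  mkHom
    { toFun := fun g => act4 (g.1 : Matrix (Fin 2) (Fin 2) F) (g.2 : Matrix (Fin 2) (Fin 2) F)
      map_one' := act4_one
      map_mul' := fun _ _ => act4_mul _ _ _ _ }

theorem rho4_apply (g : SpecialLinearGroup (Fin 2) F × SpecialLinearGroup (Fin 2) F) (p : F × F × (F × F)) :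
    rho4 F g p = act4 (g.1 : Matrix (Fin 2) (Fin 2) F) (g.2 : Matrix (Fin 2) (Fin 2) F) p := rfl

theorem rho4_ul (c : F) : rho4 F (SpecialLinearGroup.transvection (i := (0 : Fin 2)) (j := 1) (by decide) c, 1) = E (qneg F) (c, 0) := by
  apply LinearEquiv.ext
  rintro ⟨x, y, b, d⟩
  rw [rho4_apply, act4_apply, E_apply, qneg_apply, polar_qneg]
  refine Prod.ext ?_ (Prod.ext ?_ (Prod.ext ?_ ?_)) <;> simp [SpecialLinearGroup.transvection, Matrix.transvection]
  ring

theorem rho4_ur (c : F) : rho4 F (1, SpecialLinearGroup.transvection (i := (0 : Fin 2)) (j := 1) (by decide) c) = E (qneg F) (0, c) := by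
  apply LinearEquiv.ext
  rintro ⟨x, y, b, d⟩
  rw [rho4_apply, act4_apply, E_apply, qneg_apply, polar_qneg]
  refine Prod.ext ?_ (Prod.ext ?_ (Prod.ext ?_ ?_)) <;> simp [SpecialLinearGroup.transvection, Matrix.transvection]

theorem rho4_ll (c : F) : rho4 F (SpecialLinearGroup.transvection (i := (1 : Fin 2)) (j := 0) (by decide) c, 1) = E' (qneg F) (0, c) := by
  apply LinearEquiv.ext
  rintro ⟨x, y, b, d⟩
  rw [rho4_apply, act4_apply, E'_apply, qneg_apply, polar_qneg]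
  refine Prod.ext ?_ (Prod.ext ?_ (Prod.ext ?_ ?_)) <;> simp [SpecialLinearGroup.transvection, Matrix.transvection] <;> ring

theorem rho4_lr (c : F) : rho4 F (1, SpecialLinearGroup.transvection (i := (1 : Fin 2)) (j := 0) (by decide) c) = E' (qneg F) (c, 0) := by
  apply LinearEquiv.ext
  rintro ⟨x, y, b, d⟩
  rw [rho4_apply, act4_apply, E'_apply, qneg_apply, polar_qneg]
  refine Prod.ext ?_ (Prod.ext ?_ (Prod.ext ?_ ?_)) <;> simp [SpecialLinearGroup.transvection, Matrix.transvection] <;> ring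

theorem rho4_range : (rho4 F).range = Om (qneg F) := by
  apply le_antisymm
  · have h1 : ((Om (qneg F)).comap (rho4 F)).comap (MonoidHom.inl (SpecialLinearGroup (Fin 2) F) (SpecialLinearGroup (Fin 2) F)) = ⊤ := by
      apply H6.SLGen.eq_top_of_transvection_mem
      intro i j hij c
      rw [Subgroup.mem_comap, Subgroup.mem_comap]
      fin_cases i <;> fin_cases j
      · exact absurd rfl hij
      · exact (rho4_ul c) ▸ E_mem_Om _ _
      · exact (rho4_ll c) ▸ E'_mem_Om _ _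
      · exact absurd rfl hij
    have h2 : ((Om (qneg F)).comap (rho4 F)).comap (MonoidHom.inr (SpecialLinearGroup (Fin 2) F) (SpecialLinearGroup (Fin 2) F)) = ⊤ := by
      apply H6.SLGen.eq_top_of_transvection_mem
      intro i j hij c
      rw [Subgroup.mem_comap, Subgroup.mem_comap]
      fin_cases i <;> fin_cases j
      · exact absurd rfl hij
      · exact (rho4_ur c) ▸ E_mem_Om _ _
      · exact (rho4_lr c) ▸ E'_mem_Om _ _
      · exact absurd rfl hij
    rintro _ ⟨⟨g, h⟩, rfl⟩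
    have e : ((g, h) : SpecialLinearGroup (Fin 2) F × SpecialLinearGroup (Fin 2) F) = (g, 1) * (1, h) := by simp
    rw [e, map_mul]
    have hg : g ∈ ((Om (qneg F)).comap (rho4 F)).comap (MonoidHom.inl (SpecialLinearGroup (Fin 2) F) (SpecialLinearGroup (Fin 2) F)) := by
      rw [h1]; trivial
    have hh : h ∈ ((Om (qneg F)).comap (rho4 F)).comap (MonoidHom.inr (SpecialLinearGroup (Fin 2) F) (SpecialLinearGroup (Fin 2) F)) := by
      rw [h2]; trivial
    exact (Om (qneg F)).mul_mem hg hh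
  · refine Om_le_of (fun w => ?_) (fun w => ?_)
    · obtain ⟨s, t⟩ := w
      have : E (qneg F) (s, t) = E (qneg F) (s, 0) * E (qneg F) (0, t) := by rw [E_mul]; simp
      rw [this]
      exact Subgroup.mul_mem _ ⟨_, rho4_ul s⟩ ⟨_, rho4_ur t⟩
    · obtain ⟨s, t⟩ := w
      have : E' (qneg F) (s, t) = E' (qneg F) (s, 0) * E' (qneg F) (0, t) := by rw [E'_mul]; simp
      rw [this]
      exact Subgroup.mul_mem _ ⟨_, rho4_lr s⟩ ⟨_, rho4_ll t⟩

theorem scalar_mem_center {g : SpecialLinearGroup (Fin 2) F} (hb : g.1 0 1 = 0) (hc : g.1 1 0 = 0) (had : g.1 0 0 = g.1 1 1) :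
    g ∈ Subgroup.center (SpecialLinearGroup (Fin 2) F) := by
  have hdet : g.1 0 0 * g.1 1 1 - g.1 0 1 * g.1 1 0 = 1 := by
    rw [← Matrix.det_fin_two]; exact g.2
  rw [Matrix.SpecialLinearGroup.mem_center_iff]
  refine ⟨g.1 0 0, ?_, ?_⟩
  · rw [hb, ← had] at hdet
    simp only [Fintype.card_fin]
    linear_combination hdet
  · ext i j
    fin_cases i <;> fin_cases j
    · simp
    · simpa using hb.symm
    · simpa using hc.symm
    · simpa using had

theorem rho4_center {g : SpecialLinearGroup (Fin 2) F × SpecialLinearGroup (Fin 2) F} {x : F} (hx : x ≠ 0)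
    (h : ∀ p, rho4 F g p = x • p) :
    g ∈ Subgroup.center (SpecialLinearGroup (Fin 2) F × SpecialLinearGroup (Fin 2) F) := by
  obtain ⟨g, k⟩ := g
  have h1 := h (1, 0, (0, 0))
  have h2 := h (0, 1, (0, 0))
  have h3 := h (0, 0, (1, 0))
  have h4 := h (0, 0, (0, 1))
  rw [rho4_apply, act4_apply] at h1 h2 h3 h4
  simp only [mul_one, mul_zero, add_zero, zero_add, zero_mul, Prod.smul_mk, smul_eq_mul, Prod.mk.injEq] at h1 h2 h3 h4
  obtain ⟨a1, -, a2, a3⟩ := h1
  obtain ⟨-, b1, b2, b3⟩ := h2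
  obtain ⟨-, -, c1, -⟩ := h3
  obtain ⟨-, -, -, d1⟩ := h4
  have hg00 : g.1 0 0 ≠ 0 := fun h0 => hx (by rw [← a1, h0, zero_mul])
  have hk00 : k.1 0 0 ≠ 0 := fun h0 => hx (by rw [← a1, h0, mul_zero])
  have hg11 : g.1 1 1 ≠ 0 := fun h0 => hx (by rw [← b1, h0, zero_mul])
  have hk11 : k.1 1 1 ≠ 0 := fun h0 => hx (by rw [← b1, h0, mul_zero])
  have hk10 : k.1 1 0 = 0 := (mul_eq_zero.1 a2).resolve_left hg00
  have hg10 : g.1 1 0 = 0 := (mul_eq_zero.1 a3).resolve_right hk00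
  have hg01 : g.1 0 1 = 0 := (mul_eq_zero.1 b2).resolve_right hk11
  have hk01 : k.1 0 1 = 0 := (mul_eq_zero.1 b3).resolve_left hg11
  have hk : k.1 0 0 = k.1 1 1 := mul_left_cancel₀ hg00 (a1.trans c1.symm)
  have hg : g.1 0 0 = g.1 1 1 := mul_right_cancel₀ hk00 (a1.trans d1.symm)
  have cg := scalar_mem_center hg01 hg10 hg
  have ck := scalar_mem_center hk01 hk10 hk
  rw [Subgroup.mem_center_iff] at cg ck ⊢
  rintro ⟨a, b⟩
  exact Prod.ext (cg a) (ck b)

theorem quot_prod (G H : Type*) [Group G] [Group H] : Nonempty ((G × H) ⧸ Subgroup.center (G × H) ≃*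
    (G ⧸ Subgroup.center G) × (H ⧸ Subgroup.center H)) := by
  let φ : G × H →* (G ⧸ Subgroup.center G) × (H ⧸ Subgroup.center H) :=
    (QuotientGroup.mk' (Subgroup.center G)).prodMap (QuotientGroup.mk' (Subgroup.center H))
  have hφ : Function.Surjective φ := by
    rintro ⟨a, b⟩
    obtain ⟨a, rfl⟩ := QuotientGroup.mk'_surjective _ a
    obtain ⟨b, rfl⟩ := QuotientGroup.mk'_surjective _ b
    exact ⟨(a, b), rfl⟩
  have hk : φ.ker = Subgroup.center (G × H) := by
    ext ⟨a, b⟩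
    rw [MonoidHom.mem_ker]
    have e : φ (a, b) = 1 ↔ a ∈ Subgroup.center G ∧ b ∈ Subgroup.center H := by
      rw [Prod.ext_iff]
      exact and_congr (QuotientGroup.eq_one_iff a) (QuotientGroup.eq_one_iff b)
    rw [e, Subgroup.mem_center_iff, Subgroup.mem_center_iff, Subgroup.mem_center_iff]
    constructor
    · rintro ⟨h1, h2⟩ ⟨c, d⟩
      exact Prod.ext (h1 c) (h2 d)
    · intro h
      exact ⟨fun c => congrArg Prod.fst (h (c, 1)), fun d => congrArg Prod.snd (h (1, d))⟩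
  exact ⟨(QuotientGroup.quotientMulEquivOfEq hk.symm).trans (QuotientGroup.quotientKerEquivOfSurjective φ hφ)⟩

end H7.LowRank
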