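import Mathlib
import Cfsg.Agent.Lib.H7.LowRank4
import Cfsg.Agent.Lib.H7.AnisoPlane

/-!
Dimension four, minus type: `SL_2(q²)` acting on hermitian 2 × 2 matrices.
-/
set_option autoImplicit false
set_option linter.unusedSectionVars false

namespace H7.LowRank

open H7.Hyp H7.HypStd H7.HypOrd H7.Omega H7.OmegaIso H7.OmegaOrd QuadraticMap
open H7.AnisoPlane (Aniso K eK norm_eK)
open H48.QuadStd Matrix
open scoped commutatorElement

variable {F : Type*} [Field F]

/-- the norm form of the quadratic extension -/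
def qN (a b : F) : QuadraticForm F (K a b) := (qMinus 0 F a b).comp (eK a b).symm.toLinearMap

theorem qN_apply (a b : F) (z : K a b) : qN a b z = QuadraticAlgebra.norm z := by
  rw [qN, QuadraticMap.comp_apply]
  change qMinus 0 F a b ((eK a b).symm z) = _
  rw [← norm_eK, LinearEquiv.apply_symm_apply]

theorem equivalent_qN (a b : F) : (qMinus 0 F a b).Equivalent (qN a b) := by
  refine ⟨⟨eK a b, fun v => ?_⟩⟩
  change qN a b (eK a b v) = _
  rw [qN_apply, norm_eK]

theorem polar_qN (a b : F) (z w : K a b) : polar (qN a b) z w = QuadraticAlgebra.trace (z * star w) := by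
  simp only [QuadraticMap.polar, qN_apply, QuadraticAlgebra.norm_def, QuadraticAlgebra.trace_def]
  simp
  ring

theorem nd_of_equivalent {V V' : Type*} [AddCommGroup V] [Module F V] [AddCommGroup V'] [Module F V'] {Q : QuadraticForm F V}
    {Q' : QuadraticForm F V'} (h : Q.Equivalent Q') (hQ : ND Q) : ND Q' := by
  obtain ⟨e⟩ := h
  intro v hv
  obtain ⟨u, rfl⟩ := e.toLinearEquiv.surjective v
  have : u = 0 := by
    apply hQ
    intro w
    have h1 := hv (e w)
    change polar Q' (e u) (e w) = 0 at h1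
    rw [← h1]
    simp only [QuadraticMap.polar, ← map_add, QuadraticMap.IsometryEquiv.map_app]
  rw [this, map_zero]

theorem nd_qN [Finite F] {a b : F} (h : Aniso a b) : ND (qN a b) :=
  nd_of_equivalent (equivalent_qN a b) (MinusOrd.nd_minus 0 h)

section

variable {a b : F}

theorem star_algebraMap' (r : F) : star (algebraMap F (K a b) r) = algebraMap F (K a b) r := by
  ext <;> simp

theorem algebraMap_injective' : Function.Injective (algebraMap F (K a b)) := by
  intro r s h
  have := congrArg QuadraticAlgebra.re h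
  simpa using this

/-- the hermitian matrix attached to a vector -/
def toH (p : F × F × K a b) : Matrix (Fin 2) (Fin 2) (K a b) :=
  !![algebraMap F (K a b) p.1, p.2.2; star p.2.2, -algebraMap F (K a b) p.2.1]

theorem toH_injective : Function.Injective (toH : F × F × K a b → _) := by
  rintro ⟨x, y, z⟩ ⟨x', y', z'⟩ h
  have h1 := congrFun (congrFun h 0) 0
  have h2 := congrFun (congrFun h 0) 1
  have h3 := congrFun (congrFun h 1) 1
  simp only [toH, of_apply, cons_val', cons_val_zero, cons_val_one, neg_inj] at h1 h2 h3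
  exact Prod.ext (algebraMap_injective' h1) (Prod.ext (algebraMap_injective' h3) h2)

/-- the action of 2 × 2 matrices on hermitian matrices, in coordinates -/
def act4m (g : Matrix (Fin 2) (Fin 2) (K a b)) : (F × F × K a b) →ₗ[F] (F × F × K a b) where
  toFun p := (QuadraticAlgebra.norm (g 0 0) * p.1 - QuadraticAlgebra.norm (g 0 1) * p.2.1 + QuadraticAlgebra.trace (g 0 0 * star (g 0 1) * p.2.2),
    -QuadraticAlgebra.norm (g 1 0) * p.1 + QuadraticAlgebra.norm (g 1 1) * p.2.1 - QuadraticAlgebra.trace (g 1 0 * star (g 1 1) * p.2.2),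
    p.1 • (g 0 0 * star (g 1 0)) - p.2.1 • (g 0 1 * star (g 1 1)) + g 0 0 * star (g 1 1) * p.2.2 + g 0 1 * star (g 1 0) * star p.2.2)
  map_add' p q := by
    refine Prod.ext ?_ (Prod.ext ?_ ?_)
    · simp only [Prod.fst_add, Prod.snd_add, mul_add, map_add]; ring
    · simp only [Prod.fst_add, Prod.snd_add, mul_add, map_add]; ring
    · simp only [Prod.fst_add, Prod.snd_add, mul_add, add_smul, star_add]; ring
  map_smul' c p := by
    have hs : ∀ z : K a b, star (c • z) = c • star z := by
      intro z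
      ext
      · simp; ring
      · simp
    refine Prod.ext ?_ (Prod.ext ?_ ?_)
    · simp only [Prod.smul_fst, Prod.smul_snd, smul_eq_mul, RingHom.id_apply, mul_smul_comm, map_smul]; ring
    · simp only [Prod.smul_fst, Prod.smul_snd, smul_eq_mul, RingHom.id_apply, mul_smul_comm, map_smul]; ring
    · simp only [Prod.smul_fst, Prod.smul_snd, smul_eq_mul, RingHom.id_apply, mul_smul_comm, hs, mul_smul, smul_add, smul_sub]

theorem act4m_apply (g : Matrix (Fin 2) (Fin 2) (K a b)) (x y : F) (z : K a b) : act4m g (x, y, z) =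
    (QuadraticAlgebra.norm (g 0 0) * x - QuadraticAlgebra.norm (g 0 1) * y + QuadraticAlgebra.trace (g 0 0 * star (g 0 1) * z),
    -QuadraticAlgebra.norm (g 1 0) * x + QuadraticAlgebra.norm (g 1 1) * y - QuadraticAlgebra.trace (g 1 0 * star (g 1 1) * z),
    x • (g 0 0 * star (g 1 0)) - y • (g 0 1 * star (g 1 1)) + g 0 0 * star (g 1 1) * z + g 0 1 * star (g 1 0) * star z) := rfl

theorem toH_act (g : Matrix (Fin 2) (Fin 2) (K a b)) (p : F × F × K a b) :
    toH (act4m g p) = g * toH p * (g.map star)ᵀ := by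
  obtain ⟨x, y, z⟩ := p
  rw [act4m_apply]
  ext1 i j
  fin_cases i <;> fin_cases j
  · simp [toH, Matrix.mul_apply, Fin.sum_univ_two, QuadraticAlgebra.algebraMap_norm_eq_mul_star, QuadraticAlgebra.algebraMap_trace_eq_add_star]
    ring
  · simp [toH, Matrix.mul_apply, Fin.sum_univ_two, Algebra.smul_def]
    ring
  · simp [toH, Matrix.mul_apply, Fin.sum_univ_two, Algebra.smul_def, star_algebraMap']
    ring
  · simp [toH, Matrix.mul_apply, Fin.sum_univ_two, QuadraticAlgebra.algebraMap_norm_eq_mul_star, QuadraticAlgebra.algebraMap_trace_eq_add_star]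
    ring

theorem map_star_mul (g h : Matrix (Fin 2) (Fin 2) (K a b)) : ((g * h).map star)ᵀ = (h.map star)ᵀ * (g.map star)ᵀ := by
  rw [← transpose_mul]
  congr 1
  ext1 i j
  simp [Matrix.mul_apply, Fin.sum_univ_two]

theorem act4m_mul (g h : Matrix (Fin 2) (Fin 2) (K a b)) : act4m (g * h) = act4m g * act4m h := by
  apply LinearMap.ext
  intro p
  rw [Module.End.mul_apply]
  apply toH_injective
  rw [toH_act, toH_act, toH_act, map_star_mul]
  simp only [Matrix.mul_assoc]

theorem act4m_one : act4m (1 : Matrix (Fin 2) (Fin 2) (K a b)) = 1 := by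
  apply LinearMap.ext
  rintro ⟨x, y, z⟩
  simp [act4m_apply]

variable (a b) in
/-- `SL_2(q²)` acting on `F ^ 4` -/
noncomputable def rho4m [Fact (∀ r : F, r ^ 2 ≠ -b + a * r)] : SpecialLinearGroup (Fin 2) (K a b) →*
    ((F × F × K a b) ≃ₗ[F] (F × F × K a b)) :=
  mkHom
    { toFun := fun g => act4m (g : Matrix (Fin 2) (Fin 2) (K a b))
      map_one' := act4m_one
      map_mul' := fun _ _ => act4m_mul _ _ }

section
variable [Fact (∀ r : F, r ^ 2 ≠ -b + a * r)]

theorem rho4m_apply (g : SpecialLinearGroup (Fin 2) (K a b)) (p : F × F × K a b) :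
    rho4m a b g p = act4m (g : Matrix (Fin 2) (Fin 2) (K a b)) p := rfl

theorem rho4m_upper (c : K a b) : rho4m a b (SpecialLinearGroup.transvection (i := (0 : Fin 2)) (j := 1) (by decide) c) = E (qN a b) (-c) := by
  apply LinearEquiv.ext
  rintro ⟨x, y, z⟩
  rw [rho4m_apply, act4m_apply, E_apply, qN_apply, polar_qN]
  refine Prod.ext ?_ (Prod.ext ?_ ?_)
  · simp [SpecialLinearGroup.transvection, Matrix.transvection, mul_comm]
  · simp [SpecialLinearGroup.transvection, Matrix.transvection]
  · simp [SpecialLinearGroup.transvection, Matrix.transvection]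
    ring

theorem rho4m_lower (c : K a b) : rho4m a b (SpecialLinearGroup.transvection (i := (1 : Fin 2)) (j := 0) (by decide) c) = E' (qN a b) (star c) := by
  apply LinearEquiv.ext
  rintro ⟨x, y, z⟩
  rw [rho4m_apply, act4m_apply, E'_apply, qN_apply, polar_qN]
  refine Prod.ext ?_ (Prod.ext ?_ ?_)
  · simp [SpecialLinearGroup.transvection, Matrix.transvection]
  · simp [SpecialLinearGroup.transvection, Matrix.transvection, mul_comm]
    ring
  · simp [SpecialLinearGroup.transvection, Matrix.transvection]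
    ring

theorem rho4m_range : (rho4m a b).range = Om (qN a b) := by
  apply le_antisymm
  · rw [MonoidHom.range_eq_map, Subgroup.map_le_iff_le_comap, top_le_iff]
    apply H6.SLGen.eq_top_of_transvection_mem
    intro i j hij c
    rw [Subgroup.mem_comap]
    fin_cases i <;> fin_cases j
    · exact absurd rfl hij
    · exact (rho4m_upper c) ▸ E_mem_Om _ _
    · exact (rho4m_lower c) ▸ E'_mem_Om _ _
    · exact absurd rfl hij
  · refine Om_le_of (fun w => ⟨_, (rho4m_upper (-w)).trans (by rw [neg_neg])⟩) (fun w => ⟨_, (rho4m_lower (star w)).trans (by rw [star_star])⟩)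

theorem rho4m_center {g : SpecialLinearGroup (Fin 2) (K a b)} {x : F} (hx : x ≠ 0) (h : ∀ p, rho4m a b g p = x • p) :
    g ∈ Subgroup.center (SpecialLinearGroup (Fin 2) (K a b)) := by
  have hxs : ∀ z : K a b, x • z = 0 → z = 0 := fun z hz => (smul_eq_zero.1 hz).resolve_left hx
  have h1 := h (1, 0, 0)
  have h2 := h (0, 1, 0)
  have h3 := h (0, 0, 1)
  rw [rho4m_apply, act4m_apply] at h1 h2 h3
  simp only [mul_one, mul_zero, sub_zero, add_zero, zero_add, Prod.smul_mk, smul_eq_mul, Prod.mk.injEq, zero_smul, one_smul,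
    zero_sub, map_zero, star_zero, smul_zero, star_one, neg_eq_zero] at h1 h2 h3
  obtain ⟨a1, a2, a3⟩ := h1
  obtain ⟨b1, b2, b3⟩ := h2
  obtain ⟨c1, c2, c3⟩ := h3
  have hc : g.1 1 0 = 0 := QuadraticAlgebra.norm_eq_zero_iff_eq_zero.1 a2
  have hb : g.1 0 1 = 0 := QuadraticAlgebra.norm_eq_zero_iff_eq_zero.1 b1
  have hdet : g.1 0 0 * g.1 1 1 - g.1 0 1 * g.1 1 0 = 1 := by
    rw [← Matrix.det_fin_two]; exact g.2
  rw [hb, zero_mul, sub_zero] at hdet
  have c4 : g.1 0 0 * star (g.1 1 1) + g.1 0 1 * star (g.1 1 0) = x • (1 : K a b) := c3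
  rw [hb, zero_mul, add_zero] at c4
  apply scalar_mem_center hb hc
  -- `a d = 1`, `N a = x`, `N d = x`, `a star d = x`; so `x a = (a star a)(a) ... `
  have e1 : g.1 0 0 * star (g.1 0 0) = algebraMap F _ x := by
    rw [← QuadraticAlgebra.algebraMap_norm_eq_mul_star]; exact congrArg _ a1
  have e2 : g.1 0 0 * star (g.1 1 1) = algebraMap F _ x := by
    rw [c4, Algebra.smul_def, mul_one]
  have h0 : g.1 0 0 ≠ 0 := left_ne_zero_of_mul_eq_one hdet
  have e3 : star (g.1 0 0) = star (g.1 1 1) := mul_left_cancel₀ h0 (e1.trans e2.symm)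
  have := congrArg star e3
  rwa [star_star, star_star] at this

end

end

end H7.LowRank
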