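import Mathlib
import Cfsg.Agent.Lib.H7.LowRank4m

/-!
Alternating 4 × 4 matrices: `SL_4`, `Sp_4`, `SU_4` and orthogonal groups in dimension six and five.
-/
set_option autoImplicit false
set_option linter.unusedSectionVars false

namespace H7.LowRank

open H7.Hyp H7.HypStd H7.HypOrd H7.Omega H7.OmegaIso H7.OmegaOrd QuadraticMap
open H7.AnisoPlane (Aniso K eK norm_eK)
open H48.QuadStd Matrix
open scoped commutatorElement

section general

variable {F : Type*} [Field F] {V : Type*} [AddCommGroup V] [Module F V] {Q : QuadraticForm F V}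

/-- restricting an action to a subspace on which two families act as Siegel elements -/
theorem exists_rho {G X : Type*} [Group G] (act : G → X → X) (h1 : ∀ x, act 1 x = x)
    (hm : ∀ g h x, act (g * h) x = act g (act h x)) (τ : F × F × V → X) (hτ : Function.Injective τ) (u u' : V → G)
    (hu : ∀ w p, act (u w) (τ p) = τ (E Q w p)) (hu' : ∀ w p, act (u' w) (τ p) = τ (E' Q w p))
    (hgen : Subgroup.closure (Set.range u ∪ Set.range u') = ⊤) :
    ∃ ρ : G →* ((F × F × V) ≃ₗ[F] (F × F × V)), ρ.range = Om Q ∧ ∀ g p, act g (τ p) = τ (ρ g p) := by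
  let S : Subgroup G :=
    { carrier := {g | ∃ σ ∈ Om Q, ∀ p, act g (τ p) = τ (σ p)}
      one_mem' := ⟨1, (Om Q).one_mem, fun p => h1 _⟩
      mul_mem' := by
        rintro g h ⟨σ, hσ, h1⟩ ⟨σ', hσ', h1'⟩
        exact ⟨σ * σ', (Om Q).mul_mem hσ hσ', fun p => by rw [hm, h1', h1, LinearEquiv.mul_apply]⟩
      inv_mem' := by
        rintro g ⟨σ, hσ, h2⟩
        refine ⟨σ⁻¹, (Om Q).inv_mem hσ, fun p => ?_⟩
        have : τ p = act g (τ (σ⁻¹ p)) := by
          rw [h2, ← LinearEquiv.mul_apply, mul_inv_cancel]; rfl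
        rw [this, ← hm, inv_mul_cancel, h1] }
  have hS : S = ⊤ := by
    rw [eq_top_iff, ← hgen, Subgroup.closure_le]
    rintro g (⟨w, rfl⟩ | ⟨w, rfl⟩)
    · exact ⟨E Q w, E_mem_Om Q w, hu w⟩
    · exact ⟨E' Q w, E'_mem_Om Q w, hu' w⟩
  have hex : ∀ g, ∃ σ ∈ Om Q, ∀ p, act g (τ p) = τ (σ p) := fun g => by
    have : g ∈ S := by rw [hS]; trivial
    exact this
  choose s hs1 hs2 using hex
  let ρ : G →* ((F × F × V) ≃ₗ[F] (F × F × V)) :=
    { toFun := s
      map_one' := by
        apply LinearEquiv.ext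
        intro p
        apply hτ
        rw [← hs2, h1]; rfl
      map_mul' := by
        intro g h
        apply LinearEquiv.ext
        intro p
        apply hτ
        rw [← hs2, hm, hs2, hs2, LinearEquiv.mul_apply] }
  have hρ : ∀ g p, act g (τ p) = τ (ρ g p) := hs2
  have huniq : ∀ g (σ : (F × F × V) ≃ₗ[F] (F × F × V)), (∀ p, act g (τ p) = τ (σ p)) → ρ g = σ := by
    intro g σ h
    apply LinearEquiv.ext
    intro p
    apply hτ
    rw [← hρ, h]
  refine ⟨ρ, le_antisymm ?_ ?_, hρ⟩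
  · rintro _ ⟨g, rfl⟩
    exact hs1 g
  · exact Om_le_of (fun w => ⟨u w, huniq _ _ (hu w)⟩) (fun w => ⟨u' w, huniq _ _ (hu' w)⟩)

theorem iso_of_act {ι : Type} [Fintype ι] [DecidableEq ι] {Q₀ : (ι → F) → F} {G X : Type*} [Group G] [Nontrivial V] (hQ : ND Q)
    (e : Cfsg.isometryGroup F Q₀ ≃* O (hyp Q)) (hc : ⁅O (hyp Q), O (hyp Q)⁆ = Om Q)
    (act : G → X → X) (h1 : ∀ x, act 1 x = x)
    (hm : ∀ g h x, act (g * h) x = act g (act h x)) (τ : F × F × V → X) (hτ : Function.Injective τ) (u u' : V → G)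
    (hu : ∀ w p, act (u w) (τ p) = τ (E Q w p)) (hu' : ∀ w p, act (u' w) (τ p) = τ (E' Q w p))
    (hgen : Subgroup.closure (Set.range u ∪ Set.range u') = ⊤)
    (hz : ∀ g, ∀ x : F, x ≠ 0 → (∀ p, act g (τ p) = τ (x • p)) → g ∈ Subgroup.center G) :
    Nonempty (Cfsg.POmega F Q₀ ≃* G ⧸ Subgroup.center G) := by
  obtain ⟨ρ, hr, hρ⟩ := exists_rho act h1 hm τ hτ u u' hu hu' hgen
  refine iso_POmega hQ e hc ρ hr fun g x hx h => hz g x (left_ne_zero_of_mul_eq_one hx) fun p => ?_
  rw [hρ, h]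

end general

variable {R : Type*} [Field R]

/-- alternating matrices in coordinates -/
def toA (x y b c a d : R) : Matrix (Fin 2 ⊕ Fin 2) (Fin 2 ⊕ Fin 2) R :=
  fromBlocks !![0, x; -x, 0] !![a, b; c, d] !![-a, -c; -b, -d] !![0, y; -y, 0]

theorem toA_injective {x y b c a d x' y' b' c' a' d' : R} (h : toA x y b c a d = toA x' y' b' c' a' d') :
    x = x' ∧ y = y' ∧ b = b' ∧ c = c' ∧ a = a' ∧ d = d' := by
  rw [toA, toA, fromBlocks_inj] at h
  obtain ⟨h1, h2, -, h3⟩ := h
  have e1 := congrFun (congrFun h1 0) 1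
  have e2 := congrFun (congrFun h3 0) 1
  have e3 := congrFun (congrFun h2 0) 1
  have e4 := congrFun (congrFun h2 1) 0
  have e5 := congrFun (congrFun h2 0) 0
  have e6 := congrFun (congrFun h2 1) 1
  simp at e1 e2 e3 e4 e5 e6
  exact ⟨e1, e2, e3, e4, e5, e6⟩

/-- upper unipotent block matrices -/
def up (b c a d : R) : Matrix (Fin 2 ⊕ Fin 2) (Fin 2 ⊕ Fin 2) R :=
  fromBlocks 1 !![b, -a; d, -c] 0 1

/-- lower unipotent block matrices -/
def lo (b c a d : R) : Matrix (Fin 2 ⊕ Fin 2) (Fin 2 ⊕ Fin 2) R :=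
  fromBlocks 1 0 !![-c, a; -d, b] 1

theorem det_up (b c a d : R) : (up b c a d).det = 1 := by
  rw [up, det_fromBlocks_zero₂₁, det_one, one_mul]

theorem det_lo (b c a d : R) : (lo b c a d).det = 1 := by
  rw [lo, det_fromBlocks_zero₁₂, det_one, one_mul]

theorem tr2 (p q r s : R) : (!![p, q; r, s] : Matrix (Fin 2) (Fin 2) R)ᵀ = !![p, r; q, s] := by
  ext i j
  fin_cases i <;> fin_cases j <;> rfl

theorem up_act (b' c' a' d' x y b c a d : R) : up b' c' a' d' * toA x y b c a d * (up b' c' a' d')ᵀ =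
    toA (x - (b' * c' - a' * d') * y - (b * c' + b' * c - (a * d' + a' * d))) y (b + y * b') (c + y * c') (a + y * a') (d + y * d') := by
  rw [up, toA, toA, fromBlocks_multiply, fromBlocks_transpose, fromBlocks_multiply]
  congr 1
  · ext i j
    fin_cases i <;> fin_cases j <;> simp [tr2] <;> ring
  · ext i j
    fin_cases i <;> fin_cases j <;> simp <;> ring
  · ext i j
    fin_cases i <;> fin_cases j <;> simp [tr2] <;> ring
  · ext i j
    fin_cases i <;> fin_cases j <;> simp

theorem lo_act (b' c' a' d' x y b c a d : R) : lo b' c' a' d' * toA x y b c a d * (lo b' c' a' d')ᵀ =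
    toA x (y - (b' * c' - a' * d') * x - (b * c' + b' * c - (a * d' + a' * d))) (b + x * b') (c + x * c') (a + x * a') (d + x * d') := by
  rw [lo, toA, toA, fromBlocks_multiply, fromBlocks_transpose, fromBlocks_multiply]
  congr 1
  · ext i j
    fin_cases i <;> fin_cases j <;> simp
  · ext i j
    fin_cases i <;> fin_cases j <;> simp [tr2] <;> ring
  · ext i j
    fin_cases i <;> fin_cases j <;> simp <;> ring
  · ext i j
    fin_cases i <;> fin_cases j <;> simp [tr2] <;> ring

theorem toA_smul (s x y b c a d : R) : toA (s * x) (s * y) (s * b) (s * c) (s * a) (s * d) = s • toA x y b c a d := by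
  rw [toA, toA, fromBlocks_smul]
  congr 1 <;> (ext i j; fin_cases i <;> fin_cases j <;> simp)

/-- matrices acting as a scalar on (enough) alternating matrices are scalar -/
theorem scalar_of_act {g : Matrix (Fin 2 ⊕ Fin 2) (Fin 2 ⊕ Fin 2) R} (hg : g.det = 1) {x : R} (hx : x ≠ 0)
    (h1 : g * toA 1 0 0 0 0 0 * gᵀ = toA x 0 0 0 0 0) (h2 : g * toA 0 1 0 0 0 0 * gᵀ = toA 0 x 0 0 0 0)
    (h3 : g * toA 0 0 1 0 0 0 * gᵀ = toA 0 0 x 0 0 0) (h4 : g * toA 0 0 0 1 0 0 * gᵀ = toA 0 0 0 x 0 0)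
    (h5 : g * toA 0 0 0 0 1 (-1) * gᵀ = toA 0 0 0 0 x (-x)) : ∃ s : R, g = s • 1 := by
  have hu : IsUnit g.det := by rw [hg]; exact isUnit_one
  have hgg : gᵀ * (g⁻¹)ᵀ = 1 := by
    rw [← transpose_mul, Matrix.nonsing_inv_mul _ hu, transpose_one]
  have key : ∀ A B : Matrix (Fin 2 ⊕ Fin 2) (Fin 2 ⊕ Fin 2) R, g * A * gᵀ = B → g * A = B * (g⁻¹)ᵀ := by
    intro A B h
    rw [← h, Matrix.mul_assoc (g * A), hgg, Matrix.mul_one]
  have k1 := key _ _ h1
  have k2 := key _ _ h2
  have k3 := key _ _ h3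
  have k4 := key _ _ h4
  set k := (g⁻¹)ᵀ with hk
  have z31 : g (.inr 0) (.inl 0) = 0 := by
    have := congrFun (congrFun k1 (.inr 0)) (.inl 1)
    simpa [Matrix.mul_apply, Fintype.sum_sum_type, Fin.sum_univ_two, toA] using this
  have z41 : g (.inr 1) (.inl 0) = 0 := by
    have := congrFun (congrFun k1 (.inr 1)) (.inl 1)
    simpa [Matrix.mul_apply, Fintype.sum_sum_type, Fin.sum_univ_two, toA] using this
  have z32 : g (.inr 0) (.inl 1) = 0 := by
    have := congrFun (congrFun k1 (.inr 0)) (.inl 0)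
    simpa [Matrix.mul_apply, Fintype.sum_sum_type, Fin.sum_univ_two, toA] using this
  have z42 : g (.inr 1) (.inl 1) = 0 := by
    have := congrFun (congrFun k1 (.inr 1)) (.inl 0)
    simpa [Matrix.mul_apply, Fintype.sum_sum_type, Fin.sum_univ_two, toA] using this
  have z13 : g (.inl 0) (.inr 0) = 0 := by
    have := congrFun (congrFun k2 (.inl 0)) (.inr 1)
    simpa [Matrix.mul_apply, Fintype.sum_sum_type, Fin.sum_univ_two, toA] using this
  have z23 : g (.inl 1) (.inr 0) = 0 := by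
    have := congrFun (congrFun k2 (.inl 1)) (.inr 1)
    simpa [Matrix.mul_apply, Fintype.sum_sum_type, Fin.sum_univ_two, toA] using this
  have z14 : g (.inl 0) (.inr 1) = 0 := by
    have := congrFun (congrFun k2 (.inl 0)) (.inr 0)
    simpa [Matrix.mul_apply, Fintype.sum_sum_type, Fin.sum_univ_two, toA] using this
  have z24 : g (.inl 1) (.inr 1) = 0 := by
    have := congrFun (congrFun k2 (.inl 1)) (.inr 0)
    simpa [Matrix.mul_apply, Fintype.sum_sum_type, Fin.sum_univ_two, toA] using this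
  have z21 : g (.inl 1) (.inl 0) = 0 := by
    have := congrFun (congrFun k3 (.inl 1)) (.inr 1)
    simpa [Matrix.mul_apply, Fintype.sum_sum_type, Fin.sum_univ_two, toA] using this
  have z34 : g (.inr 0) (.inr 1) = 0 := by
    have := congrFun (congrFun k3 (.inr 0)) (.inl 0)
    simpa [Matrix.mul_apply, Fintype.sum_sum_type, Fin.sum_univ_two, toA] using this
  have z12 : g (.inl 0) (.inl 1) = 0 := by
    have := congrFun (congrFun k4 (.inl 0)) (.inr 0)
    simpa [Matrix.mul_apply, Fintype.sum_sum_type, Fin.sum_univ_two, toA] using this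
  have z43 : g (.inr 1) (.inr 0) = 0 := by
    have := congrFun (congrFun k4 (.inr 1)) (.inl 1)
    simpa [Matrix.mul_apply, Fintype.sum_sum_type, Fin.sum_univ_two, toA] using this
  have d12 : g (.inl 0) (.inl 0) * g (.inl 1) (.inl 1) = x := by
    have := congrFun (congrFun h1 (.inl 0)) (.inl 1)
    simpa [Matrix.mul_apply, Fintype.sum_sum_type, Fin.sum_univ_two, toA, z12, z13, z14, z21, z23, z24, z31, z32, z34, z41, z42, z43] using this
  have d14 : g (.inl 0) (.inl 0) * g (.inr 1) (.inr 1) = x := by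
    have := congrFun (congrFun h3 (.inl 0)) (.inr 1)
    simpa [Matrix.mul_apply, Fintype.sum_sum_type, Fin.sum_univ_two, toA, z12, z13, z14, z21, z23, z24, z31, z32, z34, z41, z42, z43] using this
  have d23 : g (.inl 1) (.inl 1) * g (.inr 0) (.inr 0) = x := by
    have := congrFun (congrFun h4 (.inl 1)) (.inr 0)
    simpa [Matrix.mul_apply, Fintype.sum_sum_type, Fin.sum_univ_two, toA, z12, z13, z14, z21, z23, z24, z31, z32, z34, z41, z42, z43] using this
  have d13 : g (.inl 0) (.inl 0) * g (.inr 0) (.inr 0) = x := by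
    have := congrFun (congrFun h5 (.inl 0)) (.inr 0)
    simpa [Matrix.mul_apply, Fintype.sum_sum_type, Fin.sum_univ_two, toA, z12, z13, z14, z21, z23, z24, z31, z32, z34, z41, z42, z43] using this
  have n1 : g (.inl 0) (.inl 0) ≠ 0 := fun h => hx (by rw [← d12, h, zero_mul])
  have n3 : g (.inr 0) (.inr 0) ≠ 0 := fun h => hx (by rw [← d13, h, mul_zero])
  have e1 : g (.inl 1) (.inl 1) = g (.inr 0) (.inr 0) := mul_left_cancel₀ n1 (d12.trans d13.symm)
  have e2 : g (.inr 1) (.inr 1) = g (.inr 0) (.inr 0) := mul_left_cancel₀ n1 (d14.trans d13.symm)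
  have e3 : g (.inl 0) (.inl 0) = g (.inr 0) (.inr 0) := by
    rw [← e1]
    exact mul_right_cancel₀ n3 (d13.trans d23.symm)
  refine ⟨g (.inr 0) (.inr 0), ?_⟩
  ext i j
  rcases i with i | i <;> rcases j with j | j <;> fin_cases i <;> fin_cases j <;>
    simp [z12, z13, z14, z21, z23, z24, z31, z32, z34, z41, z42, z43, e1, e2, e3]

end H7.LowRank
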