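import Mathlib
import Cfsg.Agent.Lib.H7.LowRank6

/-!
`SL_4` and `PΩ⁺_6`.
-/
set_option autoImplicit false
set_option linter.unusedSectionVars false

namespace H7.LowRank

open H7.Hyp H7.HypStd H7.HypOrd H7.Omega H7.OmegaIso H7.OmegaOrd QuadraticMap
open H7.AnisoPlane (Aniso K eK norm_eK)
open H48.QuadStd Matrix
open scoped commutatorElement

variable {F : Type*} [Field F]

/-- upper unipotent elements -/
def uSL (w : F × F × (F × F)) : Matrix.SpecialLinearGroup (Fin 2 ⊕ Fin 2) F := ⟨up w.1 w.2.1 w.2.2.1 w.2.2.2, det_up _ _ _ _⟩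
/-- lower unipotent elements -/
def lSL (w : F × F × (F × F)) : Matrix.SpecialLinearGroup (Fin 2 ⊕ Fin 2) F := ⟨lo w.1 w.2.1 w.2.2.1 w.2.2.2, det_lo _ _ _ _⟩

theorem gen_SL : Subgroup.closure (Set.range (uSL (F := F)) ∪ Set.range (lSL (F := F))) = ⊤ := by
  have hU : ∀ (i j : Fin 2) (h : (Sum.inl i : Fin 2 ⊕ Fin 2) ≠ Sum.inr j) (c : F),
      Matrix.SpecialLinearGroup.transvection h c ∈ Subgroup.closure (Set.range (uSL (F := F)) ∪ Set.range (lSL (F := F))) := by
    intro i j h c
    apply Subgroup.subset_closure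
    left
    fin_cases i <;> fin_cases j
    · refine ⟨(c, 0, (0, 0)), Subtype.ext ?_⟩
      ext1 i j
      rcases i with i | i <;> rcases j with j | j <;> fin_cases i <;> fin_cases j <;>
        simp [uSL, up, Matrix.SpecialLinearGroup.transvection, Matrix.transvection]
    · refine ⟨(0, 0, (-c, 0)), Subtype.ext ?_⟩
      ext1 i j
      rcases i with i | i <;> rcases j with j | j <;> fin_cases i <;> fin_cases j <;>
        simp [uSL, up, Matrix.SpecialLinearGroup.transvection, Matrix.transvection]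
    · refine ⟨(0, 0, (0, c)), Subtype.ext ?_⟩
      ext1 i j
      rcases i with i | i <;> rcases j with j | j <;> fin_cases i <;> fin_cases j <;>
        simp [uSL, up, Matrix.SpecialLinearGroup.transvection, Matrix.transvection]
    · refine ⟨(0, -c, (0, 0)), Subtype.ext ?_⟩
      ext1 i j
      rcases i with i | i <;> rcases j with j | j <;> fin_cases i <;> fin_cases j <;>
        simp [uSL, up, Matrix.SpecialLinearGroup.transvection, Matrix.transvection]
  have hL : ∀ (i j : Fin 2) (h : (Sum.inr i : Fin 2 ⊕ Fin 2) ≠ Sum.inl j) (c : F),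
      Matrix.SpecialLinearGroup.transvection h c ∈ Subgroup.closure (Set.range (uSL (F := F)) ∪ Set.range (lSL (F := F))) := by
    intro i j h c
    apply Subgroup.subset_closure
    right
    fin_cases i <;> fin_cases j
    · refine ⟨(0, -c, (0, 0)), Subtype.ext ?_⟩
      ext1 i j
      rcases i with i | i <;> rcases j with j | j <;> fin_cases i <;> fin_cases j <;>
        simp [lSL, lo, Matrix.SpecialLinearGroup.transvection, Matrix.transvection]
    · refine ⟨(0, 0, (c, 0)), Subtype.ext ?_⟩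
      ext1 i j
      rcases i with i | i <;> rcases j with j | j <;> fin_cases i <;> fin_cases j <;>
        simp [lSL, lo, Matrix.SpecialLinearGroup.transvection, Matrix.transvection]
    · refine ⟨(0, 0, (0, -c)), Subtype.ext ?_⟩
      ext1 i j
      rcases i with i | i <;> rcases j with j | j <;> fin_cases i <;> fin_cases j <;>
        simp [lSL, lo, Matrix.SpecialLinearGroup.transvection, Matrix.transvection]
    · refine ⟨(c, 0, (0, 0)), Subtype.ext ?_⟩
      ext1 i j
      rcases i with i | i <;> rcases j with j | j <;> fin_cases i <;> fin_cases j <;>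
        simp [lSL, lo, Matrix.SpecialLinearGroup.transvection, Matrix.transvection]
  have hcomm : ∀ (S : Subgroup (Matrix.SpecialLinearGroup (Fin 2 ⊕ Fin 2) F)) {a b}, a ∈ S → b ∈ S → ⁅a, b⁆ ∈ S := by
    intro S a b ha hb
    rw [commutatorElement_def]
    exact S.mul_mem (S.mul_mem (S.mul_mem ha hb) (S.inv_mem ha)) (S.inv_mem hb)
  have : Nontrivial (Fin 2 ⊕ Fin 2) := ⟨Sum.inl 0, Sum.inr 0, by simp⟩
  apply H6.SLGen.eq_top_of_transvection_mem
  intro i j hij c
  rcases i with i | i <;> rcases j with j | j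
  · rw [← mul_one c, ← H6.SLGen.commutator_transvection (i := Sum.inl i) (j := Sum.inl j) (k := Sum.inr 0) (by simp) (by simp) hij c 1]
    exact hcomm _ (hU _ _ _ _) (hL _ _ _ _)
  · exact hU i j hij c
  · exact hL i j hij c
  · rw [← mul_one c, ← H6.SLGen.commutator_transvection (i := Sum.inr i) (j := Sum.inr j) (k := Sum.inl 0) (by simp) (by simp) hij c 1]
    exact hcomm _ (hL _ _ _ _) (hU _ _ _ _)

/-- coordinates of alternating matrices -/
def tau6 (p : F × F × (F × F × (F × F))) : Matrix (Fin 2 ⊕ Fin 2) (Fin 2 ⊕ Fin 2) F :=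
  toA p.1 p.2.1 p.2.2.1 p.2.2.2.1 p.2.2.2.2.1 p.2.2.2.2.2

theorem tau6_injective : Function.Injective (tau6 (F := F)) := by
  rintro ⟨x, y, b, c, a, d⟩ ⟨x', y', b', c', a', d'⟩ h
  obtain ⟨rfl, rfl, rfl, rfl, rfl, rfl⟩ := toA_injective h
  rfl

theorem iso6p {ι : Type} [Fintype ι] [DecidableEq ι] {Q₀ : (ι → F) → F}
    (e : Cfsg.isometryGroup F Q₀ ≃* O (hyp (hyp (qneg F)))) (hc : ⁅O (hyp (hyp (qneg F))), O (hyp (hyp (qneg F)))⁆ = Om (hyp (qneg F))) :
    Nonempty (Cfsg.POmega F Q₀ ≃* Matrix.ProjectiveSpecialLinearGroup (Fin 2 ⊕ Fin 2) F) := by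
  refine iso_of_act (nd_qneg (F := F)).hyp e hc (G := Matrix.SpecialLinearGroup (Fin 2 ⊕ Fin 2) F)
    (X := Matrix (Fin 2 ⊕ Fin 2) (Fin 2 ⊕ Fin 2) F) (fun g A => g.1 * A * g.1ᵀ) ?_ ?_ tau6 tau6_injective uSL lSL ?_ ?_ gen_SL ?_
  · intro x
    simp
  · intro g h x
    change (g.1 * h.1) * x * (g.1 * h.1)ᵀ = _
    rw [transpose_mul]
    simp only [Matrix.mul_assoc]
  · rintro ⟨b', c', a', d'⟩ ⟨x, y, b, c, a, d⟩
    change up b' c' a' d' * toA x y b c a d * (up b' c' a' d')ᵀ = _
    rw [up_act, E_apply, hyp_apply, polar_hyp, qneg_apply, polar_qneg]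
    simp only [tau6, Prod.fst_add, Prod.snd_add, Prod.smul_fst, Prod.smul_snd, smul_eq_mul]
    congr 1
    ring
  · rintro ⟨b', c', a', d'⟩ ⟨x, y, b, c, a, d⟩
    change lo b' c' a' d' * toA x y b c a d * (lo b' c' a' d')ᵀ = _
    rw [lo_act, E'_apply, hyp_apply, polar_hyp, qneg_apply, polar_qneg]
    simp only [tau6, Prod.fst_add, Prod.snd_add, Prod.smul_fst, Prod.smul_snd, smul_eq_mul]
    congr 1
    ring
  · intro g x hx h
    have h1 := h (1, 0, (0, 0, (0, 0)))
    have h2 := h (0, 1, (0, 0, (0, 0)))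
    have h3 := h (0, 0, (1, 0, (0, 0)))
    have h4 := h (0, 0, (0, 1, (0, 0)))
    have h5 := h (0, 0, (0, 0, (1, -1)))
    simp only [tau6, Prod.smul_fst, Prod.smul_snd, smul_eq_mul, mul_one, mul_zero, mul_neg] at h1 h2 h3 h4 h5
    obtain ⟨s, hs⟩ := scalar_of_act g.2 hx h1 h2 h3 h4 h5
    rw [Subgroup.mem_center_iff]
    intro k
    apply Subtype.ext
    change k.1 * g.1 = g.1 * k.1
    rw [hs, Matrix.mul_smul, Matrix.smul_mul, Matrix.mul_one, Matrix.one_mul]

end H7.LowRank
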