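import Mathlib
import Cfsg.Prelude.Def_Classical
import Cfsg.Agent.Lib.H6.Symp

/-!
In characteristic two the isometry group of `quadFormOdd m` is isomorphic to `Sp_{2m}`.
-/
set_option autoImplicit false

namespace H7.OddCharTwo

open Matrix H6.Symp Cfsg

variable {F : Type*} [Field F] {m : ℕ}

/-- restriction modulo the radical -/
def res (v : Unit ⊕ (Fin m ⊕ Fin m) → F) : Fin m ⊕ Fin m → F := fun i => v (.inr i)

/-- the hyperbolic form -/
def q0 (w : Fin m ⊕ Fin m → F) : F := ∑ i, w (.inl i) * w (.inr i)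

theorem Q_eq (v : Unit ⊕ (Fin m ⊕ Fin m) → F) : quadFormOdd m F v = v (.inl ()) ^ 2 + q0 (res v) := rfl

theorem q0_add [CharP F 2] (u v : Fin m ⊕ Fin m → F) : q0 (u + v) = q0 u + q0 v + bf u v := by
  rw [bf_eq_sum]
  unfold q0
  rw [← Finset.sum_add_distrib, ← Finset.sum_add_distrib]
  refine Finset.sum_congr rfl fun i _ => ?_
  simp only [Pi.add_apply]
  rw [CharTwo.sub_eq_add]
  ring

theorem q0_smul (c : F) (u : Fin m ⊕ Fin m → F) : q0 (c • u) = c ^ 2 * q0 u := by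
  unfold q0
  rw [Finset.mul_sum]
  refine Finset.sum_congr rfl fun i _ => ?_
  simp only [Pi.smul_apply, smul_eq_mul]
  ring

theorem Q_add [CharP F 2] (u v : Unit ⊕ (Fin m ⊕ Fin m) → F) :
    quadFormOdd m F (u + v) = quadFormOdd m F u + quadFormOdd m F v + bf (res u) (res v) := by
  rw [Q_eq, Q_eq, Q_eq, show res (u + v) = res u + res v from rfl, q0_add, Pi.add_apply, CharTwo.add_sq]
  ring

theorem res_mulVec {M : Matrix (Unit ⊕ (Fin m ⊕ Fin m)) (Unit ⊕ (Fin m ⊕ Fin m)) F} (h : ∀ i, M (.inr i) (.inl ()) = 0)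
    (v : Unit ⊕ (Fin m ⊕ Fin m) → F) : res (M *ᵥ v) = M.toBlocks₂₂ *ᵥ res v := by
  funext i
  simp only [res, Matrix.mulVec, dotProduct, Fintype.sum_sum_type (α₁ := Unit), Matrix.toBlocks₂₂, of_apply]
  simp [h]

theorem inl_mulVec {M : Matrix (Unit ⊕ (Fin m ⊕ Fin m)) (Unit ⊕ (Fin m ⊕ Fin m)) F} (h : M (.inl ()) (.inl ()) = 1)
    (v : Unit ⊕ (Fin m ⊕ Fin m) → F) : (M *ᵥ v) (.inl ()) = v (.inl ()) + ∑ j, M (.inl ()) (.inr j) * res v j := by
  simp only [res, Matrix.mulVec, dotProduct, Fintype.sum_sum_type (α₁ := Unit)]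
  simp [h]

/-- preservation of the polar form -/
theorem bf_res [CharP F 2] {g : GeneralLinearGroup (Unit ⊕ (Fin m ⊕ Fin m)) F} (hg : g ∈ isometryGroup F (quadFormOdd m F))
    (u v : Unit ⊕ (Fin m ⊕ Fin m) → F) : bf (res (g.1 *ᵥ u)) (res (g.1 *ᵥ v)) = bf (res u) (res v) := by
  have hQ : ∀ u, quadFormOdd m F (g.1 *ᵥ u) = quadFormOdd m F u := fun u => hg u u
  have h1 := Q_add (g.1 *ᵥ u) (g.1 *ᵥ v)
  rw [← Matrix.mulVec_add, hQ, hQ, hQ, Q_add] at h1
  exact (add_left_cancel h1).symm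

theorem col_zero [CharP F 2] {g : GeneralLinearGroup (Unit ⊕ (Fin m ⊕ Fin m)) F} (hg : g ∈ isometryGroup F (quadFormOdd m F)) :
    (∀ i, g.1 (.inr i) (.inl ()) = 0) ∧ g.1 (.inl ()) (.inl ()) = 1 := by
  have hQ : ∀ u, quadFormOdd m F (g.1 *ᵥ u) = quadFormOdd m F u := fun u => hg u u
  let e0 : Unit ⊕ (Fin m ⊕ Fin m) → F := Pi.single (.inl ()) 1
  have hcol : ∀ i, g.1 i (.inl ()) = (g.1 *ᵥ e0) i := by
    intro i
    simp [e0]
  have hres : res e0 = (0 : Fin m ⊕ Fin m → F) := by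
    funext i
    simp [res, e0]
  have h0 : res (g.1 *ᵥ e0) = 0 := by
    apply eq_zero_of_forall_bf
    intro v
    have h1 := bf_res hg e0 ((g⁻¹).1 *ᵥ (Sum.elim (fun _ => 0) v))
    rw [hres, bf_zero_left, Matrix.mulVec_mulVec, ← Units.val_mul, mul_inv_cancel, Units.val_one, Matrix.one_mulVec] at h1
    exact h1
  refine ⟨fun i => ?_, ?_⟩
  · rw [hcol]
    exact congrFun h0 i
  · rw [hcol]
    have h1 := hQ e0
    rw [Q_eq, Q_eq, h0, hres] at h1
    have h2 : e0 (.inl ()) = 1 := by simp [e0]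
    rw [h2] at h1
    have h3 : (g.1 *ᵥ e0) (Sum.inl ()) ^ 2 = 1 ^ 2 := by simpa using h1
    exact (CharTwo.sq_inj).1 h3

theorem ext_of_mulVec {n k : Type*} [Fintype k] [DecidableEq k] {A B : Matrix n k F} (h : ∀ w, A *ᵥ w = B *ᵥ w) : A = B :=
  Matrix.mulVec_injective (funext h)

/-- reduction modulo the radical -/
def red [CharP F 2] : isometryGroup F (quadFormOdd m F) →* symplecticGroup (Fin m) F where
  toFun g := ⟨g.1.1.toBlocks₂₂, by
    rw [mem_iff_bf]
    intro u v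
    have h := bf_res g.2 (Sum.elim (fun _ => 0) u) (Sum.elim (fun _ => 0) v)
    rw [res_mulVec (col_zero g.2).1, res_mulVec (col_zero g.2).1] at h
    exact h⟩
  map_one' := by
    apply Subtype.ext
    ext i j
    simp [Matrix.toBlocks₂₂, Matrix.one_apply]
  map_mul' g h := by
    apply Subtype.ext
    apply ext_of_mulVec
    intro w
    have h1 := res_mulVec (col_zero (g * h).2).1 (Sum.elim (fun _ => 0) w)
    have h2 : ((g * h).1.1 : Matrix _ _ F) = g.1.1 * h.1.1 := rfl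
    rw [h2, ← Matrix.mulVec_mulVec, res_mulVec (col_zero g.2).1, res_mulVec (col_zero h.2).1] at h1
    change (g.1.1 * h.1.1 : Matrix _ _ F).toBlocks₂₂ *ᵥ w = (g.1.1.toBlocks₂₂ * h.1.1.toBlocks₂₂) *ᵥ w
    rw [← Matrix.mulVec_mulVec]
    exact h1.symm

theorem red_injective [CharP F 2] : Function.Injective (red (F := F) (m := m)) := by
  rw [injective_iff_map_eq_one]
  intro g hg
  have h1 : g.1.1.toBlocks₂₂ = 1 := congrArg Subtype.val hg
  apply Subtype.ext
  apply Units.ext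
  apply ext_of_mulVec
  intro v
  have hQ : ∀ u, quadFormOdd m F (g.1.1 *ᵥ u) = quadFormOdd m F u := fun u => g.2 u u
  have h2 : res (g.1.1 *ᵥ v) = res v := by
    rw [res_mulVec (col_zero g.2).1, h1, Matrix.one_mulVec]
  have h3 := hQ v
  rw [Q_eq, Q_eq, h2] at h3
  have h4 := CharTwo.sq_inj.1 (add_right_cancel h3)
  have h5 : ((1 : isometryGroup F (quadFormOdd m F)).1.1 : Matrix _ _ F) = 1 := rfl
  rw [h5, Matrix.one_mulVec]
  funext i
  rcases i with ⟨⟩ | i
  · exact h4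
  · exact congrFun h2 i

/-- the defect of `A` as an additive map -/
def defect [CharP F 2] (A : symplecticGroup (Fin m) F) : (Fin m ⊕ Fin m → F) →+ F where
  toFun w := q0 w + q0 (A.1 *ᵥ w)
  map_zero' := by simp [q0]
  map_add' u v := by
    rw [Matrix.mulVec_add, q0_add, q0_add, bf_smul]
    linear_combination (bf u v) * (CharTwo.two_eq_zero : (2 : F) = 0)

theorem defect_smul [CharP F 2] (A : symplecticGroup (Fin m) F) (c : F) (w : Fin m ⊕ Fin m → F) :
    defect A (c • w) = c ^ 2 * defect A w := by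
  change q0 (c • w) + q0 (A.1 *ᵥ (c • w)) = c ^ 2 * (q0 w + q0 (A.1 *ᵥ w))
  rw [Matrix.mulVec_smul, q0_smul, q0_smul, mul_add]

theorem red_surjective [Fintype F] [CharP F 2] : Function.Surjective (red (F := F) (m := m)) := by
  classical
  intro A
  have hs : ∀ x : F, ∃ y : F, y ^ 2 = x := fun x => by
    obtain ⟨y, hy⟩ := (frobeniusEquiv F 2).surjective x
    exact ⟨y, hy⟩
  choose s hs using hs
  let a : Fin m ⊕ Fin m → F := fun j => s (defect A (Pi.single j 1))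
  have ha : ∀ w, (∑ j, a j * w j) ^ 2 = defect A w := by
    intro w
    have h1 : w = ∑ j, w j • (Pi.single j 1 : Fin m ⊕ Fin m → F) := by
      simpa using (pi_eq_sum_univ' w)
    conv_rhs => rw [h1, map_sum]
    rw [CharTwo.sum_sq]
    refine Finset.sum_congr rfl fun j _ => ?_
    rw [defect_smul, mul_pow, hs, mul_comm]
  let M : Matrix (Unit ⊕ (Fin m ⊕ Fin m)) (Unit ⊕ (Fin m ⊕ Fin m)) F := fromBlocks 1 (Matrix.of fun _ j => a j) 0 A.1
  have hdet : M.det ≠ 0 := by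
    simp only [M]
    rw [Matrix.det_fromBlocks_zero₂₁, det_one, one_mul]
    exact (SymplecticGroup.symplectic_det A.2).ne_zero
  have hM0 : ∀ i, M (.inr i) (.inl ()) = 0 := fun i => rfl
  have hM1 : M (.inl ()) (.inl ()) = 1 := by simp [M]
  have hM2 : M.toBlocks₂₂ = A.1 := by simp [M]
  refine ⟨⟨GeneralLinearGroup.mkOfDetNeZero M hdet, ?_⟩, ?_⟩
  · intro v _
    change quadFormOdd m F (M *ᵥ v) = quadFormOdd m F v
    rw [Q_eq, Q_eq, res_mulVec hM0, inl_mulVec hM1, hM2, CharTwo.add_sq]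
    have h1 : ∑ j, M (.inl ()) (.inr j) * res v j = ∑ j, a j * res v j := rfl
    rw [h1, ha]
    change v (Sum.inl ()) ^ 2 + (q0 (res v) + q0 (A.1 *ᵥ (res v))) + q0 (A.1 *ᵥ res v) = v (Sum.inl ()) ^ 2 + q0 (res v)
    linear_combination (q0 (A.1 *ᵥ res v)) * (CharTwo.two_eq_zero : (2 : F) = 0)
  · apply Subtype.ext
    exact hM2

end H7.OddCharTwo
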