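import Cfsg.Agent.Lib.H7.OAParity

set_option autoImplicit false

/-!
The parity of the dimension of the fixed space is a homomorphism on orthogonal groups in even dimension,
in characteristic two.
-/

namespace H7.DickHom

open Module QuadraticMap H48.QuadSplit H48.QuadWitt H7.OA H7.OABridge H7.OAPar H7.OAParity

variable {F V : Type*} [Field F] [AddCommGroup V] [Module F V] {Q : QuadraticForm F V}

/-- the fixed space -/
def Fx (g : V ≃ₗ[F] V) : Submodule F V := LinearMap.ker ((g : V →ₗ[F] V) - LinearMap.id)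

lemma mem_Fx {g : V ≃ₗ[F] V} {x : V} : x ∈ Fx g ↔ g x = x := by
  rw [Fx, LinearMap.mem_ker]
  simp [sub_eq_zero]

/-- the doubled form -/
def dbl (Q : QuadraticForm F V) : QuadraticForm F (V × V) := QuadraticMap.prod Q Q

lemma dbl_apply (p : V × V) : dbl Q p = Q p.1 + Q p.2 := rfl

lemma polar_dbl (p r : V × V) : polar (dbl Q) p r = polar Q p.1 r.1 + polar Q p.2 r.2 := by
  simp only [polar, dbl_apply, Prod.fst_add, Prod.snd_add]
  ring

lemma nd_dbl (hQ : ND Q) : ND (dbl Q) := by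
  intro p hp
  refine Prod.ext (hQ _ fun w => ?_) (hQ _ fun w => ?_)
  · have := hp (w, 0)
    rw [polar_dbl] at this
    simpa [polar] using this
  · have := hp (0, w)
    rw [polar_dbl] at this
    simpa [polar] using this

/-- `1 × g` -/
def φ (g : V ≃ₗ[F] V) : (V × V) ≃ₗ[F] (V × V) := LinearEquiv.prodCongr (LinearEquiv.refl F V) g

lemma φ_apply (g : V ≃ₗ[F] V) (p : V × V) : φ g p = (p.1, g p.2) := rfl

lemma φ_mul (g h : V ≃ₗ[F] V) : φ (g * h) = φ g * φ h := by
  ext p <;> rfl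

lemma φ_mem {g : V ≃ₗ[F] V} (hg : g ∈ O Q) : φ g ∈ O (dbl Q) := by
  rw [mem_O]
  intro p
  rw [φ_apply, dbl_apply, dbl_apply]
  show Q p.1 + Q (g p.2) = _
  rw [mem_O.1 hg]

/-- the diagonal -/
def Δ (F V : Type*) [Field F] [AddCommGroup V] [Module F V] : Submodule F (V × V) :=
  LinearMap.range (LinearMap.prod LinearMap.id LinearMap.id : V →ₗ[F] V × V)

lemma mem_Δ {p : V × V} : p ∈ Δ F V ↔ p.1 = p.2 := by
  rw [Δ, LinearMap.mem_range]
  constructor
  · rintro ⟨x, rfl⟩; rfl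
  · intro h
    exact ⟨p.1, Prod.ext rfl h⟩

variable [FiniteDimensional F V]

lemma mts_Δ [CharP F 2] : MTS (dbl Q) (Δ F V) := by
  refine ⟨fun p hp => ?_, ?_⟩
  · rw [mem_Δ] at hp
    rw [dbl_apply, hp, CharTwo.add_self_eq_zero]
  · rw [Δ, LinearMap.finrank_range_of_inj, finrank_prod]
    · ring
    · intro x y h
      exact congrArg Prod.fst h

omit [FiniteDimensional F V] in
lemma finrank_inter (g : V ≃ₗ[F] V) :
    finrank F (Δ F V ⊓ (Δ F V).map (φ g : V × V →ₗ[F] V × V) : Submodule F (V × V)) = finrank F (Fx g) := by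
  have : (Δ F V ⊓ (Δ F V).map (φ g : V × V →ₗ[F] V × V) : Submodule F (V × V)) =
      (Fx g).map (LinearMap.prod LinearMap.id LinearMap.id : V →ₗ[F] V × V) := by
    ext p
    rw [Submodule.mem_inf, mem_Δ, Submodule.mem_map, Submodule.mem_map]
    constructor
    · rintro ⟨h1, r, hr, hrp⟩
      rw [mem_Δ] at hr
      refine ⟨p.1, ?_, ?_⟩
      · rw [mem_Fx]
        have h2 : (r.1, g r.2) = p := hrp
        rw [← h2] at h1
        have h3 : r.1 = g r.2 := h1
        rw [← h2]
        show g r.1 = r.1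
        rw [hr, ← h3, hr]
      · exact Prod.ext rfl h1
    · rintro ⟨x, hx, rfl⟩
      rw [mem_Fx] at hx
      refine ⟨rfl, (x, x), mem_Δ.2 rfl, ?_⟩
      show (x, g x) = (x, x)
      rw [hx]
  rw [this]
  have hinj : Function.Injective (LinearMap.prod LinearMap.id LinearMap.id : V →ₗ[F] V × V) := by
    intro x y h
    exact congrArg Prod.fst h
  exact (LinearEquiv.finrank_eq (Submodule.equivMapOfInjective _ hinj (Fx g))).symm

/-- **The parity of the fixed space dimension is multiplicative.** -/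
theorem fx_mul [Finite F] [CharP F 2] (hQ : ND Q) (h2 : finrank F V ≠ 2) (heven : Even (finrank F V))
    {g h : V ≃ₗ[F] V} (hg : g ∈ O Q) (hh : h ∈ O Q) :
    ((finrank F (Fx (g * h)) : ℕ) : ZMod 2) = finrank F (Fx g) + finrank F (Fx h) := by
  have hne : finrank F (V × V) ≠ 4 := by rw [finrank_prod]; omega
  obtain ⟨m, hm⟩ := exists_par (nd_dbl hQ) hne (φ_mem hg)
  obtain ⟨n, hn⟩ := exists_par (nd_dbl hQ) hne (φ_mem hh)
  have hmn := hm.mul (φ_mem hh) hn
  rw [← φ_mul] at hmn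
  have hev : ((finrank F V : ℕ) : ZMod 2) = 0 := by
    rw [ZMod.natCast_eq_zero_iff]; exact heven.two_dvd
  have hΔ : ((finrank F (Δ F V ⊓ Δ F V : Submodule F (V × V)) : ℕ) : ZMod 2) = 0 := by
    rw [inf_idem]
    have := (mts_Δ (Q := Q)).dim
    rw [finrank_prod] at this
    have h3 : finrank F (Δ F V) = finrank F V := by omega
    rw [h3, hev]
  have e1 := hm _ _ (mts_Δ (Q := Q)) (mts_Δ (Q := Q))
  have e2 := hn _ _ (mts_Δ (Q := Q)) (mts_Δ (Q := Q))
  have e3 := hmn _ _ (mts_Δ (Q := Q)) (mts_Δ (Q := Q))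
  rw [finrank_inter, hΔ, zero_add] at e1 e2 e3
  rw [e1, e2, e3]

end H7.DickHom
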