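import Cfsg.Agent.Lib.H7.ExtF
import Cfsg.Agent.Lib.H95.Bridge
import Cfsg.Prelude.Def_GeometricClasses

set_option autoImplicit false
set_option linter.unusedSectionVars false

/-!
Field subalgebras of matrix algebras as fields acting on the natural module.
-/

namespace H7.ExtBr

open Module Cfsg Cfsg.Geo H95.Bridge H7.ExtF
open scoped Matrix MatrixGroups

universe u

variable {ι : Type} [Fintype ι] [DecidableEq ι] {F : Type u} [Field F]

open scoped Classical in
/-- the field structure -/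
noncomputable abbrev fld {r : ℕ} {K : Subalgebra F (Matrix ι ι F)} (hK : IsFieldSubalgebra r K) (hr : 0 < r) : Field K :=
  { (inferInstance : Ring K) with
    mul_comm := fun x y => Subtype.ext (hK.comm x x.2 y y.2)
    exists_pair_ne := ⟨0, 1, fun h => by
      have h1 := hK.finrank_eq
      have : Subsingleton K := ⟨fun a b => by
        rw [← mul_one a, ← mul_one b, ← h, mul_zero, mul_zero]⟩
      rw [Module.finrank_zero_of_subsingleton] at h1
      omega⟩
    inv := fun x => if h : x = 0 then 0 else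
      ⟨Classical.choose (hK.inv x x.2 (fun h0 => h (Subtype.ext h0))),
        (Classical.choose_spec (hK.inv x x.2 (fun h0 => h (Subtype.ext h0)))).1⟩
    mul_inv_cancel := fun x hx => by
      rw [dif_neg hx]
      exact Subtype.ext (Classical.choose_spec (hK.inv x x.2 (fun h0 => hx (Subtype.ext h0)))).2
    inv_zero := dif_pos rfl
    nnqsmul := _
    nnqsmul_def := fun _ _ => rfl
    qsmul := _
    qsmul_def := fun _ _ => rfl }

/-- an abstract field acting through the subalgebra -/
theorem exists_model {r : ℕ} {K : Subalgebra F (Matrix ι ι F)} (hK : IsFieldSubalgebra r K) (hr : 0 < r) :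
    ∃ (E : Type u) (_ : Field E) (_ : Algebra F E) (_ : Module E (ι → F)) (_ : IsScalarTower F E (ι → F))
      (φ : E → Matrix ι ι F), (∀ (e : E) (v : ι → F), e • v = φ e *ᵥ v) ∧ (∀ e, φ e ∈ K) ∧ (∀ k ∈ K, ∃ e, φ e = k) ∧
      finrank F E = r := by
  let i1 : Field K := fld hK hr
  let i2 : Module K (ι → F) :=
    Module.compHom (ι → F) ((Matrix.toLinAlgEquiv' (R := F) (n := ι)).toAlgHom.toRingHom.comp K.val.toRingHom)
  refine ⟨K, i1, (inferInstance : Algebra F K), i2, ⟨fun a k v => ?_⟩, fun k => (k : Matrix ι ι F), fun k v => ?_,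
    fun k => k.2, fun k hk => ⟨⟨k, hk⟩, rfl⟩, hK.finrank_eq⟩
  · show Matrix.toLin' ((a • k : K) : Matrix ι ι F) v = a • Matrix.toLin' (k : Matrix ι ι F) v
    rw [Subalgebra.coe_smul, map_smul, LinearMap.smul_apply]
  · exact Matrix.toLin'_apply _ _

/-- the normaliser of the subalgebra, from the action on lines -/
theorem mem_normalizer {K : Subalgebra F (Matrix ι ι F)}
    {E : Type*} [Field E] [Algebra F E] [Module E (ι → F)] [IsScalarTower F E (ι → F)]
    {φ : E → Matrix ι ι F} (h1 : ∀ (e : E) (v : ι → F), e • v = φ e *ᵥ v) (h2 : ∀ e, φ e ∈ K)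
    (h3 : ∀ k ∈ K, ∃ e, φ e = k) (h4 : 2 ≤ finrank E (ι → F)) [FiniteDimensional E (ι → F)] {g : GL ι F}
    (hg : ∀ (v : ι → F) (e : E), toEq ι F g (e • v) ∈ ln F E (toEq ι F g v)) :
    g ∈ subalgebraNormalizer K := by
  obtain ⟨G, hG⟩ : ∃ G, G = (g : Matrix ι ι F) := ⟨_, rfl⟩
  obtain ⟨G', hG'⟩ : ∃ G', G' = ((g⁻¹ : GL ι F) : Matrix ι ι F) := ⟨_, rfl⟩
  have hGG' : G * G' = 1 := by rw [hG, hG', ← Units.val_mul, mul_inv_cancel, Units.val_one]
  have hG'G : G' * G = 1 := by rw [hG, hG', ← Units.val_mul, inv_mul_cancel, Units.val_one]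
  have key : ∀ k ∈ K, G * k * G' ∈ K := by
    intro k hk
    obtain ⟨e, rfl⟩ := h3 k hk
    obtain ⟨c, hc⟩ := scalar_of (F := F) (K := E) (V := ι → F) h4
      (f := Matrix.toLin' (G * φ e * G')) (by
        intro x
        have h5 := hg (G' *ᵥ x) e
        rw [h1, toEq_apply, toEq_apply, ← hG, Matrix.mulVec_mulVec, Matrix.mulVec_mulVec, Matrix.mulVec_mulVec, hGG',
          Matrix.one_mulVec] at h5
        rw [Matrix.toLin'_apply]
        exact h5)
    have : G * φ e * G' = φ c := by
      apply Matrix.toLin'.injective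
      apply LinearMap.ext
      intro x
      rw [hc, Matrix.toLin'_apply, h1]
    rw [this]
    exact h2 c
  have hinj : ∀ k k' : Matrix ι ι F, G * k * G' = G * k' * G' → k = k' := by
    intro k k' h
    calc k = G' * (G * k * G') * G := by
          rw [← mul_assoc, ← mul_assoc, hG'G, one_mul, mul_assoc, hG'G, mul_one]
      _ = G' * (G * k' * G') * G := by rw [h]
      _ = k' := by rw [← mul_assoc, ← mul_assoc, hG'G, one_mul, mul_assoc, hG'G, mul_one]
  -- surjectivity
  let f : (Subalgebra.toSubmodule K) →ₗ[F] (Subalgebra.toSubmodule K) :=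
    { toFun := fun k => ⟨G * k * G', key k k.2⟩
      map_add' := fun a b => Subtype.ext (by
        show G * ((a : Matrix ι ι F) + b) * G' = G * a * G' + G * b * G'
        rw [mul_add, add_mul])
      map_smul' := fun a b => Subtype.ext (by
        show G * (a • (b : Matrix ι ι F)) * G' = a • (G * b * G')
        rw [mul_smul_comm, smul_mul_assoc]) }
  have hf : Function.Injective f := fun a b hab => Subtype.ext (hinj _ _ (congrArg Subtype.val hab))
  have hs : Function.Surjective f := LinearMap.injective_iff_surjective.1 hf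
  show ∀ k : Matrix ι ι F, k ∈ K ↔ (g : Matrix ι ι F) * k * ((g⁻¹ : GL ι F) : Matrix ι ι F) ∈ K
  intro k
  rw [← hG, ← hG']
  refine ⟨key k, fun h => ?_⟩
  obtain ⟨k', hk'⟩ := hs ⟨_, h⟩
  have := hinj k' k (congrArg Subtype.val hk')
  rw [← this]
  exact k'.2

/-- semilinear maps normalise -/
theorem comm_mem_normalizer {K : Subalgebra F (Matrix ι ι F)}
    {E : Type*} [Field E] [Algebra F E] [Module E (ι → F)]
    {φ : E → Matrix ι ι F} (h1 : ∀ (e : E) (v : ι → F), e • v = φ e *ᵥ v) (h2 : ∀ e, φ e ∈ K)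
    (h3 : ∀ k ∈ K, ∃ e, φ e = k) {g : GL ι F}
    (hg : ∀ (v : ι → F) (e : E), toEq ι F g (e • v) = e • toEq ι F g v) :
    g ∈ subalgebraNormalizer K := by
  have hc : ∀ k ∈ K, (g : Matrix ι ι F) * k = k * g := by
    intro k hk
    obtain ⟨e, rfl⟩ := h3 k hk
    apply Matrix.toLin'.injective
    apply LinearMap.ext
    intro x
    have := hg x e
    rw [h1, h1, toEq_apply, toEq_apply] at this
    rw [Matrix.toLin'_apply, Matrix.toLin'_apply, ← Matrix.mulVec_mulVec, ← Matrix.mulVec_mulVec, this]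
  show ∀ k : Matrix ι ι F, k ∈ K ↔ (g : Matrix ι ι F) * k * ((g⁻¹ : GL ι F) : Matrix ι ι F) ∈ K
  have h5 : ∀ k : Matrix ι ι F, k * (g : Matrix ι ι F) * ((g⁻¹ : GL ι F) : Matrix ι ι F) = k := by
    intro k
    rw [mul_assoc, ← Units.val_mul, mul_inv_cancel, Units.val_one, mul_one]
  intro k
  constructor
  · intro hk
    rw [hc k hk, h5]
    exact hk
  · intro hk
    have h6 := hc _ hk
    have h7 : (g : Matrix ι ι F) * k = (g : Matrix ι ι F) * ((g : Matrix ι ι F) * k * ((g⁻¹ : GL ι F) : Matrix ι ι F)) := by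
      rw [h6, mul_assoc, ← Units.val_mul, inv_mul_cancel, Units.val_one, mul_one]
    have h8 : ((g⁻¹ : GL ι F) : Matrix ι ι F) * g = 1 := by
      rw [← Units.val_mul, inv_mul_cancel, Units.val_one]
    have h9 : k = (g : Matrix ι ι F) * k * ((g⁻¹ : GL ι F) : Matrix ι ι F) := by
      calc k = ((g⁻¹ : GL ι F) : Matrix ι ι F) * ((g : Matrix ι ι F) * k) := by rw [← mul_assoc, h8, one_mul]
        _ = ((g⁻¹ : GL ι F) : Matrix ι ι F) * ((g : Matrix ι ι F) * ((g : Matrix ι ι F) * k *
            ((g⁻¹ : GL ι F) : Matrix ι ι F))) := congrArg _ h7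
        _ = _ := by rw [← mul_assoc ((g⁻¹ : GL ι F) : Matrix ι ι F), h8, one_mul]
    rw [h9]
    exact hk

/-- elements of the normaliser are semilinear -/
theorem semilin {K : Subalgebra F (Matrix ι ι F)}
    {E : Type*} [Field E] [Algebra F E] [Module E (ι → F)]
    {φ : E → Matrix ι ι F} (h1 : ∀ (e : E) (v : ι → F), e • v = φ e *ᵥ v) (h2 : ∀ e, φ e ∈ K)
    (h3 : ∀ k ∈ K, ∃ e, φ e = k) {g : GL ι F} (hg : g ∈ subalgebraNormalizer K) (e : E) :
    ∃ e' : E, ∀ v, toEq ι F g (e • v) = e' • toEq ι F g v := by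
  obtain ⟨e', he'⟩ := h3 _ ((hg (φ e)).1 (h2 e))
  refine ⟨e', fun v => ?_⟩
  have h5 : ((g⁻¹ : GL ι F) : Matrix ι ι F) * g = 1 := by
    rw [← Units.val_mul, inv_mul_cancel, Units.val_one]
  rw [h1, h1, he', toEq_apply, toEq_apply, Matrix.mulVec_mulVec, Matrix.mulVec_mulVec, mul_assoc _ _ (g : Matrix ι ι F),
    h5, mul_one]

/-- transvections do not normalise a proper extension field -/
theorem tr_not_mem {K : Subalgebra F (Matrix ι ι F)}
    {E : Type*} [Field E] [Algebra F E] [FiniteDimensional F E] [Module E (ι → F)] [IsScalarTower F E (ι → F)]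
    {φ : E → Matrix ι ι F} (h1 : ∀ (e : E) (v : ι → F), e • v = φ e *ᵥ v) (h2 : ∀ e, φ e ∈ K)
    (h3 : ∀ k ∈ K, ∃ e, φ e = k) (hr : 2 ≤ finrank F E) (hn : 3 ≤ Fintype.card ι) {g : GL ι F}
    {x : ι → F} {f : Dual F (ι → F)} (hx : x ≠ 0) (hf : f ≠ 0)
    (hg : ∀ v, toEq ι F g v = v + f v • x) : g ∉ subalgebraNormalizer K := by
  intro hgn
  obtain ⟨e, he⟩ : ∃ e : E, ∀ a : F, algebraMap F E a ≠ e := by
    by_contra hcon
    push Not at hcon
    have h4 : (⊤ : Submodule F E) ≤ Submodule.span F {1} := by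
      intro y _
      obtain ⟨a, rfl⟩ := hcon y
      rw [Submodule.mem_span_singleton]
      exact ⟨a, by rw [Algebra.smul_def, mul_one]⟩
    have h5 := Submodule.finrank_mono h4
    rw [finrank_top, finrank_span_singleton one_ne_zero] at h5
    omega
  obtain ⟨e', he'⟩ := semilin h1 h2 h3 hgn e
  -- a vector fixed together with its multiple
  obtain ⟨v, hv0, hv1, hv2⟩ : ∃ v : ι → F, v ≠ 0 ∧ f v = 0 ∧ f (e • v) = 0 := by
    let f' : Dual F (ι → F) := f ∘ₗ Matrix.toLin' (φ e)
    have h4 := LinearMap.finrank_range_add_finrank_ker (f.prod f')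
    have h5 : finrank F (LinearMap.range (f.prod f')) ≤ 2 := by
      refine (Submodule.finrank_le _).trans ?_
      rw [finrank_prod, finrank_self]
    have h6 : LinearMap.ker (f.prod f') ≠ ⊥ := by
      intro h0
      rw [h0, finrank_bot, finrank_fintype_fun_eq_card] at h4
      omega
    obtain ⟨k, hk, hk0⟩ := (Submodule.ne_bot_iff _).1 h6
    rw [LinearMap.mem_ker] at hk
    refine ⟨k, hk0, congrArg Prod.fst hk, ?_⟩
    have := congrArg Prod.snd hk
    rw [h1, ← Matrix.toLin'_apply]
    exact this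
  have h4 := he' v
  rw [hg, hg, hv1, hv2, zero_smul, add_zero, add_zero] at h4
  have h5 : e = e' := by
    rw [← sub_eq_zero]
    have : (e - e') • v = 0 := by rw [sub_smul, h4, sub_self]
    exact (smul_eq_zero.1 this).resolve_right hv0
  subst h5
  obtain ⟨w, hw⟩ : ∃ w, f w ≠ 0 := by
    by_contra hcon
    push Not at hcon
    exact hf (LinearMap.ext hcon)
  have h6 := he' w
  rw [hg, hg, smul_add, add_right_inj] at h6
  apply he (f (e • w) / f w)
  rw [← sub_eq_zero]
  have : (algebraMap F E (f (e • w) / f w) - e) • x = 0 := by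
    rw [sub_smul, algebraMap_smul]
    have h7 : f w • (e • x) = e • f w • x := by
      rw [← algebraMap_smul E (f w) (e • x), ← algebraMap_smul E (f w) x, smul_smul, smul_smul, mul_comm]
    rw [← h7] at h6
    have h8 : e • x = (f w)⁻¹ • (f w • e • x) := by rw [smul_smul, inv_mul_cancel₀ hw, one_smul]
    rw [h8, ← h6, smul_smul, ← sub_smul]
    have : f (e • w) / f w - (f w)⁻¹ * f (e • w) = 0 := by ring
    rw [this, zero_smul]
  exact (smul_eq_zero.1 this).resolve_right hx

end H7.ExtBr
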