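import Mathlib

set_option autoImplicit false

/-!
Overgroups of groups of semilinear maps over an extension field of prime degree: general part.
-/

namespace H7.ExtF

open Module

variable {F K V : Type*} [Field F] [Field K] [Algebra F K] [AddCommGroup V] [Module F V] [Module K V]
  [IsScalarTower F K V]

lemma inv_apply (g : V ≃ₗ[F] V) (x : V) : g⁻¹ (g x) = x := g.symm_apply_apply x
lemma apply_inv (g : V ≃ₗ[F] V) (x : V) : g (g⁻¹ x) = x := g.apply_symm_apply x

variable (F K) in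
/-- the `K`-line through `v` as an `F`-space -/
def ln (v : V) : Submodule F V := (Submodule.span K {v}).restrictScalars F

lemma mem_ln {v x : V} : x ∈ ln F K v ↔ ∃ k : K, k • v = x := by
  rw [ln, Submodule.restrictScalars_mem, Submodule.mem_span_singleton]

lemma smul_mem_ln (v : V) (k : K) : k • v ∈ ln F K v := mem_ln.2 ⟨k, rfl⟩

lemma self_mem_ln (v : V) : v ∈ ln F K v := mem_ln.2 ⟨1, one_smul _ _⟩

lemma smul_mem_ln' {v x : V} (hx : x ∈ ln F K v) (k : K) : k • x ∈ ln F K v := by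
  obtain ⟨l, rfl⟩ := mem_ln.1 hx
  exact mem_ln.2 ⟨k * l, by rw [mul_smul]⟩

lemma finrank_ln {v : V} (hv : v ≠ 0) : finrank F (ln F K v) = finrank F K := by
  have e : K ≃ₗ[K] Submodule.span K {v} := LinearEquiv.toSpanNonzeroSingleton K V v hv
  have e' : K ≃ₗ[F] ln F K v := e.restrictScalars F
  exact e'.finrank_eq.symm

/-- a map preserving all lines is a multiplication -/
lemma scalar_of [FiniteDimensional K V] (hn : 2 ≤ finrank K V) {f : V →ₗ[F] V} (hf : ∀ x, f x ∈ ln F K x) :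
    ∃ c : K, ∀ x, f x = c • x := by
  have hex : ∀ x : V, ∃ z, z ∉ ln F K x := by
    intro x
    by_contra hcon
    push Not at hcon
    have h1 : (Submodule.span K {x}) = ⊤ := by
      rw [eq_top_iff]; intro y _; exact hcon y
    have h2 := finrank_span_le_card (R := K) ({x} : Set V)
    rw [h1, finrank_top] at h2
    simp at h2
    omega
  obtain ⟨x0, hx0⟩ := hex 0
  have hx0' : x0 ≠ 0 := by rintro rfl; exact hx0 (Submodule.zero_mem _)
  obtain ⟨c, hc⟩ := mem_ln.1 (hf x0)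
  have h1 : ∀ y, y ∉ ln F K x0 → f y = c • y := by
    intro y hy
    obtain ⟨b, hb⟩ := mem_ln.1 (hf y)
    obtain ⟨a, ha⟩ := mem_ln.1 (hf (x0 + y))
    rw [map_add, ← hc, ← hb, smul_add] at ha
    have h2 : (b - a) • y = (a - c) • x0 := by
      rw [sub_smul, sub_smul, sub_eq_sub_iff_add_eq_add, add_comm, ← ha]
    have hba : b = a := by
      by_contra hba
      have hba' : b - a ≠ 0 := sub_ne_zero.2 hba
      apply hy
      refine mem_ln.2 ⟨(b - a)⁻¹ * (a - c), ?_⟩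
      rw [mul_smul, ← h2, smul_smul, inv_mul_cancel₀ hba', one_smul]
    rw [hba, sub_self, zero_smul] at h2
    have hac : a - c = 0 := (smul_eq_zero.1 h2.symm).resolve_right hx0'
    rw [← hb, hba, sub_eq_zero.1 hac]
  refine ⟨c, fun y => ?_⟩
  by_cases hy : y ∈ ln F K x0
  · obtain ⟨z, hz⟩ := hex x0
    have h2 : y + z ∉ ln F K x0 := fun h => hz (by
      have := Submodule.sub_mem _ h hy
      rwa [add_sub_cancel_left] at this)
    have h3 := h1 _ h2
    rw [map_add, h1 z hz, smul_add] at h3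
    exact add_right_cancel h3
  · exact h1 y hy

/-- the multiplier ring of a proper subspace of a field of prime degree -/
lemma stab [FiniteDimensional F K] (hr : (finrank F K).Prime) {C : Submodule F K} (h0 : C ≠ ⊥) (h1 : C ≠ ⊤) {x : K}
    (hx : ∀ c ∈ C, x * c ∈ C) : ∃ a : F, algebraMap F K a = x := by
  let A : Subalgebra F K :=
    { carrier := {x | ∀ c ∈ C, x * c ∈ C}
      mul_mem' := fun {a b} ha hb c hc => by rw [mul_assoc]; exact ha _ (hb _ hc)
      add_mem' := fun {a b} ha hb c hc => by rw [add_mul]; exact C.add_mem (ha _ hc) (hb _ hc)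
      algebraMap_mem' := fun a c hc => by rw [← Algebra.smul_def]; exact C.smul_mem _ hc }
  have hs := Subalgebra.isSimpleOrder_of_finrank_prime F K hr
  rcases hs.eq_bot_or_eq_top A with h | h
  · have : x ∈ A := hx
    rw [h, Algebra.mem_bot] at this
    exact this
  · exfalso
    obtain ⟨c, hc, hc0⟩ := (Submodule.ne_bot_iff C).1 h0
    apply h1
    rw [eq_top_iff]
    intro y _
    have : y * c⁻¹ ∈ A := by rw [h]; exact Algebra.mem_top
    have h2 := this c hc
    rwa [inv_mul_cancel_right₀ hc0] at h2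

/-- going up -/
theorem step [FiniteDimensional F V] {M H : Subgroup (V ≃ₗ[F] V)} (hHM : H ≤ M) {v : V} (hv : v ≠ 0)
    (S1 : ∀ X : Submodule F V, finrank F X = finrank F K →
      (∀ t ∈ H, (∀ y ∈ ln F K v, t y = y) → ∀ y ∈ X, t y ∈ X) → X ≤ ln F K v)
    (S2 : ∀ D ≤ ln F K v, D ≠ ⊥ → D ≠ ln F K v → ∀ X : Submodule F V, finrank F X = finrank F K →
      (∃ w ∈ X, w ∉ ln F K v) → X ⊓ ln F K v = D →
      (∀ w ∈ X, w ∉ ln F K v → ∀ t ∈ H, (∀ y ∈ ln F K v, t y = y) → t w - w ∈ D → ∀ y ∈ X, t y ∈ X) →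
      finrank F X ≤ finrank F D + 1)
    {k : ℕ} (hk : 1 ≤ k) (hkr : k + 1 < finrank F K)
    (hP : ∃ D ≤ ln F K v, finrank F D = k ∧ ∃ g ∈ M, (∀ d ∈ D, g d = d) ∧ ∃ u ∈ ln F K v, g u ∉ ln F K v) :
    ∃ D ≤ ln F K v, finrank F D = k + 1 ∧ ∃ g ∈ M, (∀ d ∈ D, g d = d) ∧ ∃ u ∈ ln F K v, g u ∉ ln F K v := by
  by_contra hcon
  have h0 : ∀ D ≤ ln F K v, finrank F D = k + 1 → ∀ g ∈ M, (∀ d ∈ D, g d = d) → ∀ u ∈ ln F K v, g u ∈ ln F K v := by
    intro D hD hDk g hg hgD u hu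
    by_contra hgu
    exact hcon ⟨D, hD, hDk, g, hg, hgD, u, hu, hgu⟩
  obtain ⟨D, hD, hDk, g, hg, hgD, u, hu, hgu⟩ := hP
  have hL := finrank_ln (F := F) (K := K) hv
  obtain ⟨U, hU⟩ : ∃ U, U = (ln F K v).map (g : V →ₗ[F] V) := ⟨_, rfl⟩
  have hUr : finrank F U = finrank F K := by rw [hU, LinearEquiv.finrank_map_eq g, hL]
  have hmU : ∀ y, y ∈ U ↔ g⁻¹ y ∈ ln F K v := by
    intro y
    rw [hU]
    constructor
    · rintro ⟨x, hx, rfl⟩
      show g⁻¹ (g x) ∈ _
      rw [inv_apply]; exact hx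
    · intro h
      exact ⟨g⁻¹ y, h, apply_inv g y⟩
  have hgD' : ∀ d ∈ D, g⁻¹ d = d := fun d hd => by
    conv_lhs => rw [← hgD d hd]
    rw [inv_apply]
  have hDU : D ≤ U := fun d hd => by rw [hmU, hgD' d hd]; exact hD hd
  have huD : u ∉ D := fun h => hgu (by rw [hgD u h]; exact hu)
  obtain ⟨w, hw⟩ : ∃ w, w = g u := ⟨_, rfl⟩
  have hwU : w ∈ U := by rw [hmU, hw, inv_apply]; exact hu
  have hwL : w ∉ ln F K v := by rw [hw]; exact hgu
  -- dimension of D + Fx
  have hdim : ∀ x, x ∉ D → finrank F (D ⊔ Submodule.span F {x} : Submodule F V) = k + 1 := by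
    intro x hx
    have h1 : D ⊓ Submodule.span F {x} = ⊥ := by
      rw [Submodule.eq_bot_iff]
      rintro y ⟨hy1, hy2⟩
      obtain ⟨a, rfl⟩ := Submodule.mem_span_singleton.1 hy2
      by_cases ha : a = 0
      · rw [ha, zero_smul]
      · exact absurd ((Submodule.smul_mem_iff _ ha).1 hy1) hx
    have h2 := Submodule.finrank_sup_add_finrank_inf_eq D (Submodule.span F {x})
    have hx0 : x ≠ 0 := fun h => hx (h ▸ D.zero_mem)
    rw [h1, finrank_bot, add_zero, finrank_span_singleton hx0, hDk] at h2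
    exact h2
  have hfix : ∀ (s : V ≃ₗ[F] V) (x : V), (∀ d ∈ D, s d = d) → s x = x →
      ∀ d ∈ (D ⊔ Submodule.span F {x} : Submodule F V), s d = d := by
    intro s x h1 h2 d hd
    obtain ⟨d1, hd1, d2, hd2, rfl⟩ := Submodule.mem_sup.1 hd
    obtain ⟨a, rfl⟩ := Submodule.mem_span_singleton.1 hd2
    rw [map_add, map_smul, h1 d1 hd1, h2]
  -- the intersection
  have hint : U ⊓ ln F K v = D := by
    apply le_antisymm _ (le_inf hDU hD)
    rintro x ⟨hxU, hxL⟩
    by_contra hxD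
    have hx' := (hmU x).1 hxU
    have h1 := S1 U hUr (by
      intro t ht htl y hy
      rw [hmU] at hy ⊢
      have h2 := h0 (D ⊔ Submodule.span F {g⁻¹ x}) (sup_le hD (by
        rw [Submodule.span_singleton_le_iff_mem]; exact hx')) (hdim _ (by
          intro h3
          apply hxD
          have h4 := hgD _ h3
          rw [apply_inv] at h4
          rw [h4]; exact h3)) (g⁻¹ * t * g) (M.mul_mem (M.mul_mem (M.inv_mem hg) (hHM ht)) hg)
          (hfix _ _ (by
            intro d hd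
            show g⁻¹ (t (g d)) = d
            rw [hgD d hd, htl d (hD hd), hgD' d hd]) (by
            show g⁻¹ (t (g (g⁻¹ x))) = g⁻¹ x
            rw [apply_inv, htl x hxL])) _ hy
      have h3 : (g⁻¹ * t * g) (g⁻¹ y) = g⁻¹ (t y) := by
        show g⁻¹ (t (g (g⁻¹ y))) = _
        rw [apply_inv]
      rwa [h3] at h2)
    exact hwL (h1 hwU)
  -- the second claim
  have hinv : ∀ w ∈ U, w ∉ ln F K v → ∀ t ∈ H, (∀ y ∈ ln F K v, t y = y) → t w - w ∈ D → ∀ y ∈ U, t y ∈ U := by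
    intro w hwU hwL a ha hal haw
    obtain ⟨u, hud⟩ : ∃ u, u = g⁻¹ w := ⟨_, rfl⟩
    have hw : w = g u := by rw [hud, apply_inv]
    have hu : u ∈ ln F K v := by rw [hud]; exact (hmU w).1 hwU
    have huD : u ∉ D := fun h => hwL (by rw [hw, hgD u h]; exact hD h)
    obtain ⟨b, hb⟩ : ∃ b, b = g⁻¹ * a * g := ⟨_, rfl⟩
    have hbM : b ∈ M := by rw [hb]; exact M.mul_mem (M.mul_mem (M.inv_mem hg) (hHM ha)) hg
    have hba : ∀ y, b y = g⁻¹ (a (g y)) := fun y => by rw [hb]; rfl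
    have hbD : ∀ d ∈ D, b d = d := fun d hd => by
      rw [hba, hgD d hd, hal d (hD hd), hgD' d hd]
    have hbD' : ∀ d ∈ D, b⁻¹ d = d := fun d hd => by
      conv_lhs => rw [← hbD d hd]
      rw [inv_apply]
    obtain ⟨d0, hd0⟩ : ∃ d0, d0 = a w - w := ⟨_, rfl⟩
    have hd0D : d0 ∈ D := by rw [hd0]; exact haw
    have hbu : b u = u + d0 := by
      rw [hba, ← hw, show a w = w + d0 by rw [hd0]; abel, map_add, hw, inv_apply, hgD' d0 hd0D]
    have hbu' : b⁻¹ (u + d0) = u := by rw [← hbu, inv_apply]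
    have h1 := S1 ((ln F K v).map (b : V →ₗ[F] V)) (by rw [LinearEquiv.finrank_map_eq b, hL]) (by
      intro t ht htl y hy
      obtain ⟨x, hx, rfl⟩ := hy
      have h2 := h0 (D ⊔ Submodule.span F {u}) (sup_le hD (by
        rw [Submodule.span_singleton_le_iff_mem]; exact hu)) (hdim _ huD) (b⁻¹ * t * b)
          (M.mul_mem (M.mul_mem (M.inv_mem hbM) (hHM ht)) hbM)
          (hfix _ _ (by
            intro d hd
            show b⁻¹ (t (b d)) = d
            rw [hbD d hd, htl d (hD hd), hbD' d hd]) (by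
            show b⁻¹ (t (b u)) = u
            rw [hbu, htl _ ((ln F K v).add_mem hu (hD hd0D)), hbu'])) x hx
      refine ⟨_, h2, ?_⟩
      show b (b⁻¹ (t (b x))) = t (b x)
      rw [apply_inv])
    intro y hy
    rw [hmU] at hy ⊢
    have h2 : b (g⁻¹ y) ∈ ln F K v := h1 ⟨_, hy, rfl⟩
    rwa [hba, apply_inv] at h2
  have hDb : D ≠ ⊥ := by
    rintro rfl
    rw [finrank_bot] at hDk
    omega
  have hDt : D ≠ ln F K v := fun h => huD (h ▸ hu)
  have := S2 D hD hDb hDt U hUr ⟨w, hwU, hwL⟩ hint hinv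
  omega

/-- the endpoint -/
theorem exists_hyper [FiniteDimensional F V] {M H : Subgroup (V ≃ₗ[F] V)} (hHM : H ≤ M) {v : V} (hv : v ≠ 0)
    (hr : (finrank F K).Prime)
    (S1 : ∀ X : Submodule F V, finrank F X = finrank F K →
      (∀ t ∈ H, (∀ y ∈ ln F K v, t y = y) → ∀ y ∈ X, t y ∈ X) → X ≤ ln F K v)
    (S2 : ∀ D ≤ ln F K v, D ≠ ⊥ → D ≠ ln F K v → ∀ X : Submodule F V, finrank F X = finrank F K →
      (∃ w ∈ X, w ∉ ln F K v) → X ⊓ ln F K v = D →
      (∀ w ∈ X, w ∉ ln F K v → ∀ t ∈ H, (∀ y ∈ ln F K v, t y = y) → t w - w ∈ D → ∀ y ∈ X, t y ∈ X) →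
      finrank F X ≤ finrank F D + 1)
    (hP : ∃ g ∈ M, g v = v ∧ ∃ u ∈ ln F K v, g u ∉ ln F K v) :
    ∃ D ≤ ln F K v, finrank F D + 1 = finrank F K ∧
      ∃ g ∈ M, (∀ d ∈ D, g d = d) ∧ ∃ u ∈ ln F K v, g u ∉ ln F K v := by
  have key : ∀ k : ℕ, 1 ≤ k → k < finrank F K →
      ∃ D ≤ ln F K v, finrank F D = k ∧ ∃ g ∈ M, (∀ d ∈ D, g d = d) ∧ ∃ u ∈ ln F K v, g u ∉ ln F K v := by
    intro k hk
    induction k, hk using Nat.le_induction with
    | base =>
      intro _
      obtain ⟨g, hg, hgv, hu⟩ := hP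
      refine ⟨Submodule.span F {v}, by rw [Submodule.span_singleton_le_iff_mem]; exact self_mem_ln v,
        finrank_span_singleton hv, g, hg, ?_, hu⟩
      intro d hd
      obtain ⟨a, rfl⟩ := Submodule.mem_span_singleton.1 hd
      rw [map_smul, hgv]
    | succ k hk ih =>
      intro hkr
      exact step hHM hv S1 S2 hk hkr (ih (by omega))
  have h2 := hr.two_le
  obtain ⟨D, hD, hDk, h⟩ := key (finrank F K - 1) (by omega) (by omega)
  exact ⟨D, hD, by omega, h⟩

end H7.ExtF
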