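import Cfsg.Agent.Lib.H7.ExtF

set_option autoImplicit false
set_option linter.unusedSectionVars false

/-!
Overgroups of special linear groups over an extension field of prime degree.
-/

namespace H7.ExtLin

open Module H7.ExtF

variable {F K V : Type*} [Field F] [Field K] [Algebra F K] [AddCommGroup V] [Module F V] [Module K V]
  [IsScalarTower F K V]

/-- functionals with prescribed values -/
lemma exists_fun {ι : Type*} [Fintype ι] {x : ι → V} (hx : LinearIndependent K x) (c : ι → K) :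
    ∃ φ : V →ₗ[K] K, ∀ i, φ (x i) = c i := by
  obtain ⟨g, hg⟩ := LinearMap.exists_extend (p := Submodule.span K (Set.range x)) ((Basis.span hx).constr K c)
  refine ⟨g, fun i => ?_⟩
  have h1 : g (x i) = (g ∘ₗ (Submodule.span K (Set.range x)).subtype) (Basis.span hx i) := by
    rw [LinearMap.comp_apply, Submodule.subtype_apply, Basis.span_apply]
  rw [h1, hg, Basis.constr_basis]

lemma li2 {x y : V} (hx : x ≠ 0) (hy : y ∉ ln F K x) : LinearIndependent K ![x, y] := by
  rw [LinearIndependent.pair_iff' hx]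
  intro a ha
  exact hy (mem_ln.2 ⟨a, ha⟩)

lemma fun2 {x y : V} (hx : x ≠ 0) (hy : y ∉ ln F K x) (c d : K) : ∃ φ : V →ₗ[K] K, φ x = c ∧ φ y = d := by
  obtain ⟨φ, h⟩ := exists_fun (li2 hx hy) ![c, d]
  exact ⟨φ, h 0, h 1⟩

lemma fun3 {x y z : V} (hx : x ≠ 0) (hy : y ∉ ln F K x) (hz : ∀ a b : K, z ≠ a • x + b • y) (c d e : K) :
    ∃ φ : V →ₗ[K] K, φ x = c ∧ φ y = d ∧ φ z = e := by
  have hli : LinearIndependent K ![x, y, z] := by
    rw [Fintype.linearIndependent_iff]
    intro c hc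
    rw [Fin.sum_univ_three] at hc
    simp only [Matrix.cons_val_zero, Matrix.cons_val_one, Matrix.cons_val] at hc
    have hc2 : c 2 = 0 := by
      by_contra hc2
      apply hz (-(c 0) / c 2) (-(c 1) / c 2)
      have h2 : c 2 • z = -(c 0 • x + c 1 • y) := by rw [eq_neg_iff_add_eq_zero, add_comm]; exact hc
      have h3 : z = (c 2)⁻¹ • (c 2 • z) := by rw [smul_smul, inv_mul_cancel₀ hc2, one_smul]
      rw [h3, h2]
      match_scalars <;> ring
    rw [hc2, zero_smul, add_zero] at hc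
    have h1 := LinearIndependent.pair_iff.1 (li2 hx hy) _ _ hc
    intro i
    fin_cases i
    · exact h1.1
    · exact h1.2
    · exact hc2
  obtain ⟨φ, h⟩ := exists_fun hli ![c, d, e]
  exact ⟨φ, h 0, h 1, h 2⟩

variable (F K V) in
/-- the special `K`-linear maps (with respect to the determinant over `F`) -/
def HL : Subgroup (V ≃ₗ[F] V) where
  carrier := {g | (∀ (k : K) (x : V), g (k • x) = k • g x) ∧ LinearMap.det (g : V →ₗ[F] V) = 1}
  mul_mem' {a b} ha hb := by
    refine ⟨fun k x => ?_, ?_⟩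
    · show a (b (k • x)) = k • a (b x)
      rw [hb.1, ha.1]
    · have : ((a * b : V ≃ₗ[F] V) : V →ₗ[F] V) = (a : V →ₗ[F] V) * (b : V →ₗ[F] V) := rfl
      rw [this, map_mul, ha.2, hb.2, mul_one]
  one_mem' := ⟨fun _ _ => rfl, by
    have : ((1 : V ≃ₗ[F] V) : V →ₗ[F] V) = 1 := rfl
    rw [this, map_one]⟩
  inv_mem' {a} ha := by
    have h1 : ∀ (k : K) (x : V), a⁻¹ (k • x) = k • a⁻¹ x := by
      intro k x
      apply a.injective
      rw [ha.1, apply_inv, apply_inv]
    refine ⟨h1, ?_⟩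
    have h2 : (a : V →ₗ[F] V) * ((a⁻¹ : V ≃ₗ[F] V) : V →ₗ[F] V) = 1 := LinearMap.ext (fun x => apply_inv a x)
    have h3 := congrArg LinearMap.det h2
    rw [map_mul, ha.2, one_mul, map_one] at h3
    exact h3

/-- `K`-transvections -/
def T (F : Type*) [Field F] [Algebra F K] [Module F V] [IsScalarTower F K V] {φ : Dual K V} {y : V} (h : φ y = 0) :
    V ≃ₗ[F] V := (LinearEquiv.transvection h).restrictScalars F

lemma T_apply {φ : Dual K V} {y : V} (h : φ y = 0) (x : V) : T F h x = x + φ x • y := rfl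

variable [FiniteDimensional F K] [FiniteDimensional K V]

lemma T_mem {φ : Dual K V} {y : V} (h : φ y = 0) : T F h ∈ HL F K V := by
  refine ⟨fun k x => (LinearEquiv.transvection h).map_smul k x, ?_⟩
  have h1 : ((T F h : V ≃ₗ[F] V) : V →ₗ[F] V) = (LinearMap.transvection φ y).restrictScalars F := rfl
  rw [h1, LinearMap.det_restrictScalars, LinearMap.transvection.det, h, add_zero, map_one]

/-- transitivity on vectors -/
lemma trans (hn : 2 ≤ finrank K V) {x y : V} (hx : x ≠ 0) (hy : y ≠ 0) : ∃ g ∈ HL F K V, g x = y := by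
  have hex : ∀ x : V, ∃ z, z ∉ ln F K x := by
    intro x
    by_contra hcon
    push Not at hcon
    have h1 : (Submodule.span K {x}) = ⊤ := by
      rw [eq_top_iff]; intro y _; exact hcon y
    have h2 := finrank_span_le_card (R := K) ({x} : Set V)
    rw [h1, finrank_top] at h2
    simp at h2
    omega
  have h1 : ∀ x y : V, x ≠ 0 → y ∉ ln F K x → ∃ g ∈ HL F K V, g x = y := by
    intro x y hx hy
    obtain ⟨φ, h1, h2⟩ := fun2 hx hy (1 : K) 1
    have h3 : φ (y - x) = 0 := by rw [map_sub, h1, h2, sub_self]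
    refine ⟨T F h3, T_mem h3, ?_⟩
    rw [T_apply, h1, one_smul, add_sub_cancel]
  by_cases hxy : y ∈ ln F K x
  · obtain ⟨z, hz⟩ := hex x
    have hz0 : z ≠ 0 := by rintro rfl; exact hz (Submodule.zero_mem _)
    have hyz : y ∉ ln F K z := by
      intro h2
      apply hz
      obtain ⟨k, hk⟩ := mem_ln.1 hxy
      obtain ⟨l, hl⟩ := mem_ln.1 h2
      have hl0 : l ≠ 0 := by rintro rfl; rw [zero_smul] at hl; exact hy hl.symm
      refine mem_ln.2 ⟨l⁻¹ * k, ?_⟩
      rw [mul_smul, hk, ← hl, smul_smul, inv_mul_cancel₀ hl0, one_smul]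
    obtain ⟨g, hg, hgx⟩ := h1 x z hx hz
    obtain ⟨g', hg', hgz⟩ := h1 z y hz0 hyz
    exact ⟨g' * g, (HL F K V).mul_mem hg' hg, by show g' (g x) = y; rw [hgx, hgz]⟩
  · exact h1 x y hx hxy

lemma star {v x : V} (hv : v ≠ 0) (hx : x ∉ ln F K v) (k : K) :
    ∃ t ∈ HL F K V, (∀ y ∈ ln F K v, t y = y) ∧ t x = x + k • v := by
  obtain ⟨φ, h1, h2⟩ := fun2 hv hx 0 k
  refine ⟨T F h1, T_mem h1, fun y hy => ?_, ?_⟩
  · obtain ⟨l, rfl⟩ := mem_ln.1 hy
    rw [T_apply, map_smul, h1, smul_zero, zero_smul, add_zero]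
  · rw [T_apply, h2]

lemma inv_le [FiniteDimensional F V] {v : V} (hv : v ≠ 0) (X : Submodule F V)
    (hX : finrank F X = finrank F K)
    (hinv : ∀ t ∈ HL F K V, (∀ y ∈ ln F K v, t y = y) → ∀ y ∈ X, t y ∈ X) : X ≤ ln F K v := by
  intro x hx
  by_contra hxv
  have h1 : ln F K v ≤ X := by
    intro y hy
    obtain ⟨k, rfl⟩ := mem_ln.1 hy
    obtain ⟨t, ht, htl, htx⟩ := star hv hxv k
    have h2 := hinv t ht htl x hx
    rw [htx] at h2
    have := X.sub_mem h2 hx
    rwa [add_sub_cancel_left] at this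
  have h2 := Submodule.eq_of_le_of_finrank_eq h1 (by rw [finrank_ln hv, hX])
  exact hxv (by rw [h2]; exact hx)

lemma s2 [FiniteDimensional F V] (hr : (finrank F K).Prime) {v : V}
    (hv : v ≠ 0) (D : Submodule F V) (hD : D ≤ ln F K v)
    (hD0 : D ≠ ⊥) (hD1 : D ≠ ln F K v) (X : Submodule F V)
    (hw : ∃ w ∈ X, w ∉ ln F K v) (hXD : X ⊓ ln F K v = D)
    (hinv : ∀ w ∈ X, w ∉ ln F K v → ∀ t ∈ HL F K V, (∀ y ∈ ln F K v, t y = y) → t w - w ∈ D → ∀ y ∈ X, t y ∈ X) :
    finrank F X ≤ finrank F D + 1 := by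
  let C : Submodule F K := D.comap ((LinearMap.toSpanSingleton K V v).restrictScalars F)
  have hC : ∀ c : K, c ∈ C ↔ c • v ∈ D := fun c => Iff.rfl
  have hC0 : C ≠ ⊥ := by
    intro h0
    obtain ⟨d, hd, hd0⟩ := (Submodule.ne_bot_iff D).1 hD0
    obtain ⟨c, rfl⟩ := mem_ln.1 (hD hd)
    have : c ∈ C := (hC c).2 hd
    rw [h0, Submodule.mem_bot] at this
    rw [this, zero_smul] at hd0
    exact hd0 rfl
  have hC1' : (∀ k : K, k • v ∈ D) → False := by
    intro h1
    apply hD1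
    apply le_antisymm hD
    intro y hy
    obtain ⟨k, rfl⟩ := mem_ln.1 hy
    exact h1 k
  have hC1 : C ≠ ⊤ := by
    intro h0
    exact hC1' (fun k => (hC k).1 (by rw [h0]; exact Submodule.mem_top))
  obtain ⟨w, hwX, hwL⟩ := hw
  have hs : ∀ y ∈ X, ∃ a : F, y - a • w ∈ D := by
    intro y hy
    have hsp : ∃ a b : K, y = a • v + b • w := by
      by_contra hcon
      push Not at hcon
      apply hC1'
      intro k
      obtain ⟨φ, z0, z1, z2⟩ := fun3 hv hwL hcon 0 0 k
      have h2 := hinv w hwX hwL (T F z0) (T_mem z0) (fun y hy => by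
        obtain ⟨l, rfl⟩ := mem_ln.1 hy
        rw [T_apply, map_smul, z0, smul_zero, zero_smul, add_zero]) (by
        rw [T_apply, z1, zero_smul, add_zero, sub_self]; exact D.zero_mem) y hy
      rw [T_apply, z2] at h2
      rw [← hXD]
      refine ⟨?_, smul_mem_ln _ _⟩
      have := X.sub_mem h2 hy
      rwa [add_sub_cancel_left] at this
    obtain ⟨a, b, hab⟩ := hsp
    obtain ⟨f, hf⟩ := stab hr hC0 hC1 (x := b) (by
      intro c hc
      rw [hC] at hc ⊢
      obtain ⟨φ, z0, z1⟩ := fun2 hv hwL 0 c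
      have h2 := hinv w hwX hwL (T F z0) (T_mem z0) (fun y hy => by
        obtain ⟨l, rfl⟩ := mem_ln.1 hy
        rw [T_apply, map_smul, z0, smul_zero, zero_smul, add_zero]) (by
        rw [T_apply, z1, add_sub_cancel_left]; exact hc) y hy
      have h3 : φ y = b * c := by
        rw [hab, map_add, map_smul, map_smul, z0, z1, smul_zero, zero_add, smul_eq_mul]
      rw [T_apply, h3] at h2
      rw [← hXD]
      refine ⟨?_, smul_mem_ln _ _⟩
      have := X.sub_mem h2 hy
      rwa [add_sub_cancel_left] at this)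
    refine ⟨f, ?_⟩
    rw [← hXD]
    refine ⟨X.sub_mem hy (X.smul_mem _ hwX), ?_⟩
    rw [hab, ← hf, algebraMap_smul, add_sub_cancel_right]
    exact smul_mem_ln _ _
  have h1 : X ≤ D ⊔ Submodule.span F {w} := by
    intro y hyX
    obtain ⟨a, ha⟩ := hs y hyX
    rw [Submodule.mem_sup]
    exact ⟨_, ha, a • w, Submodule.mem_span_singleton.2 ⟨a, rfl⟩, by abel⟩
  have h2 := Submodule.finrank_mono h1
  have h3 := Submodule.finrank_add_le_finrank_add_finrank D (Submodule.span F {w})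
  have h4 := finrank_span_le_card (R := F) ({w} : Set V)
  simp at h4
  omega

/-- hyperplanes of a line -/
lemma hyper [FiniteDimensional F V] (hr : (finrank F K).Prime) (hn : 2 ≤ finrank K V)
    {M : Subgroup (V ≃ₗ[F] V)} (hHM : HL F K V ≤ M) (hM : ∃ g ∈ M, ∃ v : V, ∃ k : K, g (k • v) ∉ ln F K (g v)) :
    ∃ v : V, v ≠ 0 ∧ ∃ D ≤ ln F K v, finrank F D + 1 = finrank F K ∧
      ∃ g ∈ M, (∀ d ∈ D, g d = d) ∧ ∃ u ∈ ln F K v, g u ∉ ln F K v := by
  obtain ⟨g, hg, v, k, hgk⟩ := hM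
  have hv : v ≠ 0 := by
    rintro rfl
    rw [smul_zero, map_zero] at hgk
    exact hgk (Submodule.zero_mem _)
  refine ⟨v, hv, exists_hyper hHM hv hr (fun X hX h1 => inv_le hv X hX h1)
    (fun D hD hD0 hD1 X _ hw hXD hinv => s2 hr hv D hD hD0 hD1 X hw hXD hinv) ?_⟩
  obtain ⟨s, hs, hsv⟩ := trans (F := F) (K := K) hn (x := g v) (y := v)
    (fun h0 => hv ((LinearEquiv.map_eq_zero_iff g).1 h0)) hv
  refine ⟨s * g, M.mul_mem (hHM hs) hg, hsv, k • v, smul_mem_ln _ _, ?_⟩
  intro h1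
  apply hgk
  obtain ⟨l, hl⟩ := mem_ln.1 h1
  refine mem_ln.2 ⟨l, ?_⟩
  apply s.injective
  rw [hs.1, hsv]
  exact hl

end H7.ExtLin
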