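import Cfsg.Agent.Lib.H7.ExtLin

set_option autoImplicit false
set_option linter.unusedSectionVars false

/-!
Overgroups of special linear groups over an extension field of prime degree: transvections.
-/

namespace H7.ExtLin

open Module H7.ExtF

variable {F K V : Type*} [Field F] [Field K] [Algebra F K] [AddCommGroup V] [Module F V] [Module K V]
  [IsScalarTower F K V]

/-- `M` contains the transvection with functional `χ` and centre `y` -/
def FT (M : Subgroup (V ≃ₗ[F] V)) (χ : Dual F V) (y : V) : Prop := ∃ e ∈ M, ∀ x, e x = x + χ x • y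

variable {M : Subgroup (V ≃ₗ[F] V)}

lemma FT.conj {χ χ' : Dual F V} {y y' : V} (h : FT M χ y) {s : V ≃ₗ[F] V} (hs : s ∈ M) (h1 : ∀ x, χ' (s x) = χ x)
    (h2 : y' = s y) : FT M χ' y' := by
  obtain ⟨e, he, hex⟩ := h
  refine ⟨s * e * s⁻¹, M.mul_mem (M.mul_mem hs he) (M.inv_mem hs), fun x => ?_⟩
  show s (e (s⁻¹ x)) = _
  rw [hex, map_add, map_smul, apply_inv, ← h1, apply_inv, h2]

/-- functionals over the small field come from the large field -/
lemma lift [FiniteDimensional F K] {l0 : K →ₗ[F] F} (hl : l0 ≠ 0) (χ : Dual F V) :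
    ∃ φ : Dual K V, ∀ x, χ x = l0 (φ x) := by
  have hinj : ∀ a : K, (∀ k : K, l0 (k * a) = 0) → a = 0 := by
    intro a ha
    by_contra h0
    apply hl
    ext x
    have := ha (x * a⁻¹)
    rwa [inv_mul_cancel_right₀ h0] at this
  have hinj' : ∀ a b : K, (∀ k : K, l0 (k * a) = l0 (k * b)) → a = b := by
    intro a b hab
    rw [← sub_eq_zero]
    apply hinj
    intro k
    rw [mul_sub, map_sub, hab, sub_self]
  let e : K →ₗ[F] Dual F K := LinearMap.mk₂ F (fun c k => l0 (k * c))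
    (fun a b k => by rw [mul_add, map_add]) (fun a b k => by rw [mul_smul_comm, map_smul])
    (fun a b k => by rw [add_mul, map_add]) (fun a b k => by rw [smul_mul_assoc, map_smul])
  have he : ∀ c k, e c k = l0 (k * c) := fun _ _ => rfl
  have hei : Function.Injective e := by
    rw [← LinearMap.ker_eq_bot, LinearMap.ker_eq_bot']
    intro c hc
    apply hinj
    intro k
    rw [← he, hc, LinearMap.zero_apply]
  have hes : Function.Surjective e := by
    apply (LinearMap.injective_iff_surjective_of_finrank_eq_finrank _).1 hei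
    rw [Subspace.dual_finrank_eq]
  have hex : ∀ x : V, ∃ c : K, ∀ k : K, χ (k • x) = l0 (k * c) := by
    intro x
    obtain ⟨c, hc⟩ := hes (χ ∘ₗ ((LinearMap.toSpanSingleton K V x).restrictScalars F))
    refine ⟨c, fun k => ?_⟩
    rw [← he, hc]
    rfl
  choose f hf using hex
  refine ⟨{ toFun := f, map_add' := fun x y => ?_, map_smul' := fun c x => ?_ }, fun x => ?_⟩
  · apply hinj'
    intro k
    rw [mul_add, map_add, ← hf, ← hf, ← hf, smul_add, map_add]
  · apply hinj'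
    intro k
    rw [RingHom.id_apply, smul_eq_mul, ← mul_assoc, ← hf, ← hf, smul_smul]
  · have := hf x 1
    rw [one_smul, one_mul] at this
    exact this

/-- the transvections killing a line generate the others -/
lemma full_of [FiniteDimensional F K] [FiniteDimensional K V] (hn : 2 ≤ finrank K V)
    (hA : ∀ y : V, y ≠ 0 → ∀ χ : Dual F V, (∀ k : K, χ (k • y) = 0) → FT M χ y) {y : V} (hy : y ≠ 0) {χ : Dual F V}
    (hχ : χ y = 0) : FT M χ y := by
  by_cases hk : ∀ k : K, χ (k • y) = 0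
  · exact hA y hy χ hk
  push Not at hk
  obtain ⟨k, hk⟩ := hk
  obtain ⟨l0, hl⟩ : ∃ l0 : K →ₗ[F] F, l0 ≠ 0 := by
    by_contra hcon
    push Not at hcon
    have : (1 : K) = 0 := (Module.forall_dual_apply_eq_zero_iff F (1 : K)).1 (fun φ => by rw [hcon φ]; rfl)
    exact one_ne_zero this
  obtain ⟨φ, hφ⟩ := lift hl χ
  have hφy : φ y ≠ 0 := by
    intro h0
    apply hk
    rw [hφ, map_smul, h0, smul_zero, map_zero]
  obtain ⟨z, hz, hz0⟩ : ∃ z, φ z = 0 ∧ z ≠ 0 := by
    have h1 := LinearMap.finrank_range_add_finrank_ker φ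
    have h2 : finrank K (LinearMap.range φ) ≤ 1 := by
      refine (Submodule.finrank_le _).trans ?_
      rw [finrank_self]
    have h4 : LinearMap.ker φ ≠ ⊥ := by
      intro h0
      rw [h0, finrank_bot] at h1
      omega
    obtain ⟨z, hz, hz0⟩ := (Submodule.ne_bot_iff _).1 h4
    exact ⟨z, hz, hz0⟩
  have hzy : z ∉ ln F K y := by
    intro h1
    obtain ⟨l, hl'⟩ := mem_ln.1 h1
    rw [← hl', map_smul, smul_eq_mul] at hz
    rcases mul_eq_zero.1 hz with h2 | h2
    · rw [h2, zero_smul] at hl'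
      exact hz0 hl'.symm
    · exact hφy h2
  have hχz : ∀ k : K, χ (k • z) = 0 := by
    intro k
    rw [hφ, map_smul, hz, smul_zero, map_zero]
  obtain ⟨A, hA1, hAx⟩ := hA z hz0 χ hχz
  obtain ⟨ψ, hψ1, hψ2⟩ : ∃ ψ : Dual F V, (∀ k : K, ψ (k • y) = 0) ∧ ψ z = 1 := by
    obtain ⟨f, hf, hW⟩ := Submodule.exists_dual_map_eq_bot_of_notMem hzy inferInstance
    refine ⟨(f z)⁻¹ • f, fun k => ?_, ?_⟩
    · have : f (k • y) = 0 := by
        have h : f (k • y) ∈ Submodule.map f (ln F K y) := ⟨_, smul_mem_ln _ _, rfl⟩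
        rw [hW] at h; simpa using h
      rw [LinearMap.smul_apply, this, smul_zero]
    · rw [LinearMap.smul_apply, smul_eq_mul, inv_mul_cancel₀ hf]
  obtain ⟨B, hB1, hBx⟩ := hA y hy ψ hψ1
  have hψy : ψ y = 0 := by have := hψ1 1; rwa [one_smul] at this
  have hχz1 : χ z = 0 := by have := hχz 1; rwa [one_smul] at this
  refine ⟨(B * A) * (A * B)⁻¹, M.mul_mem (M.mul_mem hB1 hA1) (M.inv_mem (M.mul_mem hA1 hB1)), fun x => ?_⟩
  have k1 : ∀ x, (B * A) x = (A * B) x + χ x • y := by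
    intro x
    show B (A x) = A (B x) + _
    rw [hAx, hBx, hBx, hAx]
    simp only [map_add, map_smul, hψy, hψ2, hχ, smul_zero, add_zero, smul_eq_mul, mul_one]
    module
  have k2 : ∀ x, χ ((A * B) x) = χ x := by
    intro x
    show χ (A (B x)) = _
    rw [hAx, hBx]
    simp only [map_add, map_smul, hχ, hχz1, smul_zero, add_zero]
  show (B * A) ((A * B)⁻¹ x) = _
  rw [k1, apply_inv, ← k2, apply_inv]

/-- the configuration -/
structure Cfg (K : Type*) [Field K] [Algebra F K] [Module K V] [IsScalarTower F K V]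
    (M : Subgroup (V ≃ₗ[F] V)) (v : V) (D : Submodule F V) (g : V ≃ₗ[F] V) (u w : V)
    (f : Dual F V) : Prop where
  hHM : HL F K V ≤ M
  hv : v ≠ 0
  hD : D ≤ ln F K v
  hDr : finrank F D + 1 = finrank F K
  hg : g ∈ M
  hgD : ∀ d ∈ D, g d = d
  hu : u ∈ ln F K v
  hw : w = g u
  hwL : w ∉ ln F K v
  hf0 : ∀ d ∈ D, f d = 0
  hf1 : f u = 1

lemma mkCfg (hHM : HL F K V ≤ M) {v : V} (hv : v ≠ 0) {D : Submodule F V}
    (hD : D ≤ ln F K v) (hDr : finrank F D + 1 = finrank F K)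
    (hg : ∃ g ∈ M, (∀ d ∈ D, g d = d) ∧ ∃ u ∈ ln F K v, g u ∉ ln F K v) :
    ∃ g u w f, Cfg K M v D g u w f := by
  obtain ⟨g, hg, hgD, u, hu, hgu⟩ := hg
  have huD : u ∉ D := fun h => hgu (by rw [hgD u h]; exact hD h)
  obtain ⟨f, hf, hW⟩ := Submodule.exists_dual_map_eq_bot_of_notMem huD inferInstance
  refine ⟨g, u, g u, (f u)⁻¹ • f, hHM, hv, hD, hDr, hg, hgD, hu, rfl, hgu, fun d hd => ?_, ?_⟩
  · have : f d = 0 := by
      have h : f d ∈ Submodule.map f D := ⟨_, hd, rfl⟩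
      rw [hW] at h; simpa using h
    rw [LinearMap.smul_apply, this, smul_zero]
  · rw [LinearMap.smul_apply, smul_eq_mul, inv_mul_cancel₀ hf]

namespace Cfg

variable {v u w : V} {D : Submodule F V} {g : V ≃ₗ[F] V} {f : Dual F V}

lemma exists_d (C : Cfg K M v D g u w f) (hr : (finrank F K).Prime) : ∃ d ∈ D, d ≠ 0 := by
  have h1 := C.hDr
  have h2 := hr.two_le
  have h3 : D ≠ ⊥ := by
    rintro rfl
    rw [finrank_bot] at h1
    omega
  exact (Submodule.ne_bot_iff D).1 h3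

variable [FiniteDimensional F V] [FiniteDimensional F K] [FiniteDimensional K V]

lemma decomp (C : Cfg K M v D g u w f) {y : V} (hy : y ∈ ln F K v) : y - f y • u ∈ D := by
  have huD : u ∉ D := fun h => by
    have := C.hf0 u h
    rw [C.hf1] at this
    exact one_ne_zero this
  have h1 : D ⊓ Submodule.span F {u} = ⊥ := by
    rw [Submodule.eq_bot_iff]
    rintro y ⟨hy1, hy2⟩
    obtain ⟨a, rfl⟩ := Submodule.mem_span_singleton.1 hy2
    by_cases ha : a = 0
    · rw [ha, zero_smul]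
    · exact absurd ((Submodule.smul_mem_iff _ ha).1 hy1) huD
  have h2 := Submodule.finrank_sup_add_finrank_inf_eq D (Submodule.span F {u})
  have hu0 : u ≠ 0 := fun h => huD (h ▸ D.zero_mem)
  rw [h1, finrank_bot, add_zero, finrank_span_singleton hu0, C.hDr] at h2
  have h3 : D ⊔ Submodule.span F {u} = ln F K v := by
    apply Submodule.eq_of_le_of_finrank_eq
    · exact sup_le C.hD (by rw [Submodule.span_singleton_le_iff_mem]; exact C.hu)
    · rw [h2, finrank_ln C.hv]
  rw [← h3] at hy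
  obtain ⟨d, hd, x, hx, rfl⟩ := Submodule.mem_sup.1 hy
  obtain ⟨a, rfl⟩ := Submodule.mem_span_singleton.1 hx
  rw [map_add, map_smul, C.hf0 d hd, C.hf1, zero_add, smul_eq_mul, mul_one, add_sub_cancel_right]
  exact hd

lemma gy (C : Cfg K M v D g u w f) {y : V} (hy : y ∈ ln F K v) : g y = (y - f y • u) + f y • w := by
  have h1 : y = (y - f y • u) + f y • u := by abel
  conv_lhs => rw [h1]
  rw [map_add, C.hgD _ (C.decomp hy), map_smul, C.hw]

lemma exists_a (C : Cfg K M v D g u w f) {d : V} (hd : d ∈ D) :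
    ∃ a ∈ M, ∃ μ : Dual F V, (∀ y ∈ ln F K v, a y = y + f y • d) ∧ (∀ y ∈ ln F K v, μ y = 0) ∧
      ∀ x, ∃ d' ∈ D, a⁻¹ x = x - d' - μ x • w := by
  have hgD' : ∀ d ∈ D, g⁻¹ d = d := fun d hd => by
    conv_lhs => rw [← C.hgD d hd]
    rw [inv_apply]
  have hgu : g⁻¹ u ∉ ln F K v := by
    intro h1
    have h2 := C.gy h1
    rw [apply_inv] at h2
    have h3 : f (g⁻¹ u) • w ∈ ln F K v := by
      have : f (g⁻¹ u) • w = u - (g⁻¹ u - f (g⁻¹ u) • u) := by
        rw [eq_sub_iff_add_eq, add_comm]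
        exact h2.symm
      rw [this]
      exact Submodule.sub_mem _ C.hu (Submodule.sub_mem _ h1 (Submodule.smul_mem _ _ C.hu))
    by_cases h4 : f (g⁻¹ u) = 0
    · have h5 := C.decomp h1
      rw [h4, zero_smul, sub_zero] at h5
      have h6 := C.hgD _ h5
      rw [apply_inv] at h6
      rw [← h6] at h5
      have := C.hf0 u h5
      rw [C.hf1] at this
      exact one_ne_zero this
    · exact C.hwL ((Submodule.smul_mem_iff _ h4).1 h3)
  obtain ⟨l, hl⟩ := mem_ln.1 (C.hD hd)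
  obtain ⟨φ, h1, h2⟩ := fun2 C.hv hgu 0 l
  obtain ⟨a, ha⟩ : ∃ a, a = g * T F h1 * g⁻¹ := ⟨_, rfl⟩
  have hax : ∀ x, a x = g (T F h1 (g⁻¹ x)) := fun x => by rw [ha]; rfl
  have hax' : ∀ x, a x = x + g (φ (g⁻¹ x) • v) := by
    intro x
    rw [hax, T_apply, map_add, apply_inv]
  have hln : ∀ y ∈ ln F K v, φ y = 0 := by
    intro y hy
    obtain ⟨k, rfl⟩ := mem_ln.1 hy
    rw [map_smul, h1, smul_zero]
  have haD : ∀ x ∈ D, a x = x := by
    intro x hx
    rw [hax', hgD' x hx, hln x (C.hD hx), zero_smul, map_zero, add_zero]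
  have hau : a u = u + d := by
    rw [hax', h2, hl, C.hgD d hd]
  let μ : Dual F V := f ∘ₗ ((LinearMap.toSpanSingleton K V v).restrictScalars F) ∘ₗ (φ.restrictScalars F) ∘ₗ
    ((g⁻¹ : V ≃ₗ[F] V) : V →ₗ[F] V)
  have hμ : ∀ x, μ x = f (φ (g⁻¹ x) • v) := fun x => rfl
  have hay : ∀ y ∈ ln F K v, a y = y + f y • d := by
    intro y hy
    have h3 : y = (y - f y • u) + f y • u := by abel
    conv_lhs => rw [h3]
    rw [map_add, haD _ (C.decomp hy), map_smul, hau]
    module
  refine ⟨a, by rw [ha]; exact M.mul_mem (M.mul_mem C.hg (C.hHM (T_mem _))) (M.inv_mem C.hg), μ, hay, ?_, ?_⟩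
  · intro y hy
    have h3 := hay y hy
    rw [hax', add_right_inj, C.gy (smul_mem_ln _ _), ← hμ] at h3
    by_contra h4
    apply C.hwL
    rw [← Submodule.smul_mem_iff _ h4]
    have h5 : μ y • w = f y • d - (φ (g⁻¹ y) • v - μ y • u) := by
      rw [← h3]; abel
    rw [h5]
    exact Submodule.sub_mem _ (Submodule.smul_mem _ _ (C.hD hd)) (Submodule.sub_mem _ (smul_mem_ln _ _)
      (Submodule.smul_mem _ _ C.hu))
  · intro x
    refine ⟨φ (g⁻¹ x) • v - μ x • u, C.decomp (smul_mem_ln _ _), ?_⟩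
    apply a.injective
    have h4 : x - (φ (g⁻¹ x) • v - μ x • u) - μ x • w = x - g (φ (g⁻¹ x) • v) := by
      rw [C.gy (smul_mem_ln _ _), ← hμ]; abel
    have h5 : φ (φ (g⁻¹ x) • v) = 0 := by rw [map_smul, h1, smul_zero]
    rw [apply_inv, h4, map_sub, hax' x, hax' (g _), inv_apply, h5, zero_smul, map_zero, add_zero,
      add_sub_cancel_right]

/-- the basic commutators -/
lemma exists_c (C : Cfg K M v D g u w f) {d : V} (hd : d ∈ D) :
    ∃ μ : Dual F V, (∀ y ∈ ln F K v, μ y = 0) ∧ ∀ φ : Dual K V, φ v = 0 → φ w • v ∈ D →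
      ∃ c ∈ M, ∀ x, c x = x + f (φ x • v) • d - μ x • φ w • v := by
  obtain ⟨a, ha, μ, hay, hμ, hai⟩ := C.exists_a hd
  refine ⟨μ, hμ, fun φ h1 h2 => ?_⟩
  have hln : ∀ y ∈ ln F K v, φ y = 0 := by
    intro y hy
    obtain ⟨k, rfl⟩ := mem_ln.1 hy
    rw [map_smul, h1, smul_zero]
  have h1' : φ (-v) = 0 := by rw [map_neg, h1, neg_zero]
  have e1 : ∀ x, (a * T F h1 * a⁻¹) x = x + φ x • v - μ x • φ w • v + f (φ x • v) • d := by
    intro x
    show a (T F h1 (a⁻¹ x)) = _
    obtain ⟨d', hd', hx⟩ := hai x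
    have e2 : φ (a⁻¹ x) = φ x - μ x • φ w := by
      rw [hx, map_sub, map_sub, hln d' (C.hD hd'), sub_zero, ← algebraMap_smul K (μ x) w, map_smul, algebraMap_smul]
    have e5 : f ((φ x - μ x • φ w) • v) = f (φ x • v) := by
      have e6 : f (μ x • φ w • v) = 0 := by rw [map_smul, C.hf0 _ h2, smul_zero]
      rw [sub_smul, map_sub, smul_assoc, e6, sub_zero]
    rw [T_apply, map_add, apply_inv, e2, hay _ (smul_mem_ln _ _), e5, sub_smul, smul_assoc]
    abel
  refine ⟨a * T F h1 * a⁻¹ * T F h1', M.mul_mem (M.mul_mem (M.mul_mem ha (C.hHM (T_mem _))) (M.inv_mem ha))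
    (C.hHM (T_mem _)), fun x => ?_⟩
  show (a * T F h1 * a⁻¹) (T F h1' x) = _
  have e3 : φ (x + φ x • -v) = φ x := by rw [map_add, map_smul, h1', smul_zero, add_zero]
  have e4 : μ (x + φ x • -v) = μ x := by
    rw [map_add, hμ (φ x • -v) (by rw [smul_neg]; exact Submodule.neg_mem _ (smul_mem_ln _ _)), add_zero]
  rw [T_apply, e1, e3, e4]
  module

end Cfg

end H7.ExtLin
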