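import Cfsg.Agent.Lib.H7.ExtLin2

set_option autoImplicit false
set_option linter.unusedSectionVars false

/-!
Overgroups of special linear groups over an extension field of prime degree: the case of dimension at least 3.
-/

namespace H7.ExtLin

open Module H7.ExtF

variable {F K V : Type*} [Field F] [Field K] [Algebra F K] [AddCommGroup V] [Module F V] [Module K V]
  [IsScalarTower F K V] {M : Subgroup (V ≃ₗ[F] V)}

lemma FT.zero (y : V) : FT M (0 : Dual F V) y := ⟨1, M.one_mem, fun x => by simp⟩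

lemma FT.add {χ χ' : Dual F V} {y : V} (h : FT M χ y) (h' : FT M χ' y) (hy : χ y = 0) : FT M (χ + χ') y := by
  obtain ⟨e, he, hex⟩ := h
  obtain ⟨e', he', hex'⟩ := h'
  refine ⟨e * e', M.mul_mem he he', fun x => ?_⟩
  show e (e' x) = _
  rw [hex, hex', map_add, map_smul, hy, smul_zero, add_zero, LinearMap.add_apply]
  module

lemma FT.neg {χ : Dual F V} {y : V} (h : FT M χ y) (hy : χ y = 0) : FT M (-χ) y := by
  obtain ⟨e, he, hex⟩ := h
  refine ⟨e⁻¹, M.inv_mem he, fun x => ?_⟩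
  apply e.injective
  rw [apply_inv, hex, map_add, map_smul, hy, smul_zero, add_zero, LinearMap.neg_apply]
  module

variable (K M) in
/-- all transvections killing the line of the centre -/
def PA : Prop := ∀ y : V, y ≠ 0 → ∀ χ : Dual F V, (∀ k : K, χ (k • y) = 0) → FT M χ y

lemma pa_of [FiniteDimensional F K] [FiniteDimensional K V] (hn : 2 ≤ finrank K V) (hHM : HL F K V ≤ M) {d : V}
    (hd : d ≠ 0) (h : ∀ χ : Dual F V, (∀ k : K, χ (k • d) = 0) → FT M χ d) : PA K M := by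
  intro y hy χ hχ
  obtain ⟨s, hs, hsd⟩ := trans (F := F) hn hd hy
  refine (h (χ ∘ₗ (s : V →ₗ[F] V)) (fun k => ?_)).conj (hHM hs) (fun x => rfl) hsd.symm
  show χ (s (k • d)) = 0
  rw [hs.1, hsd, hχ]

lemma FT.step [FiniteDimensional F K] [FiniteDimensional K V] (hHM : HL F K V ≤ M) {l : K →ₗ[F] F} {φ ψ : Dual K V}
    {d y : V} (h : FT M (l ∘ₗ φ.restrictScalars F) d) (hφd : φ d = 0) (hψd : ψ d = 0) (hψy : ψ y = 0)
    (hφy : φ y = 1) : FT M (l ∘ₗ ψ.restrictScalars F) d := by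
  have h0 : (l ∘ₗ φ.restrictScalars F) d = 0 := by
    show l (φ d) = 0
    rw [hφd, map_zero]
  have h0' : (l ∘ₗ (φ + ψ).restrictScalars F) d = 0 := by
    show l (φ d + ψ d) = 0
    rw [hφd, hψd, add_zero, map_zero]
  have h1 : FT M (l ∘ₗ (φ + ψ).restrictScalars F) d := by
    refine h.conj (M.inv_mem (hHM (T_mem hψy))) (fun x => ?_) ?_
    · obtain ⟨z, rfl⟩ : ∃ z, x = T F hψy z := ⟨(T F hψy)⁻¹ x, (apply_inv _ _).symm⟩
      rw [inv_apply]
      show l (φ z + ψ z) = l (φ (T F hψy z))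
      have : φ (T F hψy z) = φ z + ψ z := by rw [T_apply, map_add, map_smul, hφy, smul_eq_mul, mul_one]
      rw [this]
    · apply (T F hψy).injective
      rw [apply_inv, T_apply, hψd, zero_smul, add_zero]
  have h2 := h1.add (h.neg h0) h0'
  convert h2 using 1
  ext x
  show l (ψ x) = l (φ x + ψ x) + - l (φ x)
  rw [map_add]; ring

variable (K) in
/-- the functional on the field -/
def lf (f : Dual F V) (v : V) : K →ₗ[F] F := f ∘ₗ ((LinearMap.toSpanSingleton K V v).restrictScalars F)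

lemma lf_apply (f : Dual F V) (v : V) (k : K) : lf K f v k = f (k • v) := rfl

variable {v u w : V} {D : Submodule F V} {g : V ≃ₗ[F] V} {f : Dual F V}

lemma Cfg.lf_ne (C : Cfg K M v D g u w f) : lf K f v ≠ 0 := by
  intro h
  obtain ⟨k, hk⟩ := mem_ln.1 C.hu
  have h1 := LinearMap.congr_fun h k
  rw [lf_apply, hk, C.hf1] at h1
  exact one_ne_zero h1

variable [FiniteDimensional F V] [FiniteDimensional F K] [FiniteDimensional K V]

theorem case3 (C : Cfg K M v D g u w f) (hr : (finrank F K).Prime) (h3 : 3 ≤ finrank K V) : PA K M := by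
  obtain ⟨d, hd, hd0⟩ := C.exists_d hr
  obtain ⟨μ, hμ, hc⟩ := C.exists_c hd
  obtain ⟨l, hl⟩ : ∃ l, l = lf K f v := ⟨_, rfl⟩
  have hl0 : l ≠ 0 := hl ▸ C.lf_ne
  obtain ⟨k0, hk0⟩ := mem_ln.1 (C.hD hd)
  have hk0' : k0 ≠ 0 := by
    rintro rfl
    rw [zero_smul] at hk0
    exact hd0 hk0.symm
  have hvd : ∀ φ : Dual K V, φ v = 0 ↔ φ d = 0 := by
    intro φ
    rw [← hk0, map_smul, smul_eq_mul]
    constructor
    · intro h; rw [h, mul_zero]
    · intro h; exact (mul_eq_zero.1 h).resolve_left hk0'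
  obtain ⟨φ0, h1, h2, y1, h4⟩ : ∃ φ0 : Dual K V, φ0 v = 0 ∧ φ0 w = 0 ∧ ∃ y, φ0 y = 1 := by
    have hlt : Submodule.span K (Set.range ![v, w]) < ⊤ := by
      rw [lt_top_iff_ne_top]
      intro h0
      have h1 := finrank_range_le_card (R := K) ![v, w]
      rw [Set.finrank, h0, finrank_top, Fintype.card_fin] at h1
      omega
    obtain ⟨φ, hφ, hk⟩ := Submodule.exists_le_ker_of_lt_top _ hlt
    obtain ⟨y, hy⟩ : ∃ y, φ y ≠ 0 := by
      by_contra hcon
      push Not at hcon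
      exact hφ (LinearMap.ext hcon)
    exact ⟨φ, hk (Submodule.subset_span ⟨0, rfl⟩), hk (Submodule.subset_span ⟨1, rfl⟩), (φ y)⁻¹ • y, by
      rw [map_smul, smul_eq_mul, inv_mul_cancel₀ hy]⟩
  have hstart : FT M (l ∘ₗ φ0.restrictScalars F) d := by
    obtain ⟨c, hcM, hcx⟩ := hc φ0 h1 (by rw [h2, zero_smul]; exact D.zero_mem)
    refine ⟨c, hcM, fun x => ?_⟩
    rw [hcx, h2, zero_smul, smul_zero, sub_zero, hl]
    rfl
  have hy1 : y1 ∉ ln F K v := by
    intro h
    obtain ⟨k, rfl⟩ := mem_ln.1 h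
    rw [map_smul, h1, smul_zero] at h4
    exact zero_ne_one h4
  have hall : ∀ ψ : Dual K V, ψ v = 0 → FT M (l ∘ₗ ψ.restrictScalars F) d := by
    intro ψ hψ
    by_cases h5 : ψ y1 = 0
    · exact hstart.step C.hHM ((hvd _).1 h1) ((hvd _).1 hψ) h5 h4
    obtain ⟨y2, hy2, hy2v⟩ : ∃ y2, ψ y2 = 0 ∧ y2 ∉ ln F K v := by
      by_contra hcon
      push Not at hcon
      have h6 : LinearMap.ker ψ ≤ Submodule.span K {v} := fun x hx => hcon x hx
      have h7 := Submodule.finrank_mono h6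
      rw [finrank_span_singleton C.hv] at h7
      have h8 := LinearMap.finrank_range_add_finrank_ker ψ
      have h9 : finrank K (LinearMap.range ψ) ≤ 1 := by
        refine (Submodule.finrank_le _).trans ?_
        rw [finrank_self]
      omega
    have hz : ∀ a b : K, y2 ≠ a • v + b • y1 := by
      rintro a b rfl
      rw [map_add, map_smul, map_smul, hψ, smul_zero, zero_add, smul_eq_mul] at hy2
      rw [(mul_eq_zero.1 hy2).resolve_right h5, zero_smul, add_zero] at hy2v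
      exact hy2v (smul_mem_ln _ _)
    obtain ⟨ψ', e1, e2, e3⟩ := fun3 C.hv hy1 hz 0 0 1
    exact (hstart.step C.hHM ((hvd _).1 h1) ((hvd _).1 e1) e2 h4).step C.hHM ((hvd _).1 e1) ((hvd _).1 hψ) hy2 e3
  refine pa_of (by omega) C.hHM hd0 (fun χ hχ => ?_)
  obtain ⟨φ, hφ⟩ := lift hl0 χ
  have h5 : φ v = 0 := by
    rw [hvd]
    by_contra h6
    apply hl0
    ext k
    have h7 := hχ (k * (φ d)⁻¹)
    rwa [hφ, map_smul, smul_eq_mul, inv_mul_cancel_right₀ h6] at h7
  have h6 : χ = l ∘ₗ φ.restrictScalars F := by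
    ext x
    exact hφ x
  rw [h6]
  exact hall φ h5

end H7.ExtLin
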