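import Mathlib

set_option autoImplicit false

/-!
The elements of norm one generate a finite field over a proper subfield.
-/

namespace H7.NormGen

open Module

lemma inv_mem_sub {K : Type*} [Field K] [Finite K] (S : Subring K) {x : K} (hx : x ∈ S) (h0 : x ≠ 0) : x⁻¹ ∈ S := by
  obtain ⟨n, hn, h⟩ := isOfFinOrder_iff_pow_eq_one.1 (isOfFinOrder_of_finite (Units.mk0 x h0))
  have h' : x ^ n = 1 := by
    have := congrArg Units.val h
    simpa using this
  have h2 : x⁻¹ = x ^ (n - 1) := by
    apply inv_eq_of_mul_eq_one_right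
    rw [← pow_succ', Nat.sub_add_cancel hn, h']
  rw [h2]
  exact S.pow_mem hx _

lemma arith {q Q s k r : ℕ} (hq : 2 ≤ q) (hQ : q ^ 2 ≤ Q) (hk : 1 ≤ k) (hks : k + 1 ≤ s) (hr : r ≤ q - 1)
    (hkr : k * r = Q - 1) (hs : s * s ≤ Q) : False := by
  obtain ⟨q', rfl⟩ : ∃ q', q = q' + 2 := ⟨q - 2, by omega⟩
  obtain ⟨s', rfl⟩ : ∃ s', s = k + 1 + s' := ⟨s - (k + 1), by omega⟩
  obtain ⟨r', hr'⟩ : ∃ r', q' + 1 = r + r' := ⟨q' + 1 - r, by omega⟩
  have hQ1 : k * r + 1 = Q := by
    have : 1 ≤ Q := by nlinarith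
    omega
  subst hQ1
  have h1 : r = q' + 1 - r' := by omega
  have h2 : k + 2 ≤ r := by
    by_contra hcon
    push Not at hcon
    nlinarith
  nlinarith

lemma gen {F K : Type*} [Field F] [Field K] [Algebra F K] [Finite F] [FiniteDimensional F K]
    (hr : 2 ≤ finrank F K) (S : Subring K) (hS : ∀ a : K, Algebra.norm F a = 1 → a ∈ S) (x : K) : x ∈ S := by
  by_contra hx
  have : Finite K := Module.finite_of_finite F
  let N : Kˣ →* Fˣ := Units.map (Algebra.norm F)
  have hN : ∀ a : Kˣ, a ∈ N.ker ↔ Algebra.norm F (a : K) = 1 := by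
    intro a
    rw [MonoidHom.mem_ker, Units.ext_iff]
    rfl
  have h1 : Nat.card N.ker * Nat.card N.range = Nat.card K - 1 := by
    rw [← Nat.card_units, ← Subgroup.card_mul_index N.ker, Subgroup.index_ker]
  have h2 : Nat.card N.range ≤ Nat.card F - 1 := by
    rw [← Nat.card_units]
    exact Nat.card_le_card_of_injective _ Subtype.val_injective
  have h3 : Nat.card N.ker + 1 ≤ Nat.card S := by
    rw [← Finite.card_option]
    refine Nat.card_le_card_of_injective (fun o => Option.elim o (0 : S) (fun a => ⟨((a : Kˣ) : K), hS _ ((hN _).1 a.2)⟩)) ?_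
    rintro (_ | ⟨a, ha⟩) (_ | ⟨b, hb⟩) hab
    · rfl
    · exact absurd (congrArg Subtype.val hab).symm b.ne_zero
    · exact absurd (congrArg Subtype.val hab) a.ne_zero
    · have : (a : K) = b := congrArg Subtype.val hab
      simp [Units.ext_iff, this]
  have h4 : Nat.card S * Nat.card S ≤ Nat.card K := by
    rw [← Nat.card_prod]
    refine Nat.card_le_card_of_injective (fun p => (p.1 : K) + p.2 * x) ?_
    rintro ⟨a, b⟩ ⟨a', b'⟩ hab
    simp only at hab
    have h5 : (b - b' : K) * x = a' - a := by linear_combination hab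
    have h6 : (b : K) = b' := by
      by_contra h7
      have h8 : (b - b' : K) ≠ 0 := sub_ne_zero.2 h7
      apply hx
      have h9 : x = (b - b' : K)⁻¹ * (a' - a) := by rw [← h5, inv_mul_cancel_left₀ h8]
      rw [h9]
      exact S.mul_mem (inv_mem_sub S (S.sub_mem b.2 b'.2) h8) (S.sub_mem a'.2 a.2)
    have h7 : (a : K) = a' := by
      rw [h6, sub_self, zero_mul] at h5
      exact (sub_eq_zero.1 h5.symm).symm
    rw [Prod.mk.injEq]
    exact ⟨Subtype.ext h7, Subtype.ext h6⟩
  have h5 : Nat.card F ^ 2 ≤ Nat.card K := by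
    rw [Module.natCard_eq_pow_finrank (K := F) (V := K)]
    exact Nat.pow_le_pow_right Nat.card_pos hr
  exact arith Finite.one_lt_card h5 Nat.card_pos h3 h2 h1 h4

end H7.NormGen
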