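import Cfsg.Agent.Lib.H7.ExtLin3
import Cfsg.Agent.Lib.H7.NormGen

set_option autoImplicit false
set_option linter.unusedSectionVars false

/-!
Overgroups of special linear groups over an extension field of prime degree: the case of dimension 2.
-/

namespace H7.ExtLin

open Module H7.ExtF

variable {F K V : Type*} [Field F] [Field K] [Algebra F K] [AddCommGroup V] [Module F V] [Module K V]
  [IsScalarTower F K V] {M : Subgroup (V ≃ₗ[F] V)}

/-- a basis adapted to a line -/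
structure Pr (M : Subgroup (V ≃ₗ[F] V)) (v w : V) (φ0 : Dual K V) : Prop where
  hHM : HL F K V ≤ M
  hn : finrank K V = 2
  h0 : φ0 v = 0
  h1 : φ0 w = 1
  hv : v ≠ 0

variable [Finite F] [FiniteDimensional F V] [FiniteDimensional F K] [FiniteDimensional K V]

lemma HL_of {h : V →ₗ[K] V} (hd : Algebra.norm F (LinearMap.det h) = 1) : ∃ s ∈ HL F K V, ∀ x, s x = h x := by
  have h0 : LinearMap.det h ≠ 0 := by
    intro h1
    rw [h1, Algebra.norm_zero] at hd
    exact zero_ne_one hd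
  refine ⟨(LinearMap.equivOfDetNeZero h h0).restrictScalars F, ⟨fun k x => ?_, ?_⟩, fun x => rfl⟩
  · exact (LinearMap.equivOfDetNeZero h h0).map_smul k x
  · have h1 : (((LinearMap.equivOfDetNeZero h h0).restrictScalars F : V ≃ₗ[F] V) : V →ₗ[F] V) =
        h.restrictScalars F := by
      ext x; rfl
    rw [h1, LinearMap.det_restrictScalars, hd]

namespace Pr

variable {v w : V} {φ0 : Dual K V}

lemma ker_le (P : Pr M v w φ0) {x : V} (hx : φ0 x = 0) : x ∈ ln F K v := by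
  have h1 : Submodule.span K {v} ≤ LinearMap.ker φ0 := by
    rw [Submodule.span_singleton_le_iff_mem]; exact P.h0
  have h2 := LinearMap.finrank_range_add_finrank_ker φ0
  have h3 : finrank K (LinearMap.range φ0) = 1 := by
    rw [LinearMap.range_eq_top.2, finrank_top, finrank_self]
    intro a
    exact ⟨a • w, by rw [map_smul, P.h1, smul_eq_mul, mul_one]⟩
  rw [P.hn, h3] at h2
  have h4 : Submodule.span K {v} = LinearMap.ker φ0 := by
    apply Submodule.eq_of_le_of_finrank_eq h1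
    rw [finrank_span_singleton P.hv]; omega
  have h5 : x ∈ LinearMap.ker φ0 := hx
  rw [← h4] at h5
  exact h5

lemma sub_mem (P : Pr M v w φ0) (x : V) : x - φ0 x • w ∈ ln F K v := by
  apply P.ker_le
  rw [map_sub, map_smul, P.h1, smul_eq_mul, mul_one, sub_self]

/-- the maps occurring in the unipotent radical -/
def R (P : Pr M v w φ0) : AddSubgroup (K →ₗ[F] K) where
  carrier := {ρ | ∃ e ∈ M, ∀ x, e x = x + ρ (φ0 x) • v}
  zero_mem' := ⟨1, M.one_mem, fun x => by simp⟩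
  add_mem' {ρ ρ'} h h' := by
    obtain ⟨e, he, hex⟩ := h
    obtain ⟨e', he', hex'⟩ := h'
    refine ⟨e * e', M.mul_mem he he', fun x => ?_⟩
    show e (e' x) = _
    rw [hex, hex', map_add, map_smul, P.h0, smul_zero, add_zero, LinearMap.add_apply, add_smul]
    abel
  neg_mem' {ρ} h := by
    obtain ⟨e, he, hex⟩ := h
    refine ⟨e⁻¹, M.inv_mem he, fun x => ?_⟩
    apply e.injective
    rw [apply_inv, hex, map_add, map_smul, P.h0, smul_zero, add_zero, LinearMap.neg_apply]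
    module

lemma mem_R (P : Pr M v w φ0) {ρ : K →ₗ[F] K} : ρ ∈ P.R ↔ ∃ e ∈ M, ∀ x, e x = x + ρ (φ0 x) • v := Iff.rfl

lemma id_mem (P : Pr M v w φ0) : LinearMap.id ∈ P.R :=
  ⟨T F P.h0, P.hHM (T_mem _), fun x => T_apply _ _⟩

lemma conj (P : Pr M v w φ0) {s : V ≃ₗ[F] V} (hs : s ∈ HL F K V) {a b : K} (h1 : s v = a • v)
    (h2 : ∀ x, φ0 x = b * φ0 (s x)) {ρ : K →ₗ[F] K} (hρ : ρ ∈ P.R) :
    LinearMap.mulLeft F a ∘ₗ ρ ∘ₗ LinearMap.mulLeft F b ∈ P.R := by
  obtain ⟨e, he, hex⟩ := hρ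
  refine ⟨s * e * s⁻¹, M.mul_mem (M.mul_mem (P.hHM hs) he) (M.inv_mem (P.hHM hs)), fun x => ?_⟩
  obtain ⟨z, rfl⟩ : ∃ z, x = s z := ⟨s⁻¹ x, (apply_inv _ _).symm⟩
  show s (e (s⁻¹ (s z))) = _
  rw [inv_apply, hex, map_add, hs.1, h1, h2 z, smul_smul]
  show _ = s z + (a * ρ (b * φ0 (s z))) • v
  rw [mul_comm (ρ _)]

lemma right (P : Pr M v w φ0) {b : K} (hb : Algebra.norm F b = 1) {ρ : K →ₗ[F] K} (hρ : ρ ∈ P.R) :
    ρ ∘ₗ LinearMap.mulLeft F b ∈ P.R := by
  have hb0 : b ≠ 0 := by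
    rintro rfl
    rw [Algebra.norm_zero] at hb
    exact zero_ne_one hb
  have hbi : Algebra.norm F b⁻¹ = 1 := by
    have := map_mul (Algebra.norm F) b b⁻¹
    rw [mul_inv_cancel₀ hb0, map_one, hb, one_mul] at this
    exact this.symm
  obtain ⟨s, hs, hsx⟩ := HL_of (F := F) (h := LinearMap.transvection ((b⁻¹ - 1) • φ0) w) (by
    rw [LinearMap.transvection.det, LinearMap.smul_apply, P.h1, smul_eq_mul, mul_one, add_sub_cancel, hbi])
  have hsx' : ∀ x, s x = x + ((b⁻¹ - 1) * φ0 x) • w := hsx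
  have h1 : s v = (1 : K) • v := by rw [hsx', P.h0, mul_zero, zero_smul, add_zero, one_smul]
  have h2 : ∀ x, φ0 x = b * φ0 (s x) := by
    intro x
    rw [hsx', map_add, map_smul, P.h1, smul_eq_mul]
    field_simp
    ring
  have h3 := P.conj hs h1 h2 hρ
  rw [LinearMap.mulLeft_one, LinearMap.id_comp] at h3
  exact h3

lemma left (P : Pr M v w φ0) {a : K} (ha : Algebra.norm F a = 1) {ρ : K →ₗ[F] K} (hρ : ρ ∈ P.R) :
    LinearMap.mulLeft F a ∘ₗ ρ ∈ P.R := by
  have ha0 : a ≠ 0 := by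
    rintro rfl
    rw [Algebra.norm_zero] at ha
    exact zero_ne_one ha
  obtain ⟨s, hs, hsx⟩ := HL_of (F := F) (h := a • (LinearMap.id : V →ₗ[K] V)) (by
    rw [LinearMap.det_smul, LinearMap.det_id, mul_one, map_pow, ha, one_pow])
  have hsx' : ∀ x, s x = a • x := hsx
  have h2 : ∀ x, φ0 x = a⁻¹ * φ0 (s x) := by
    intro x
    rw [hsx', map_smul, smul_eq_mul, inv_mul_cancel_left₀ ha0]
  have h3 := P.right ha (P.conj hs (hsx' v) h2 hρ)
  convert h3 using 1
  ext y
  show a * ρ y = a * ρ (a⁻¹ * (a * y))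
  rw [inv_mul_cancel_left₀ ha0]

lemma left' (P : Pr M v w φ0) (hr : 2 ≤ finrank F K) (a : K) {ρ : K →ₗ[F] K} (hρ : ρ ∈ P.R) :
    LinearMap.mulLeft F a ∘ₗ ρ ∈ P.R := by
  let S : Subring K :=
    { carrier := {a | ∀ ρ ∈ P.R, LinearMap.mulLeft F a ∘ₗ ρ ∈ P.R}
      mul_mem' := fun {a b} ha hb ρ hρ => by
        have := ha _ (hb _ hρ)
        rwa [← LinearMap.comp_assoc, ← LinearMap.mulLeft_mul] at this
      one_mem' := fun ρ hρ => by rwa [LinearMap.mulLeft_one, LinearMap.id_comp]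
      add_mem' := fun {a b} ha hb ρ hρ => by
        have : LinearMap.mulLeft F (a + b) ∘ₗ ρ = LinearMap.mulLeft F a ∘ₗ ρ + LinearMap.mulLeft F b ∘ₗ ρ := by
          ext y
          exact add_mul a b (ρ y)
        rw [this]
        exact P.R.add_mem (ha _ hρ) (hb _ hρ)
      zero_mem' := fun ρ hρ => by
        have : LinearMap.mulLeft F (0 : K) ∘ₗ ρ = 0 := by
          ext y
          exact zero_mul (ρ y)
        rw [this]
        exact P.R.zero_mem
      neg_mem' := fun {a} ha ρ hρ => by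
        have : LinearMap.mulLeft F (-a) ∘ₗ ρ = - (LinearMap.mulLeft F a ∘ₗ ρ) := by
          ext y
          exact neg_mul a (ρ y)
        rw [this]
        exact P.R.neg_mem (ha _ hρ) }
  exact H7.NormGen.gen (F := F) hr S (fun a ha ρ hρ => P.left ha hρ) a ρ hρ

lemma right' (P : Pr M v w φ0) (hr : 2 ≤ finrank F K) (b : K) {ρ : K →ₗ[F] K} (hρ : ρ ∈ P.R) :
    ρ ∘ₗ LinearMap.mulLeft F b ∈ P.R := by
  let S : Subring K :=
    { carrier := {b | ∀ ρ ∈ P.R, ρ ∘ₗ LinearMap.mulLeft F b ∈ P.R}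
      mul_mem' := fun {a b} ha hb ρ hρ => by
        have := hb _ (ha _ hρ)
        rwa [LinearMap.comp_assoc, ← LinearMap.mulLeft_mul] at this
      one_mem' := fun ρ hρ => by rwa [LinearMap.mulLeft_one, LinearMap.comp_id]
      add_mem' := fun {a b} ha hb ρ hρ => by
        have : ρ ∘ₗ LinearMap.mulLeft F (a + b) = ρ ∘ₗ LinearMap.mulLeft F a + ρ ∘ₗ LinearMap.mulLeft F b := by
          ext y
          show ρ ((a + b) * y) = ρ (a * y) + ρ (b * y)
          rw [add_mul, map_add]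
        rw [this]
        exact P.R.add_mem (ha _ hρ) (hb _ hρ)
      zero_mem' := fun ρ hρ => by
        have : ρ ∘ₗ LinearMap.mulLeft F (0 : K) = 0 := by
          ext y
          show ρ (0 * y) = 0
          rw [zero_mul, map_zero]
        rw [this]
        exact P.R.zero_mem
      neg_mem' := fun {a} ha ρ hρ => by
        have : ρ ∘ₗ LinearMap.mulLeft F (-a) = - (ρ ∘ₗ LinearMap.mulLeft F a) := by
          ext y
          show ρ ((-a) * y) = - ρ (a * y)
          rw [neg_mul, map_neg]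
        rw [this]
        exact P.R.neg_mem (ha _ hρ) }
  exact H7.NormGen.gen (F := F) hr S (fun a ha ρ hρ => P.right ha hρ) b ρ hρ

/-- a map of rank one is enough -/
lemma pa (P : Pr M v w φ0) (hr : 2 ≤ finrank F K) {l : K →ₗ[F] F} (hl : l ≠ 0) {c : K} (hc : c ≠ 0)
    (h : l.smulRight c ∈ P.R) : PA K M := by
  refine pa_of (by rw [P.hn]) P.hHM P.hv (fun χ hχ => ?_)
  obtain ⟨φ, hφ⟩ := lift hl χ
  have h5 : φ v = 0 := by
    by_contra h6
    apply hl
    ext k
    have h7 := hχ (k * (φ v)⁻¹)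
    rwa [hφ, map_smul, smul_eq_mul, inv_mul_cancel_right₀ h6] at h7
  have h6 : ∀ x, φ x = φ w * φ0 x := by
    intro x
    obtain ⟨k, hk⟩ := mem_ln.1 (P.sub_mem x)
    have h7 : φ (x - φ0 x • w) = 0 := by rw [← hk, map_smul, h5, smul_zero]
    rw [map_sub, map_smul, smul_eq_mul, sub_eq_zero] at h7
    rw [h7, mul_comm]
  obtain ⟨e, he, hex⟩ := P.left' hr c⁻¹ (P.right' hr (φ w) h)
  refine ⟨e, he, fun x => ?_⟩
  rw [hex, hφ x, h6 x]
  show _ + (c⁻¹ * (l (φ w * φ0 x) • c)) • v = _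
  rw [mul_smul_comm, inv_mul_cancel₀ hc, smul_assoc, one_smul]

/-- degree two: maps that are not multiplications -/
lemma pa2 (P : Pr M v w φ0) (hr : finrank F K = 2) {ρ : K →ₗ[F] K} (hρ : ρ ∈ P.R) {y : K} (hy : ρ y ≠ ρ 1 * y) :
    PA K M := by
  obtain ⟨ρ', hρ'⟩ : ∃ ρ', ρ' = ρ - LinearMap.mulLeft F (ρ 1) := ⟨_, rfl⟩
  have hρ'x : ∀ x, ρ' x = ρ x - ρ 1 * x := fun x => by rw [hρ']; rfl
  have h1 : ρ' ∈ P.R := by
    rw [hρ']
    have h2 := P.left' hr.ge (ρ 1) P.id_mem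
    rw [LinearMap.comp_id] at h2
    exact P.R.sub_mem hρ h2
  have h2 : ρ' 1 = 0 := by rw [hρ'x, mul_one, sub_self]
  have h3 : ρ' y ≠ 0 := by rw [hρ'x, sub_ne_zero]; exact hy
  have h4 : finrank F (LinearMap.range ρ') ≤ 1 := by
    have h5 := LinearMap.finrank_range_add_finrank_ker ρ'
    have h6 : LinearMap.ker ρ' ≠ ⊥ := by
      rw [Submodule.ne_bot_iff]
      exact ⟨1, h2, one_ne_zero⟩
    have h7 : 0 < finrank F (LinearMap.ker ρ') := by
      rw [Nat.pos_iff_ne_zero]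
      intro h8
      exact h6 (Submodule.finrank_eq_zero.1 h8)
    omega
  have h5 : LinearMap.range ρ' = Submodule.span F {ρ' y} := by
    symm
    apply Submodule.eq_of_le_of_finrank_le
    · rw [Submodule.span_singleton_le_iff_mem]; exact ⟨y, rfl⟩
    · rw [finrank_span_singleton h3]; exact h4
  obtain ⟨m, hm⟩ : ∃ m : K →ₗ[F] F, m (ρ' y) = 1 := by
    by_contra hcon
    push Not at hcon
    apply h3
    rw [← Module.forall_dual_apply_eq_zero_iff F]
    intro m
    by_contra hm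
    apply hcon ((m (ρ' y))⁻¹ • m)
    rw [LinearMap.smul_apply, smul_eq_mul, inv_mul_cancel₀ hm]
  refine P.pa hr.ge (l := m ∘ₗ ρ') ?_ h3 ?_
  · intro h6
    have := LinearMap.congr_fun h6 y
    rw [LinearMap.comp_apply, hm] at this
    exact one_ne_zero this
  · have : (m ∘ₗ ρ').smulRight (ρ' y) = ρ' := by
      ext x
      have hx : ρ' x ∈ LinearMap.range ρ' := ⟨x, rfl⟩
      rw [h5, Submodule.mem_span_singleton] at hx
      obtain ⟨a, ha⟩ := hx
      rw [LinearMap.smulRight_apply, LinearMap.comp_apply, ← ha, map_smul, hm, smul_eq_mul, mul_one]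
    rw [this]
    exact h1

end Pr

end H7.ExtLin
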