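import Cfsg.Agent.Lib.H7.ExtLin4

set_option autoImplicit false
set_option linter.unusedSectionVars false

/-!
Overgroups of special linear groups over an extension field of prime degree: dimension 2, odd degree.
-/

namespace H7.ExtLin

open Module H7.ExtF

variable {F K V : Type*} [Field F] [Field K] [Algebra F K] [AddCommGroup V] [Module F V] [Module K V]
  [IsScalarTower F K V] {M : Subgroup (V ≃ₗ[F] V)}
variable [Finite F] [FiniteDimensional F V] [FiniteDimensional F K] [FiniteDimensional K V]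

lemma dual_surj {l : K →ₗ[F] F} (hl : l ≠ 0) (m : K →ₗ[F] F) : ∃ c : K, ∀ k, m k = l (c * k) := by
  obtain ⟨φ, hφ⟩ := lift (F := F) (K := K) (V := K) hl m
  refine ⟨φ 1, fun k => ?_⟩
  rw [hφ]
  congr 1
  have := φ.map_smul k 1
  rw [smul_eq_mul, mul_one, smul_eq_mul] at this
  rw [this, mul_comm]

/-- the commutator with a rank one map -/
def Q (l : K →ₗ[F] F) (k : K) : K →ₗ[F] K := l.smulRight k - (l ∘ₗ LinearMap.mulLeft F k).smulRight 1

lemma Q_apply (l : K →ₗ[F] F) (k y : K) : Q l k y = l y • k - l (k * y) • 1 := rfl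

namespace Pr

variable {v w : V} {φ0 : Dual K V}

lemma pa3 (P : Pr M v w φ0) (hr : (finrank F K).Prime) {l : K →ₗ[F] F} (hl : l ≠ 0) {e : K}
    (he : ∀ a : F, algebraMap F K a ≠ e) (h : Q l e ∈ P.R) : PA K M := by
  have hr2 := hr.two_le
  let A : Subalgebra F K :=
    { carrier := {k | Q l k ∈ P.R}
      mul_mem' := fun {a b} ha hb => by
        have h1 := P.R.add_mem (P.left' hr2 a hb) (P.right' hr2 b ha)
        have h2 : LinearMap.mulLeft F a ∘ₗ Q l b + Q l a ∘ₗ LinearMap.mulLeft F b = Q l (a * b) := by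
          ext y
          show a * Q l b y + Q l a (b * y) = Q l (a * b) y
          rw [Q_apply, Q_apply, Q_apply, mul_sub, mul_smul_comm, mul_smul_comm, mul_one, mul_assoc]
          abel
        rw [h2] at h1
        exact h1
      add_mem' := fun {a b} ha hb => by
        have h1 := P.R.add_mem ha hb
        have h2 : Q l a + Q l b = Q l (a + b) := by
          ext y
          show Q l a y + Q l b y = Q l (a + b) y
          rw [Q_apply, Q_apply, Q_apply, smul_add, add_mul, map_add, add_smul]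
          abel
        rw [h2] at h1
        exact h1
      algebraMap_mem' := fun a => by
        have h2 : Q l (algebraMap F K a) = 0 := by
          ext y
          show Q l (algebraMap F K a) y = 0
          rw [Q_apply, ← Algebra.smul_def, map_smul, ← Algebra.algebraMap_eq_smul_one (R := F) (A := K) (a • l y),
            smul_eq_mul, map_mul, Algebra.smul_def, mul_comm, sub_self]
        show Q l (algebraMap F K a) ∈ P.R
        rw [h2]
        exact P.R.zero_mem }
  have hA : ∀ k, Q l k ∈ P.R := by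
    intro k
    have hs := Subalgebra.isSimpleOrder_of_finrank_prime F K hr
    rcases hs.eq_bot_or_eq_top A with h1 | h1
    · have h2 : e ∈ A := h
      rw [h1, Algebra.mem_bot] at h2
      obtain ⟨a, ha⟩ := h2
      exact absurd ha (he a)
    · have h2 : k ∈ A := by rw [h1]; exact Algebra.mem_top
      exact h2
  let b := finBasis F K
  have hc : ∀ j, ∃ c : K, ∀ k, b.coord j k = l (c * k) := fun j => dual_surj hl (b.coord j)
  choose c hc using hc
  obtain ⟨κ, hκ⟩ : ∃ κ, κ = ∑ j, c j * b j := ⟨_, rfl⟩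
  have h1 : ∑ j, LinearMap.mulLeft F (b j) ∘ₗ Q l (c j) + LinearMap.id ∈ P.R :=
    P.R.add_mem (P.R.sum_mem (fun j _ => P.left' hr2 _ (hA _))) P.id_mem
  have h2 : ∑ j, LinearMap.mulLeft F (b j) ∘ₗ Q l (c j) + LinearMap.id = l.smulRight κ := by
    ext y
    rw [LinearMap.add_apply, LinearMap.sum_apply, LinearMap.smulRight_apply, hκ, Finset.smul_sum]
    have h3 : ∀ j, (LinearMap.mulLeft F (b j) ∘ₗ Q l (c j)) y = l y • (c j * b j) - b.repr y j • b j := by
      intro j
      show b j * Q l (c j) y = _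
      have h4 : b.repr y j = l (c j * y) := hc j y
      rw [Q_apply, mul_sub, mul_smul_comm, mul_smul_comm, mul_one, h4, mul_comm (b j)]
    rw [Finset.sum_congr rfl (fun j _ => h3 j), Finset.sum_sub_distrib, b.sum_repr]
    simp
  rw [h2] at h1
  refine P.pa hr2 hl ?_ h1
  intro h0
  have : Finite K := Module.finite_of_finite F
  apply Algebra.trace_ne_zero F K
  ext a
  rw [Algebra.trace_eq_matrix_trace b, Matrix.trace]
  have h3 : ∀ j, (Algebra.leftMulMatrix b a).diag j = l (a * (c j * b j)) := by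
    intro j
    rw [Matrix.diag_apply, Algebra.leftMulMatrix_eq_repr_mul]
    have h4 : b.repr (a * b j) j = l (c j * (a * b j)) := hc j _
    rw [h4]
    congr 1
    ring
  rw [Finset.sum_congr rfl (fun j _ => h3 j), ← map_sum, ← Finset.mul_sum, ← hκ, h0, mul_zero, map_zero]
  rfl

end Pr

variable {v u w : V} {D : Submodule F V} {g : V ≃ₗ[F] V} {f : Dual F V}

lemma Cfg.mem_D (C : Cfg K M v D g u w f) {k : K} (hk : lf K f v k = 0) : k • v ∈ D := by
  have h := C.decomp (smul_mem_ln v k)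
  rw [lf_apply] at hk
  rwa [hk, zero_smul, sub_zero] at h

lemma Cfg.exists_rho (C : Cfg K M v D g u w f) {φ0 : Dual K V} (P : Pr M v w φ0) {c1 : K}
    (hc1 : lf K f v c1 = 0) : ∃ ν : K →ₗ[F] F, ∀ κ, lf K f v κ = 0 →
      (lf K f v ∘ₗ LinearMap.mulLeft F κ).smulRight c1 - ν.smulRight κ ∈ P.R := by
  obtain ⟨μ, hμ, hc⟩ := C.exists_c (C.mem_D hc1)
  refine ⟨μ ∘ₗ ((LinearMap.toSpanSingleton K V w).restrictScalars F), fun κ hκ => ?_⟩
  have h1 : (κ • φ0) w = κ := by rw [LinearMap.smul_apply, P.h1, smul_eq_mul, mul_one]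
  obtain ⟨c, hcM, hcx⟩ := hc (κ • φ0) (by rw [LinearMap.smul_apply, P.h0, smul_zero]) (by
    rw [h1]; exact C.mem_D hκ)
  refine ⟨c, hcM, fun x => ?_⟩
  have h2 : μ x = μ (φ0 x • w) := by
    have h3 := hμ _ (P.sub_mem x)
    rwa [map_sub, sub_eq_zero] at h3
  rw [hcx, h1, h2]
  show _ = x + (f ((κ * φ0 x) • v) • c1 - μ (φ0 x • w) • κ) • v
  rw [sub_smul, smul_assoc, smul_assoc, LinearMap.smul_apply, smul_eq_mul]
  abel

theorem case2odd (C : Cfg K M v D g u w f) (hr : (finrank F K).Prime) (hr3 : 3 ≤ finrank F K)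
    (h2 : finrank K V = 2) : PA K M := by
  obtain ⟨φ0, e1, e2⟩ := fun2 C.hv C.hwL (0 : K) 1
  have P : Pr M v w φ0 := ⟨C.hHM, h2, e1, e2, C.hv⟩
  obtain ⟨l, hl⟩ : ∃ l, l = lf K f v := ⟨_, rfl⟩
  have hl0 : l ≠ 0 := hl ▸ C.lf_ne
  -- two independent elements
  obtain ⟨c2, hc2, c2', hc2', h0, hne⟩ : ∃ c2, l c2 = 0 ∧ ∃ c2', l c2' = 0 ∧ c2 ≠ 0 ∧ ∀ a : F, a • c2 ≠ c2' := by
    have h3 := LinearMap.finrank_range_add_finrank_ker l
    have h4 : finrank F (LinearMap.range l) ≤ 1 := by
      refine (Submodule.finrank_le _).trans ?_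
      rw [finrank_self]
    have h5 : LinearMap.ker l ≠ ⊥ := by
      intro h6
      rw [h6, finrank_bot] at h3
      omega
    obtain ⟨c2, hc2, h0⟩ := (Submodule.ne_bot_iff _).1 h5
    by_contra hcon
    push Not at hcon
    have h6 : LinearMap.ker l ≤ Submodule.span F {c2} := by
      intro c hc
      rw [Submodule.mem_span_singleton]
      exact hcon c2 hc2 c hc h0
    have h7 := Submodule.finrank_mono h6
    rw [finrank_span_singleton h0] at h7
    omega
  obtain ⟨ν, hν⟩ := C.exists_rho P (hl ▸ hc2)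
  rw [← hl] at hν
  have hr2 := hr.two_le
  have h3 := P.R.sub_mem (P.left' hr2 (c2' * c2⁻¹) (hν c2 hc2)) (hν c2' hc2')
  have h4 := P.left' hr2 c2⁻¹ (P.right' hr2 c2⁻¹ h3)
  refine P.pa3 hr hl0 (e := c2' * c2⁻¹) (fun a ha => ?_) ?_
  · apply hne a
    rw [Algebra.smul_def, ha, inv_mul_cancel_right₀ h0]
  · convert h4 using 1
    ext y
    show Q l (c2' * c2⁻¹) y = c2⁻¹ * (c2' * c2⁻¹ * (l (c2 * (c2⁻¹ * y)) • c2 - ν (c2⁻¹ * y) • c2) -
      (l (c2' * (c2⁻¹ * y)) • c2 - ν (c2⁻¹ * y) • c2'))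
    rw [mul_inv_cancel_left₀ h0, Q_apply]
    simp only [Algebra.smul_def, mul_one]
    rw [mul_assoc c2' c2⁻¹ y]
    field_simp
    ring

end H7.ExtLin
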