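import Cfsg.Agent.Lib.H7.ExtLin5

set_option autoImplicit false
set_option linter.unusedSectionVars false

/-!
Overgroups of special linear groups over an extension field of prime degree: dimension 2, degree 2, large field.
-/

namespace H7.ExtLin

open Module H7.ExtF

variable {F K V : Type*} [Field F] [Field K] [Algebra F K] [AddCommGroup V] [Module F V] [Module K V]
  [IsScalarTower F K V] {M : Subgroup (V ≃ₗ[F] V)}
variable [Finite F] [FiniteDimensional F V] [FiniteDimensional F K] [FiniteDimensional K V]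
variable {v u w : V} {D : Submodule F V} {g : V ≃ₗ[F] V} {f : Dual F V}

theorem case22 (C : Cfg K M v D g u w f) (hr : finrank F K = 2) (h2 : finrank K V = 2) (hF : 2 < Nat.card F) :
    PA K M := by
  by_contra hPA
  obtain ⟨φ0, e1, e2⟩ := fun2 C.hv C.hwL (0 : K) 1
  have P : Pr M v w φ0 := ⟨C.hHM, h2, e1, e2, C.hv⟩
  obtain ⟨l, hl⟩ : ∃ l, l = lf K f v := ⟨_, rfl⟩
  have hlf : ∀ k, l k = f (k • v) := fun k => by rw [hl]; rfl
  have hl0 : l ≠ 0 := hl ▸ C.lf_ne
  have hR : ∀ ρ ∈ P.R, ∀ y, ρ y = ρ 1 * y := by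
    intro ρ hρ y
    by_contra hy
    exact hPA (P.pa2 hr hρ hy)
  obtain ⟨d, hd, hd0⟩ := C.exists_d (by rw [hr]; exact Nat.prime_two)
  obtain ⟨d0, hd0v⟩ := mem_ln.1 (C.hD hd)
  have hd00 : d0 ≠ 0 := by
    rintro rfl
    rw [zero_smul] at hd0v
    exact hd0 hd0v.symm
  have hld0 : l d0 = 0 := by rw [hlf, hd0v, C.hf0 d hd]
  obtain ⟨α, hα⟩ : ∃ α : F → (K →ₗ[F] K), ∀ c k, α c k = k + (c * l k) • d0 :=
    ⟨fun c => LinearMap.id + (c • l).smulRight d0, fun c k => rfl⟩
  have hαd : ∀ c, α c d0 = d0 := fun c => by rw [hα, hld0, mul_zero, zero_smul, add_zero]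
  have hnF : ∃ y : K, ∀ a : F, algebraMap F K a ≠ y := by
    by_contra hcon
    push Not at hcon
    have h3 : (⊤ : Submodule F K) ≤ Submodule.span F {1} := by
      intro x _
      obtain ⟨a, ha⟩ := hcon x
      rw [Submodule.mem_span_singleton]
      exact ⟨a, by rw [Algebra.smul_def, mul_one, ha]⟩
    have h4 := Submodule.finrank_mono h3
    rw [finrank_top, finrank_span_singleton one_ne_zero, hr] at h4
    omega
  have key : ∀ c, ∀ x y, α c x * α c y = α c 1 * α c (x * y) := by
    intro c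
    obtain ⟨a, haM, μ, h3, h4, h5⟩ := C.exists_a (D.smul_mem c hd)
    obtain ⟨ν, hν⟩ : ∃ ν : K →ₗ[F] F, ∀ y, ν y = μ (y • w) :=
      ⟨μ ∘ₗ ((LinearMap.toSpanSingleton K V w).restrictScalars F), fun y => rfl⟩
    have hμν : ∀ x, μ x = ν (φ0 x) := by
      intro x
      have h3 := h4 _ (P.sub_mem x)
      rw [map_sub, sub_eq_zero] at h3
      rw [h3, hν]
    have hac : ∀ k : K, a (k • v) = α c k • v := by
      intro k
      rw [h3 _ (smul_mem_ln _ _), hα, add_smul, ← hlf, smul_assoc, hd0v, mul_comm, mul_smul]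
    have hinj : ∀ k, α c k = 0 → k = 0 := by
      intro k hk
      have := hac k
      rw [hk, zero_smul, LinearEquiv.map_eq_zero_iff] at this
      exact (smul_eq_zero.1 this).resolve_right C.hv
    have hmem : ∀ κ : K, α c ∘ₗ LinearMap.mulLeft F κ ∘ₗ (LinearMap.id - ν.smulRight 1) ∈ P.R := by
      intro κ
      have hκ : (κ • φ0) v = 0 := by rw [LinearMap.smul_apply, P.h0, smul_zero]
      refine ⟨a * T F hκ * a⁻¹, M.mul_mem (M.mul_mem haM (C.hHM (T_mem _))) (M.inv_mem haM), fun x => ?_⟩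
      show a (T F hκ (a⁻¹ x)) = _
      obtain ⟨d', hd', hx⟩ := h5 x
      have h6 : φ0 (a⁻¹ x) = φ0 x - ν (φ0 x) • 1 := by
        have h7 : φ0 d' = 0 := by
          obtain ⟨k, rfl⟩ := mem_ln.1 (C.hD hd')
          rw [map_smul, P.h0, smul_zero]
        have h8 : φ0 (μ x • w) = μ x • (1 : K) := by
          rw [← algebraMap_smul K (μ x) w, map_smul, P.h1, smul_eq_mul, mul_one, Algebra.smul_def, mul_one]
        rw [hx, map_sub, map_sub, h7, sub_zero, h8, hμν]
      rw [T_apply, map_add, apply_inv, LinearMap.smul_apply, h6, smul_eq_mul, hac]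
      rfl
    have h6 : ∀ κ y, α c (κ * (y - ν y • 1)) = α c (κ * (1 - ν 1 • 1)) * y := fun κ y => hR _ (hmem κ) y
    have hb : (1 : F) - ν 1 ≠ 0 := by
      intro h7
      obtain ⟨y, hy⟩ := hnF
      have h8 := h6 1 y
      have h9 : (1 : K) - ν 1 • 1 = 0 := by
        rw [sub_eq_zero] at h7
        rw [← h7, one_smul, sub_self]
      rw [h9, mul_zero, map_zero, zero_mul, one_mul] at h8
      have h10 := hinj _ h8
      apply hy (ν y)
      rw [sub_eq_zero] at h10
      rw [Algebra.algebraMap_eq_smul_one]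
      exact h10.symm
    have h7 : ∀ κ y, α c (κ * (y - ν y • 1)) = (1 - ν 1) • (α c κ * y) := by
      intro κ y
      rw [h6]
      have : κ * (1 - ν 1 • 1) = (1 - ν 1) • κ := by
        rw [sub_smul, one_smul, mul_sub, mul_one, mul_smul_comm, mul_one]
      rw [this, map_smul, smul_mul_assoc]
    have hsurj : ∀ z : K, ∃ y, y - ν y • 1 = z := by
      have h8 : Function.Injective (LinearMap.id - ν.smulRight (1 : K) : K →ₗ[F] K) := by
        rw [← LinearMap.ker_eq_bot, LinearMap.ker_eq_bot']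
        intro y hy
        have h9 : y = ν y • 1 := sub_eq_zero.1 hy
        have h10 : ν y = ν y * ν 1 := by
          conv_lhs => rw [h9]
          rw [map_smul, smul_eq_mul]
        have h11 : ν y * (1 - ν 1) = 0 := by rw [mul_sub, mul_one, ← h10, sub_self]
        rw [h9, (mul_eq_zero.1 h11).resolve_right hb, zero_smul]
      intro z
      obtain ⟨y, hy⟩ := LinearMap.injective_iff_surjective.1 h8 z
      exact ⟨y, hy⟩
    intro x z
    obtain ⟨y, rfl⟩ := hsurj z
    rw [h7]
    have h8 := h7 1 y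
    rw [one_mul] at h8
    rw [h8, mul_smul_comm, mul_smul_comm]
    congr 1
    ring
  have hα1 : ∀ c, α c 1 ≠ 0 := by
    intro c h0
    have := key c d0 d0
    rw [h0, zero_mul, hαd] at this
    exact hd00 (mul_self_eq_zero.1 this)
  let θ : F → (K →ₐ[F] K) := fun c => AlgHom.ofLinearMap ((LinearMap.mulLeft F (α c 1)⁻¹) ∘ₗ α c)
    (inv_mul_cancel₀ (hα1 c)) (fun x y => by
      show (α c 1)⁻¹ * α c (x * y) = (α c 1)⁻¹ * α c x * ((α c 1)⁻¹ * α c y)
      have h3 := key c x y
      have h4 := hα1 c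
      field_simp
      rw [h3])
  have hθ : ∀ c x, θ c x = (α c 1)⁻¹ * α c x := fun c x => rfl
  have hθi : Function.Injective θ := by
    intro c c' hcc
    have h3 := DFunLike.congr_fun hcc d0
    rw [hθ, hθ, hαd, hαd] at h3
    have h4 := mul_right_cancel₀ hd00 h3
    obtain ⟨k, hk⟩ : ∃ k, l k ≠ 0 := by
      by_contra hcon
      push Not at hcon
      exact hl0 (LinearMap.ext hcon)
    have h5 := DFunLike.congr_fun hcc k
    rw [hθ, hθ, h4] at h5
    have h6 := mul_left_cancel₀ (inv_ne_zero (hα1 c')) h5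
    rw [hα, hα, add_right_inj] at h6
    have h7 := smul_left_injective F hd00 h6
    exact mul_right_cancel₀ hk h7
  have : Finite (K →ₐ[F] K) := inferInstance
  have h8 := Nat.card_le_card_of_injective θ hθi
  have h9 : Nat.card (K →ₐ[F] K) ≤ finrank F K := card_algHom_le_finrank F K K
  omega

end H7.ExtLin
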