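import Cfsg.Agent.Lib.H7.ExtLin6
set_option autoImplicit false
open Matrix
namespace H7.SmallTwo

/-- the matrix of a generator of the field with four elements -/
def Om : Matrix (Fin 4) (Fin 4) (ZMod 2) := !![0, 1, 0, 0; 1, 1, 0, 0; 0, 0, 0, 1; 0, 0, 1, 1]

/-- the normal forms -/
def Gm (a b c : ZMod 2) : Matrix (Fin 4) (Fin 4) (ZMod 2) := !![1, 0, 0, a; 0, 0, 1, c; 0, 1, 0, b; 0, 0, 0, 1]

lemma witness (a b c : ZMod 2) : ∃ (H1 H1' H2 H2' : Matrix (Fin 4) (Fin 4) (ZMod 2)) (y χ : Fin 4 → ZMod 2),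
    H1 * Om = Om * H1 ∧ H1 * H1' = 1 ∧ H2 * Om = Om * H2 ∧ H2 * H2' = 1 ∧ y ≠ 0 ∧ χ ≠ 0 ∧
    Gm a b c * H1 = (1 + vecMulVec y χ) * H2 * Gm a b c := by
  fin_cases a <;> fin_cases b <;> fin_cases c
  exacts [
    ⟨!![0, 0, 1, 1; 0, 0, 1, 0; 0, 1, 0, 0; 1, 1, 0, 0], !![0, 0, 1, 1; 0, 0, 1, 0; 0, 1, 0, 0; 1, 1, 0, 0], !![0, 0, 1, 1; 0, 0, 1, 0; 0, 1, 0, 0; 1, 1, 0, 0], !![0, 0, 1, 1; 0, 0, 1, 0; 0, 1, 0, 0; 1, 1, 0, 0], ![1, 0, 0, 1], ![0, 1, 1, 0], by decide⟩,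
    ⟨!![0, 0, 1, 1; 0, 0, 1, 0; 1, 0, 0, 0; 0, 1, 0, 0], !![0, 0, 1, 0; 0, 0, 0, 1; 0, 1, 0, 0; 1, 1, 0, 0], !![0, 1, 0, 0; 1, 1, 0, 0; 0, 0, 1, 1; 0, 0, 1, 0], !![1, 1, 0, 0; 1, 0, 0, 0; 0, 0, 0, 1; 0, 0, 1, 1], ![0, 1, 1, 0], ![1, 0, 0, 1], by decide⟩,
    ⟨!![0, 1, 0, 0; 1, 1, 0, 0; 0, 0, 1, 1; 0, 0, 1, 0], !![1, 1, 0, 0; 1, 0, 0, 0; 0, 0, 0, 1; 0, 0, 1, 1], !![0, 0, 1, 1; 0, 0, 1, 0; 1, 0, 0, 0; 0, 1, 0, 0], !![0, 0, 1, 0; 0, 0, 0, 1; 0, 1, 0, 0; 1, 1, 0, 0], ![0, 1, 1, 0], ![1, 0, 0, 1], by decide⟩,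
    ⟨!![0, 0, 1, 1; 0, 0, 1, 0; 1, 0, 0, 0; 0, 1, 0, 0], !![0, 0, 1, 0; 0, 0, 0, 1; 0, 1, 0, 0; 1, 1, 0, 0], !![0, 1, 0, 0; 1, 1, 0, 0; 0, 0, 0, 1; 0, 0, 1, 1], !![1, 1, 0, 0; 1, 0, 0, 0; 0, 0, 1, 1; 0, 0, 1, 0], ![0, 1, 1, 0], ![1, 0, 0, 1], by decide⟩,
    ⟨!![0, 0, 0, 1; 0, 0, 1, 1; 1, 0, 0, 0; 0, 1, 0, 0], !![0, 0, 1, 0; 0, 0, 0, 1; 1, 1, 0, 0; 1, 0, 0, 0], !![0, 1, 0, 1; 1, 1, 1, 1; 0, 0, 1, 1; 0, 0, 1, 0], !![1, 1, 0, 1; 1, 0, 1, 1; 0, 0, 0, 1; 0, 0, 1, 1], ![1, 1, 1, 0], ![1, 0, 1, 0], by decide⟩,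
    ⟨!![0, 0, 0, 1; 0, 0, 1, 1; 1, 0, 0, 0; 0, 1, 0, 0], !![0, 0, 1, 0; 0, 0, 0, 1; 1, 1, 0, 0; 1, 0, 0, 0], !![0, 1, 0, 0; 1, 1, 0, 0; 0, 0, 1, 1; 0, 0, 1, 0], !![1, 1, 0, 0; 1, 0, 0, 0; 0, 0, 0, 1; 0, 0, 1, 1], ![1, 1, 1, 0], ![1, 0, 1, 0], by decide⟩,
    ⟨!![0, 1, 0, 0; 1, 1, 0, 0; 0, 0, 1, 1; 0, 0, 1, 0], !![1, 1, 0, 0; 1, 0, 0, 0; 0, 0, 0, 1; 0, 0, 1, 1], !![0, 0, 0, 1; 0, 0, 1, 1; 1, 0, 0, 0; 0, 1, 0, 0], !![0, 0, 1, 0; 0, 0, 0, 1; 1, 1, 0, 0; 1, 0, 0, 0], ![1, 1, 1, 0], ![1, 1, 0, 1], by decide⟩,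
    ⟨!![0, 0, 0, 1; 0, 0, 1, 1; 1, 0, 0, 0; 0, 1, 0, 0], !![0, 0, 1, 0; 0, 0, 0, 1; 1, 1, 0, 0; 1, 0, 0, 0], !![0, 1, 0, 0; 1, 1, 0, 0; 0, 0, 0, 1; 0, 0, 1, 1], !![1, 1, 0, 0; 1, 0, 0, 0; 0, 0, 1, 1; 0, 0, 1, 0], ![1, 1, 1, 0], ![1, 0, 1, 1], by decide⟩]

end H7.SmallTwo

namespace H7.ExtLin

open Module H7.ExtF H7.SmallTwo

variable {F K V : Type*} [Field F] [Field K] [Algebra F K] [AddCommGroup V] [Module F V] [Module K V]
  [IsScalarTower F K V] {M : Subgroup (V ≃ₗ[F] V)}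
variable [Finite F] [FiniteDimensional F V] [FiniteDimensional F K] [FiniteDimensional K V]
variable {v u w : V} {D : Submodule F V} {g : V ≃ₗ[F] V} {f : Dual F V}

lemma exists_not_ln (h2 : 2 ≤ finrank K V) (x : V) : ∃ z, z ∉ ln F K x := by
  by_contra hcon
  push Not at hcon
  have h1 : (Submodule.span K {x}) = ⊤ := by
    rw [eq_top_iff]; intro y _; exact hcon y
  have h2 := finrank_span_le_card (R := K) ({x} : Set V)
  rw [h1, finrank_top] at h2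
  simp at h2
  omega

/-- one transvection is enough -/
lemma pa_of_ft (hHM : HL F K V ≤ M) (h2 : finrank K V = 2) (hr : 2 ≤ finrank F K) {χ : Dual F V} {y : V}
    (hχ : χ ≠ 0) (hy : y ≠ 0) (hχy : χ y = 0) (h : FT M χ y) : PA K M := by
  obtain ⟨w, hw⟩ := exists_not_ln (F := F) h2.ge y
  obtain ⟨φ0, e1, e2⟩ := fun2 hy hw (0 : K) 1
  have P : Pr M y w φ0 := ⟨hHM, h2, e1, e2, hy⟩
  have hA : ∀ χ : Dual F V, χ ≠ 0 → (∀ k : K, χ (k • y) = 0) → FT M χ y → PA K M := by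
    intro χ hχ hχy h
    have h3 : ∀ x, χ x = χ (φ0 x • w) := by
      intro x
      obtain ⟨k, hk⟩ := mem_ln.1 (P.sub_mem x)
      rw [← sub_eq_zero, ← map_sub, ← hk, hχy]
    obtain ⟨l, hl⟩ : ∃ l : K →ₗ[F] F, ∀ k, l k = χ (k • w) :=
      ⟨χ ∘ₗ ((LinearMap.toSpanSingleton K V w).restrictScalars F), fun y => rfl⟩
    refine P.pa hr (l := l) ?_ one_ne_zero ?_
    · intro h4
      apply hχ
      ext x
      rw [h3, ← hl, h4]
      rfl
    · obtain ⟨e, he, hex⟩ := h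
      refine ⟨e, he, fun x => ?_⟩
      rw [hex, h3, ← hl, LinearMap.smulRight_apply, smul_assoc, one_smul]
  by_cases hk : ∀ k : K, χ (k • y) = 0
  · exact hA χ hχ hk h
  push Not at hk
  obtain ⟨k, hk⟩ := hk
  obtain ⟨χ', hχ'⟩ : ∃ χ' : Dual F V, ∀ x, χ' x = χ x + χ (φ0 x • y) :=
    ⟨χ + χ ∘ₗ ((LinearMap.toSpanSingleton K V y).restrictScalars F) ∘ₗ (φ0.restrictScalars F), fun x => rfl⟩
  have h3 : FT M χ' y := by
    refine h.conj (M.inv_mem (hHM (T_mem P.h0))) (fun x => ?_) ?_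
    · obtain ⟨z, rfl⟩ : ∃ z, x = T F P.h0 z := ⟨(T F P.h0)⁻¹ x, (apply_inv _ _).symm⟩
      rw [inv_apply, hχ', T_apply, map_add]
    · apply (T F P.h0).injective
      rw [apply_inv, T_apply, P.h0, zero_smul, add_zero]
  have h4 : χ' y = 0 := by rw [hχ', P.h0, zero_smul, map_zero, add_zero, hχy]
  have h5 := h3.add (h.neg hχy) h4
  refine hA _ ?_ ?_ h5
  · intro h6
    have h7 := LinearMap.congr_fun h6 (k • w)
    have h8 : φ0 (k • w) = k := by rw [map_smul, P.h1, smul_eq_mul, mul_one]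
    rw [LinearMap.add_apply, LinearMap.neg_apply, hχ', h8, LinearMap.zero_apply] at h7
    apply hk
    rw [← h7]; ring
  · intro k
    have h8 : φ0 (k • y) = 0 := by rw [map_smul, P.h0, smul_zero]
    rw [LinearMap.add_apply, LinearMap.neg_apply, hχ', h8, zero_smul, map_zero]
    ring

lemma Cfg.ginv (C : Cfg K M v D g u w f) : g⁻¹ u ∉ ln F K v := by
  intro h1
  have h2 := C.gy h1
  rw [apply_inv] at h2
  have h3 : f (g⁻¹ u) • w ∈ ln F K v := by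
    have : f (g⁻¹ u) • w = u - (g⁻¹ u - f (g⁻¹ u) • u) := by
      rw [eq_sub_iff_add_eq, add_comm]
      exact h2.symm
    rw [this]
    exact Submodule.sub_mem _ C.hu (Submodule.sub_mem _ h1 (Submodule.smul_mem _ _ C.hu))
  by_cases h4 : f (g⁻¹ u) = 0
  · have h5 := C.decomp h1
    rw [h4, zero_smul, sub_zero] at h5
    have h6 := C.hgD _ h5
    rw [apply_inv] at h6
    rw [← h6] at h5
    have := C.hf0 u h5
    rw [C.hf1] at this
    exact one_ne_zero this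
  · exact C.hwL ((Submodule.smul_mem_iff _ h4).1 h3)

/-- the field with two elements -/
theorem case22small (C : Cfg K M v D g u w f) (hr : finrank F K = 2) (h2 : finrank K V = 2) (hF : Nat.card F = 2) :
    PA K M := by
  have hF01 : ∀ x : F, x = 0 ∨ x = 1 := by
    intro x
    have : Fintype F := Fintype.ofFinite F
    have h1 := FiniteField.pow_card x
    rw [← Nat.card_eq_fintype_card, hF] at h1
    have h2 : x * (x - 1) = 0 := by linear_combination h1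
    rcases mul_eq_zero.1 h2 with h3 | h3
    · exact Or.inl h3
    · exact Or.inr (sub_eq_zero.1 h3)
  have h2F : (1 : F) + 1 = 0 := by
    rcases hF01 (1 + 1) with h | h
    · exact h
    · exact absurd (left_eq_add.1 h.symm) one_ne_zero
  have hchar : CharP F 2 := CharTwo.of_one_ne_zero_of_two_eq_zero one_ne_zero (by rw [← one_add_one_eq_two]; exact h2F)
  obtain ⟨d, hd, hd0⟩ := C.exists_d (by rw [hr]; exact Nat.prime_two)
  have hln : ln F K d = ln F K v := by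
    obtain ⟨k, hk⟩ := mem_ln.1 (C.hD hd)
    have hk0 : k ≠ 0 := by
      rintro rfl
      rw [zero_smul] at hk
      exact hd0 hk.symm
    ext x
    constructor
    · intro h
      obtain ⟨l, rfl⟩ := mem_ln.1 h
      rw [← hk]
      exact smul_mem_ln' (smul_mem_ln _ _) _
    · intro h
      obtain ⟨l, rfl⟩ := mem_ln.1 h
      rw [mem_ln]
      exact ⟨l * k⁻¹, by rw [← hk, smul_smul, inv_mul_cancel_right₀ hk0]⟩
  obtain ⟨ω, hω⟩ : ∃ ω : K, ω • d = u := by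
    have := C.hu
    rw [← hln] at this
    exact mem_ln.1 this
  have hωF : ∀ a : F, algebraMap F K a ≠ ω := by
    intro a ha
    have h1 := C.hf1
    rw [← hω, ← ha, algebraMap_smul, map_smul, C.hf0 d hd, smul_zero] at h1
    exact zero_ne_one h1
  have h2K : (1 : K) + 1 = 0 := by
    have := congrArg (algebraMap F K) h2F
    rwa [map_add, map_one, map_zero] at this
  have hω2 : ω * ω = 1 + ω := by
    have hfin : Finite K := Module.finite_of_finite F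
    have : Fintype K := Fintype.ofFinite K
    have h1 := FiniteField.pow_card ω
    rw [← Nat.card_eq_fintype_card, Module.natCard_eq_pow_finrank (K := F) (V := K), hF, hr] at h1
    have h0 : ω ≠ 0 := by
      intro h; apply hωF 0; rw [h, map_zero]
    have h11 : ω - 1 ≠ 0 := by
      intro h; apply hωF 1; rw [map_one, sub_eq_zero.1 h]
    have h3 : ω * ((ω - 1) * (ω * ω + ω + 1)) = 0 := by linear_combination h1
    have h4 := (mul_eq_zero.1 ((mul_eq_zero.1 h3).resolve_left h0)).resolve_left h11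
    linear_combination h4 - (1 + ω) * h2K
  have hli2 : ∀ a b : F, a • (1 : K) + b • ω = 0 → a = 0 ∧ b = 0 := by
    intro a b hab
    by_cases hb : b = 0
    · rw [hb, zero_smul, add_zero] at hab
      exact ⟨(smul_eq_zero.1 hab).resolve_right one_ne_zero, hb⟩
    · exfalso
      apply hωF (b⁻¹ * -a)
      rw [Algebra.algebraMap_eq_smul_one, mul_smul, neg_smul, ← eq_neg_of_add_eq_zero_right hab, smul_smul,
        inv_mul_cancel₀ hb, one_smul]
  have hF2 : ∀ k : K, ∃ a b : F, k = a • 1 + b • ω := by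
    have hli : LinearIndependent F ![(1 : K), ω] := by
      rw [LinearIndependent.pair_iff]
      exact hli2
    have hsp := hli.span_eq_top_of_card_eq_finrank (by rw [hr]; rfl)
    intro k
    have h1 : k ∈ Submodule.span F (Set.range ![(1 : K), ω]) := by rw [hsp]; trivial
    rw [Submodule.mem_span_range_iff_exists_fun] at h1
    obtain ⟨c, hc⟩ := h1
    rw [Fin.sum_univ_two] at hc
    exact ⟨c 0, c 1, hc.symm⟩
  have hwd : w ∉ ln F K d := by rw [hln]; exact C.hwL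
  obtain ⟨φ0, e1, e2⟩ := fun2 hd0 hwd (0 : K) 1
  have P : Pr M d w φ0 := ⟨C.hHM, h2, e1, e2, hd0⟩
  have hnorm : ∀ k : K, k ≠ 0 → Algebra.norm F k = 1 := by
    intro k hk
    rcases hF01 (Algebra.norm F k) with h | h
    · exact absurd (Algebra.norm_eq_zero_iff.1 h) hk
    · exact h
  -- the normal form
  obtain ⟨g2, hg2M, k1, k2, k3⟩ : ∃ g2 ∈ M, g2 d = d ∧ g2 (ω • d) = w ∧ g2 w = ω • d := by
    have hz := C.ginv
    rw [← hln] at hz
    obtain ⟨h, hh, hhx⟩ := HL_of (F := F) (h := LinearMap.transvection φ0 (g⁻¹ u - w)) (by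
      rw [LinearMap.transvection.det, map_sub, e2, add_sub_cancel]
      apply hnorm
      intro h0
      exact hz (P.ker_le h0))
    have hhx' : ∀ x, h x = x + φ0 x • (g⁻¹ u - w) := hhx
    have hhd : h d = d := by rw [hhx', e1, zero_smul, add_zero]
    have hhw : h w = g⁻¹ u := by rw [hhx', e2, one_smul, add_sub_cancel]
    refine ⟨g * h, M.mul_mem C.hg (C.hHM hh), ?_, ?_, ?_⟩
    · show g (h d) = d
      rw [hhd, C.hgD d hd]
    · show g (h (ω • d)) = w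
      rw [hh.1, hhd, hω, C.hw]
    · show g (h w) = ω • d
      rw [hhw, apply_inv, hω]
  obtain ⟨a, c, b, e, k4⟩ : ∃ a c b e : F, g2 (ω • w) = a • d + c • ω • d + b • w + e • ω • w := by
    obtain ⟨k, hk⟩ := mem_ln.1 (P.sub_mem (g2 (ω • w)))
    obtain ⟨a, c, hac⟩ := hF2 k
    obtain ⟨b, e, hbe⟩ := hF2 (φ0 (g2 (ω • w)))
    refine ⟨a, c, b, e, ?_⟩
    have h1 : g2 (ω • w) = k • d + φ0 (g2 (ω • w)) • w := by rw [hk]; abel
    rw [hbe, hac] at h1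
    rw [h1]
    simp only [add_smul, smul_assoc, one_smul]
    abel
  have he : e = 1 := by
    refine (hF01 e).resolve_left (fun h0 => ?_)
    rw [h0, zero_smul, add_zero] at k4
    have h1 : g2 (ω • w) = g2 (a • d + c • w + b • ω • d) := by
      rw [k4, map_add, map_add, map_smul, map_smul, map_smul, k1, k2, k3]
    have h3 := congrArg φ0 (g2.injective h1)
    have h4 : ∀ x : F, ∀ y : V, φ0 (x • y) = algebraMap F K x * φ0 y := by
      intro x y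
      rw [← algebraMap_smul K x y, map_smul, smul_eq_mul]
    rw [map_add, map_add, h4, h4, h4, map_smul, map_smul, e1, e2, smul_zero, mul_zero, mul_zero, zero_add, add_zero,
      smul_eq_mul, mul_one, mul_one] at h3
    exact hωF c h3.symm
  rw [he, one_smul] at k4
  -- the basis
  have hBli : LinearIndependent F ![d, ω • d, w, ω • w] := by
    rw [Fintype.linearIndependent_iff]
    intro c hc
    rw [Fin.sum_univ_four] at hc
    have h1 : (c 0 • (1 : K) + c 1 • ω) • d + (c 2 • (1 : K) + c 3 • ω) • w = 0 := by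
      rw [← hc]
      simp only [add_smul, smul_assoc, one_smul]
      show _ = c 0 • d + c 1 • ω • d + c 2 • w + c 3 • ω • w
      abel
    have h3 := congrArg φ0 h1
    rw [map_add, map_smul, map_smul, e1, e2, smul_zero, zero_add, smul_eq_mul, mul_one, map_zero] at h3
    rw [h3, zero_smul, add_zero] at h1
    obtain ⟨h4, h5⟩ := hli2 _ _ h3
    obtain ⟨h6, h7⟩ := hli2 _ _ ((smul_eq_zero.1 h1).resolve_right hd0)
    intro i
    fin_cases i
    exacts [h6, h7, h4, h5]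
  have hfr : finrank F V = 4 := by
    rw [← Module.finrank_mul_finrank F K V, hr, h2]
  obtain ⟨B, hB⟩ : ∃ B : Basis (Fin 4) F V, ⇑B = ![d, ω • d, w, ω • w] :=
    ⟨basisOfLinearIndependentOfCardEqFinrank hBli (by rw [hfr]; rfl), coe_basisOfLinearIndependentOfCardEqFinrank _ _⟩
  have hB0 : B 0 = d := by rw [hB]; rfl
  have hB1 : B 1 = ω • d := by rw [hB]; rfl
  have hB2 : B 2 = w := by rw [hB]; rfl
  have hB3 : B 3 = ω • w := by rw [hB]; rfl
  let c0 : ZMod 2 →+* F := ZMod.castHom (dvd_refl 2) F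
  obtain ⟨Φ, hΦ⟩ : ∃ Φ : Matrix (Fin 4) (Fin 4) (ZMod 2) → (V →ₗ[F] V), ∀ A, Φ A = Matrix.toLin B B (A.map c0) :=
    ⟨_, fun A => rfl⟩
  have Φmul : ∀ A A' x, Φ (A * A') x = Φ A (Φ A' x) := by
    intro A A' x
    rw [hΦ, hΦ, hΦ, Matrix.map_mul, Matrix.toLin_mul B B B]
    rfl
  have Φone : ∀ x, Φ 1 x = x := by
    intro x
    rw [hΦ, Matrix.map_one _ (map_zero _) (map_one _), Matrix.toLin_one]
    rfl
  have Φapp : ∀ A j, Φ A (B j) = c0 (A 0 j) • d + c0 (A 1 j) • ω • d + c0 (A 2 j) • w + c0 (A 3 j) • ω • w := by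
    intro A j
    rw [hΦ, Matrix.toLin_self, Fin.sum_univ_four, hB0, hB1, hB2, hB3]
    rfl
  have c00 : c0 0 = 0 := map_zero _
  have c01 : c0 1 = 1 := map_one _
  have hωωd : ω • ω • d = d + ω • d := by rw [smul_smul, hω2, add_smul, one_smul]
  have hωωw : ω • ω • w = w + ω • w := by rw [smul_smul, hω2, add_smul, one_smul]
  have ΦOm : ∀ x, Φ Om x = ω • x := by
    have h1 : Φ Om = (LinearMap.lsmul K V ω).restrictScalars F := by
      refine B.ext (fun j => ?_)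
      show _ = ω • B j
      rw [Φapp]
      fin_cases j
      · show c0 0 • d + c0 1 • ω • d + c0 0 • w + c0 0 • ω • w = ω • B 0
        rw [hB0, c00, c01]; simp
      · show c0 1 • d + c0 1 • ω • d + c0 0 • w + c0 0 • ω • w = ω • B 1
        rw [hB1, c00, c01, hωωd]; simp
      · show c0 0 • d + c0 0 • ω • d + c0 0 • w + c0 1 • ω • w = ω • B 2
        rw [hB2, c00, c01]; simp
      · show c0 0 • d + c0 0 • ω • d + c0 1 • w + c0 1 • ω • w = ω • B 3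
        rw [hB3, c00, c01, hωωw]; simp
    intro x
    rw [h1]
    rfl
  have ΦH : ∀ A A', A * Om = Om * A → A * A' = 1 → ∃ s ∈ HL F K V, ∀ x, s x = Φ A x := by
    intro A A' h1 h3
    have h4 : ∀ x, Φ A (ω • x) = ω • Φ A x := by
      intro x
      rw [← ΦOm, ← Φmul, h1, Φmul, ΦOm]
    obtain ⟨s, hs⟩ : ∃ s : V ≃ₗ[F] V, ∀ x, s x = Φ A x :=
      ⟨LinearEquiv.ofLinearMap (Φ A) (Φ A') (by ext x; exact (Φmul _ _ _).symm.trans (by rw [h3, Φone]; rfl))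
        (by ext x; exact (Φmul _ _ _).symm.trans (by rw [mul_eq_one_comm.1 h3, Φone]; rfl)), fun x => rfl⟩
    refine ⟨s, ⟨fun k x => ?_, ?_⟩, hs⟩
    · obtain ⟨a, b, rfl⟩ := hF2 k
      rw [add_smul, add_smul, map_add, smul_assoc, smul_assoc, smul_assoc, smul_assoc, one_smul, one_smul, map_smul,
        map_smul, hs (ω • x), h4, hs x]
    · rcases hF01 (LinearMap.det (s : V →ₗ[F] V)) with h | h
      · exact absurd h (LinearEquiv.isUnit_det' s).ne_zero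
      · exact h
  obtain ⟨a', ha'⟩ : ∃ a' : ZMod 2, c0 a' = a := by
    rcases hF01 a with h | h
    · exact ⟨0, by rw [h, c00]⟩
    · exact ⟨1, by rw [h, c01]⟩
  obtain ⟨b', hb'⟩ : ∃ b' : ZMod 2, c0 b' = b := by
    rcases hF01 b with h | h
    · exact ⟨0, by rw [h, c00]⟩
    · exact ⟨1, by rw [h, c01]⟩
  obtain ⟨c', hc'⟩ : ∃ c' : ZMod 2, c0 c' = c := by
    rcases hF01 c with h | h
    · exact ⟨0, by rw [h, c00]⟩
    · exact ⟨1, by rw [h, c01]⟩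
  have hg2 : ∀ x, g2 x = Φ (Gm a' b' c') x := by
    have h1 : (g2 : V →ₗ[F] V) = Φ (Gm a' b' c') := by
      refine B.ext (fun j => ?_)
      show g2 (B j) = _
      rw [Φapp]
      fin_cases j
      · show g2 (B 0) = c0 1 • d + c0 0 • ω • d + c0 0 • w + c0 0 • ω • w
        rw [hB0, c00, c01, k1]; simp
      · show g2 (B 1) = c0 0 • d + c0 0 • ω • d + c0 1 • w + c0 0 • ω • w
        rw [hB1, c00, c01, k2]; simp
      · show g2 (B 2) = c0 0 • d + c0 1 • ω • d + c0 0 • w + c0 0 • ω • w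
        rw [hB2, c00, c01, k3]; simp
      · show g2 (B 3) = c0 a' • d + c0 c' • ω • d + c0 b' • w + c0 1 • ω • w
        rw [hB3, k4, c01, ha', hb', hc', one_smul]
    intro x
    exact LinearMap.congr_fun h1 x
  obtain ⟨H1, H1', H2, H2', y, χ, w1, w2, w3, w4, w5, w6, w7⟩ := witness a' b' c'
  obtain ⟨s1, hs1, hs1x⟩ := ΦH H1 H1' w1 w2
  obtain ⟨s2, hs2, hs2x⟩ := ΦH H2 H2' w3 w4
  obtain ⟨y', hy'⟩ : ∃ y', y' = c0 (y 0) • d + c0 (y 1) • ω • d + c0 (y 2) • w + c0 (y 3) • ω • w := ⟨_, rfl⟩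
  let χ' : Dual F V := B.constr F (fun j => c0 (χ j))
  have hχ' : ∀ j, χ' (B j) = c0 (χ j) := fun j => B.constr_basis F _ j
  have hE : ∀ x, Φ (Matrix.vecMulVec y χ) x = χ' x • y' := by
    have h1 : Φ (Matrix.vecMulVec y χ) = χ'.smulRight y' := by
      refine B.ext (fun j => ?_)
      rw [Φapp, LinearMap.smulRight_apply, hχ', hy']
      simp only [Matrix.vecMulVec_apply, map_mul, smul_add, smul_smul, mul_comm]
    intro x
    rw [h1, LinearMap.smulRight_apply]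
  have hadd : ∀ A A' x, Φ (A + A') x = Φ A x + Φ A' x := by
    intro A A' x
    rw [hΦ, hΦ, hΦ, Matrix.map_add _ (map_add _), map_add, LinearMap.add_apply]
  have hc0 : ∀ z, c0 z = 0 → z = 0 := fun z hz => (map_eq_zero c0).1 hz
  have hy'0 : y' ≠ 0 := by
    intro h0
    apply w5
    have h1 := Fintype.linearIndependent_iff.1 hBli (fun i => c0 (y i)) (by
      rw [Fin.sum_univ_four, ← h0, hy']; rfl)
    ext i
    exact hc0 _ (h1 i)
  have hχ'0 : χ' ≠ 0 := by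
    intro h0
    apply w6
    ext j
    have := hχ' j
    rw [h0, LinearMap.zero_apply] at this
    exact hc0 _ this.symm
  obtain ⟨e, he⟩ : ∃ e, e = g2 * s1 * g2⁻¹ * s2⁻¹ := ⟨_, rfl⟩
  have heM : e ∈ M := by
    rw [he]
    exact M.mul_mem (M.mul_mem (M.mul_mem hg2M (C.hHM hs1)) (M.inv_mem hg2M)) (M.inv_mem (C.hHM hs2))
  have hex : ∀ x, e x = x + χ' x • y' := by
    intro x
    obtain ⟨z, rfl⟩ : ∃ z, x = s2 (g2 z) := ⟨g2⁻¹ (s2⁻¹ x), by rw [apply_inv, apply_inv]⟩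
    have h1 : e (s2 (g2 z)) = g2 (s1 z) := by
      rw [he]
      show g2 (s1 (g2⁻¹ (s2⁻¹ (s2 (g2 z))))) = _
      rw [inv_apply, inv_apply]
    rw [h1, hg2, hs1x, ← Φmul, w7, Φmul, Φmul, ← hg2, ← hs2x, hadd, Φone, hE]
  refine pa_of_ft C.hHM h2 (by rw [hr]) hχ'0 hy'0 ?_ ⟨e, heM, hex⟩
  refine (hF01 _).resolve_right (fun h1 => ?_)
  have h3 := hex y'
  rw [h1, one_smul] at h3
  have h4 : y' + y' = 0 := by
    have : y' + y' = ((1 : F) + 1) • y' := by rw [add_smul, one_smul]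
    rw [this, h2F, zero_smul]
  rw [h4, LinearEquiv.map_eq_zero_iff] at h3
  exact hy'0 h3

end H7.ExtLin
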