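import Cfsg.Agent.Lib.H7.ExtLin7
import Cfsg.Agent.Lib.H7.ExtBr
import Cfsg.Agent.Lib.H94.Transv

set_option autoImplicit false
set_option linter.unusedSectionVars false

/-!
Overgroups of special linear groups over an extension field of prime degree: conclusion.
-/

namespace H7.ExtLin

open Module H7.ExtF Cfsg Cfsg.Geo H95.Bridge H7.ExtBr
open scoped Matrix MatrixGroups

section

variable {F K V : Type*} [Field F] [Field K] [Algebra F K] [AddCommGroup V] [Module F V] [Module K V]
  [IsScalarTower F K V] {M : Subgroup (V ≃ₗ[F] V)}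
variable [Finite F] [FiniteDimensional F V] [FiniteDimensional F K] [FiniteDimensional K V]

/-- overgroups of the special linear group over an extension field -/
theorem overgroup (hr : (finrank F K).Prime) (hn : 2 ≤ finrank K V) (hHM : HL F K V ≤ M)
    (hM : ∃ g ∈ M, ∃ v : V, ∃ k : K, g (k • v) ∉ ln F K (g v)) {y : V} (hy : y ≠ 0) {χ : Dual F V}
    (hχ : χ y = 0) : FT M χ y := by
  obtain ⟨v, hv, D, hD, hDr, hg⟩ := hyper hr hn hHM hM
  obtain ⟨g, u, w, f, C⟩ := mkCfg hHM hv hD hDr hg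
  refine full_of hn ?_ hy hχ
  show PA K M
  rcases Nat.lt_or_ge 2 (finrank K V) with h | h
  · exact case3 C hr h
  have h2 : finrank K V = 2 := le_antisymm h hn
  rcases Nat.lt_or_ge 2 (finrank F K) with h3 | h3
  · exact case2odd C hr h3 h2
  have hr2 : finrank F K = 2 := le_antisymm h3 hr.two_le
  rcases Nat.lt_or_ge 2 (Nat.card F) with h4 | h4
  · exact case22 C hr2 h2 h4
  · exact case22small C hr2 h2 (le_antisymm h4 (Finite.one_lt_card))

end

variable {n : ℕ} {F : Type*} [Field F]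

lemma det_toEq (g : GL (Fin n) F) :
    LinearMap.det (toEq (Fin n) F g : (Fin n → F) →ₗ[F] (Fin n → F)) = (g : Matrix (Fin n) (Fin n) F).det := by
  have : (toEq (Fin n) F g : (Fin n → F) →ₗ[F] (Fin n → F)) = Matrix.toLin' (g : Matrix (Fin n) (Fin n) F) := by
    ext v; simp
  rw [this, LinearMap.det_toLin']

/-- overgroups of the normaliser in the special linear group -/
theorem overgroup_mat [Fintype F] {r : ℕ} (hr : r.Prime) (hlt : r < n) {K : Subalgebra F (Matrix (Fin n) (Fin n) F)}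
    (hK : IsFieldSubalgebra r K) {M : Subgroup (GL (Fin n) F)}
    (hM : subalgebraNormalizer K ⊓ specialLinear (Fin n) F ≤ M) (hg : ∃ g ∈ M, g ∉ subalgebraNormalizer K) :
    specialLinear (Fin n) F ≤ M := by
  obtain ⟨E, i1, i2, i3, i4, φ, h1, h2, h3, hEr⟩ := exists_model hK hr.pos
  have : FiniteDimensional F E := Module.finite_of_finrank_pos (by rw [hEr]; exact hr.pos)
  have : FiniteDimensional E (Fin n → F) := FiniteDimensional.right F E _
  have hfr := Module.finrank_mul_finrank F E (Fin n → F)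
  rw [hEr, finrank_fintype_fun_eq_card, Fintype.card_fin] at hfr
  have hev : 2 ≤ finrank E (Fin n → F) := by
    by_contra hcon
    push Not at hcon
    have : r * finrank E (Fin n → F) ≤ r * 1 := Nat.mul_le_mul le_rfl (by omega)
    omega
  have hsymm : ∀ x : (Fin n → F) ≃ₗ[F] (Fin n → F), toEq (Fin n) F ((toEq _ F).symm x) = x :=
    fun x => by rw [MulEquiv.apply_symm_apply]
  obtain ⟨g, hg, hgN⟩ := hg
  have hHM : HL F E (Fin n → F) ≤ M.map (toEq (Fin n) F).toMonoidHom := by
    intro x hx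
    rw [mem_map_toEq]
    refine hM ⟨?_, ?_⟩
    · exact comm_mem_normalizer h1 h2 h3 (fun v e => by rw [hsymm]; exact hx.1 e v)
    · refine (H94.Transv.mem_specialLinear_iff _).2 ?_
      rw [← det_toEq, hsymm]
      exact hx.2
  have hMg : ∃ g ∈ M.map (toEq (Fin n) F).toMonoidHom, ∃ v : Fin n → F, ∃ k : E, g (k • v) ∉ ln F E (g v) := by
    refine ⟨toEq _ F g, ⟨g, hg, rfl⟩, ?_⟩
    by_contra hcon
    push Not at hcon
    exact hgN (mem_normalizer h1 h2 h3 hev hcon)
  apply H94.Transv.specialLinear_le_of_full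
  rw [eq_top_iff]
  intro y _
  show H94.Transv.Full M y
  intro ψ hψ
  by_cases hy : y = 0
  · rw [hy]; exact H94.Transv.HasT.zero_left ψ
  obtain ⟨χ, hχ⟩ : ∃ χ : Dual F (Fin n → F), ∀ x, χ x = ψ ⬝ᵥ x :=
    ⟨{ toFun := fun x => ψ ⬝ᵥ x, map_add' := fun a b => dotProduct_add _ _ _,
       map_smul' := fun a b => dotProduct_smul _ _ _ }, fun x => rfl⟩
  obtain ⟨e, he, hex⟩ := overgroup (by rw [hEr]; exact hr) hev hHM hMg hy (χ := χ) (by rw [hχ, hψ])
  rw [mem_map_toEq] at he
  refine ⟨hψ, _, he, ?_⟩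
  apply Matrix.toLin'.injective
  apply LinearMap.ext
  intro x
  rw [Matrix.toLin'_apply, Matrix.toLin'_apply, toEq_symm_mulVec, hex, H94.Transv.tm_mulVec, hχ]

/-- the normaliser has all determinants -/
theorem exists_det [Fintype F] {r : ℕ} (hr : r.Prime) (hlt : r < n) {K : Subalgebra F (Matrix (Fin n) (Fin n) F)}
    (hK : IsFieldSubalgebra r K) {c : F} (hc : c ≠ 0) :
    ∃ h ∈ subalgebraNormalizer K, (h : Matrix (Fin n) (Fin n) F).det = c := by
  obtain ⟨E, i1, i2, i3, i4, φ, h1, h2, h3, hEr⟩ := exists_model hK hr.pos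
  have : FiniteDimensional F E := Module.finite_of_finrank_pos (by rw [hEr]; exact hr.pos)
  have : FiniteDimensional E (Fin n → F) := FiniteDimensional.right F E _
  have : Finite E := Module.finite_of_finite F
  have hfr := Module.finrank_mul_finrank F E (Fin n → F)
  rw [hEr, finrank_fintype_fun_eq_card, Fintype.card_fin] at hfr
  have hev : 2 ≤ finrank E (Fin n → F) := by
    by_contra hcon
    push Not at hcon
    have : r * finrank E (Fin n → F) ≤ r * 1 := Nat.mul_le_mul le_rfl (by omega)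
    omega
  have hsymm : ∀ x : (Fin n → F) ≃ₗ[F] (Fin n → F), toEq (Fin n) F ((toEq _ F).symm x) = x :=
    fun x => by rw [MulEquiv.apply_symm_apply]
  obtain ⟨k, hk⟩ := FiniteField.norm_surjective F E c
  have hk0 : k ≠ 0 := by
    rintro rfl
    rw [Algebra.norm_zero] at hk
    exact hc hk.symm
  obtain ⟨v, hv⟩ := exists_not_ln (F := F) (K := E) hev (0 : Fin n → F)
  have hv0 : v ≠ 0 := by
    rintro rfl
    exact hv (Submodule.zero_mem _)
  obtain ⟨w, hw⟩ := exists_not_ln (F := F) (K := E) hev v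
  obtain ⟨φ0, e1, e2⟩ := fun2 hv0 hw (0 : E) 1
  obtain ⟨h, hh⟩ : ∃ h, h = LinearMap.transvection ((k - 1) • φ0) w := ⟨_, rfl⟩
  have hdet : LinearMap.det h = k := by
    rw [hh, LinearMap.transvection.det, LinearMap.smul_apply, e2, smul_eq_mul, mul_one, add_sub_cancel]
  obtain ⟨s, hs⟩ : ∃ s : (Fin n → F) ≃ₗ[F] (Fin n → F), ∀ x, s x = h x :=
    ⟨(LinearMap.equivOfDetNeZero h (by rw [hdet]; exact hk0)).restrictScalars F, fun x => rfl⟩
  refine ⟨(toEq _ F).symm s, comm_mem_normalizer h1 h2 h3 (fun v e => ?_), ?_⟩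
  · rw [hsymm, hs, hs, map_smul]
  · rw [← det_toEq, hsymm]
    have h5 : (s : (Fin n → F) →ₗ[F] (Fin n → F)) = h.restrictScalars F := by
      exact LinearMap.ext hs
    rw [h5, LinearMap.det_restrictScalars, hdet, hk]

/-- a transvection outside the normaliser -/
theorem exists_not_mem [Fintype F] {r : ℕ} (hr : r.Prime) (hrn : r ∣ n) (hlt : r < n)
    {K : Subalgebra F (Matrix (Fin n) (Fin n) F)} (hK : IsFieldSubalgebra r K) :
    ∃ g ∈ specialLinear (Fin n) F, g ∉ subalgebraNormalizer K := by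
  obtain ⟨E, i1, i2, i3, i4, φ, h1, h2, h3, hEr⟩ := exists_model hK hr.pos
  have : FiniteDimensional F E := Module.finite_of_finrank_pos (by rw [hEr]; exact hr.pos)
  have hn : 3 ≤ n := by
    obtain ⟨k, rfl⟩ := hrn
    have := hr.two_le
    have : 2 ≤ k := by
      by_contra hcon
      push Not at hcon
      have : r * k ≤ r * 1 := Nat.mul_le_mul le_rfl (by omega)
      omega
    nlinarith
  let i0 : Fin n := ⟨0, by omega⟩
  let i1 : Fin n := ⟨1, by omega⟩
  have h01 : i0 ≠ i1 := by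
    intro h
    have := congrArg Fin.val h
    simp [i0, i1] at this
  have h0 : (Pi.single i0 1 : Fin n → F) ⬝ᵥ (Pi.single i1 1 : Fin n → F) = 0 := by
    simp [h01]
  refine ⟨H94.Transv.tGL (Pi.single i1 1) (Pi.single i0 1) h0, H94.Transv.tGL_mem_specialLinear _ _ _, ?_⟩
  obtain ⟨χ, hχ⟩ : ∃ χ : Dual F (Fin n → F), ∀ x, χ x = (Pi.single i0 1 : Fin n → F) ⬝ᵥ x :=
    ⟨{ toFun := fun x => (Pi.single i0 1 : Fin n → F) ⬝ᵥ x, map_add' := fun a b => dotProduct_add _ _ _,
       map_smul' := fun a b => dotProduct_smul _ _ _ }, fun x => rfl⟩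
  refine tr_not_mem (F := F) h1 h2 h3 (by rw [hEr]; exact hr.two_le) (by simpa using hn)
    (x := Pi.single i1 1) (f := χ) ?_ ?_ ?_
  · intro h
    have := congrFun h i1
    simp at this
  · intro h
    have := LinearMap.congr_fun h (Pi.single i0 1)
    rw [hχ] at this
    simp at this
  · intro v
    rw [toEq_apply, H94.Transv.tGL_val, H94.Transv.tm_mulVec, hχ]

end H7.ExtLin
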