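import Mathlib
import Cfsg.Agent.Lib.H7.OmegaIso
import Cfsg.Agent.Lib.H95.OGeo

/-!
Abstract quadratic spaces over finite fields: Siegel transformations `Has Q M u w`, the commutator
subgroup `Om Q` of the orthogonal group, generation by the Siegel transformations attached to a
hyperbolic pair, adjustment of isometries modulo `Om Q`.
-/
set_option autoImplicit false

namespace H7.OA

open Module QuadraticMap H48.QuadSplit H48.QuadWitt H95.OGeo
open scoped commutatorElement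

variable {F V : Type*} [Field F] [AddCommGroup V] [Module F V]

/-- the orthogonal group -/
abbrev O (Q : QuadraticForm F V) : Subgroup (V ≃ₗ[F] V) := H7.Hyp.O (Q : V → F)

/-- the commutator subgroup of the orthogonal group -/
def Om (Q : QuadraticForm F V) : Subgroup (V ≃ₗ[F] V) := ⁅O Q, O Q⁆

lemma Om_le (Q : QuadraticForm F V) : Om Q ≤ O Q := Subgroup.commutator_le_self _

lemma mem_O {Q : QuadraticForm F V} {g : V ≃ₗ[F] V} : g ∈ O Q ↔ ∀ x, Q (g x) = Q x := Iff.rfl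

lemma O_polar {Q : QuadraticForm F V} {g : V ≃ₗ[F] V} (hg : g ∈ O Q) (x y : V) :
    polar Q (g x) (g y) = polar Q x y := H7.Hyp.map_O_polar hg x y

lemma conj_Om {Q : QuadraticForm F V} {g x : V ≃ₗ[F] V} (hg : g ∈ O Q) (hx : x ∈ Om Q) :
    g * x * g⁻¹ ∈ Om Q := H7.Omega.conj_mem_commutator hg hx

/-- the value of the Siegel transformation -/
def sgF (Q : QuadraticForm F V) (u w x : V) : V :=
  x + polar Q x u • w - (polar Q x w + Q w * polar Q x u) • u

/-- `M` contains the Siegel transformation with centre `u` and vector `w`. -/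
def Has (Q : QuadraticForm F V) (M : Subgroup (V ≃ₗ[F] V)) (u w : V) : Prop :=
  ∃ g ∈ M, ∀ x, g x = sgF Q u w x

variable {Q : QuadraticForm F V} {M : Subgroup (V ≃ₗ[F] V)}

lemma Has.mono {M' : Subgroup (V ≃ₗ[F] V)} (h : M ≤ M') {u w : V} (hh : Has Q M u w) : Has Q M' u w := by
  obtain ⟨g, hg, hx⟩ := hh
  exact ⟨g, h hg, hx⟩

lemma has_O [FiniteDimensional F V] (hQ : ND Q) {u w : V} (hu : Q u = 0) (huw : polar Q u w = 0) :
    Has Q (O Q) u w := by
  obtain ⟨e, h1, h2⟩ := exists_siegel (nd_iff.1 hQ) u w hu huw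
  exact ⟨e, h1, h2⟩

lemma Has.eq_mem {u w : V} (h : Has Q M u w) {g : V ≃ₗ[F] V} (hg : ∀ x, g x = sgF Q u w x) : g ∈ M := by
  obtain ⟨g', hg', hx⟩ := h
  have : g = g' := by
    apply LinearEquiv.ext; intro x; rw [hg, hx]
  rw [this]; exact hg'

lemma apply_inv_apply (g : V ≃ₗ[F] V) (x : V) : g (g⁻¹ x) = x := by
  rw [← LinearEquiv.mul_apply, mul_inv_cancel]; rfl

lemma inv_apply_apply (g : V ≃ₗ[F] V) (x : V) : g⁻¹ (g x) = x := by
  rw [← LinearEquiv.mul_apply, inv_mul_cancel]; rfl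

lemma sgF_conj {g : V ≃ₗ[F] V} (hg : g ∈ O Q) (u w x : V) :
    g (sgF Q u w (g⁻¹ x)) = sgF Q (g u) (g w) x := by
  unfold sgF
  rw [map_sub, map_add, map_smul, map_smul, apply_inv_apply, mem_O.1 hg]
  have h1 : ∀ y, polar Q (g⁻¹ x) y = polar Q x (g y) := by
    intro y
    rw [← O_polar hg, apply_inv_apply]
  rw [h1, h1]

lemma Has.conj {u w : V} (h : Has Q M u w) {g : V ≃ₗ[F] V} (hgM : g ∈ M) (hg : g ∈ O Q) :
    Has Q M (g u) (g w) := by
  obtain ⟨s, hs, hx⟩ := h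
  refine ⟨g * s * g⁻¹, M.mul_mem (M.mul_mem hgM hs) (M.inv_mem hgM), fun x => ?_⟩
  rw [LinearEquiv.mul_apply, LinearEquiv.mul_apply, hx, sgF_conj hg]

lemma sgF_mul {u w w' : V} (hu : Q u = 0) (h1 : polar Q u w = 0) (h2 : polar Q u w' = 0) (x : V) :
    sgF Q u w (sgF Q u w' x) = sgF Q u (w + w') x := by
  have h3 : polar Q w u = 0 := by rw [p_comm, h1]
  have h4 : polar Q w' u = 0 := by rw [p_comm, h2]
  have h5 : polar Q u u = 0 := by rw [p_self, hu, mul_zero]
  unfold sgF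
  simp only [p_add, p_add', p_sub, p_smul, Q_add, h1, h4, h5, p_comm Q w' w]
  module

lemma Has.mul {u w w' : V} (h : Has Q M u w) (h' : Has Q M u w') (hu : Q u = 0) (h1 : polar Q u w = 0)
    (h2 : polar Q u w' = 0) : Has Q M u (w + w') := by
  obtain ⟨g, hg, hx⟩ := h
  obtain ⟨g', hg', hx'⟩ := h'
  refine ⟨g * g', M.mul_mem hg hg', fun x => ?_⟩
  rw [LinearEquiv.mul_apply, hx, hx', sgF_mul hu h1 h2]

lemma has_zero {u : V} : Has Q M u 0 := by
  refine ⟨1, M.one_mem, fun x => ?_⟩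
  simp [sgF]

lemma has_zero' {w : V} : Has Q M 0 w := by
  refine ⟨1, M.one_mem, fun x => ?_⟩
  simp [sgF]

lemma Has.neg {u w : V} (h : Has Q M u w) (hu : Q u = 0) (h1 : polar Q u w = 0) : Has Q M u (-w) := by
  obtain ⟨g, hg, hx⟩ := h
  refine ⟨g⁻¹, M.inv_mem hg, fun x => ?_⟩
  rw [H7.Hyp.inv_apply_eq, hx, sgF_mul hu h1 (by rw [p_neg', h1, neg_zero]), add_neg_cancel]
  simp [sgF]

lemma Has.sub {u w w' : V} (h : Has Q M u w) (h' : Has Q M u w') (hu : Q u = 0) (h1 : polar Q u w = 0)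
    (h2 : polar Q u w' = 0) : Has Q M u (w - w') := by
  rw [sub_eq_add_neg]
  exact h.mul (h'.neg hu h2) hu h1 (by rw [p_neg', h2, neg_zero])

lemma has_add_u {u w : V} (hu : Q u = 0) (h1 : polar Q u w = 0) (c : F) :
    Has Q M u (w + c • u) ↔ Has Q M u w := by
  have : ∀ x, sgF Q u (w + c • u) x = sgF Q u w x := by
    intro x
    unfold sgF
    simp only [p_add', p_smul', Q_add, Q_smul, h1, hu, p_comm Q w u]
    module
  unfold Has
  simp only [this]

lemma has_scale {u w : V} (c : F) : Has Q M (c • u) w ↔ Has Q M u (c • w) := by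
  have : ∀ x, sgF Q (c • u) w x = sgF Q u (c • w) x := by
    intro x
    unfold sgF
    simp only [p_smul', Q_smul]
    module
  unfold Has
  simp only [this]

lemma has_swap {u w : V} (hu : Q u = 0) (hw : Q w = 0) : Has Q M u w ↔ Has Q M w (-u) := by
  have : ∀ x, sgF Q u w x = sgF Q w (-u) x := by
    intro x
    unfold sgF
    simp only [p_neg', Q_neg, hu, hw]
    module
  unfold Has
  simp only [this]

/-- the commutator trick -/
lemma Has.comm {u w a b : V} (h : Has Q M u w) (hu : Q u = 0) (huw : polar Q u w = 0)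
    (h' : Has Q M a b) (hM : M ≤ O Q)
    (hua : polar Q u a = 0) (hub : polar Q u b = 0) :
    Has Q M u (polar Q w a • b - (polar Q w b + Q b * polar Q w a) • a) := by
  obtain ⟨g, hg, hx⟩ := h'
  have h2 := h.conj hg (hM hg)
  have e1 : g u = u := by
    rw [hx, sgF, hua, hub]; simp
  rw [e1, hx] at h2
  have hw' : polar Q u (sgF Q a b w) = 0 := by
    rw [← hx, ← e1, O_polar (hM hg), huw]
  have h3 := h2.sub h hu hw' huw
  have e2 : sgF Q a b w - w = polar Q w a • b - (polar Q w b + Q b * polar Q w a) • a := by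
    unfold sgF; module
  rwa [e2] at h3

/-- `M` contains the full group of Siegel transformations with centre `u` -/
def Full (Q : QuadraticForm F V) (M : Subgroup (V ≃ₗ[F] V)) (u : V) : Prop :=
  ∀ w, polar Q u w = 0 → Has Q M u w

lemma Full.conj {u : V} (h : Full Q M u) {g : V ≃ₗ[F] V} (hgM : g ∈ M) (hg : g ∈ O Q) : Full Q M (g u) := by
  intro w hw
  have h1 : polar Q u (g⁻¹ w) = 0 := by
    rw [← O_polar hg, apply_inv_apply]; exact hw
  have := (h _ h1).conj hgM hg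
  rwa [apply_inv_apply] at this

lemma Full.smul {u : V} (h : Full Q M u) (c : F) : Full Q M (c • u) := by
  intro w hw
  rw [has_scale]
  by_cases hc : c = 0
  · rw [hc, zero_smul]; exact has_zero
  · rw [p_smul] at hw
    exact h _ (by rw [p_smul', (mul_eq_zero.1 hw).resolve_left hc, mul_zero])

lemma full_zero : Full Q M 0 := fun _ _ => has_zero'

/-! ### transfer from the split model -/

section transfer

variable {W : Type*} [AddCommGroup W] [Module F W]

/-- conjugation by a linear equivalence -/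
def cj (φ : W ≃ₗ[F] V) : (W ≃ₗ[F] W) ≃* (V ≃ₗ[F] V) where
  toFun g := (φ.symm.trans g).trans φ
  invFun g := (φ.trans g).trans φ.symm
  left_inv := by intro g; apply LinearEquiv.ext; intro x; simp
  right_inv := by intro g; apply LinearEquiv.ext; intro x; simp
  map_mul' := by intro g g'; apply LinearEquiv.ext; intro x; simp [LinearEquiv.mul_apply]

lemma cj_apply (φ : W ≃ₗ[F] V) (g : W ≃ₗ[F] W) (x : V) : cj φ g x = φ (g (φ.symm x)) := rfl

lemma cj_mem_O {R : QuadraticForm F W} {φ : W ≃ₗ[F] V} (h : ∀ x, Q (φ x) = R x) {g : W ≃ₗ[F] W} :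
    cj φ g ∈ O Q ↔ g ∈ O R := by
  constructor
  · intro hg x
    have := hg (φ x)
    rw [cj_apply, LinearEquiv.symm_apply_apply, h, h] at this
    exact this
  · intro hg x
    rw [cj_apply, h, hg, ← h, LinearEquiv.apply_symm_apply]

lemma map_cj_O {R : QuadraticForm F W} {φ : W ≃ₗ[F] V} (h : ∀ x, Q (φ x) = R x) :
    (O R).map (cj φ).toMonoidHom = O Q := by
  ext g
  constructor
  · rintro ⟨g', hg', rfl⟩
    exact (cj_mem_O h).2 hg'
  · intro hg
    refine ⟨(cj φ).symm g, (cj_mem_O h).1 ?_, (cj φ).apply_symm_apply g⟩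
    rw [MulEquiv.apply_symm_apply]; exact hg

lemma map_cj_Om {R : QuadraticForm F W} {φ : W ≃ₗ[F] V} (h : ∀ x, Q (φ x) = R x) :
    (Om R).map (cj φ).toMonoidHom = Om Q := by
  rw [Om, Om, Subgroup.map_commutator, map_cj_O h]

lemma cj_mem_Om {R : QuadraticForm F W} {φ : W ≃ₗ[F] V} (h : ∀ x, Q (φ x) = R x) {g : W ≃ₗ[F] W} :
    cj φ g ∈ Om Q ↔ g ∈ Om R := by
  rw [← map_cj_Om h]
  exact Subgroup.mem_map_iff_mem (cj φ).injective

lemma polar_map {R : QuadraticForm F W} {φ : W ≃ₗ[F] V} (h : ∀ x, Q (φ x) = R x) (x y : W) :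
    polar Q (φ x) (φ y) = polar R x y := by
  simp only [polar, ← map_add, h]

end transfer

lemma H7ND_iff : H7.Hyp.ND Q ↔ ND Q := Iff.rfl

lemma nd_iso {W : Type*} [AddCommGroup W] [Module F W] {R : QuadraticForm F W} {φ : W ≃ₗ[F] V}
    (h : ∀ x, Q (φ x) = R x) (hQ : ND Q) : ND R := by
  intro x hx
  have : φ x = 0 := by
    apply hQ
    intro y
    obtain ⟨y, rfl⟩ := φ.surjective y
    rw [polar_map h, hx]
  exact (map_eq_zero_iff φ φ.injective).1 this

/-- splitting off one hyperbolic pair -/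
lemma exists_model1 [FiniteDimensional F V] (hQ : ND Q) {u v : V} (hu : Q u = 0) (hv : Q v = 0)
    (huv : polar Q u v = 1) :
    ∃ (U : Submodule F V) (φ : (F × F × U) ≃ₗ[F] V), ND (Q.restrict U) ∧
      (∀ x, x ∈ U ↔ polar Q u x = 0 ∧ polar Q v x = 0) ∧
      finrank F U + 2 = finrank F V ∧
      (∀ x, φ x = x.1 • u + x.2.1 • v + (x.2.2 : V)) ∧
      ∀ x, Q (φ x) = H7.Hyp.hyp (Q.restrict U) x := by
  obtain ⟨U, h1, h2, h3, e, h4, h5⟩ := split_pair hQ hu hv huv
  refine ⟨U, (LinearEquiv.prodAssoc F F F U).symm.trans e, h2, h1, h3, fun x => ?_, fun x => ?_⟩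
  · rw [LinearEquiv.trans_apply, h4]; rfl
  · rw [LinearEquiv.trans_apply, h5, H7.Hyp.hyp_apply, QuadraticMap.prod_apply]; rfl

/-- splitting off two hyperbolic pairs -/
lemma exists_model2 [Finite F] [FiniteDimensional F V] (hQ : ND Q) (hn : 5 ≤ finrank F V) {u v : V}
    (hu : Q u = 0) (hv : Q v = 0) (huv : polar Q u v = 1) :
    ∃ (U : Submodule F V) (W : Submodule F U) (R : QuadraticForm F W)
      (φ : (F × F × (F × F × W)) ≃ₗ[F] V), ND R ∧ Nontrivial W ∧
      φ (1, 0, 0) = u ∧ φ (0, 1, 0) = v ∧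
      ∀ x, Q (φ x) = H7.Hyp.hyp (H7.Hyp.hyp R) x := by
  obtain ⟨U, φ, h1, h2, h3, h4, h5⟩ := exists_model1 hQ hu hv huv
  obtain ⟨x, -, hx0, hxQ⟩ := exists_sing (Q.restrict U) (U := ⊤) (by rw [finrank_top]; omega)
  obtain ⟨y, hy, hxy⟩ := exists_partner h1 hx0 hxQ
  obtain ⟨W, ψ, k1, k2, k3, k4, k5⟩ := exists_model1 h1 hxQ hy hxy
  refine ⟨U, W, (Q.restrict U).restrict W,
    ((LinearEquiv.refl F F).prodCongr ((LinearEquiv.refl F F).prodCongr ψ)).trans φ, k1, ?_, ?_, ?_, ?_⟩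
  · apply Module.nontrivial_of_finrank_pos (R := F); omega
  · rw [LinearEquiv.trans_apply, h4]
    simp
  · rw [LinearEquiv.trans_apply, h4]
    simp
  · intro z
    rw [LinearEquiv.trans_apply, h5, H7.Hyp.hyp_apply, H7.Hyp.hyp_apply]
    congr 1
    exact k5 _

lemma E_sgF {W : Type*} [AddCommGroup W] [Module F W]
    {R : QuadraticForm F W} (w : W) (x : F × F × W) :
    H7.Hyp.E R w x = sgF (H7.Hyp.hyp R) (1, 0, 0) (0, 0, w) x := by
  obtain ⟨a, b, v⟩ := x
  rw [H7.Hyp.E_apply, sgF, H7.Hyp.polar_hyp, H7.Hyp.polar_hyp, H7.Hyp.hyp_apply]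
  simp only [Prod.smul_mk, Prod.mk_add_mk, Prod.mk_sub_mk]
  simp
  ring

lemma E'_sgF {W : Type*} [AddCommGroup W] [Module F W]
    {R : QuadraticForm F W} (w : W) (x : F × F × W) :
    H7.Omega.E' R w x = sgF (H7.Hyp.hyp R) (0, 1, 0) (0, 0, w) x := by
  obtain ⟨a, b, v⟩ := x
  rw [H7.Omega.E'_apply, sgF, H7.Hyp.polar_hyp, H7.Hyp.polar_hyp, H7.Hyp.hyp_apply]
  simp only [Prod.smul_mk, Prod.mk_add_mk, Prod.mk_sub_mk]
  simp
  ring

lemma sgF_map {W : Type*} [AddCommGroup W] [Module F W] {R : QuadraticForm F W} {φ : W ≃ₗ[F] V}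
    (h : ∀ x, Q (φ x) = R x) (u w x : W) : φ (sgF R u w x) = sgF Q (φ u) (φ w) (φ x) := by
  unfold sgF
  rw [map_sub, map_add, map_smul, map_smul, polar_map h, polar_map h, h]

section model

variable [Finite F] [FiniteDimensional F V]

lemma om_model {W : Type*} [AddCommGroup W] [Module F W] [FiniteDimensional F W] [Nontrivial W]
    {R : QuadraticForm F W} (hR : ND R) : Om (H7.Hyp.hyp (H7.Hyp.hyp R)) = H7.Omega.Om (H7.Hyp.hyp R) := by
  have := Fintype.ofFinite F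
  exact H7.OmegaIso.commutator_eq_two hR

/-- **generation**: the Siegel transformations of a hyperbolic pair generate `Om Q`. -/
theorem le_of_full_one (hQ : ND Q) (hn : 5 ≤ finrank F V) {u v : V}
    (hu : Q u = 0) (hv : Q v = 0) (huv : polar Q u v = 1) (h1 : Full Q M u) (h2 : Full Q M v) : Om Q ≤ M := by
  obtain ⟨U, W, R, φ, hR, hW, e1, e2, hφ⟩ := exists_model2 hQ hn hu hv huv
  have key : H7.Omega.Om (H7.Hyp.hyp R) ≤ M.comap (cj φ).toMonoidHom := by
    apply H7.Omega.Om_le_of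
    · intro w
      rw [Subgroup.mem_comap]
      have hw : polar Q u (φ (0, 0, w)) = 0 := by
        rw [← e1, polar_map hφ, H7.Hyp.polar_hyp]; simp
      refine (h1 _ hw).eq_mem fun x => ?_
      change φ (H7.Hyp.E (H7.Hyp.hyp R) w (φ.symm x)) = _
      rw [E_sgF, sgF_map hφ, e1, LinearEquiv.apply_symm_apply]
    · intro w
      rw [Subgroup.mem_comap]
      have hw : polar Q v (φ (0, 0, w)) = 0 := by
        rw [← e2, polar_map hφ, H7.Hyp.polar_hyp]; simp
      refine (h2 _ hw).eq_mem fun x => ?_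
      change φ (H7.Omega.E' (H7.Hyp.hyp R) w (φ.symm x)) = _
      rw [E'_sgF, sgF_map hφ, e2, LinearEquiv.apply_symm_apply]
  rw [← map_cj_Om hφ, Subgroup.map_le_iff_le_comap, om_model hR]
  exact key

theorem le_of_full (hQ : ND Q) (hn : 5 ≤ finrank F V) {u v : V}
    (hu : Q u = 0) (hv : Q v = 0) (huv : polar Q u v ≠ 0) (h1 : Full Q M u) (h2 : Full Q M v) : Om Q ≤ M := by
  refine le_of_full_one hQ hn hu (v := (polar Q u v)⁻¹ • v) ?_ ?_ h1 (h2.smul _)
  · rw [Q_smul, hv, mul_zero]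
  · rw [p_smul', inv_mul_cancel₀ huv]

/-- all Siegel transformations are in `Om Q` -/
theorem full_Om (hQ : ND Q) (hn : 5 ≤ finrank F V) {u : V} (hu : Q u = 0) : Full Q (Om Q) u := by
  by_cases hu0 : u = 0
  · rw [hu0]; exact full_zero
  intro w hw
  obtain ⟨v, hv, huv⟩ := exists_partner hQ hu0 hu
  obtain ⟨U, W, R, φ, hR, hW, e1, e2, hφ⟩ := exists_model2 hQ hn hu hv huv
  obtain ⟨⟨a, b, w'⟩, rfl⟩ := φ.surjective w
  have hb : b = 0 := by
    rw [← e1, polar_map hφ, H7.Hyp.polar_hyp] at hw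
    simpa using hw
  subst hb
  have hsplit : φ (a, 0, w') = φ (0, 0, w') + a • u := by
    rw [← e1, ← map_smul, ← map_add]
    congr 1
    simp
  have hw' : polar Q u (φ (0, 0, w')) = 0 := by
    rw [← e1, polar_map hφ, H7.Hyp.polar_hyp]; simp
  rw [hsplit, has_add_u hu hw']
  refine ⟨cj φ (H7.Hyp.E (H7.Hyp.hyp R) w'), ?_, fun x => ?_⟩
  · rw [cj_mem_Om hφ, om_model hR]
    exact H7.Omega.E_mem_Om _ _
  · rw [cj_apply, E_sgF, sgF_map hφ, e1, LinearEquiv.apply_symm_apply]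

/-- adjusting an isometry by an isometry supported on a hyperbolic plane -/
theorem adj (hQ : ND Q) (hn : 5 ≤ finrank F V) {u v : V}
    (hu : Q u = 0) (hv : Q v = 0) (huv : polar Q u v = 1) {g : V ≃ₗ[F] V} (hg : g ∈ O Q) :
    ∃ d ∈ O Q, (∀ x, polar Q u x = 0 → polar Q v x = 0 → d x = x) ∧ g * d ∈ Om Q := by
  have := Fintype.ofFinite F
  obtain ⟨U, W, R, φ, hR, hW, e1, e2, hφ⟩ := exists_model2 hQ hn hu hv huv
  set g' := (cj φ).symm g with hg'
  have hg'O : g' ∈ O (H7.Hyp.hyp (H7.Hyp.hyp R)) := by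
    rw [← cj_mem_O hφ, hg', MulEquiv.apply_symm_apply]; exact hg
  obtain ⟨k, hk, d, hd, he⟩ := H7.Omega.eq_X (H7.Hyp.ND.hyp hR) (H7.OmegaIso.xr_hyp_of hR) hg'O
  have hdO : d ∈ O (H7.Hyp.hyp (H7.Hyp.hyp R)) := H7.Omega.D_le hd
  refine ⟨(cj φ d)⁻¹, (O Q).inv_mem ((cj_mem_O hφ).2 hdO), ?_, ?_⟩
  · intro x hx1 hx2
    obtain ⟨⟨a, b, w⟩, rfl⟩ := φ.surjective x
    have ha : a = 0 := by
      rw [← e2, polar_map hφ, H7.Hyp.polar_hyp] at hx2
      simpa using hx2
    have hb : b = 0 := by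
      rw [← e1, polar_map hφ, H7.Hyp.polar_hyp] at hx1
      simpa using hx1
    subst ha hb
    rw [H7.Hyp.inv_apply_eq, cj_apply, LinearEquiv.symm_apply_apply]
    congr 1
    rcases hd with ⟨c, rfl⟩ | ⟨c, rfl⟩
    · rw [H7.Hyp.T_apply]; simp
    · rw [LinearEquiv.mul_apply, H7.Hyp.T_apply, H7.Hyp.S_apply]; simp
  · have : g * (cj φ d)⁻¹ = cj φ k := by
      rw [mul_inv_eq_iff_eq_mul, ← map_mul, ← he, hg', MulEquiv.apply_symm_apply]
    rw [this, cj_mem_Om hφ, om_model hR]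
    exact hk

end model

end H7.OA
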