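import Mathlib
import Cfsg.Prelude.Def_GeometricClasses
import Cfsg.Agent.Lib.H7.OA
import Cfsg.Agent.Lib.H95.Bridge

/-!
Translation between `Cfsg.Geo.omegaGL` and the abstract group `H7.OA.Om`.
-/
set_option autoImplicit false

namespace H7.OABridge

open Module QuadraticMap H48.QuadSplit H95.Bridge H7.OA Cfsg Cfsg.Geo
open scoped Matrix MatrixGroups

variable {ι : Type} [Fintype ι] [DecidableEq ι] {F : Type*} [Field F]

/-- the quadratic form attached to a non-degenerate function -/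
def ofFun {Q₀ : (ι → F) → F} (h : IsNondegenerateQuadraticForm Q₀) : QuadraticForm F (ι → F) :=
  QuadraticMap.ofPolar Q₀ (fun a x => by rw [h.smul, _root_.sq, smul_eq_mul]) h.polar_bilinear.add_left
    (fun a x y => by rw [h.polar_bilinear.smul_left, smul_eq_mul])

omit [Fintype ι] [DecidableEq ι] in
@[simp] lemma coe_ofFun {Q₀ : (ι → F) → F} (h : IsNondegenerateQuadraticForm Q₀) : ⇑(ofFun h) = Q₀ := rfl

omit [Fintype ι] [DecidableEq ι] in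
lemma nd_of {Q : QuadraticForm F (ι → F)} {Q₀ : (ι → F) → F} (hQ : ⇑Q = Q₀) (h : IsNondegenerateQuadraticForm Q₀) :
    ND Q := by
  intro v hv
  by_contra hne
  obtain ⟨x, hx⟩ := (h.nondegenerate v hne).2
  apply hx
  rw [← hQ]
  exact hv x

lemma nd_ofFun {Q₀ : (ι → F) → F} (h : IsNondegenerateQuadraticForm Q₀) : ND (ofFun h) := nd_of rfl h

lemma map_isometryGroup {Q : QuadraticForm F (ι → F)} {Q₀ : (ι → F) → F} (hQ : ⇑Q = Q₀) :
    (isometryGroup F Q₀).map (toEq ι F).toMonoidHom = O Q := by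
  ext g
  rw [mem_map_toEq, mem_O]
  have h1 : (toEq ι F).symm g ∈ isometryGroup F Q₀ ↔
      ∀ v, Q₀ ((((toEq ι F).symm g : GL ι F) : Matrix ι ι F) *ᵥ v) = Q₀ v :=
    ⟨fun h v => h v v, fun h u _ => h u⟩
  rw [h1]
  simp only [toEq_symm_mulVec, hQ]

lemma omegaGL_eq (Q₀ : (ι → F) → F) : omegaGL Q₀ = ⁅isometryGroup F Q₀, isometryGroup F Q₀⁆ :=
  (isometryGroup F Q₀).map_subtype_commutator

lemma map_omegaGL {Q : QuadraticForm F (ι → F)} {Q₀ : (ι → F) → F} (hQ : ⇑Q = Q₀) :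
    (omegaGL Q₀).map (toEq ι F).toMonoidHom = Om Q := by
  rw [omegaGL_eq, Subgroup.map_commutator, map_isometryGroup hQ, Om]

lemma mem_omegaGL {Q : QuadraticForm F (ι → F)} {Q₀ : (ι → F) → F} (hQ : ⇑Q = Q₀) {g : GL ι F} :
    g ∈ omegaGL Q₀ ↔ toEq ι F g ∈ Om Q := by
  rw [← map_omegaGL hQ]
  exact (Subgroup.mem_map_iff_mem (toEq ι F).injective).symm

lemma mem_isometryGroup {Q : QuadraticForm F (ι → F)} {Q₀ : (ι → F) → F} (hQ : ⇑Q = Q₀) {g : GL ι F} :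
    g ∈ isometryGroup F Q₀ ↔ toEq ι F g ∈ O Q := by
  rw [← map_isometryGroup hQ]
  exact (Subgroup.mem_map_iff_mem (toEq ι F).injective).symm

/-- maximality in `omegaGL`, reduced to the abstract group -/
theorem isMaximalIn_omegaGL {Q : QuadraticForm F (ι → F)} {Q₀ : (ι → F) → F} (hQ : ⇑Q = Q₀)
    {S : Subgroup (GL ι F)} {P : ((ι → F) ≃ₗ[F] (ι → F)) → Prop} (hP : ∀ g, g ∈ S ↔ P (toEq ι F g))
    (h1 : ∃ g ∈ Om Q, ¬ P g)
    (h2 : ∀ M : Subgroup ((ι → F) ≃ₗ[F] (ι → F)), (∀ g ∈ Om Q, P g → g ∈ M) → M ≤ Om Q →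
      (∃ g ∈ M, ¬ P g) → Om Q ≤ M) : IsMaximalIn (omegaGL Q₀) (S ⊓ omegaGL Q₀) := by
  refine isMaximalIn_of ?_ ?_
  · obtain ⟨g, hg, hgP⟩ := h1
    refine ⟨(toEq ι F).symm g, ?_, ?_⟩
    · rw [mem_omegaGL hQ, MulEquiv.apply_symm_apply]; exact hg
    · rw [hP, MulEquiv.apply_symm_apply]; exact hgP
  · intro M hM hMK hne
    refine le_of_map (K' := Om Q) (fun g => mem_omegaGL hQ) (h2 _ ?_ ?_ ?_)
    · intro g hg hgP
      rw [mem_map_toEq]
      apply hM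
      refine Subgroup.mem_inf.2 ⟨?_, ?_⟩
      · rw [hP, MulEquiv.apply_symm_apply]; exact hgP
      · rw [mem_omegaGL hQ, MulEquiv.apply_symm_apply]; exact hg
    · rw [← map_omegaGL hQ]
      exact Subgroup.map_mono hMK
    · obtain ⟨g, hg, hgS⟩ := hne
      refine ⟨toEq ι F g, Subgroup.mem_map_of_mem _ hg, ?_⟩
      rw [← hP]; exact hgS

/-- non-maximality in `omegaGL`, reduced to the abstract group -/
theorem not_maximal_omegaGL {Q : QuadraticForm F (ι → F)} {Q₀ : (ι → F) → F} (hQ : ⇑Q = Q₀)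
    {S : Subgroup (GL ι F)} {P : ((ι → F) ≃ₗ[F] (ι → F)) → Prop} (hP : ∀ g, g ∈ S ↔ P (toEq ι F g))
    (T : Subgroup ((ι → F) ≃ₗ[F] (ι → F))) (h0 : ∀ g ∈ Om Q, P g → g ∈ T) (h1 : ∃ g ∈ Om Q, g ∈ T ∧ ¬ P g)
    (h2 : ∃ g ∈ Om Q, g ∉ T) :
    ∃ K : Subgroup (GL ι F), S ⊓ omegaGL Q₀ < K ∧ K < omegaGL Q₀ := by
  refine not_max_of (T := T.comap (toEq ι F).toMonoidHom) ?_ ?_ ?_
  · rintro g ⟨hg1, hg2⟩
    exact h0 _ ((mem_omegaGL hQ).1 hg2) ((hP g).1 hg1)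
  · obtain ⟨g, hg, hgT, hgP⟩ := h1
    refine ⟨(toEq ι F).symm g, Subgroup.mem_inf.2 ⟨?_, ?_⟩, ?_⟩
    · rw [Subgroup.mem_comap]
      change (toEq ι F) ((toEq ι F).symm g) ∈ T
      rw [MulEquiv.apply_symm_apply]; exact hgT
    · rw [mem_omegaGL hQ, MulEquiv.apply_symm_apply]; exact hg
    · rw [hP, MulEquiv.apply_symm_apply]; exact hgP
  · obtain ⟨g, hg, hgT⟩ := h2
    refine ⟨(toEq ι F).symm g, ?_, ?_⟩
    · rw [mem_omegaGL hQ, MulEquiv.apply_symm_apply]; exact hg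
    · rw [Subgroup.mem_comap]
      change ¬ (toEq ι F) ((toEq ι F).symm g) ∈ T
      rw [MulEquiv.apply_symm_apply]; exact hgT

/-- the stabiliser of a subspace -/
def Stab {V : Type*} [AddCommGroup V] [Module F V] (W : Submodule F V) (g : V ≃ₗ[F] V) : Prop :=
  ∀ v, v ∈ W ↔ g v ∈ W

lemma mem_stab {W : Submodule F (ι → F)} (g : GL ι F) :
    g ∈ subspaceStabilizer W ↔ Stab W (toEq ι F g) := mem_subspaceStabilizer

end H7.OABridge
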