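import Mathlib
import Cfsg.Agent.Lib.H7.OABridge

/-!
Maximality of the stabilisers of totally singular subspaces in `Om Q`.
-/
set_option autoImplicit false

namespace H7.OAPar

open Module QuadraticMap H48.QuadSplit H48.QuadWitt H95.OGeo H7.OA H7.OABridge

variable {F V : Type*} [Field F] [AddCommGroup V] [Module F V] {Q : QuadraticForm F V}

/-- totally singular subspaces -/
def TS (Q : QuadraticForm F V) (W : Submodule F V) : Prop := ∀ w ∈ W, Q w = 0

lemma TS.polar {W : Submodule F V} (h : TS Q W) {x y : V} (hx : x ∈ W) (hy : y ∈ W) : polar Q x y = 0 := by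
  unfold QuadraticMap.polar
  rw [h _ (W.add_mem hx hy), h _ hx, h _ hy]; simp

lemma TS.le_orth {W : Submodule F V} (h : TS Q W) : W ≤ orth Q W := fun _ hx _ hu => h.polar hu hx

lemma TS.finrank_le [FiniteDimensional F V] (hQ : ND Q) {W : Submodule F V} (h : TS Q W) :
    2 * finrank F W ≤ finrank F V := by
  have h1 := finrank_orth hQ W
  have h2 := Submodule.finrank_mono h.le_orth
  omega

lemma stab_of [FiniteDimensional F V] {W : Submodule F V} {g : V ≃ₗ[F] V} (h : ∀ v ∈ W, g v ∈ W) : Stab W g :=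
  H95.Bridge.mem_iff_of_map W g h

/-- A pair of orthogonal vectors in `W^⊥`, the first singular -/
lemma exists_move [FiniteDimensional F V] (hQ : ND Q) {W : Submodule F V} (hW : TS Q W)
    (hdim : ∀ U : Submodule F V, TS Q U → 2 * finrank F U = finrank F V → 2 * (finrank F W + 1) ≠ finrank F V)
    {z : V} (hz : Q z = 0) (hzW : ∀ w ∈ W, polar Q z w = 0) (hzn : z ∉ W) :
    ∃ u w, Q u = 0 ∧ polar Q u w = 0 ∧ polar Q z u = 1 ∧ Q w ≠ 0 ∧ (∀ x ∈ W, polar Q x u = 0) ∧
      ∀ x ∈ W, polar Q x w = 0 := by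
  obtain ⟨p, hp, hzp⟩ := sep hQ hzn
  obtain ⟨p', e1, e2⟩ : ∃ p', polar Q z p' = 1 ∧ ∀ x ∈ W, polar Q x p' = 0 :=
    ⟨(polar Q z p)⁻¹ • p, by rw [p_smul', inv_mul_cancel₀ hzp], fun x hx => by
      rw [p_smul', hp x hx, mul_zero]⟩
  obtain ⟨u, hu⟩ : ∃ u, u = p' - Q p' • z := ⟨_, rfl⟩
  have hu0 : Q u = 0 := by
    rw [hu, Q_sub, Q_smul, p_smul', p_comm Q p', e1, hz]; ring
  have hzu : polar Q z u = 1 := by
    rw [hu, p_sub', p_smul', p_self, hz, e1]; ring
  have hWu : ∀ x ∈ W, polar Q x u = 0 := by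
    intro x hx
    rw [hu, p_sub', p_smul', e2 x hx, p_comm, hzW x hx]; ring
  by_contra hcon
  push Not at hcon
  -- `W^⊥ ∩ u^⊥` would be totally singular
  set T := W ⊔ Submodule.span F {u} with hT
  have hTS : TS Q (orth Q T) := by
    intro w hw
    by_contra hw0
    have h1 : polar Q u w = 0 := hw u (Submodule.mem_sup_right (Submodule.mem_span_singleton_self u))
    obtain ⟨x, hx, hx'⟩ := hcon u w hu0 h1 hzu hw0 hWu
    exact hx' (hw x (Submodule.mem_sup_left hx))
  have huW : u ∉ W := by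
    intro huW
    have := hzW u huW
    rw [hzu] at this
    exact one_ne_zero this
  have hdT : finrank F T ≤ finrank F W + 1 := by
    rw [hT]
    have h1 := Submodule.finrank_add_le_finrank_add_finrank W (Submodule.span F {u})
    have h2 := finrank_span_le_card (R := F) ({u} : Set V)
    simp at h2
    omega
  have h3 := finrank_orth hQ T
  have h4 := hTS.finrank_le hQ
  -- `W + ⟨z⟩` is totally singular
  set T' := W ⊔ Submodule.span F {z} with hT'
  have hTS' : TS Q T' := by
    intro x hx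
    rw [hT', Submodule.mem_sup] at hx
    obtain ⟨w, hw, y, hy, rfl⟩ := hx
    rw [Submodule.mem_span_singleton] at hy
    obtain ⟨c, rfl⟩ := hy
    rw [Q_add, Q_smul, p_smul', hz, hW w hw, p_comm, hzW w hw]; ring
  have hdT' : finrank F W + 1 ≤ finrank F T' := by
    apply Nat.succ_le_of_lt
    apply Submodule.finrank_lt_finrank_of_lt
    refine lt_of_le_of_ne le_sup_left ?_
    intro h
    exact hzn (h ▸ Submodule.mem_sup_right (Submodule.mem_span_singleton_self z))
  have h5 := hTS'.finrank_le hQ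
  exact hdim T' hTS' (by omega) (by omega)

variable [Finite F] [FiniteDimensional F V]

lemma exists_not_stab (hQ : ND Q) (hn : 5 ≤ finrank F V) {W : Submodule F V} (hW : TS Q W) (hW0 : W ≠ ⊥) :
    ∃ g ∈ Om Q, ¬ Stab W g := by
  obtain ⟨z, hz, hz0⟩ := (Submodule.ne_bot_iff W).1 hW0
  obtain ⟨v, hv, hzv⟩ := exists_partner hQ hz0 (hW z hz)
  obtain ⟨U, φ, h1, h2, h3, h4, h5⟩ := exists_model1 hQ (hW z hz) hv hzv
  have : Nontrivial U := by
    apply Module.nontrivial_of_finrank_pos (R := F); omega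
  obtain ⟨⟨w, hwU⟩, hw⟩ := H7.Omega.exists_Q_ne (Q := Q.restrict U) h1
  have hw' : Q w ≠ 0 := hw
  obtain ⟨hzw, hvw⟩ := (h2 w).1 hwU
  obtain ⟨g, hg, hgx⟩ := full_Om hQ hn hv w hvw
  refine ⟨g, hg, fun hst => ?_⟩
  have h6 := (hst z).1 hz
  have h7 : polar Q z (g z) = 0 := hW.polar hz h6
  rw [hgx, sgF, hzv, hzw] at h7
  rw [p_sub', p_add', p_smul', p_smul', hzw, hzv, p_self, hW z hz] at h7
  apply hw'
  simpa using h7

/-- **Maximality of parabolic subgroups** -/
theorem maximal (hQ : ND Q) (hn : 5 ≤ finrank F V) {W : Submodule F V} (hW : TS Q W)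
    (hdim : ∀ U : Submodule F V, TS Q U → 2 * finrank F U = finrank F V → 2 * (finrank F W + 1) ≠ finrank F V)
    {M : Subgroup (V ≃ₗ[F] V)} (hM : ∀ g ∈ Om Q, Stab W g → g ∈ M) (hMO : M ≤ Om Q)
    (hne : ∃ g ∈ M, ¬ Stab W g) : Om Q ≤ M := by
  have hMO' : M ≤ O Q := hMO.trans (Om_le Q)
  -- full groups of Siegel elements
  have hfull : ∀ z ∈ W, Full Q M z := by
    intro z hz w hw
    obtain ⟨g, hg, hgx⟩ := full_Om hQ hn (hW z hz) w hw
    refine ⟨g, hM g hg (stab_of fun x hx => ?_), hgx⟩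
    rw [hgx, sgF, hW.polar hx hz]
    simp only [zero_smul, add_zero, mul_zero]
    exact W.sub_mem hx (W.smul_mem _ hz)
  by_contra hcon
  have hperp : ∀ g ∈ M, ∀ x ∈ W, ∀ y ∈ W, polar Q (g x) y = 0 := by
    intro g hg x hx y hy
    by_contra h
    exact hcon (le_of_full hQ hn (by rw [mem_O.1 (hMO' hg), hW x hx]) (hW y hy) h
      ((hfull x hx).conj hg (hMO' hg)) (hfull y hy))
  have hperp' : ∀ g ∈ M, ∀ h ∈ M, ∀ x ∈ W, ∀ y ∈ W, polar Q (g x) (h y) = 0 := by
    intro g hg h hh x hx y hy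
    have e1 : g x = h ((h⁻¹ * g) x) := by
      rw [LinearEquiv.mul_apply, apply_inv_apply]
    rw [e1, O_polar (hMO' hh)]
    exact hperp _ (M.mul_mem (M.inv_mem hh) hg) x hx y hy
  set W' : Submodule F V := Submodule.span F {y | ∃ g ∈ M, ∃ x ∈ W, y = g x} with hW'
  have hpW' : ∀ a ∈ W', ∀ b ∈ W', polar Q a b = 0 := by
    intro a ha b hb
    induction ha using Submodule.span_induction with
    | mem a ha =>
      obtain ⟨g, hg, x, hx, rfl⟩ := ha
      induction hb using Submodule.span_induction with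
      | mem b hb =>
        obtain ⟨h, hh, y, hy, rfl⟩ := hb
        exact hperp' g hg h hh x hx y hy
      | zero => exact p_zero' Q _
      | add b b' _ _ h1 h2 => rw [p_add', h1, h2, add_zero]
      | smul c b _ h1 => rw [p_smul', h1, mul_zero]
    | zero => exact p_zero Q _
    | add a a' _ _ h1 h2 => rw [p_add, h1, h2, add_zero]
    | smul c a _ h1 => rw [p_smul, h1, mul_zero]
  have hW'S : TS Q W' := by
    intro a ha
    induction ha using Submodule.span_induction with
    | mem a ha =>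
      obtain ⟨g, hg, x, hx, rfl⟩ := ha
      rw [mem_O.1 (hMO' hg), hW x hx]
    | zero => exact QuadraticMap.map_zero Q
    | add a a' ha ha' h1 h2 => rw [Q_add, h1, h2, hpW' a ha a' ha']; ring
    | smul c a _ h1 => rw [Q_smul, h1, mul_zero]
  have hinv : ∀ g ∈ M, ∀ y ∈ W', g y ∈ W' := by
    intro g hg y hy
    induction hy using Submodule.span_induction with
    | mem a ha =>
      obtain ⟨h, hh, x, hx, rfl⟩ := ha
      exact Submodule.subset_span ⟨g * h, M.mul_mem hg hh, x, hx, rfl⟩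
    | zero => rw [map_zero]; exact W'.zero_mem
    | add a a' ha ha' h1 h2 => rw [map_add]; exact W'.add_mem h1 h2
    | smul c a _ h1 => rw [map_smul]; exact W'.smul_mem _ h1
  have hle : W ≤ W' := fun x hx => Submodule.subset_span ⟨1, M.one_mem, x, hx, rfl⟩
  obtain ⟨g, hg, hgW⟩ := hne
  have : ∃ x ∈ W, g x ∉ W := by
    by_contra h
    push Not at h
    exact hgW (stab_of h)
  obtain ⟨x, hx, hgx⟩ := this
  set z := g x with hz
  have hzW' : z ∈ W' := Submodule.subset_span ⟨g, hg, x, hx, rfl⟩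
  obtain ⟨u, w, hu, huw, hzu, hw, hWu, hWw⟩ := exists_move hQ hW hdim (hW'S z hzW')
    (fun y hy => hpW' z hzW' y (hle hy)) hgx
  obtain ⟨s, hs, hsx⟩ := full_Om hQ hn hu w huw
  have hsM : s ∈ M := by
    refine hM s hs (stab_of fun y hy => ?_)
    rw [hsx, sgF, hWu y hy, hWw y hy]
    simpa using hy
  have h1 : s z - z ∈ W' := W'.sub_mem (hinv s hsM z hzW') hzW'
  have h2 := hW'S _ h1
  apply hw
  have e : s z - z = w - (polar Q z w + Q w) • u := by
    rw [hsx, sgF, hzu, mul_one, one_smul]; abel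
  rw [e, Q_sub, Q_smul, p_smul', hu, p_comm Q w u, huw] at h2
  simpa using h2

end H7.OAPar
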