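import Mathlib
import Cfsg.Agent.Lib.H7.OAPar

/-!
Maximality of the stabilisers of non-degenerate subspaces in `Om Q`.
-/
set_option autoImplicit false

namespace H7.OANd

open Module QuadraticMap H48.QuadSplit H48.QuadWitt H95.OGeo H7.OA H7.OABridge H7.OAPar

variable {F V : Type*} [Field F] [AddCommGroup V] [Module F V] {Q : QuadraticForm F V}

/-! ### Irreducibility of the orthogonal group of `W` -/

/-- a subspace of `W` closed under passing to vectors of the same norm -/
lemma irr [Finite F] [FiniteDimensional F V] {W R : Submodule F V} (hW : ND (Q.restrict W))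
    (hR : R ≤ W) (hR0 : R ≠ ⊥)
    (hcl : ∀ x ∈ R, ∀ y ∈ W, x ≠ 0 → y ≠ 0 → Q x = Q y → y ∈ R)
    (hpl : (finrank F W = 2 ∧ ∃ x ∈ W, x ≠ 0 ∧ Q x = 0) → 4 ≤ Nat.card F) : R = W := by
  classical
  have := Fintype.ofFinite F
  obtain ⟨r, hr, hr0⟩ := (Submodule.ne_bot_iff R).1 hR0
  have hrW := hR hr
  -- two independent vectors suffice in dimension two
  have two : finrank F W = 2 → ∀ x ∈ R, ∀ y ∈ R, LinearIndependent F ![x, y] → R = W := by
    intro h2 x hx y hy hxy
    apply Submodule.eq_of_le_of_finrank_le hR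
    rw [h2]
    have h3 : Submodule.span F (Set.range ![x, y]) ≤ R := by
      rw [Submodule.span_le]
      rintro _ ⟨i, rfl⟩
      fin_cases i
      · exact hx
      · exact hy
    have h4 := Submodule.finrank_mono h3
    rw [finrank_span_eq_card hxy] at h4
    simpa using h4
  by_cases h3 : 3 ≤ finrank F W
  · -- dimension at least three
    obtain ⟨e, he, he0, heQ⟩ := exists_sing Q h3
    obtain ⟨f', hf'Q, hef'⟩ := exists_partner hW (v := ⟨e, he⟩) (fun h => he0 (congrArg Subtype.val h)) heQ
    obtain ⟨U, φ, h1, h2, h4, h5, h6⟩ := exists_model1 hW heQ hf'Q hef'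
    obtain ⟨f, hfW⟩ := f'
    have hfQ : Q f = 0 := hf'Q
    have hef : polar Q e f = 1 := hef'
    have hf0 : f ≠ 0 := by
      rintro rfl
      rw [p_zero'] at hef; exact zero_ne_one hef
    -- if `R` contains a singular vector then `R = W`
    have sing : ∀ x ∈ R, x ≠ 0 → Q x = 0 → R = W := by
      intro x hx hx0 hxQ
      have heR : e ∈ R := hcl x hx e he hx0 he0 (by rw [hxQ, heQ])
      have hfR : f ∈ R := hcl x hx f hfW hx0 hf0 (by rw [hxQ, hfQ])
      apply le_antisymm hR
      intro w hw
      obtain ⟨⟨α, β, y⟩, hy⟩ := φ.surjective ⟨w, hw⟩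
      rw [h5] at hy
      have hy' := congrArg Subtype.val hy
      simp only [Submodule.coe_add, Submodule.coe_smul] at hy'
      rw [← hy']
      refine R.add_mem (R.add_mem (R.smul_mem _ heR) (R.smul_mem _ hfR)) ?_
      obtain ⟨hy1, hy2⟩ := (h2 (y : W)).1 y.2
      have hy1' : polar Q e ((y : W) : V) = 0 := hy1
      have hy2' : polar Q f ((y : W) : V) = 0 := hy2
      have h7 : ((y : W) : V) + e - Q ((y : W) : V) • f ∈ R := by
        refine hcl x hx _ (W.sub_mem (W.add_mem (y : W).2 he) (W.smul_mem _ hfW)) hx0 ?_ ?_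
        · intro h0
          have h8 : polar Q f (((y : W) : V) + e - Q ((y : W) : V) • f) = 0 := by rw [h0, p_zero']
          rw [p_sub', p_add', p_smul', p_self, hfQ, hy2', p_comm Q f e, hef] at h8
          simp at h8
        · rw [hxQ, Q_sub, Q_add, Q_smul, p_smul', p_add, p_comm Q ((y : W) : V) e, hy1', p_comm Q ((y : W) : V) f, hy2',
            hef, heQ, hfQ]
          ring
      have h9 : ((y : W) : V) = (((y : W) : V) + e - Q ((y : W) : V) • f) - e + Q ((y : W) : V) • f := by abel
      rw [h9]
      exact R.add_mem (R.sub_mem h7 heR) (R.smul_mem _ hfR)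
    by_cases hc : Q r = 0
    · exact sing r hr hr0 hc
    · -- vectors of norm `Q r`
      have hv : ∀ y : U, ((y : W) : V) - Q ((y : W) : V) • f ∈ R := by
        have hv' : ∀ y : U, ((y : W) : V) + e + (Q r - Q ((y : W) : V)) • f ∈ R := by
          intro y
          obtain ⟨hy1, hy2⟩ := (h2 (y : W)).1 y.2
          have hy1' : polar Q e ((y : W) : V) = 0 := hy1
          have hy2' : polar Q f ((y : W) : V) = 0 := hy2
          refine hcl r hr _ (W.add_mem (W.add_mem (y : W).2 he) (W.smul_mem _ hfW)) hr0 ?_ ?_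
          · intro h0
            have h8 : polar Q f (((y : W) : V) + e + (Q r - Q ((y : W) : V)) • f) = 0 := by rw [h0, p_zero']
            rw [p_add', p_add', p_smul', p_self, hfQ, hy2', p_comm Q f e, hef] at h8
            simp at h8
          · rw [Q_add, Q_add, Q_smul, p_smul', p_add, p_comm Q ((y : W) : V) e, hy1', p_comm Q ((y : W) : V) f, hy2',
              hef, heQ, hfQ]
            ring
        intro y
        have h8 := R.sub_mem (hv' y) (hv' 0)
        have h9 : ((y : W) : V) - Q ((y : W) : V) • f = ((y : W) : V) + e + (Q r - Q ((y : W) : V)) • f -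
            (((0 : U) : W) + e + (Q r - Q (((0 : U) : W) : V)) • f) := by
          simp only [Submodule.coe_zero, QuadraticMap.map_zero]
          module
        rw [h9]; exact h8
      have hUn : Nontrivial U := by
        apply Module.nontrivial_of_finrank_pos (R := F); omega
      obtain ⟨y, hy0⟩ := exists_ne (0 : U)
      have hyy : ∃ y' : U, polar Q ((y : W) : V) ((y' : W) : V) ≠ 0 := by
        by_contra hcon
        push Not at hcon
        exact hy0 (h1 y fun y' => hcon y')
      obtain ⟨y', hy'⟩ := hyy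
      have h8 := R.sub_mem (R.add_mem (hv y) (hv y')) (hv (y + y'))
      have h9 : ((y : W) : V) - Q ((y : W) : V) • f + (((y' : W) : V) - Q ((y' : W) : V) • f) -
          ((((y + y' : U) : W) : V) - Q (((y + y' : U) : W) : V) • f) =
          (polar Q ((y : W) : V) ((y' : W) : V)) • f := by
        simp only [Submodule.coe_add, Q_add]
        module
      rw [h9] at h8
      have hfR : f ∈ R := by
        have := R.smul_mem (polar Q ((y : W) : V) ((y' : W) : V))⁻¹ h8
        rwa [smul_smul, inv_mul_cancel₀ hy', one_smul] at this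
      exact sing f hfR hf0 hfQ
  · by_cases h2 : finrank F W = 2
    · by_cases hs : ∃ x ∈ W, x ≠ 0 ∧ Q x = 0
      · -- hyperbolic plane
        have hq := hpl ⟨h2, hs⟩
        obtain ⟨e, he, he0, heQ⟩ := hs
        obtain ⟨f', hf'Q, hef'⟩ := exists_partner hW (v := ⟨e, he⟩) (fun h => he0 (congrArg Subtype.val h)) heQ
        obtain ⟨f, hfW⟩ := f'
        have hfQ : Q f = 0 := hf'Q
        have hef : polar Q e f = 1 := hef'
        have hf0 : f ≠ 0 := by
          rintro rfl
          rw [p_zero'] at hef; exact zero_ne_one hef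
        have hee : polar Q e e = 0 := by rw [p_self, heQ, mul_zero]
        have hff : polar Q f f = 0 := by rw [p_self, hfQ, mul_zero]
        have hfe : polar Q f e = 1 := by rw [p_comm, hef]
        have hind : LinearIndependent F ![e, f] := by
          rw [LinearIndependent.pair_iff]
          intro s t hst
          have a1 : polar Q e (s • e + t • f) = 0 := by rw [hst, p_zero']
          have a2 : polar Q f (s • e + t • f) = 0 := by rw [hst, p_zero']
          rw [p_add', p_smul', p_smul', hee, hef] at a1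
          rw [p_add', p_smul', p_smul', hfe, hff] at a2
          simp at a1 a2
          exact ⟨a2, a1⟩
        obtain ⟨α, β, hαβ⟩ : ∃ α β : F, r = α • e + β • f := by
          have hsp : Submodule.span F (Set.range ![e, f]) = W := by
            apply Submodule.eq_of_le_of_finrank_le
            · rw [Submodule.span_le]
              rintro _ ⟨i, rfl⟩
              fin_cases i
              · exact he
              · exact hfW
            · rw [h2, finrank_span_eq_card hind]; simp
          have hrs : r ∈ Submodule.span F (Set.range ![e, f]) := by rw [hsp]; exact hrW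
          rw [Matrix.range_cons, Matrix.range_cons, Matrix.range_empty, Set.union_empty,
            Set.singleton_union, Submodule.mem_span_pair] at hrs
          obtain ⟨α, β, h⟩ := hrs
          exact ⟨α, β, h.symm⟩
        have hQr : Q r = α * β := by
          rw [hαβ, Q_add, Q_smul, Q_smul, p_smul', p_smul, heQ, hfQ, hef]; ring
        by_cases h0 : α * β = 0
        · have hr' : Q r = 0 := by rw [hQr, h0]
          exact two h2 e (hcl r hr e he hr0 he0 (by rw [hr', heQ])) f
            (hcl r hr f hfW hr0 hf0 (by rw [hr', hfQ])) hind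
        · obtain ⟨hα, hβ⟩ := mul_ne_zero_iff.1 h0
          -- an element with square different from one
          obtain ⟨t, ht0, ht1, ht2⟩ : ∃ t : F, t ≠ 0 ∧ t ≠ 1 ∧ t ≠ -1 := by
            by_contra hcon
            push Not at hcon
            have h5 : (Finset.univ : Finset F) ⊆ {0, 1, -1} := by
              intro a _
              by_cases ha : a = 0
              · simp [ha]
              · by_cases ha1 : a = 1
                · simp [ha1]
                · simp [hcon a ha ha1]
            have h6 := Finset.card_le_card h5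
            have h7 : ({0, 1, -1} : Finset F).card ≤ 3 := Finset.card_le_three
            rw [Finset.card_univ, ← Nat.card_eq_fintype_card] at h6
            omega
          have hr2 : (t * α) • e + (t⁻¹ * β) • f ∈ R := by
            refine hcl r hr _ (W.add_mem (W.smul_mem _ he) (W.smul_mem _ hfW)) hr0 ?_ ?_
            · intro h5
              have := (LinearIndependent.pair_iff.1 hind) _ _ h5
              exact mul_ne_zero ht0 hα this.1
            · rw [hQr, Q_add, Q_smul, Q_smul, p_smul', p_smul, heQ, hfQ, hef]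
              field_simp
              ring
          refine two h2 _ hr _ hr2 ?_
          rw [LinearIndependent.pair_iff]
          intro s s' hss
          rw [hαβ] at hss
          have h5 : (s * α + s' * (t * α)) • e + (s * β + s' * (t⁻¹ * β)) • f = 0 := by
            rw [← hss]; module
          obtain ⟨h6, h7⟩ := (LinearIndependent.pair_iff.1 hind) _ _ h5
          have h8 : s + s' * t = 0 := by
            have : α * (s + s' * t) = 0 := by linear_combination h6
            exact (mul_eq_zero.1 this).resolve_left hα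
          have h9 : s + s' * t⁻¹ = 0 := by
            have : β * (s + s' * t⁻¹) = 0 := by linear_combination h7
            exact (mul_eq_zero.1 this).resolve_left hβ
          have h10 : s' * (t - t⁻¹) = 0 := by linear_combination h8 - h9
          have h11 : t - t⁻¹ ≠ 0 := by
            intro h
            have : t * t = 1 := by
              have := congrArg (· * t) h
              simp only [sub_mul, inv_mul_cancel₀ ht0, zero_mul] at this
              linear_combination this
            rcases mul_self_eq_one_iff.1 this with h | h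
            · exact ht1 h
            · exact ht2 h
          have h12 := (mul_eq_zero.1 h10).resolve_right h11
          rw [h12] at h8
          simp at h8
          exact ⟨h8, h12⟩
      · -- anisotropic plane
        push Not at hs
        obtain ⟨z, hzW, hz1, hz2⟩ : ∃ z ∈ W, z ∉ Submodule.span F {r} ∧ polar Q z r ≠ 0 := by
          by_contra hcon
          push Not at hcon
          obtain ⟨s, hs'⟩ : ∃ s : W, polar Q r (s : V) ≠ 0 := by
            by_contra h
            push Not at h
            exact hr0 (congrArg Subtype.val (hW ⟨r, hrW⟩ fun w => h w))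
          have hsr : (s : V) ∈ Submodule.span F {r} := by
            by_contra h
            exact hs' (by rw [p_comm]; exact hcon s s.2 h)
          obtain ⟨t, ht, htn⟩ : ∃ t ∈ W, t ∉ Submodule.span F {r} := by
            by_contra h
            push Not at h
            have h4 : W ≤ Submodule.span F {r} := h
            have h5 := Submodule.finrank_mono h4
            have h6 := finrank_span_le_card (R := F) ({r} : Set V)
            simp at h6
            omega
          have h4 := hcon t ht htn
          have h5 := hcon (t + s) (W.add_mem ht s.2) (fun h => htn (by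
            have := Submodule.sub_mem _ h hsr
            rwa [add_sub_cancel_right] at this))
          rw [p_add, h4, zero_add, p_comm] at h5
          exact hs' h5
        have hz0 : z ≠ 0 := by rintro rfl; exact hz2 (p_zero Q r)
        have hzQ := hs z hzW hz0
        set y := r - ((Q z)⁻¹ * polar Q z r) • z with hy
        have hyQ : Q r = Q y := by
          rw [hy, Q_sub, Q_smul, p_smul', p_comm Q r z]
          field_simp
          ring
        have hyW : y ∈ W := W.sub_mem hrW (W.smul_mem _ hzW)
        have hy0 : y ≠ 0 := by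
          intro h
          have h4 := hs r hrW hr0
          rw [hyQ, h, QuadraticMap.map_zero] at h4
          exact h4 rfl
        have hyR := hcl r hr y hyW hr0 hy0 hyQ
        have hzR : z ∈ R := by
          have h4 := R.sub_mem hr hyR
          have h5 : r - y = ((Q z)⁻¹ * polar Q z r) • z := by rw [hy]; abel
          rw [h5] at h4
          have h6 : (Q z)⁻¹ * polar Q z r ≠ 0 := mul_ne_zero (inv_ne_zero hzQ) hz2
          have := R.smul_mem ((Q z)⁻¹ * polar Q z r)⁻¹ h4
          rwa [smul_smul, inv_mul_cancel₀ h6, one_smul] at this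
        refine two h2 r hr z hzR ?_
        rw [LinearIndependent.pair_iff]
        intro s s' hss
        have hs' : s' = 0 := by
          by_contra hne
          apply hz1
          rw [Submodule.mem_span_singleton]
          refine ⟨-(s'⁻¹ * s), ?_⟩
          have : z = s'⁻¹ • (s' • z) := by rw [smul_smul, inv_mul_cancel₀ hne, one_smul]
          rw [this, eq_neg_of_add_eq_zero_right hss]
          module
        rw [hs', zero_smul, add_zero] at hss
        exact ⟨(smul_eq_zero.1 hss).resolve_right hr0, hs'⟩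
    · apply Submodule.eq_of_le_of_finrank_le hR
      have : 0 < finrank F R := by
        apply Module.finrank_pos_iff_exists_ne_zero.2
        exact ⟨⟨r, hr⟩, fun h => hr0 (congrArg Subtype.val h)⟩
      omega

/-! ### The overgroup argument -/

/-- projection to the first of two complementary subspaces -/
lemma exists_proj {U W : Submodule F V} (h : IsCompl U W) :
    ∃ T : V →ₗ[F] V, (∀ x, T x ∈ U) ∧ ∀ x, x - T x ∈ W := by
  refine ⟨U.subtype ∘ₗ (U.projectionOnto W h), fun x => ?_, fun x => ?_⟩
  · exact (U.projectionOnto W h x).2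
  · have h1 := Submodule.ker_projectionOnto h
    have h2 : U.projectionOnto W h (x - (U.projectionOnto W h x : V)) = 0 := by
      rw [map_sub, Submodule.projectionOnto_apply_left, sub_self]
    rw [← LinearMap.mem_ker, h1] at h2
    exact h2

section main

variable [Finite F] [FiniteDimensional F V]

/-- the standing situation: `W` non-degenerate, `U = W^⊥` of dimension at least seven, `M` an overgroup of the stabiliser. -/
structure Sit (Q : QuadraticForm F V) (W : Submodule F V) (M : Subgroup (V ≃ₗ[F] V)) : Prop where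
  nd : ND Q
  ndW : ND (Q.restrict W)
  seven : 7 ≤ finrank F (orth Q W)
  stab : ∀ g ∈ Om Q, Stab W g → g ∈ M
  le : M ≤ Om Q

variable {W : Submodule F V} {M : Subgroup (V ≃ₗ[F] V)}

omit [Finite F] in
lemma Sit.ndU (S : Sit Q W M) : ND (Q.restrict (orth Q W)) := nd_orth S.nd S.ndW

omit [Finite F] in
lemma Sit.five (S : Sit Q W M) : 5 ≤ finrank F V := by
  have := Submodule.finrank_le (orth Q W)
  have := S.seven
  omega

omit [Finite F] [FiniteDimensional F V] in
lemma Sit.leO (S : Sit Q W M) : M ≤ O Q := S.le.trans (Om_le Q)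

lemma Sit.hasU (S : Sit Q W M) {u w : V} (hu : u ∈ orth Q W) (hw : w ∈ orth Q W) (hu0 : Q u = 0)
    (huw : polar Q u w = 0) : Has Q M u w := by
  obtain ⟨g, hg, hgx⟩ := full_Om S.nd S.five hu0 w huw
  refine ⟨g, S.stab g hg (stab_of fun y hy => ?_), hgx⟩
  rw [hgx, sgF, hu y hy, hw y hy]
  simpa using hy

/-- a hyperbolic pair in `U` orthogonal to two given vectors of `U` -/
lemma Sit.exists_hyp (S : Sit Q W M) {a b : V} (ha : a ∈ orth Q W) (hb : b ∈ orth Q W) :
    ∃ e f, e ∈ orth Q W ∧ f ∈ orth Q W ∧ Q e = 0 ∧ Q f = 0 ∧ polar Q e f = 1 ∧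
      polar Q a e = 0 ∧ polar Q b e = 0 ∧ polar Q a f = 0 ∧ polar Q b f = 0 := by
  classical
  set L : Submodule F (orth Q W) := Submodule.span F (Set.range ![⟨a, ha⟩, ⟨b, hb⟩]) with hL
  have hLf : finrank F L ≤ 2 := by
    have := finrank_range_le_card (R := F) (![⟨a, ha⟩, ⟨b, hb⟩] : Fin 2 → orth Q W)
    rw [Fintype.card_fin] at this
    exact this
  have := S.seven
  obtain ⟨e, he, f, hf, h1, h2, h3⟩ := H95.OGeo.exists_hyp S.ndU (L := L) (by omega)
  have ha' : (⟨a, ha⟩ : orth Q W) ∈ L := Submodule.subset_span ⟨0, rfl⟩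
  have hb' : (⟨b, hb⟩ : orth Q W) ∈ L := Submodule.subset_span ⟨1, rfl⟩
  exact ⟨e, f, e.2, f.2, h1, h2, h3, he _ ha', he _ hb', hf _ ha', hf _ hb'⟩

/-- lifting an isometry: stabilise `W`, keep a given action on two vectors of `U` -/
lemma Sit.adj (S : Sit Q W M) {g : V ≃ₗ[F] V} (hg : g ∈ O Q) (hgW : ∀ x ∈ W, g x ∈ W) {a b : V}
    (ha : a ∈ orth Q W) (hb : b ∈ orth Q W) : ∃ h ∈ M, h a = g a ∧ h b = g b ∧ ∀ x ∈ W, h x = g x := by
  obtain ⟨e, f, he, hf, h1, h2, h3, h4, h5, h6, h7⟩ := S.exists_hyp ha hb
  obtain ⟨d, hd, hdx, hgd⟩ := H7.OA.adj S.nd S.five h1 h2 h3 hg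
  have k : ∀ x ∈ W, (g * d) x = g x := by
    intro x hx
    rw [LinearEquiv.mul_apply, hdx x (by rw [p_comm]; exact he x hx) (by rw [p_comm]; exact hf x hx)]
  refine ⟨g * d, S.stab _ hgd (stab_of fun x hx => ?_), ?_, ?_, k⟩
  · rw [k x hx]; exact hgW x hx
  · rw [LinearEquiv.mul_apply, hdx a (by rw [p_comm]; exact h4) (by rw [p_comm]; exact h6)]
  · rw [LinearEquiv.mul_apply, hdx b (by rw [p_comm]; exact h5) (by rw [p_comm]; exact h7)]

omit [Finite F] [FiniteDimensional F V] in
lemma Sit.notMem (S : Sit Q W M) {x : V} (hx : x ∈ W) (hx0 : x ≠ 0) : x ∉ orth Q W := by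
  intro h
  exact hx0 (congrArg Subtype.val (S.ndW ⟨x, hx⟩ fun y => by
    rw [polar_restrict, p_comm]; exact h y y.2))

omit [Finite F] [FiniteDimensional F V] in
lemma Sit.notMem' (S : Sit Q W M) {x : V} (hx : x ∈ orth Q W) (hx0 : x ≠ 0) : x ∉ W :=
  fun h => S.notMem h hx0 hx

/-- the vectors `w ∈ W` such that the Siegel element `(u, w)` is in `M` -/
lemma Sit.exists_R (S : Sit Q W M) {u : V} (hu : u ∈ orth Q W) (hu0 : Q u = 0) (hun : u ≠ 0) :
    ∃ R : Submodule F V, R ≤ W ∧ ∀ w, w ∈ R ↔ w ∈ W ∧ Has Q M u w := by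
  have huw : ∀ w ∈ W, polar Q u w = 0 := fun w hw => by rw [p_comm]; exact hu w hw
  refine ⟨{ carrier := {w | w ∈ W ∧ Has Q M u w}, add_mem' := ?_, zero_mem' := ?_, smul_mem' := ?_ },
    fun w hw => hw.1, fun w => Iff.rfl⟩
  · rintro a b ⟨ha, ha'⟩ ⟨hb, hb'⟩
    exact ⟨W.add_mem ha hb, ha'.mul hb' hu0 (huw a ha) (huw b hb)⟩
  · exact ⟨W.zero_mem, has_zero⟩
  · rintro c w ⟨hw, hw'⟩
    refine ⟨W.smul_mem c hw, ?_⟩
    by_cases hc : c = 0
    · rw [hc, zero_smul]; exact has_zero
    obtain ⟨⟨v, hvU⟩, hv, huv⟩ := exists_partner S.ndU (v := ⟨u, hu⟩)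
      (fun h => hun (congrArg Subtype.val h)) hu0
    have hv' : Q v = 0 := hv
    have huv' : polar Q u v = 1 := huv
    obtain ⟨t, ht, htx⟩ := exists_scaling (nd_iff.1 S.nd) u v hu0 hv' huv' c hc
    have htW : ∀ x ∈ W, t x = x := by
      intro x hx
      rw [htx, hu x hx, hvU x hx]; simp
    have htu : t u = c • u := by
      rw [htx, huv', p_self, hu0]
      module
    obtain ⟨h, hh, h1, -, h3⟩ := S.adj (g := t) ht (fun x hx => by rw [htW x hx]; exact hx) hu hu
    have h4 := hw'.conj hh (S.leO hh)
    rw [h1, htu, h3 w hw, htW w hw, has_scale] at h4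
    exact h4

/-- one non-zero vector gives everything -/
lemma Sit.full_of (S : Sit Q W M)
    (hpl : (finrank F W = 2 ∧ ∃ x ∈ W, x ≠ 0 ∧ Q x = 0) → 4 ≤ Nat.card F)
    {u r : V} (hu : u ∈ orth Q W) (hu0 : Q u = 0) (hun : u ≠ 0) (hr : r ∈ W) (hr0 : r ≠ 0)
    (h : Has Q M u r) : Full Q M u := by
  obtain ⟨R, hRW, hR⟩ := S.exists_R hu hu0 hun
  have hRW' : R = W := by
    refine irr S.ndW hRW ?_ ?_ hpl
    · intro hbot
      have : r ∈ R := (hR r).2 ⟨hr, h⟩
      rw [hbot] at this
      exact hr0 ((Submodule.mem_bot F).1 this)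
    · intro x hx y hy hx0 hy0 hxy
      have hxW := hRW hx
      rw [hR] at hx ⊢
      refine ⟨hy, ?_⟩
      obtain ⟨g, hg, hgU, hgx⟩ := witt_step (nd_iff.1 S.nd) (orth Q W) x y (S.notMem hxW hx0)
        (S.notMem hy hy0) hxy (fun w hw => by rw [hw x hxW, hw y hy])
      have hgW : ∀ z ∈ W, g z ∈ W := by
        intro z hz
        rw [← orth_orth S.nd W]
        intro w hw
        have hw' : w = g w := (hgU w hw).symm
        rw [hw', O_polar (mem_O.2 hg), p_comm]
        exact hw z hz
      obtain ⟨h', hh', h1, -, h3⟩ := S.adj (g := g) hg hgW hu hu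
      have h4 := hx.2.conj hh' (S.leO hh')
      rw [h1, hgU u hu, h3 x hxW, hgx] at h4
      exact h4
  intro w hw
  obtain ⟨e, he, -⟩ := ortho_split S.ndW
  obtain ⟨⟨w1, w2⟩, rfl⟩ := e.surjective w
  rw [he] at hw ⊢
  have huw1 : polar Q u (w1 : V) = 0 := by rw [p_comm]; exact hu w1 w1.2
  have huw2 : polar Q u (w2 : V) = 0 := by
    rw [p_add', huw1, zero_add] at hw; exact hw
  have h1 : Has Q M u (w1 : V) := by
    have : (w1 : V) ∈ R := by rw [hRW']; exact w1.2
    exact ((hR _).1 this).2
  exact h1.mul (S.hasU hu w2.2 hu0 huw2) hu0 huw1 huw2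

/-- one full centre in `U` suffices -/
lemma Sit.top_of_full (S : Sit Q W M) {u : V} (hu : u ∈ orth Q W) (hu0 : Q u = 0) (hun : u ≠ 0)
    (h : Full Q M u) : Om Q ≤ M := by
  obtain ⟨⟨v, hvU⟩, hv, huv⟩ := exists_partner S.ndU (v := ⟨u, hu⟩)
    (fun h => hun (congrArg Subtype.val h)) hu0
  have hv' : Q v = 0 := hv
  have huv' : polar Q u v = 1 := huv
  have hv0 : v ≠ 0 := by
    rintro rfl
    rw [p_zero'] at huv'
    exact zero_ne_one huv'
  obtain ⟨g, hg, hgW, hgx⟩ := witt_step (nd_iff.1 S.nd) W u v (S.notMem' hu hun)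
    (S.notMem' hvU hv0) (by rw [hu0, hv']) (fun w hw => by rw [p_comm, hu w hw, p_comm, hvU w hw])
  obtain ⟨h', hh', h1, -, -⟩ := S.adj (g := g) hg (fun x hx => by rw [hgW x hx]; exact hx) hu hu
  have h2 := h.conj hh' (S.leO hh')
  rw [h1, hgx] at h2
  exact le_of_full_one S.nd S.five hu0 hv' huv' h h2

/-- the key commutator -/
lemma Sit.key (S : Sit Q W M)
    (hpl : (finrank F W = 2 ∧ ∃ x ∈ W, x ≠ 0 ∧ Q x = 0) → 4 ≤ Nat.card F)
    {a aU b bU : V} (h : Has Q M a b) (haU : aU ∈ orth Q W) (haW : a - aU ∈ W) (hbU : bU ∈ orth Q W)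
    (hbW : b - bU ∈ W) (ha : a ∉ orth Q W) (hb : ∀ c : F, bU ≠ c • aU) : Om Q ≤ M := by
  obtain ⟨u, v, hu, hv, hu0, hv0, huv, hau, hbu, hav, hbv⟩ := S.exists_hyp haU hbU
  have hun : u ≠ 0 := by
    rintro rfl
    rw [p_zero] at huv
    exact zero_ne_one huv
  -- a vector of `U` orthogonal to `u`, `a`, but not to `b`
  have hbn : (⟨bU, hbU⟩ : orth Q W) ∉ Submodule.span F {(⟨u, hu⟩ : orth Q W), ⟨aU, haU⟩} := by
    rw [Submodule.mem_span_pair]
    rintro ⟨α, β, hαβ⟩
    have h1 : α • u + β • aU = bU := congrArg Subtype.val hαβ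
    have h2 : polar Q (α • u + β • aU) v = 0 := by rw [h1, hbv]
    rw [p_add, p_smul, p_smul, huv, hav] at h2
    simp at h2
    rw [h2, zero_smul, zero_add] at h1
    exact hb β h1.symm
  obtain ⟨⟨w, hw⟩, hw1, hw2⟩ := sep S.ndU hbn
  have hwu : polar Q u w = 0 := hw1 ⟨u, hu⟩ (Submodule.subset_span (by simp))
  have hwa : polar Q aU w = 0 := hw1 ⟨aU, haU⟩ (Submodule.subset_span (by simp))
  have hwb : polar Q bU w ≠ 0 := hw2
  have toU : ∀ x xU y : V, x - xU ∈ W → y ∈ orth Q W → polar Q x y = polar Q xU y := by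
    intro x xU y hx hy
    have : x = (x - xU) + xU := by abel
    rw [this, p_add, hy _ hx, zero_add]
  have h1 : Has Q M u w := S.hasU hu hw hu0 hwu
  have hua : polar Q u a = 0 := by rw [p_comm, toU a aU u haW hu, hau]
  have hub : polar Q u b = 0 := by rw [p_comm, toU b bU u hbW hu, hbu]
  have h2 := h1.comm hu0 hwu h S.leO hua hub
  have e1 : polar Q w a = 0 := by rw [p_comm, toU a aU w haW hw, hwa]
  have e2 : polar Q w b = polar Q bU w := by rw [p_comm, toU b bU w hbW hw]
  rw [e1, e2] at h2
  have e3 : (0 : F) • b - (polar Q bU w + Q b * 0) • a = (-(polar Q bU w)) • a := by module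
  rw [e3] at h2
  -- remove the component in `U`
  have h3 : Has Q M u ((-(polar Q bU w)) • aU) := by
    refine S.hasU hu ((orth Q W).smul_mem _ haU) hu0 ?_
    rw [p_smul', p_comm Q u aU, hau, mul_zero]
  have h4 := h2.sub h3 hu0 (by rw [p_smul', hua, mul_zero]) (by rw [p_smul', p_comm Q u aU, hau, mul_zero])
  rw [← smul_sub] at h4
  refine S.top_of_full hu hu0 hun (S.full_of hpl hu hu0 hun (W.smul_mem _ haW) ?_ h4)
  intro h0
  rcases smul_eq_zero.1 h0 with h5 | h5
  · exact hwb (neg_eq_zero.1 h5)
  · rw [sub_eq_zero] at h5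
    exact ha (h5 ▸ haU)

/-- **Maximality of the stabilisers of non-degenerate subspaces** -/
theorem maximal (S : Sit Q W M)
    (hpl : (finrank F W = 2 ∧ ∃ x ∈ W, x ≠ 0 ∧ Q x = 0) → 4 ≤ Nat.card F)
    (hno : ∀ g ∈ O Q, ¬ ∀ x ∈ orth Q W, g x ∈ W)
    (hne : ∃ g ∈ M, ¬ Stab W g) : Om Q ≤ M := by
  classical
  obtain ⟨g, hg, hgS⟩ := hne
  have hgO := S.leO hg
  set U := orth Q W with hU
  have hdU : 7 ≤ finrank F U := S.seven
  -- projection to `U`
  obtain ⟨T, hT1, hT2⟩ := exists_proj (isCompl_orth S.ndW).symm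
  have hTW : ∀ x, T x = 0 → x ∈ W := by
    intro x hx
    have := hT2 x
    rwa [hx, sub_zero] at this
  -- it suffices to find `a`, `b`
  suffices hab : ∃ a ∈ U, ∃ b ∈ U, Q a = 0 ∧ polar Q a b = 0 ∧ g a ∉ U ∧ ∀ c : F, T (g b) ≠ c • T (g a) by
    obtain ⟨a, ha, b, hb, ha0, hab, hga, hgb⟩ := hab
    exact S.key hpl ((S.hasU ha hb ha0 hab).conj hg hgO) (hT1 _) (hT2 _) (hT1 _) (hT2 _) hga hgb
  by_contra hcon
  push Not at hcon
  -- the part of `U` mapped into `W`
  set K : Submodule F V := U ⊓ W.comap (g : V →ₗ[F] V) with hK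
  by_cases hdK : 4 ≤ finrank F K
  · obtain ⟨a1, ha1, ha10, ha1Q⟩ := exists_sing Q (U := K) (by omega)
    -- a second singular vector
    obtain ⟨C, hC⟩ := Submodule.exists_isCompl (Submodule.span F {(⟨a1, ha1⟩ : K)})
    have hdC := Submodule.finrank_add_eq_of_isCompl hC
    have hs1 := finrank_span_le_card (R := F) ({(⟨a1, ha1⟩ : K)} : Set K)
    simp at hs1
    obtain ⟨a2', ha2C, ha20, ha2Q⟩ := exists_sing (Q.restrict K) (U := C) (by omega)
    obtain ⟨a2, ha2⟩ := a2'
    have ha2Q' : Q a2 = 0 := ha2Q
    have ha20' : a2 ≠ 0 := fun h => ha20 (Subtype.ext h)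
    have hind : ∀ c : F, a2 ≠ c • a1 := by
      intro c hc
      apply ha20
      have h1 : (⟨a2, ha2⟩ : K) ∈ Submodule.span F {(⟨a1, ha1⟩ : K)} ⊓ C := by
        refine ⟨?_, ha2C⟩
        rw [SetLike.mem_coe, Submodule.mem_span_singleton]
        exact ⟨c, Subtype.ext hc.symm⟩
      rw [hC.inf_eq_bot] at h1
      exact (Submodule.mem_bot F).1 h1
    have hperp : ∀ a ∈ K, a ≠ 0 → Q a = 0 → ∀ b ∈ U, polar Q a b = 0 → g b ∈ W := by
      intro a ha ha0 haQ b hb hab
      have hgaW : g a ∈ W := ha.2
      have hga0 : g a ≠ 0 := fun h => ha0 ((map_eq_zero_iff g g.injective).1 h)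
      obtain ⟨c, hc⟩ := hcon a ha.1 b hb haQ hab (S.notMem hgaW hga0)
      have hTga : T (g a) = 0 := by
        have h1 := hT1 (g a)
        by_contra h2
        apply S.notMem' h1 h2
        have h3 := W.sub_mem hgaW (hT2 (g a))
        rwa [sub_sub_cancel] at h3
      rw [hTga, smul_zero] at hc
      exact hTW _ hc
    -- so `g U ≤ W`
    apply hno g hgO
    intro x hx
    have ha1U : a1 ∈ U := ha1.1
    have ha2U : a2 ∈ U := ha2.1
    have hn1 : (⟨a1, ha1U⟩ : U) ∉ Submodule.span F {(⟨a2, ha2U⟩ : U)} := by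
      rw [Submodule.mem_span_singleton]
      rintro ⟨c, hc⟩
      have hc' : c • a2 = a1 := congrArg Subtype.val hc
      have hc0 : c ≠ 0 := by
        rintro rfl
        rw [zero_smul] at hc'
        exact ha10 hc'.symm
      exact hind c⁻¹ (by rw [← hc', smul_smul, inv_mul_cancel₀ hc0, one_smul])
    obtain ⟨⟨y, hyU⟩, hy1, hy2⟩ := sep S.ndU hn1
    have hy1' : polar Q a2 y = 0 := hy1 _ (Submodule.mem_span_singleton_self _)
    have hy2' : polar Q a1 y ≠ 0 := hy2
    have hgy : g y ∈ W := hperp a2 ha2 ha20' ha2Q' y hyU hy1'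
    have hgx : g (x - ((polar Q a1 y)⁻¹ * polar Q a1 x) • y) ∈ W := by
      refine hperp a1 ha1 ha10 ha1Q _ (U.sub_mem hx (U.smul_mem _ hyU)) ?_
      rw [p_sub', p_smul']
      field_simp
      ring
    rw [map_sub, map_smul] at hgx
    have := W.add_mem hgx (W.smul_mem ((polar Q a1 y)⁻¹ * polar Q a1 x) hgy)
    rwa [sub_add_cancel] at this
  · -- a singular vector of `U` not mapped into `U`
    have hgU : ∃ a ∈ U, Q a = 0 ∧ g a ∉ U := by
      by_contra h
      push Not at h
      apply hgS
      have hgU : ∀ x ∈ U, g x ∈ U := by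
        intro x hx
        have h1 := span_val (Q := Q.restrict U) S.ndU hdU 0 ((U.comap (g : V →ₗ[F] V)).comap U.subtype) 0
          (fun z hz _ => h z z.2 hz) (y := ⟨x, hx⟩) (p_zero' _ _)
        exact h1
      apply stab_of
      intro x hx
      rw [← orth_orth S.nd W]
      intro w hw
      have h2 : ∃ w' ∈ U, g w' = w := by
        have h3 : U.map (g : V →ₗ[F] V) = U := by
          apply Submodule.eq_of_le_of_finrank_eq
          · rintro _ ⟨y, hy, rfl⟩; exact hgU y hy
          · exact LinearEquiv.finrank_map_eq g U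
        have h4 : w ∈ U.map (g : V →ₗ[F] V) := by rw [h3]; exact hw
        obtain ⟨w', hw', h5⟩ := h4
        exact ⟨w', hw', h5⟩
      obtain ⟨w', hw', rfl⟩ := h2
      rw [O_polar hgO, p_comm]
      exact hw' x hx
    obtain ⟨a, ha, haQ, hga⟩ := hgU
    -- dimension count
    set P : Submodule F V := U ⊓ orth Q (Submodule.span F {a}) with hP
    have hPf : finrank F U ≤ finrank F P + 1 := by
      have h1 := finrank_orth S.nd (Submodule.span F {a})
      have h2 := finrank_span_le_card (R := F) ({a} : Set V)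
      simp at h2
      have h3 : finrank F (U ⊔ orth Q (Submodule.span F {a}) : Submodule F V) + finrank F P =
        finrank F U + finrank F (orth Q (Submodule.span F {a})) :=
        Submodule.finrank_sup_add_finrank_inf_eq U (orth Q (Submodule.span F {a}))
      have h4 := Submodule.finrank_le (U ⊔ orth Q (Submodule.span F {a}))
      omega
    set f : P →ₗ[F] V := (T ∘ₗ (g : V →ₗ[F] V)) ∘ₗ P.subtype with hf
    have h1 := LinearMap.finrank_range_add_finrank_ker f
    have h2 : finrank F (LinearMap.range f) ≤ 1 := by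
      have h3 : LinearMap.range f ≤ Submodule.span F {T (g a)} := by
        rintro _ ⟨b, rfl⟩
        obtain ⟨c, hc⟩ := hcon a ha b b.2.1 haQ (b.2.2 a (Submodule.mem_span_singleton_self a)) hga
        rw [Submodule.mem_span_singleton]
        exact ⟨c, hc.symm⟩
      have h4 := Submodule.finrank_mono h3
      have h5 := finrank_span_le_card (R := F) ({T (g a)} : Set V)
      simp at h5
      omega
    have h3 : finrank F (LinearMap.ker f) ≤ finrank F K := by
      have h4 : (LinearMap.ker f).map P.subtype ≤ K := by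
        rintro _ ⟨x, hx, rfl⟩
        exact ⟨x.2.1, hTW _ hx⟩
      have h5 := Submodule.finrank_mono h4
      rwa [Submodule.finrank_map_subtype_eq] at h5
    omega

end main

end H7.OANd
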