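import Mathlib
import Cfsg.Agent.Lib.H7.OANd
import Cfsg.Agent.Lib.H48.QuadSim

/-!
Maximality of the stabilisers of non-degenerate subspaces in `Om Q`: final form.
-/
set_option autoImplicit false

namespace H7.OANd

open Module QuadraticMap H48.QuadSplit H48.QuadWitt H95.OGeo H7.OA H7.OABridge H7.OAPar

variable {F V : Type*} [Field F] [AddCommGroup V] [Module F V] {Q : QuadraticForm F V}
variable [FiniteDimensional F V]

lemma stab_orth {W : Submodule F V} {g : V ≃ₗ[F] V} (hg : g ∈ O Q) (h : Stab W g) :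
    Stab (orth Q W) g := by
  apply stab_of
  intro x hx w hw
  obtain ⟨w', rfl⟩ := g.surjective w
  rw [O_polar hg]
  exact hx w' ((h w').2 hw)

lemma stab_orth_iff (hQ : ND Q) {W : Submodule F V} {g : V ≃ₗ[F] V} (hg : g ∈ O Q) :
    Stab (orth Q W) g ↔ Stab W g := by
  refine ⟨fun h => ?_, stab_orth hg⟩
  have := stab_orth hg h
  rwa [orth_orth hQ] at this

variable [Finite F]

lemma exists_not_stab (hQ : ND Q) {W : Submodule F V} (hW : ND (Q.restrict W)) (hW0 : W ≠ ⊥)
    (h7 : 7 ≤ finrank F (orth Q W)) : ∃ g ∈ Om Q, ¬ Stab W g := by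
  obtain ⟨u, hu, hu0, huQ⟩ := exists_sing Q (U := orth Q W) (by omega)
  obtain ⟨w, hw, hw0⟩ := (Submodule.ne_bot_iff W).1 hW0
  have : ∃ x ∈ W, polar Q x w ≠ 0 := by
    by_contra hcon
    push Not at hcon
    exact hw0 (congrArg Subtype.val (hW ⟨w, hw⟩ fun x => by
      rw [polar_restrict, p_comm]; exact hcon x x.2))
  obtain ⟨x, hx, hxw⟩ := this
  have h5 : 5 ≤ finrank F V := by
    have := Submodule.finrank_le (orth Q W)
    omega
  obtain ⟨g, hg, hgx⟩ := full_Om hQ h5 huQ w (by rw [p_comm]; exact hu w hw)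
  refine ⟨g, hg, fun hst => ?_⟩
  have h1 := (hst x).1 hx
  rw [hgx, sgF, hu x hx] at h1
  have h2 : (-(polar Q x w)) • u ∈ W := by
    have := W.sub_mem h1 hx
    have e : x + (0 : F) • w - (polar Q x w + Q w * 0) • u - x = (-(polar Q x w)) • u := by module
    rwa [e] at this
  have h3 : u ∈ W := by
    have := W.smul_mem (-(polar Q x w))⁻¹ h2
    rwa [smul_smul, inv_mul_cancel₀ (neg_ne_zero.2 hxw), one_smul] at this
  exact hu0 (congrArg Subtype.val (hW ⟨u, h3⟩ fun y => by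
    rw [polar_restrict, p_comm]; exact hu y y.2))

/-- **Maximality of the stabilisers of non-degenerate subspaces** -/
theorem max_nd (hQ : ND Q) (hn : 13 ≤ finrank F V) {W : Submodule F V} (hW : ND (Q.restrict W))
    (hW0 : W ≠ ⊥) (hW1 : W ≠ ⊤)
    (hpl : (finrank F W = 2 ∧ ∃ x ∈ W, x ≠ 0 ∧ Q x = 0) → 4 ≤ Nat.card F)
    (hpl' : (finrank F (orth Q W) = 2 ∧ ∃ x ∈ orth Q W, x ≠ 0 ∧ Q x = 0) → 4 ≤ Nat.card F)
    (hno : 2 * finrank F W = finrank F V → ∀ g ∈ O Q, ¬ ∀ x ∈ orth Q W, g x ∈ W) :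
    (∃ g ∈ Om Q, ¬ Stab W g) ∧ ∀ M : Subgroup (V ≃ₗ[F] V), (∀ g ∈ Om Q, Stab W g → g ∈ M) →
      M ≤ Om Q → (∃ g ∈ M, ¬ Stab W g) → Om Q ≤ M := by
  have hd := finrank_orth hQ W
  by_cases hle : finrank F W ≤ finrank F (orth Q W)
  · refine ⟨exists_not_stab hQ hW hW0 (by omega), ?_⟩
    intro M h1 h2 h3
    have S : Sit Q W M := ⟨hQ, hW, by omega, h1, h2⟩
    refine H7.OANd.maximal S hpl ?_ h3
    intro g hg hgU
    by_cases heq : finrank F W = finrank F (orth Q W)
    · exact hno (by omega) g hg hgU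
    · have h4 : (orth Q W).map (g : V →ₗ[F] V) ≤ W := by
        rintro _ ⟨x, hx, rfl⟩; exact hgU x hx
      have h5 := Submodule.finrank_mono h4
      have h6 : finrank F ((orth Q W).map (g : V →ₗ[F] V)) = finrank F (orth Q W) := LinearEquiv.finrank_map_eq g _
      omega
  · have hU0 : orth Q W ≠ ⊥ := by
      intro h
      apply hW1
      rw [h, finrank_bot, zero_add] at hd
      exact Submodule.eq_top_of_finrank_eq hd
    have hUU : orth Q (orth Q W) = W := orth_orth hQ W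
    have hndU := nd_orth hQ hW
    refine ⟨?_, ?_⟩
    · obtain ⟨g, hg, hgS⟩ := exists_not_stab hQ hndU hU0 (by rw [hUU]; omega)
      exact ⟨g, hg, fun h => hgS ((stab_orth_iff hQ (Om_le Q hg)).2 h)⟩
    · intro M h1 h2 h3
      have S : Sit Q (orth Q W) M := ⟨hQ, hndU, by rw [hUU]; omega,
        fun g hg hgS => h1 g hg ((stab_orth_iff hQ (Om_le Q hg)).1 hgS), h2⟩
      refine H7.OANd.maximal S hpl' ?_ ?_
      · intro g hg hgU
        rw [hUU] at hgU
        have h4 : W.map (g : V →ₗ[F] V) ≤ orth Q W := by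
          rintro _ ⟨x, hx, rfl⟩; exact hgU x hx
        have h5 := Submodule.finrank_mono h4
        have h6 : finrank F (W.map (g : V →ₗ[F] V)) = finrank F W := LinearEquiv.finrank_map_eq g _
        omega
      · obtain ⟨g, hg, hgS⟩ := h3
        exact ⟨g, hg, fun h => hgS ((stab_orth_iff hQ (Om_le Q (h2 hg))).1 h)⟩

/-- isometric even-dimensional halves give a form of plus type -/
theorem plus_of_halves (hQ : ND Q) {W : Submodule F V} (hW : ND (Q.restrict W)) {k : ℕ}
    (hk : finrank F W = 2 * k) (hd : 2 * finrank F W = finrank F V) {g : V ≃ₗ[F] V} (hg : g ∈ O Q)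
    (hgU : ∀ x ∈ orth Q W, g x ∈ W) :
    ∃ T : Submodule F V, TS Q T ∧ 2 * finrank F T = finrank F V := by
  have hndU := nd_orth hQ hW
  have hdU := finrank_orth hQ W
  obtain ⟨ψ⟩ := H48.QuadSim.smul_equivalent hndU (m := k) (by omega) (c := -1) (by simp)
  -- `ψ : U → U`, `Q (ψ x) = - Q x`
  have hψ : ∀ x : orth Q W, Q ((ψ x : orth Q W) : V) = - Q (x : V) := by
    intro x
    have h1 := ψ.map_app x
    have h2 : ((-1 : F) • Q.restrict (orth Q W)) x = - Q (x : V) := by
      rw [_root_.smul_apply, restrict_apply]; simp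
    rw [h2] at h1
    exact h1
  let f : orth Q W →ₗ[F] V := (orth Q W).subtype + (g : V →ₗ[F] V) ∘ₗ (orth Q W).subtype ∘ₗ (ψ.toLinearEquiv : orth Q W →ₗ[F] orth Q W)
  have hf : ∀ x, f x = (x : V) + g ((ψ x : orth Q W) : V) := fun x => rfl
  have hinj : Function.Injective f := by
    rw [injective_iff_map_eq_zero]
    intro x hx
    rw [hf] at hx
    have h1 : g ((ψ x : orth Q W) : V) ∈ W := hgU _ (ψ x).2
    have h2 : (x : V) ∈ W := by
      have : (x : V) = - g ((ψ x : orth Q W) : V) := eq_neg_of_add_eq_zero_left hx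
      rw [this]; exact W.neg_mem h1
    have h3 : (⟨(x : V), h2⟩ : W) = 0 := hW ⟨(x : V), h2⟩ fun y => by
      rw [polar_restrict, p_comm]; exact x.2 y y.2
    have h4 : (x : V) = 0 := congrArg Subtype.val h3
    exact Subtype.ext h4
  refine ⟨LinearMap.range f, ?_, ?_⟩
  · rintro _ ⟨x, rfl⟩
    rw [hf, Q_add, mem_O.1 hg, hψ, p_comm, x.2 _ (hgU _ (ψ x).2)]
    ring
  · rw [LinearMap.finrank_range_of_inj hinj]
    omega

/-! ### Translation -/

section translate

variable {ι : Type} [Fintype ι] [DecidableEq ι] {F : Type*} [Field F]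

omit [Fintype ι] [DecidableEq ι] in
lemma nd_of_on {Q : QuadraticForm F (ι → F)} {W : Submodule F (ι → F)}
    (h : Cfsg.Geo.IsNondegenerateOn (polar Q) W) : ND (Q.restrict W) := by
  intro x hx
  by_contra hne
  obtain ⟨y, hy, hy'⟩ := (h x x.2 (fun h => hne (Subtype.ext h))).2
  exact hy' (hx ⟨y, hy⟩)

omit [Fintype ι] [DecidableEq ι] in
lemma on_of_nd {Q : QuadraticForm F (ι → F)} {W : Submodule F (ι → F)}
    (h : ND (Q.restrict W)) : Cfsg.Geo.IsNondegenerateOn (polar Q) W := by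
  intro w hw hw0
  have : ∃ x ∈ W, polar Q w x ≠ 0 := by
    by_contra hcon
    push Not at hcon
    exact hw0 (congrArg Subtype.val (h ⟨w, hw⟩ fun x => hcon x x.2))
  obtain ⟨x, hx, hx'⟩ := this
  exact ⟨⟨x, hx, by rw [p_comm]; exact hx'⟩, ⟨x, hx, hx'⟩⟩

omit [Fintype ι] [DecidableEq ι] in
lemma plus_of_vec {Q : QuadraticForm F (ι → F)} {W : Submodule F (ι → F)} (h2 : finrank F W = 2) {x : ι → F}
    (hx : x ∈ W) (hx0 : x ≠ 0) (hxQ : Q x = 0) : Cfsg.Geo.IsPlusTypeOn Q W := by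
  refine ⟨Submodule.span F {x}, ?_, ?_, ?_⟩
  · rw [Submodule.span_le, Set.singleton_subset_iff]; exact hx
  · intro y hy
    rw [Submodule.mem_span_singleton] at hy
    obtain ⟨c, rfl⟩ := hy
    rw [Q_smul, hxQ, mul_zero]
  · rw [finrank_span_singleton hx0, h2]

end translate

end H7.OANd
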