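import Mathlib
import Cfsg.Agent.Lib.H7.OANd2

/-!
Stabilisers of nonsingular points are maximal in `Om Q`; stabilisers of hyperbolic planes over
fields with at most three elements are not.
-/
set_option autoImplicit false

namespace H7.OAPoint

open Module QuadraticMap H48.QuadSplit H48.QuadWitt H95.OGeo H7.OA H7.OABridge H7.OAPar

variable {F V : Type*} [Field F] [AddCommGroup V] [Module F V] {Q : QuadraticForm F V}
variable [Finite F] [FiniteDimensional F V]

omit [Finite F] in
lemma stab_span {v : V} {g : V ≃ₗ[F] V} (h : g v = v) : Stab (Submodule.span F {v}) g := by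
  apply stab_of
  intro x hx
  rw [Submodule.mem_span_singleton] at hx ⊢
  obtain ⟨c, rfl⟩ := hx
  exact ⟨c, by rw [map_smul, h]⟩

omit [Finite F] in
lemma stab_span' {v : V} {g : V ≃ₗ[F] V} {c : F} (h : g v = c • v) : Stab (Submodule.span F {v}) g := by
  apply stab_of
  intro x hx
  rw [Submodule.mem_span_singleton] at hx ⊢
  obtain ⟨d, rfl⟩ := hx
  exact ⟨d * c, by rw [map_smul, h, smul_smul]⟩

omit [Finite F] [FiniteDimensional F V] in
lemma finrank_pair_le (v a : V) : finrank F (Submodule.span F {v, a}) ≤ 2 := by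
  have h := finrank_range_le_card (R := F) (![v, a] : Fin 2 → V)
  rw [Fintype.card_fin] at h
  have h2 : Set.range ![v, a] = {v, a} := by
    rw [Matrix.range_cons, Matrix.range_cons, Matrix.range_empty, Set.union_empty, Set.singleton_union]
  rw [Set.finrank, h2] at h
  exact h

omit [Finite F] [FiniteDimensional F V] in
lemma sg_fix {u w v x : V} (h1 : polar Q v u = 0) (h2 : polar Q v w = 0) (hx : x = v) : sgF Q u w x = v := by
  rw [hx, sgF, h1, h2]; simp

/-- the orthogonal of a finite family contains a hyperbolic pair -/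
lemma exists_hyp3 (hQ : ND Q) (hn : 9 ≤ finrank F V) (a b c : V) :
    ∃ e f, Q e = 0 ∧ Q f = 0 ∧ polar Q e f = 1 ∧ polar Q a e = 0 ∧ polar Q b e = 0 ∧ polar Q c e = 0 ∧
      polar Q a f = 0 ∧ polar Q b f = 0 ∧ polar Q c f = 0 := by
  classical
  set L : Submodule F V := Submodule.span F (Set.range ![a, b, c]) with hL
  have hLf : finrank F L ≤ 3 := by
    have := finrank_range_le_card (R := F) (![a, b, c] : Fin 3 → V)
    rw [Fintype.card_fin] at this
    exact this
  obtain ⟨e, he, f, hf, h1, h2, h3⟩ := H95.OGeo.exists_hyp hQ (L := L) (by omega)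
  have ha' : a ∈ L := Submodule.subset_span ⟨0, rfl⟩
  have hb' : b ∈ L := Submodule.subset_span ⟨1, rfl⟩
  have hc' : c ∈ L := Submodule.subset_span ⟨2, rfl⟩
  exact ⟨e, f, h1, h2, h3, he _ ha', he _ hb', he _ hc', hf _ ha', hf _ hb', hf _ hc'⟩

lemma exists_not_stab_point (hQ : ND Q) (hn : 9 ≤ finrank F V) {v : V} (hv : Q v ≠ 0) :
    ∃ g ∈ Om Q, ¬ Stab (Submodule.span F {v}) g := by
  have hv0 : v ≠ 0 := by rintro rfl; exact hv (QuadraticMap.map_zero Q)
  obtain ⟨a, ha, hav⟩ := dual_val hQ (k := 1) (by omega) (x := ![v]) (by simpa [linearIndependent_unique_iff] using hv0)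
    ![1] 0
  have hav' : polar Q a v = 1 := hav 0
  obtain ⟨w, -, hw, hwn⟩ := perp_val hQ (k := 1) (by omega) ![a] (T := Submodule.span F {v, a}) (by
    have := finrank_pair_le (F := F) v a
    omega) 0
  have hwa : polar Q w a = 0 := hw 0
  obtain ⟨g, hg, hgx⟩ := full_Om hQ (by omega) ha w (by rw [p_comm]; exact hwa)
  refine ⟨g, hg, fun hst => ?_⟩
  have h1 := (hst v).1 (Submodule.mem_span_singleton_self v)
  rw [hgx, sgF, p_comm Q v a, hav', Submodule.mem_span_singleton] at h1
  obtain ⟨c, hc⟩ := h1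
  apply hwn
  rw [Submodule.mem_span_pair]
  refine ⟨c - 1, polar Q v w + Q w * 1, ?_⟩
  have h2 : c • v - v + (polar Q v w + Q w * 1) • a = w := by rw [hc]; module
  rw [sub_smul, one_smul]
  exact h2

/-- **Maximality of the stabilisers of nonsingular points** -/
theorem max_point (hQ : ND Q) (hn : 9 ≤ finrank F V) {v : V} (hv : Q v ≠ 0)
    {M : Subgroup (V ≃ₗ[F] V)} (hM : ∀ g ∈ Om Q, Stab (Submodule.span F {v}) g → g ∈ M) (hMO : M ≤ Om Q)
    (hne : ∃ g ∈ M, ¬ Stab (Submodule.span F {v}) g) : Om Q ≤ M := by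
  have hv0 : v ≠ 0 := by rintro rfl; exact hv (QuadraticMap.map_zero Q)
  have hMO' : M ≤ O Q := hMO.trans (Om_le Q)
  have h5 : 5 ≤ finrank F V := by omega
  have fixM : ∀ g ∈ Om Q, g v = v → g ∈ M := fun g hg h => hM g hg (stab_span h)
  have hasv : ∀ u w, Q u = 0 → polar Q u w = 0 → polar Q v u = 0 → polar Q v w = 0 → Has Q M u w := by
    intro u w hu huw h1 h2
    obtain ⟨g, hg, hgx⟩ := full_Om hQ h5 hu w huw
    exact ⟨g, fixM g hg (by rw [hgx]; exact sg_fix h1 h2 rfl), hgx⟩
  -- adjustment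
  have adjv : ∀ g ∈ O Q, g v = v → ∀ u, ∃ h ∈ M, h u = g u ∧ h v = v := by
    intro g hg hgv u
    obtain ⟨e, f, h1, h2, h3, h4, h6, h7, h8, h9, h10⟩ := exists_hyp3 hQ hn u v 0
    obtain ⟨d, hd, hdx, hgd⟩ := H7.OA.adj hQ h5 h1 h2 h3 hg
    have k1 : (g * d) u = g u := by
      rw [LinearEquiv.mul_apply, hdx u (by rw [p_comm]; exact h4) (by rw [p_comm]; exact h8)]
    have k2 : (g * d) v = v := by
      rw [LinearEquiv.mul_apply, hdx v (by rw [p_comm]; exact h6) (by rw [p_comm]; exact h9), hgv]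
    exact ⟨g * d, fixM _ hgd k2, k1, k2⟩
  have ne_of : ∀ u, Q u = 0 → u ≠ 0 → u ∉ Submodule.span F {v} := by
    intro u hu hu0 h
    rw [Submodule.mem_span_singleton] at h
    obtain ⟨c, rfl⟩ := h
    rw [Q_smul] at hu
    rcases mul_eq_zero.1 hu with h | h
    · rw [mul_self_eq_zero.1 h, zero_smul] at hu0
      exact hu0 rfl
    · exact hv h
  -- partners inside `v^⊥`
  have partner : ∀ u, Q u = 0 → u ≠ 0 → polar Q v u = 0 → ∃ u', Q u' = 0 ∧ polar Q u u' = 1 ∧ polar Q v u' = 0 := by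
    intro u hu hu0 hvu
    obtain ⟨p, hp1, hp2⟩ := sep hQ (ne_of u hu hu0)
    have hvp := hp1 v (Submodule.mem_span_singleton_self v)
    obtain ⟨p', e1, e2⟩ : ∃ p', polar Q u p' = 1 ∧ polar Q v p' = 0 :=
      ⟨(polar Q u p)⁻¹ • p, by rw [p_smul', inv_mul_cancel₀ hp2], by rw [p_smul', hvp, mul_zero]⟩
    refine ⟨p' - Q p' • u, ?_, ?_, ?_⟩
    · rw [Q_sub, Q_smul, p_smul', p_comm Q p', e1, hu]; ring
    · rw [p_sub', p_smul', p_self, hu, e1]; ring
    · rw [p_sub', p_smul', e2, hvu]; ring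
  -- one vector outside `v^⊥` suffices
  have full : ∀ u w, Q u = 0 → u ≠ 0 → polar Q v u = 0 → polar Q u w = 0 → polar Q v w ≠ 0 → Has Q M u w → Full Q M u := by
    intro u w hu hu0 hvu huw hvw hw y hy
    -- scale
    have hsc : ∀ c : F, c ≠ 0 → ∃ z, polar Q u z = 0 ∧ polar Q v z = c * polar Q v w ∧ Has Q M u z := by
      intro c hc
      obtain ⟨u', hu', huu', hvu'⟩ := partner u hu hu0 hvu
      obtain ⟨t, ht, htx⟩ := exists_scaling (nd_iff.1 hQ) u u' hu hu' huu' c hc
      have htv : t v = v := by rw [htx, hvu, hvu']; simp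
      have htu : t u = c • u := by rw [htx, huu', p_self, hu]; module
      obtain ⟨h, hh, h1, h2⟩ := adjv t ht htv u
      have h3 := hw.conj hh (hMO' hh)
      rw [h1, htu, has_scale] at h3
      refine ⟨c • h w, ?_, ?_, h3⟩
      · have h4 : polar Q (h u) (h w) = 0 := by rw [O_polar (hMO' hh), huw]
        rw [h1, htu, p_smul] at h4
        rw [p_smul', (mul_eq_zero.1 h4).resolve_left hc, mul_zero]
      · have h4 := O_polar (hMO' hh) v w
        rw [h2] at h4
        rw [p_smul', h4]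
    by_cases hvy : polar Q v y = 0
    · exact hasv u y hu hy hvu hvy
    · obtain ⟨z, hz1, hz2, hz3⟩ := hsc (polar Q v y * (polar Q v w)⁻¹) (mul_ne_zero hvy (inv_ne_zero hvw))
      rw [mul_assoc, inv_mul_cancel₀ hvw, mul_one] at hz2
      have h1 : Has Q M u (y - z) := hasv u _ hu (by rw [p_sub', hy, hz1, sub_zero]) hvu (by rw [p_sub', hz2, sub_self])
      have h2 := h1.mul hz3 hu (by rw [p_sub', hy, hz1, sub_zero]) hz1
      rwa [sub_add_cancel] at h2
  have top : ∀ u, Q u = 0 → u ≠ 0 → polar Q v u = 0 → Full Q M u → Om Q ≤ M := by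
    intro u hu hu0 hvu hfull
    obtain ⟨u', hu', huu', hvu'⟩ := partner u hu hu0 hvu
    have hu'0 : u' ≠ 0 := by
      rintro rfl
      rw [p_zero'] at huu'
      exact zero_ne_one huu'
    obtain ⟨g, hg, hgW, hgx⟩ := witt_step (nd_iff.1 hQ) (Submodule.span F {v}) u u' (ne_of u hu hu0)
      (ne_of u' hu' hu'0) (by rw [hu, hu']) (fun w hw => by
        rw [Submodule.mem_span_singleton] at hw
        obtain ⟨c, rfl⟩ := hw
        rw [p_smul', p_smul', p_comm Q u v, p_comm Q u' v, hvu, hvu'])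
    obtain ⟨h, hh, h1, -⟩ := adjv g hg (hgW v (Submodule.mem_span_singleton_self v)) u
    have h2 := hfull.conj hh (hMO' hh)
    rw [h1, hgx] at h2
    exact le_of_full_one hQ h5 hu hu' huu' hfull h2
  -- the element outside
  obtain ⟨g, hg, hgS⟩ := hne
  have hgv : ∀ c : F, g v ≠ c • v := fun c h => hgS (stab_span' h)
  set v' := g v with hv'
  have hind : LinearIndependent F ![v', v] := by
    rw [LinearIndependent.pair_iff]
    intro s t hst
    have hs : s = 0 := by
      by_contra hs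
      apply hgv (-(s⁻¹ * t))
      have : v' = s⁻¹ • (s • v') := by rw [smul_smul, inv_mul_cancel₀ hs, one_smul]
      rw [this, eq_neg_of_add_eq_zero_left hst]
      module
    rw [hs, zero_smul, zero_add] at hst
    exact ⟨hs, (smul_eq_zero.1 hst).resolve_right hv0⟩
  obtain ⟨a, ha, hax⟩ := dual_val hQ (k := 2) (by omega) hind ![0, 1] 0
  have hav' : polar Q a v' = 0 := hax 0
  have hav : polar Q a v = 1 := hax 1
  obtain ⟨b, -, hbx, hbn⟩ := perp_val hQ (k := 2) (by omega) ![v', a] (T := Submodule.span F {v, a}) (by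
    have := finrank_pair_le (F := F) v a
    omega) 0
  have hbv' : polar Q b v' = 0 := hbx 0
  have hba : polar Q b a = 0 := hbx 1
  have hab : Has Q M a b := by
    have h1 : polar Q v (g⁻¹ a) = 0 := by
      rw [← O_polar (hMO' hg), apply_inv_apply, p_comm, ← hv', hav']
    have h2 : polar Q v (g⁻¹ b) = 0 := by
      rw [← O_polar (hMO' hg), apply_inv_apply, p_comm, ← hv', hbv']
    have h3 : Has Q M (g⁻¹ a) (g⁻¹ b) := by
      refine hasv _ _ ?_ ?_ h1 h2
      · rw [mem_O.1 ((O Q).inv_mem (hMO' hg)), ha]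
      · rw [O_polar ((O Q).inv_mem (hMO' hg)), p_comm, hba]
    have h4 := h3.conj hg (hMO' hg)
    rwa [apply_inv_apply, apply_inv_apply] at h4
  obtain ⟨u, f, hu, hf, huf, hvu, hau, hbu, hvf, haf, hbf⟩ := exists_hyp3 hQ hn v a b
  have hu0 : u ≠ 0 := by
    rintro rfl
    rw [p_zero] at huf
    exact zero_ne_one huf
  have hbn' : b ∉ Submodule.span F (Set.range ![u, v, a]) := by
    intro h
    have hr : Set.range ![u, v, a] = {u, v, a} := by
      rw [Matrix.range_cons, Matrix.range_cons, Matrix.range_cons, Matrix.range_empty, Set.union_empty]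
      rfl
    rw [hr, Submodule.mem_span_insert] at h
    obtain ⟨α, z, hz, hbz⟩ := h
    have hzf : polar Q z f = 0 := by
      rw [Submodule.mem_span_pair] at hz
      obtain ⟨β, γ, rfl⟩ := hz
      rw [p_add, p_smul, p_smul, hvf, haf]; ring
    have h1 : polar Q b f = α := by rw [hbz, p_add, p_smul, huf, hzf]; ring
    rw [hbf] at h1
    rw [← h1, zero_smul, zero_add] at hbz
    exact hbn (hbz ▸ hz)
  obtain ⟨w, hw1, hw2⟩ := sep hQ hbn'
  have huw : polar Q u w = 0 := hw1 u (Submodule.subset_span ⟨0, rfl⟩)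
  have hvw : polar Q v w = 0 := hw1 v (Submodule.subset_span ⟨1, rfl⟩)
  have haw : polar Q a w = 0 := hw1 a (Submodule.subset_span ⟨2, rfl⟩)
  have h1 := (hasv u w hu huw hvu hvw).comm hu huw hab hMO' (by rw [p_comm, hau]) (by rw [p_comm, hbu])
  rw [p_comm Q w a, haw, p_comm Q w b] at h1
  have e3 : (0 : F) • b - (polar Q b w + Q b * 0) • a = (-(polar Q b w)) • a := by module
  rw [e3] at h1
  refine top u hu hu0 hvu (full u _ hu hu0 hvu ?_ ?_ h1)
  · rw [p_smul', p_comm Q u a, hau, mul_zero]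
  · rw [p_smul', p_comm Q v a, hav, mul_one]
    exact neg_ne_zero.2 hw2

/-! ### Hyperbolic planes over small fields -/

/-- the stabiliser of a subspace as a subgroup -/
def stabGp (W : Submodule F V) : Subgroup (V ≃ₗ[F] V) where
  carrier := {g | Stab W g}
  one_mem' := fun _ => Iff.rfl
  mul_mem' := by
    intro a b ha hb v
    rw [LinearEquiv.mul_apply, ← ha, ← hb]
  inv_mem' := by
    intro a ha v
    rw [ha (a⁻¹ v), apply_inv_apply]

omit [Finite F] [FiniteDimensional F V] in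
lemma mem_stabGp {W : Submodule F V} {g : V ≃ₗ[F] V} : g ∈ stabGp W ↔ Stab W g := Iff.rfl

lemma sq_one (hF : Nat.card F ≤ 3) {x : F} (hx : x ≠ 0) : x * x = 1 := by
  have := Fintype.ofFinite F
  rw [Nat.card_eq_fintype_card] at hF
  have h1 : 1 < Fintype.card F := Fintype.one_lt_card
  have h2 := FiniteField.pow_card_sub_one_eq_one x hx
  have h3 : Fintype.card F = 2 ∨ Fintype.card F = 3 := by omega
  rcases h3 with h3 | h3
  · rw [h3, pow_one] at h2
    rw [h2, one_mul]
  · rw [h3] at h2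
    rw [← h2]; ring

theorem plane (hQ : ND Q) (hn : 9 ≤ finrank F V) (hF : Nat.card F ≤ 3) {W : Submodule F V}
    (hW : ND (Q.restrict W)) (h2 : finrank F W = 2) (hs : ∃ x ∈ W, x ≠ 0 ∧ Q x = 0) :
    ∃ T : Subgroup (V ≃ₗ[F] V), (∀ g ∈ Om Q, Stab W g → g ∈ T) ∧ (∃ g ∈ Om Q, g ∈ T ∧ ¬ Stab W g) ∧
      ∃ g ∈ Om Q, g ∉ T := by
  classical
  obtain ⟨e, he, he0, heQ⟩ := hs
  obtain ⟨f', hf'Q, hef'⟩ := exists_partner hW (v := ⟨e, he⟩) (fun h => he0 (congrArg Subtype.val h)) heQ
  obtain ⟨f, hfW⟩ := f'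
  have hfQ : Q f = 0 := hf'Q
  have hef : polar Q e f = 1 := hef'
  have hee : polar Q e e = 0 := by rw [p_self, heQ, mul_zero]
  have hff : polar Q f f = 0 := by rw [p_self, hfQ, mul_zero]
  have hfe : polar Q f e = 1 := by rw [p_comm, hef]
  have hind : LinearIndependent F ![e, f] := by
    rw [LinearIndependent.pair_iff]
    intro s t hst
    have a1 : polar Q e (s • e + t • f) = 0 := by rw [hst, p_zero']
    have a2 : polar Q f (s • e + t • f) = 0 := by rw [hst, p_zero']
    rw [p_add', p_smul', p_smul', hee, hef] at a1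
    rw [p_add', p_smul', p_smul', hfe, hff] at a2
    simp at a1 a2
    exact ⟨a2, a1⟩
  have hsp : Submodule.span F (Set.range ![e, f]) = W := by
    apply Submodule.eq_of_le_of_finrank_le
    · rw [Submodule.span_le]
      rintro _ ⟨i, rfl⟩
      fin_cases i
      · exact he
      · exact hfW
    · rw [h2, finrank_span_eq_card hind]; simp
  have hWe : ∀ r ∈ W, ∃ α β : F, r = α • e + β • f := by
    intro r hr
    have hrs : r ∈ Submodule.span F (Set.range ![e, f]) := by rw [hsp]; exact hr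
    rw [Matrix.range_cons, Matrix.range_cons, Matrix.range_empty, Set.union_empty,
      Set.singleton_union, Submodule.mem_span_pair] at hrs
    obtain ⟨α, β, h⟩ := hrs
    exact ⟨α, β, h.symm⟩
  have hvQ : Q (e + f) = 1 := by rw [Q_add, heQ, hfQ, hef]; ring
  -- a singular vector orthogonal to `W`
  obtain ⟨u, u', hu, hu', huu', heu, hfu, -, -, -, -⟩ := exists_hyp3 hQ hn e f 0
  have hu0 : u ≠ 0 := by
    rintro rfl
    rw [p_zero] at huu'
    exact zero_ne_one huu'
  have huW : u ∉ W := by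
    intro h
    obtain ⟨α, β, hαβ⟩ := hWe u h
    have h3 : polar Q e u = β := by rw [hαβ, p_add', p_smul', p_smul', hee, hef]; ring
    have h4 : polar Q f u = α := by rw [hαβ, p_add', p_smul', p_smul', hff, hfe]; ring
    rw [heu] at h3
    rw [hfu] at h4
    rw [← h3, ← h4] at hαβ
    apply hu0
    rw [hαβ]; simp
  refine ⟨stabGp (Submodule.span F {e + f}), ?_, ?_, ?_⟩
  · intro g hg hst
    have h3 : g (e + f) ∈ W := (hst _).1 (W.add_mem he hfW)
    obtain ⟨α, β, hαβ⟩ := hWe _ h3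
    have h4 : α * β = 1 := by
      have := mem_O.1 (Om_le Q hg) (e + f)
      rw [hαβ, hvQ, Q_add, Q_smul, Q_smul, p_smul', p_smul, heQ, hfQ, hef] at this
      linear_combination this
    have hα : α ≠ 0 := left_ne_zero_of_mul_eq_one h4
    have h5 := sq_one hF hα
    have h6 : β = α := mul_left_cancel₀ hα (h4.trans h5.symm)
    apply stab_span' (c := α)
    rw [hαβ, h6]; module
  · obtain ⟨g, hg, hgx⟩ := full_Om hQ (by omega) hu (e - f) (by
      rw [p_sub', p_comm Q u e, p_comm Q u f, heu, hfu, sub_zero])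
    refine ⟨g, hg, ?_, fun hst => huW ?_⟩
    · apply stab_span
      rw [hgx]
      refine sg_fix ?_ ?_ rfl
      · rw [p_add, heu, hfu, add_zero]
      · rw [p_add, p_sub', p_sub', hee, hef, hfe, hff]; ring
    · have h3 := (hst e).1 he
      rw [hgx, sgF, heu, p_sub', hee, hef] at h3
      have h4 := W.sub_mem h3 he
      have e4 : e + (0 : F) • (e - f) - (0 - 1 + Q (e - f) * 0) • u - e = u := by module
      rwa [e4] at h4
  · obtain ⟨g, hg, hgx⟩ := full_Om hQ (by omega) hu e (by rw [p_comm, heu])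
    refine ⟨g, hg, fun hst => huW ?_⟩
    have h3 := (hst (e + f)).1 (Submodule.mem_span_singleton_self _)
    rw [hgx, sgF, p_add, heu, hfu, p_add, hee, hfe] at h3
    have h4 : Submodule.span F {e + f} ≤ W := by
      rw [Submodule.span_le, Set.singleton_subset_iff]; exact W.add_mem he hfW
    have h5 := W.sub_mem (W.add_mem he hfW) (h4 h3)
    have e4 : e + f - (e + f + (0 + 0 : F) • e - (0 + 1 + Q e * (0 + 0)) • u) = u := by module
    rwa [e4] at h5

end H7.OAPoint

namespace H7.OANd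

open Module QuadraticMap H95.OGeo

variable {ι : Type} {F : Type*} [Field F]

lemma vec_of_plus {Q : QuadraticForm F (ι → F)} {W : Submodule F (ι → F)} (h2 : finrank F W = 2)
    (h : Cfsg.Geo.IsPlusTypeOn Q W) : ∃ x ∈ W, x ≠ 0 ∧ Q x = 0 := by
  obtain ⟨U, hU, hUs, hd⟩ := h
  rw [h2] at hd
  have h1 : U ≠ ⊥ := by
    rintro rfl
    rw [finrank_bot] at hd
    omega
  obtain ⟨x, hx, hx0⟩ := (Submodule.ne_bot_iff U).1 h1
  exact ⟨x, hU hx, hx0, hUs x hx⟩

end H7.OANd
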