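import Mathlib
import Cfsg.Agent.Lib.H7.OAPoint

/-!
Parity of the dimensions of intersections of maximal totally singular subspaces.
-/
set_option autoImplicit false

namespace H7.OAParity

open Module QuadraticMap H48.QuadSplit H48.QuadWitt H95.OGeo H7.OA H7.OABridge H7.OAPar

variable {F V : Type*} [Field F] [AddCommGroup V] [Module F V] {Q : QuadraticForm F V}

/-- maximal totally singular subspaces in the split case -/
structure MTS (Q : QuadraticForm F V) (X : Submodule F V) : Prop where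
  ts : TS Q X
  dim : 2 * finrank F X = finrank F V

variable [FiniteDimensional F V]

lemma MTS.orth_eq (hQ : ND Q) {X : Submodule F V} (h : MTS Q X) : orth Q X = X := by
  symm
  apply Submodule.eq_of_le_of_finrank_eq h.ts.le_orth
  have := finrank_orth hQ X
  have := h.dim
  omega

omit [FiniteDimensional F V] in
lemma MTS.map {X : Submodule F V} (h : MTS Q X) {g : V ≃ₗ[F] V} (hg : g ∈ O Q) :
    MTS Q (X.map (g : V →ₗ[F] V)) := by
  refine ⟨?_, ?_⟩
  · rintro _ ⟨x, hx, rfl⟩
    exact (mem_O.1 hg x).trans (h.ts x hx)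
  · rw [LinearEquiv.finrank_map_eq g X, h.dim]

/-- the effect of a reflection -/
lemma refl_step (hQ : ND Q) {W X : Submodule F V} (hW : MTS Q W) (hX : MTS Q X) {z : V} (hz : Q z ≠ 0) :
    ((finrank F (W ⊓ X.map (H17.OrthAbs.refl Q z hz : V →ₗ[F] V) : Submodule F V) : ZMod 2) =
      finrank F (W ⊓ X : Submodule F V) + 1) := by
  set r := H17.OrthAbs.refl Q z hz with hr
  have hrO : r ∈ O Q := H17.OrthAbs.refl_mem_O Q z hz
  have hrx : ∀ x, polar Q z x = 0 → r x = x := fun x hx => H17.OrthAbs.refl_fix Q z hz x hx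
  set X' := X.map (r : V →ₗ[F] V) with hX'
  have hX'M : MTS Q X' := hX.map hrO
  -- the common part
  set Y : Submodule F V := X ⊓ orth Q (Submodule.span F {z}) with hY
  have hYz : ∀ y ∈ Y, polar Q z y = 0 := fun y hy => hy.2 z (Submodule.mem_span_singleton_self z)
  have hYX : Y ≤ X := inf_le_left
  have hYX' : Y ≤ X' := fun y hy => ⟨y, hy.1, hrx y (hYz y hy)⟩
  obtain ⟨x0, hx0, hx0z⟩ : ∃ x ∈ X, polar Q z x ≠ 0 := by
    by_contra hcon
    push Not at hcon
    have : z ∈ orth Q X := fun u hu => by rw [p_comm]; exact hcon u hu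
    rw [hX.orth_eq hQ] at this
    exact hz (hX.ts z this)
  -- every vector of `X` is `y + c x0`
  have hXdec : ∀ x ∈ X, x - ((polar Q z x0)⁻¹ * polar Q z x) • x0 ∈ Y := by
    intro x hx
    refine ⟨X.sub_mem hx (X.smul_mem _ hx0), ?_⟩
    intro u hu
    rw [Submodule.mem_span_singleton] at hu
    obtain ⟨c, rfl⟩ := hu
    rw [p_sub', p_smul, p_smul, p_smul']
    field_simp
    ring
  -- `r x0`
  have hrx0 : r x0 = x0 - ((Q z)⁻¹ * polar Q z x0) • z := H17.OrthAbs.refl_apply Q z hz x0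
  set c0 : F := (Q z)⁻¹ * polar Q z x0 with hc0
  have hc0' : c0 ≠ 0 := mul_ne_zero (inv_ne_zero hz) hx0z
  have hYz' : ∀ y ∈ Y, polar Q y x0 = 0 := fun y hy => hX.ts.polar hy.1 hx0
  -- vectors orthogonal to `Y` are in `Y + ⟨x0, z⟩`
  have hYperp : ∀ w, w ∈ orth Q Y → ∃ y ∈ Y, ∃ α β : F, w = y + α • x0 + β • z := by
    intro w hw
    have h1 : w - ((polar Q z x0)⁻¹ * polar Q w x0) • z ∈ orth Q X := by
      intro x hx
      obtain ⟨c, hc⟩ : ∃ c, c = (polar Q z x0)⁻¹ * polar Q z x := ⟨_, rfl⟩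
      have h2 := hXdec x hx
      rw [← hc] at h2
      have h3 : polar Q (x - c • x0) w = 0 := hw _ h2
      have h4 : polar Q (x - c • x0) z = 0 := by rw [p_comm]; exact hYz _ h2
      have h5 : polar Q x w = c * polar Q x0 w := by
        rw [p_sub, p_smul] at h3; linear_combination h3
      have h6 : polar Q x z = c * polar Q x0 z := by
        rw [p_sub, p_smul] at h4; linear_combination h4
      rw [p_sub', p_smul', h5, h6, p_comm Q x0 z, p_comm Q w x0]
      field_simp
      ring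
    rw [hX.orth_eq hQ] at h1
    have h2 := hXdec _ h1
    refine ⟨_, h2, (polar Q z x0)⁻¹ * polar Q z (w - ((polar Q z x0)⁻¹ * polar Q w x0) • z),
      (polar Q z x0)⁻¹ * polar Q w x0, ?_⟩
    abel
  -- singular vectors orthogonal to `Y` are in `X` or `X'`
  have hsing : ∀ w, w ∈ orth Q Y → Q w = 0 → w ∈ X ∨ w ∈ X' := by
    intro w hw hwQ
    obtain ⟨y, hy, α, β, rfl⟩ := hYperp w hw
    have h1 : β * (α * polar Q z x0 + β * Q z) = 0 := by
      have h2 : Q (y + α • x0 + β • z) = β * (α * polar Q z x0 + β * Q z) := by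
        rw [Q_add, Q_add, Q_smul, Q_smul, p_smul', p_smul', p_add, p_smul, hX.ts y hy.1, hX.ts x0 hx0,
          hYz' y hy, p_comm Q y z, hYz y hy, p_comm Q x0 z]
        ring
      rw [← h2, hwQ]
    rcases mul_eq_zero.1 h1 with h2 | h2
    · left
      rw [h2, zero_smul, add_zero]
      exact X.add_mem hy.1 (X.smul_mem _ hx0)
    · right
      have h3 : β = - (α * c0) := by
        rw [hc0]
        field_simp
        linear_combination h2
      have h4 : y + α • x0 + β • z = y + α • r x0 := by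
        rw [hrx0, h3]; module
      rw [h4]
      exact X'.add_mem (hYX' hy) (X'.smul_mem _ ⟨x0, hx0, rfl⟩)
  -- `X ⊓ X' = Y`
  have hXX' : ∀ w, w ∈ X → w ∈ X' → w ∈ Y := by
    intro w hw hw'
    obtain ⟨x, hx, rfl⟩ := hw'
    have h1 := hXdec x hx
    obtain ⟨c, hc⟩ : ∃ c, c = (polar Q z x0)⁻¹ * polar Q z x := ⟨_, rfl⟩
    rw [← hc] at h1
    have h2 : r x = (x - c • x0) + c • r x0 := by
      have : x = (x - c • x0) + c • x0 := by abel
      conv_lhs => rw [this]
      rw [map_add, map_smul, hrx _ (hYz _ h1)]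
    have h3 : c • r x0 ∈ X := by
      have h4 : (r : V →ₗ[F] V) x ∈ X := hw
      have h5 : r x ∈ X := h4
      rw [h2] at h5
      have := X.sub_mem h5 (hYX h1)
      rwa [add_sub_cancel_left] at this
    have hc' : c = 0 := by
      by_contra hne
      have h4 : r x0 ∈ X := by
        have := X.smul_mem c⁻¹ h3
        rwa [smul_smul, inv_mul_cancel₀ hne, one_smul] at this
      have h5 : polar Q x0 (r x0) = 0 := hX.ts.polar hx0 h4
      rw [hrx0, p_sub', p_smul', p_self, hX.ts x0 hx0, p_comm Q x0 z] at h5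
      apply mul_ne_zero hc0' hx0z
      linear_combination -h5
    have h4 : r x = x - c • x0 := by rw [h2, hc']; simp
    change r x ∈ Y
    rw [h4]; exact h1
  -- dimension of `W ∩ Y^⊥`
  have hdY : finrank F Y + 1 = finrank F X := by
    have h1 := finrank_orth hQ Y
    have h2 := finrank_orth hQ X
    rw [hX.orth_eq hQ] at h2
    have h3 : finrank F (orth Q Y) ≤ finrank F Y + 2 := by
      have h4 : orth Q Y ≤ Y ⊔ Submodule.span F {x0, z} := by
        intro w hw
        obtain ⟨y, hy, α, β, rfl⟩ := hYperp w hw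
        rw [add_assoc]
        exact Submodule.add_mem_sup hy (Submodule.mem_span_pair.2 ⟨α, β, rfl⟩)
      have h5 := Submodule.finrank_mono h4
      have h6 := Submodule.finrank_add_le_finrank_add_finrank Y (Submodule.span F {x0, z})
      have h7 := H7.OAPoint.finrank_pair_le (F := F) x0 z
      omega
    have h4 : finrank F Y < finrank F X := by
      apply Submodule.finrank_lt_finrank_of_lt
      refine lt_of_le_of_ne hYX ?_
      intro h
      exact hx0z (hYz x0 (h ▸ hx0))
    omega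
  have hWY : finrank F (W ⊓ orth Q Y : Submodule F V) = finrank F (W ⊓ Y : Submodule F V) + 1 := by
    have h1 := finrank_orth hQ (W ⊔ Y)
    have h2 : orth Q (W ⊔ Y) = W ⊓ orth Q Y := by
      ext w
      constructor
      · intro hw
        refine ⟨?_, fun u hu => hw u (Submodule.mem_sup_right hu)⟩
        have h3 : w ∈ orth Q W := fun u hu => hw u (Submodule.mem_sup_left hu)
        rwa [hW.orth_eq hQ] at h3
      · rintro ⟨h3, h4⟩ u hu
        rw [Submodule.mem_sup] at hu
        obtain ⟨a, ha, b, hb, rfl⟩ := hu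
        rw [p_add, hW.ts.polar ha h3, h4 b hb, add_zero]
    rw [h2] at h1
    have h3 := Submodule.finrank_sup_add_finrank_inf_eq W Y
    have h4 := hW.dim
    have h5 := hX.dim
    omega
  -- a vector in `W ∩ Y^⊥` outside `Y`
  obtain ⟨w, hw, hwY⟩ : ∃ w ∈ (W ⊓ orth Q Y : Submodule F V), w ∉ W ⊓ Y := by
    by_contra hcon
    push Not at hcon
    have h1 : (W ⊓ orth Q Y : Submodule F V) ≤ W ⊓ Y := hcon
    have := Submodule.finrank_mono h1
    omega
  have hXo : X ≤ orth Q Y := fun x hx u hu => hX.ts.polar (hYX hu) hx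
  have hX'o : X' ≤ orth Q Y := fun x hx u hu => hX'M.ts.polar (hYX' hu) hx
  -- the two cases
  have key : ∀ A B : Submodule F V, Y ≤ A → Y ≤ B → A ≤ orth Q Y → B ≤ orth Q Y → (∀ w, w ∈ A → w ∈ B → w ∈ Y) → w ∈ A →
      finrank F (W ⊓ A : Submodule F V) = finrank F (W ⊓ Y : Submodule F V) + 1 ∧
      finrank F (W ⊓ B : Submodule F V) = finrank F (W ⊓ Y : Submodule F V) := by
    intro A B hYA hYB hA hB hAB hwA
    have h1 : (W ⊓ Y : Submodule F V) < W ⊓ A := by
      refine lt_of_le_of_ne (inf_le_inf_left W hYA) ?_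
      intro h
      apply hwY
      rw [h]
      exact ⟨hw.1, hwA⟩
    have h2 : (W ⊓ A : Submodule F V) = W ⊓ orth Q Y := by
      apply Submodule.eq_of_le_of_finrank_le (inf_le_inf_left W hA)
      have := Submodule.finrank_lt_finrank_of_lt h1
      omega
    refine ⟨by rw [h2, hWY], ?_⟩
    have h3 : (W ⊓ B : Submodule F V) = W ⊓ Y := by
      apply le_antisymm
      · intro v hv
        have h4 : v ∈ (W ⊓ A : Submodule F V) := by
          rw [h2]; exact ⟨hv.1, hB hv.2⟩
        exact ⟨hv.1, hAB v h4.2 hv.2⟩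
      · exact inf_le_inf_left W hYB
    rw [h3]
  rcases hsing w hw.2 (hW.ts w hw.1) with h | h
  · obtain ⟨h1, h2⟩ := key X X' hYX hYX' hXo hX'o hXX' h
    rw [h1, h2]
    push_cast
    have : (2 : ZMod 2) = 0 := by decide
    linear_combination -this
  · obtain ⟨h1, h2⟩ := key X' X hYX' hYX hX'o hXo (fun w h1 h2 => hXX' w h2 h1) h
    rw [h1, h2]
    push_cast
    rfl

/-- elements changing all intersection parities by a constant -/
def Par (Q : QuadraticForm F V) (g : V ≃ₗ[F] V) (m : ZMod 2) : Prop :=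
  ∀ W X : Submodule F V, MTS Q W → MTS Q X →
    ((finrank F (W ⊓ X.map (g : V →ₗ[F] V) : Submodule F V) : ZMod 2) = finrank F (W ⊓ X : Submodule F V) + m)

omit [FiniteDimensional F V] in
lemma Par.mul {g h : V ≃ₗ[F] V} (hh' : h ∈ O Q) {m n : ZMod 2} (hg : Par Q g m) (hh : Par Q h n) :
    Par Q (g * h) (m + n) := by
  intro W X hW hX
  have h1 : X.map ((g * h : V ≃ₗ[F] V) : V →ₗ[F] V) = (X.map (h : V →ₗ[F] V)).map (g : V →ₗ[F] V) := by
    rw [← Submodule.map_comp]; rfl
  rw [h1, hg W _ hW (hX.map hh'), hh W X hW hX]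
  ring

omit [FiniteDimensional F V] in
lemma par_one : Par Q 1 0 := by
  intro W X _ _
  have : X.map ((1 : V ≃ₗ[F] V) : V →ₗ[F] V) = X := by
    ext x; simp
  rw [this, add_zero]

omit [FiniteDimensional F V] in
lemma Par.inv {g : V ≃ₗ[F] V} (hg' : g ∈ O Q) {m : ZMod 2} (hg : Par Q g m) : Par Q g⁻¹ m := by
  intro W X hW hX
  have h1 := hg W (X.map ((g⁻¹ : V ≃ₗ[F] V) : V →ₗ[F] V)) hW (hX.map ((O Q).inv_mem hg'))
  have h2 : (X.map ((g⁻¹ : V ≃ₗ[F] V) : V →ₗ[F] V)).map (g : V →ₗ[F] V) = X := by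
    rw [← Submodule.map_comp]
    have : (g : V →ₗ[F] V) ∘ₗ ((g⁻¹ : V ≃ₗ[F] V) : V →ₗ[F] V) = LinearMap.id := by
      ext x; exact apply_inv_apply g x
    rw [this, Submodule.map_id]
  rw [h2] at h1
  rw [h1, add_assoc]
  have : m + m = 0 := CharTwo.add_self_eq_zero m
  rw [this, add_zero]

/-- every isometry changes parities by a constant -/
lemma exists_par [Finite F] (hQ : ND Q) (h4 : finrank F V ≠ 4) {g : V ≃ₗ[F] V} (hg : g ∈ O Q) :
    ∃ m, Par Q g m := by
  have := Fintype.ofFinite F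
  let K : Subgroup (V ≃ₗ[F] V) :=
    { carrier := {g | g ∈ O Q ∧ ∃ m, Par Q g m}
      one_mem' := ⟨(O Q).one_mem, 0, par_one⟩
      mul_mem' := by
        rintro a b ⟨ha, m, hm⟩ ⟨hb, n, hn⟩
        exact ⟨(O Q).mul_mem ha hb, m + n, hm.mul hb hn⟩
      inv_mem' := by
        rintro a ⟨ha, m, hm⟩
        exact ⟨(O Q).inv_mem ha, m, hm.inv ha⟩ }
  have h1 : O Q ≤ K := by
    refine H7.OmegaIso.rg_of (Q := Q) hQ (Or.inr h4) K fun v hv => ?_
    exact ⟨H17.OrthAbs.refl_mem_O Q v hv, 1, fun W X hW hX => refl_step hQ hW hX hv⟩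
  exact (h1 hg).2

/-- **Parity**: `Om Q` preserves the two classes of maximal totally singular subspaces. -/
theorem parity [Finite F] (hQ : ND Q) (h4 : finrank F V ≠ 4) {g : V ≃ₗ[F] V} (hg : g ∈ Om Q) : Par Q g 0 := by
  let K : Subgroup (V ≃ₗ[F] V) :=
    { carrier := {g | g ∈ O Q ∧ Par Q g 0}
      one_mem' := ⟨(O Q).one_mem, par_one⟩
      mul_mem' := by
        rintro a b ⟨ha, hm⟩ ⟨hb, hn⟩
        refine ⟨(O Q).mul_mem ha hb, ?_⟩
        have := hm.mul hb hn
        rwa [add_zero] at this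
      inv_mem' := by
        rintro a ⟨ha, hm⟩
        exact ⟨(O Q).inv_mem ha, hm.inv ha⟩ }
  have h1 : Om Q ≤ K := by
    rw [Om, Subgroup.commutator_le]
    intro a ha b hb
    obtain ⟨m, hm⟩ := exists_par hQ h4 ha
    obtain ⟨n, hn⟩ := exists_par hQ h4 hb
    refine ⟨Om_le Q (Subgroup.commutator_mem_commutator ha hb), ?_⟩
    have h2 := ((hm.mul hb hn).mul ((O Q).inv_mem ha) (hm.inv ha)).mul ((O Q).inv_mem hb) (hn.inv hb)
    have h3 : m + n + m + n = 0 := by
      have e1 : m + m = 0 := CharTwo.add_self_eq_zero m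
      have e2 : n + n = 0 := CharTwo.add_self_eq_zero n
      linear_combination e1 + e2
    rw [h3] at h2
    exact h2
  exact (h1 hg).2

end H7.OAParity
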