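import Mathlib

/-! Data of generalized quaternion groups -/

set_option autoImplicit false
set_option linter.all false

namespace H7.QData

open QuaternionGroup

universe u

variable {m : ℕ} [NeZero m]

theorem two_i {i : ZMod (2 * m)} (h : i + i = 0) : i = 0 ∨ i = m := by
  have h1 : ((2 * i.val : ℕ) : ZMod (2 * m)) = 0 := by
    push_cast
    rw [ZMod.natCast_zmod_val]
    linear_combination h
  rw [ZMod.natCast_eq_zero_iff] at h1
  have h2 : m ∣ i.val := Nat.dvd_of_mul_dvd_mul_left (by norm_num) h1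
  have h3 := ZMod.val_lt i
  obtain ⟨c, hc⟩ := h2
  have hm : 0 < m := Nat.pos_of_ne_zero (NeZero.ne m)
  have h4 : c < 2 := by
    by_contra hcon
    push Not at hcon
    have : m * 2 ≤ m * c := Nat.mul_le_mul_left _ hcon
    omega
  interval_cases c
  · left
    rw [← ZMod.natCast_zmod_val i, hc]; simp
  · right
    rw [← ZMod.natCast_zmod_val i, hc, mul_one]

theorem m_ne : ((m : ℕ) : ZMod (2 * m)) ≠ 0 := by
  intro h
  rw [ZMod.natCast_eq_zero_iff] at h
  have hm : 0 < m := Nat.pos_of_ne_zero (NeZero.ne m)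
  have := Nat.le_of_dvd hm h
  omega

theorem m_add : ((m : ℕ) : ZMod (2 * m)) + m = 0 := by
  rw [← Nat.cast_add, ZMod.natCast_eq_zero_iff]
  exact ⟨1, by ring⟩

theorem neg_m : -((m : ℕ) : ZMod (2 * m)) = m := by
  rw [neg_eq_iff_add_eq_zero, m_add]

theorem a_inj {i j : ZMod (2 * m)} (h : (a i : QuaternionGroup m) = a j) : i = j := by
  injection h

theorem a_inv (i : ZMod (2 * m)) : (a i : QuaternionGroup m)⁻¹ = a (-i) := rfl

theorem sq_eq {w : QuaternionGroup m} (hw : w * w = 1) (h1 : w ≠ 1) : w = a m := by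
  rcases w with i | i
  · rw [a_mul_a, one_def] at hw
    rcases two_i (a_inj hw) with h | h
    · exact absurd (by rw [h]; rfl) h1
    · rw [h]
  · rw [xa_mul_xa, one_def] at hw
    have h2 := a_inj hw
    rw [add_sub_cancel_right] at h2
    exact absurd h2 m_ne

theorem z_central (d : QuaternionGroup m) : d * a m = a m * d := by
  rcases d with i | i
  · rw [a_mul_a, a_mul_a, add_comm]
  · rw [xa_mul_a, a_mul_xa, sub_eq_add_neg, neg_m]

theorem conj_a (j i : ZMod (2 * m)) : (a j : QuaternionGroup m) * a i * (a j)⁻¹ = a i := by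
  rw [a_inv, a_mul_a, a_mul_a]
  congr 1; ring

theorem conj_xa (j i : ZMod (2 * m)) : (xa j : QuaternionGroup m) * a i * (xa j)⁻¹ = a (-i) := by
  rw [mul_inv_eq_iff_eq_mul, xa_mul_a, a_mul_xa]
  congr 1; ring

theorem four (d : QuaternionGroup m) (h1 : d ≠ 1) (hz : d ≠ a m) (h : ∀ x : QuaternionGroup m, x * d * x⁻¹ = d ∨ x * d * x⁻¹ = d * a m) :
    d * d = a m := by
  rcases d with i | i
  · have h2 := h (xa 0)
    rw [conj_xa, a_mul_a] at h2
    rcases h2 with h2 | h2
    · have h3 := a_inj h2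
      have h4 : i + i = 0 := by
        nth_rw 1 [← h3]
        rw [neg_add_cancel]
      rcases two_i h4 with h5 | h5
      · exact absurd (by rw [h5]; rfl) h1
      · exact absurd (by rw [h5]) hz
    · have h3 := a_inj h2
      rw [a_mul_a]
      congr 1
      have h4 : i + i = -m := by
        linear_combination -h3
      rw [h4, neg_m]
  · rw [xa_mul_xa, add_sub_cancel_right]

/-- the map to the dihedral group -/
def psi : QuaternionGroup m →* DihedralGroup m where
  toFun
    | a i => DihedralGroup.r (ZMod.castHom (dvd_mul_left m 2) (ZMod m) i)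
    | xa i => DihedralGroup.sr (ZMod.castHom (dvd_mul_left m 2) (ZMod m) i)
  map_one' := by
    rw [one_def]
    change DihedralGroup.r (ZMod.castHom (dvd_mul_left m 2) (ZMod m) 0) = 1
    rw [map_zero]; rfl
  map_mul' := by
    rintro (i | i) (j | j)
    · rw [a_mul_a]
      change DihedralGroup.r (ZMod.castHom (dvd_mul_left m 2) (ZMod m) (i + j)) = DihedralGroup.r _ * DihedralGroup.r _
      rw [DihedralGroup.r_mul_r, map_add]
    · rw [a_mul_xa]
      change DihedralGroup.sr (ZMod.castHom (dvd_mul_left m 2) (ZMod m) (j - i)) = DihedralGroup.r _ * DihedralGroup.sr _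
      rw [DihedralGroup.r_mul_sr, map_sub]
    · rw [xa_mul_a]
      change DihedralGroup.sr (ZMod.castHom (dvd_mul_left m 2) (ZMod m) (i + j)) = DihedralGroup.sr _ * DihedralGroup.r _
      rw [DihedralGroup.sr_mul_r, map_add]
    · rw [xa_mul_xa]
      change DihedralGroup.r (ZMod.castHom (dvd_mul_left m 2) (ZMod m) (m + j - i)) = DihedralGroup.sr _ * DihedralGroup.sr _
      rw [DihedralGroup.sr_mul_sr, map_sub, map_add, map_natCast, ZMod.natCast_self, zero_add]

theorem psi_ker (w : QuaternionGroup m) : psi w = 1 ↔ w = 1 ∨ w = a m := by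
  rcases w with i | i
  · change DihedralGroup.r (ZMod.castHom (dvd_mul_left m 2) (ZMod m) i) = DihedralGroup.r 0 ↔ _
    rw [one_def]
    constructor
    · intro h
      have h1 : ZMod.castHom (dvd_mul_left m 2) (ZMod m) i = 0 := by injection h
      have h2 : i + i = 0 := by
        have h3 : ((i.val : ℕ) : ZMod m) = 0 := by
          rw [← h1, ← map_natCast (ZMod.castHom (dvd_mul_left m 2) (ZMod m)), ZMod.natCast_zmod_val]
        rw [ZMod.natCast_eq_zero_iff] at h3
        obtain ⟨c, hc⟩ := h3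
        rw [← ZMod.natCast_zmod_val i, hc, ← Nat.cast_add, ZMod.natCast_eq_zero_iff]
        exact ⟨c, by ring⟩
      rcases two_i h2 with h | h
      · left; rw [h]
      · right; rw [h]
    · rintro (h | h)
      · rw [a_inj h, map_zero]
      · rw [a_inj h, map_natCast, ZMod.natCast_self]
  · change DihedralGroup.sr _ = DihedralGroup.r 0 ↔ _
    rw [one_def]
    constructor
    · intro h; injection h
    · rintro (h | h) <;> injection h

theorem psi_surj : Function.Surjective (psi (m := m)) := by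
  rintro (i | i)
  · obtain ⟨j, rfl⟩ := ZMod.castHom_surjective (dvd_mul_left m 2) i
    exact ⟨a j, rfl⟩
  · obtain ⟨j, rfl⟩ := ZMod.castHom_surjective (dvd_mul_left m 2) i
    exact ⟨xa j, rfl⟩

theorem q_data {D : Type u} [Group D] [Finite D] {n : ℕ} (hn : 3 ≤ n) (φ : D ≃* QuaternionGroup (2 ^ (n - 2))) :
    Nat.card D = 2 ^ n ∧ ∃ s t z y : D, orderOf s = 2 ^ (n - 1) ∧ t ∈ Subgroup.zpowers s ∧ orderOf t = 4 ∧ t * t = z ∧
      orderOf z = 2 ∧ (∀ d, d * z = z * d) ∧ (∀ d, d * t * d⁻¹ = t ∨ d * t * d⁻¹ = t⁻¹) ∧ y * t * y⁻¹ = t⁻¹ ∧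
      (∀ d, d ≠ 1 → z ∈ Subgroup.zpowers d) ∧
      (∀ d, d ≠ 1 → d ≠ z → (∀ x, x * d * x⁻¹ = d ∨ x * d * x⁻¹ = d * z) → d * d = z) ∧
      ∀ (E : Type u) [Group E] (f : D →* E), Function.Surjective f → (∀ d, f d = 1 ↔ d = 1 ∨ d = z) →
        Nonempty (E ≃* DihedralGroup (2 ^ (n - 2))) := by
  haveI : NeZero (2 ^ (n - 2)) := ⟨by positivity⟩
  obtain ⟨k, rfl⟩ : ∃ k, n = k + 3 := ⟨n - 3, by omega⟩
  have e1 : k + 3 - 2 = k + 1 := by omega
  have hcard : Nat.card D = 2 ^ (k + 3) := by
    rw [Nat.card_congr φ.toEquiv, Nat.card_eq_fintype_card, QuaternionGroup.card, e1]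
    ring
  have hpg : IsPGroup 2 D := IsPGroup.of_card hcard
  -- helper facts in D
  have hsymm : ∀ x : D, φ.symm (φ x) = x := φ.symm_apply_apply
  have hap : ∀ x, φ (φ.symm x) = x := φ.apply_symm_apply
  have htt : (a ((2 ^ k : ℕ) : ZMod (2 * 2 ^ (k + 3 - 2))) : QuaternionGroup (2 ^ (k + 3 - 2))) * a ((2 ^ k : ℕ) : ZMod (2 * 2 ^ (k + 3 - 2))) =
      a ((2 ^ (k + 3 - 2) : ℕ) : ZMod (2 * 2 ^ (k + 3 - 2))) := by
    rw [a_mul_a]
    congr 1
    rw [← Nat.cast_add]
    congr 1
    rw [e1]; ring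
  have hzz : (a ((2 ^ (k + 3 - 2) : ℕ) : ZMod (2 * 2 ^ (k + 3 - 2))) : QuaternionGroup (2 ^ (k + 3 - 2))) *
      a ((2 ^ (k + 3 - 2) : ℕ) : ZMod (2 * 2 ^ (k + 3 - 2))) = 1 := by
    rw [a_mul_a, m_add]; rfl
  have hz1 : (a ((2 ^ (k + 3 - 2) : ℕ) : ZMod (2 * 2 ^ (k + 3 - 2))) : QuaternionGroup (2 ^ (k + 3 - 2))) ≠ 1 := by
    intro h
    rw [one_def] at h
    exact m_ne (a_inj h)
  refine ⟨hcard, φ.symm (a 1), φ.symm (a ((2 ^ k : ℕ) : ZMod _)), φ.symm (a ((2 ^ (k + 3 - 2) : ℕ) : ZMod _)), φ.symm (xa 0),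
    ?_, ?_, ?_, ?_, ?_, ?_, ?_, ?_, ?_, ?_, ?_⟩
  · rw [MulEquiv.orderOf_eq, orderOf_a_one]
    have : k + 3 - 1 = (k + 3 - 2) + 1 := by omega
    rw [this, pow_succ, mul_comm]
  · refine ⟨((2 ^ k : ℕ) : ℤ), ?_⟩
    change (φ.symm (a 1)) ^ ((2 ^ k : ℕ) : ℤ) = _
    rw [zpow_natCast, ← map_pow, a_one_pow]
  · rw [MulEquiv.orderOf_eq]
    have : (4 : ℕ) = 2 ^ (1 + 1) := by norm_num
    rw [this]
    apply orderOf_eq_prime_pow
    · rw [pow_one, pow_two, htt]; exact hz1
    · rw [pow_succ, pow_one, pow_mul, pow_two, pow_two, htt, hzz]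
  · rw [← map_mul, htt]
  · rw [MulEquiv.orderOf_eq]
    exact orderOf_eq_prime (by rw [pow_two, hzz]) hz1
  · intro d
    apply φ.injective
    rw [map_mul, map_mul, hap]
    exact z_central _
  · intro d
    rcases hd : φ d with j | j
    · left
      apply φ.injective
      rw [map_mul, map_mul, map_inv, hap, hd, conj_a]
    · right
      apply φ.injective
      rw [map_mul, map_mul, map_inv, map_inv, hap, hd, conj_xa]
      rfl
  · apply φ.injective
    rw [map_mul, map_mul, map_inv, map_inv, hap, hap, conj_xa]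
    rfl
  · intro d hd
    obtain ⟨j, hj⟩ := (IsPGroup.iff_orderOf.1 hpg) d
    have hj0 : j ≠ 0 := by
      rintro rfl
      rw [pow_zero, orderOf_eq_one_iff] at hj
      exact hd hj
    obtain ⟨i, rfl⟩ := Nat.exists_eq_succ_of_ne_zero hj0
    have h1 : (d ^ 2 ^ i) * (d ^ 2 ^ i) = 1 := by
      rw [← pow_add, ← two_mul, ← pow_succ', ← Nat.succ_eq_add_one, ← hj, pow_orderOf_eq_one]
    have h2 : d ^ 2 ^ i ≠ 1 := by
      intro h
      have h3 := orderOf_dvd_of_pow_eq_one h
      rw [hj] at h3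
      have h4 := Nat.le_of_dvd (by positivity) h3
      have h5 : 2 ^ i < 2 ^ (i + 1) := Nat.pow_lt_pow_right (by norm_num) (by omega)
      omega
    have h3 : φ (d ^ 2 ^ i) = a ((2 ^ (k + 3 - 2) : ℕ) : ZMod _) := by
      apply sq_eq
      · rw [← map_mul, h1, map_one]
      · intro h
        exact h2 (φ.injective (by rw [h, map_one]))
    rw [← h3, hsymm]
    exact Subgroup.npow_mem_zpowers d _
  · intro d h1 hz h
    apply φ.injective
    rw [map_mul, hap]
    refine four (φ d) ?_ ?_ ?_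
    · intro h2
      exact h1 (φ.injective (by rw [h2, map_one]))
    · intro h2
      exact hz (by rw [← h2, hsymm])
    · intro x
      have h2 := h (φ.symm x)
      rcases h2 with h2 | h2
      · left
        have h3 := congrArg φ h2
        rwa [map_mul, map_mul, map_inv, hap] at h3
      · right
        have h3 := congrArg φ h2
        rwa [map_mul, map_mul, map_inv, map_mul, hap, hap] at h3
  · intro E _ f hf hk
    let g : D →* DihedralGroup (2 ^ (k + 3 - 2)) := psi.comp φ.toMonoidHom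
    have hg : Function.Surjective g := psi_surj.comp φ.surjective
    have hker : f.ker = g.ker := by
      ext d
      rw [MonoidHom.mem_ker, MonoidHom.mem_ker, hk]
      change _ ↔ psi (φ d) = 1
      rw [psi_ker]
      constructor
      · rintro (h | h)
        · left; rw [h, map_one]
        · right; rw [h, hap]
      · rintro (h | h)
        · left; exact φ.injective (by rw [h, map_one])
        · right; rw [← h, hsymm]
    exact ⟨((QuotientGroup.quotientKerEquivOfSurjective f hf).symm.trans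
      (QuotientGroup.quotientMulEquivOfEq hker)).trans (QuotientGroup.quotientKerEquivOfSurjective g hg)⟩

end H7.QData
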