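import Mathlib

/-! Two integer lemmas (quaternion defect group of order 8) -/

set_option autoImplicit false
set_option linter.all false

namespace H7.QNum8

variable {I : Type*} [DecidableEq I] {S : Finset I} {ht : I → ℕ} {Mz : I → I → ℤ}

theorem sq_le {F : I → ℤ} {N : ℤ} (h : ∑ i ∈ S, F i * F i = N) {i : I} (hi : i ∈ S) : F i * F i ≤ N := by
  rw [← h]
  exact Finset.single_le_sum (f := fun i => F i * F i) (fun k _ => mul_self_nonneg (F k)) hi

/-- the shape of a vector of norm 8 which is odd at exactly four places -/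
theorem shape {c : I → ℤ} {Y : Finset I} (hYS : Y ⊆ S) (hY : Y.card = 4) (hc : ∑ i ∈ S, c i * c i = 8)
    (hodd : ∀ i ∈ Y, c i % 2 = 1) (heven : ∀ i ∈ S, i ∉ Y → c i % 2 = 0) :
    (∀ i ∈ Y, c i = 1 ∨ c i = -1) ∧ ∃ T ∈ S, T ∉ Y ∧ (c T = 2 ∨ c T = -2) ∧ ∀ i ∈ S, i ∉ Y → i ≠ T → c i = 0 := by
  have hb : ∀ i ∈ S, -2 ≤ c i ∧ c i ≤ 2 := by
    intro i hi
    have h := sq_le hc hi
    constructor <;> nlinarith
  have hA : ∀ i ∈ Y, c i = 1 ∨ c i = -1 := by
    intro i hi
    have h1 := hb i (hYS hi)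
    have h2 := hodd i hi
    omega
  refine ⟨hA, ?_⟩
  have hsumY : ∑ i ∈ Y, c i * c i = 4 := by
    have h1 : ∑ i ∈ Y, c i * c i = ∑ i ∈ Y, (1 : ℤ) := by
      apply Finset.sum_congr rfl
      intro i hi
      rcases hA i hi with h | h <;> rw [h] <;> norm_num
    rw [h1, Finset.sum_const, hY]; norm_num
  have hrest : ∑ i ∈ S \ Y, c i * c i = 4 := by
    have h1 := Finset.sum_sdiff (f := fun i => c i * c i) hYS
    rw [hc, hsumY] at h1
    linarith
  have hex : ∃ T ∈ S \ Y, c T * c T ≠ 0 := by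
    by_contra hcon
    push Not at hcon
    rw [Finset.sum_eq_zero hcon] at hrest
    norm_num at hrest
  obtain ⟨T, hT, hT0⟩ := hex
  have hTS := (Finset.mem_sdiff.1 hT).1
  have hTY := (Finset.mem_sdiff.1 hT).2
  have hT2 : c T = 2 ∨ c T = -2 := by
    have h1 := hb T hTS
    have h2 := heven T hTS hTY
    have h3 : c T ≠ 0 := by
      intro h
      rw [h] at hT0
      exact hT0 (by norm_num)
    omega
  refine ⟨T, hTS, hTY, hT2, ?_⟩
  have hcT : c T * c T = 4 := by rcases hT2 with h | h <;> rw [h] <;> norm_num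
  have h0 : ∑ i ∈ (S \ Y).erase T, c i * c i = 0 := by
    have h1 := Finset.add_sum_erase (S \ Y) (fun i => c i * c i) hT
    rw [hrest, hcT] at h1
    linarith
  rw [Finset.sum_eq_zero_iff_of_nonneg (fun i _ => mul_self_nonneg (c i))] at h0
  intro i hi hiY hiT
  exact mul_self_eq_zero.1 (h0 i (Finset.mem_erase.2 ⟨hiT, Finset.mem_sdiff.2 ⟨hi, hiY⟩⟩))

theorem ht_zero {x : ℤ} {k : ℕ} (hx : x % 2 = 1) (h : (2 : ℤ) ^ k ∣ x) : k = 0 := by
  by_contra hk
  have h1 : (2 : ℤ) ∣ x := (dvd_pow_self 2 hk).trans h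
  omega

theorem ht_one {x : ℤ} {k : ℕ} (hx : x = 2 ∨ x = -2) (h : (2 : ℤ) ^ k ∣ x) (h' : ¬ (2 : ℤ) ^ (k + 1) ∣ x) : k = 1 := by
  rcases k with _ | _ | k
  · exfalso
    apply h'
    rcases hx with rfl | rfl <;> norm_num
  · rfl
  · exfalso
    have h1 : (4 : ℤ) ∣ x := (Dvd.intro (2 ^ k) (by ring)).trans h
    rcases hx with rfl | rfl <;> omega

theorem q8_one {c f₁ f₂ : I → ℤ} (hMz : ∀ i j, Mz i j = c i * c j) (hc : ∑ i ∈ S, c i * c i = 8)
    (h11 : ∑ i ∈ S, f₁ i * f₁ i = 2) (h22 : ∑ i ∈ S, f₂ i * f₂ i = 2) (h12 : ∑ i ∈ S, f₁ i * f₂ i = 0)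
    (hodd : ∃ i ∈ S, (f₁ i + f₂ i) % 2 = 1) (par : ∀ i ∈ S, (f₁ i + f₂ i + c i) % 2 = 0)
    (val : ∀ i ∈ S, ∀ j ∈ S, ht j = 0 → (2 : ℤ) ^ ht i ∣ Mz i j ∧ ¬ (2 : ℤ) ^ (ht i + 1) ∣ Mz i j)
    (ex0 : ∃ j ∈ S, ht j = 0) :
    S.card = 5 ∧ (S.filter (fun i => ht i = 0)).card = 4 ∧ ∀ i ∈ S, ht i = 0 ∨ ht i = 1 := by
  obtain ⟨j0, hj0, hj00⟩ := ex0
  -- g = f₁ + f₂
  have hg : ∑ i ∈ S, (f₁ i + f₂ i) * (f₁ i + f₂ i) = 4 := by
    have : ∀ i ∈ S, (f₁ i + f₂ i) * (f₁ i + f₂ i) = f₁ i * f₁ i + f₂ i * f₂ i + 2 * (f₁ i * f₂ i) := fun i _ => by ring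
    rw [Finset.sum_congr rfl this, Finset.sum_add_distrib, Finset.sum_add_distrib, ← Finset.mul_sum, h11, h22, h12]
    norm_num
  obtain ⟨i0, hi0, hodd0⟩ := hodd
  have hg1 : ∀ i ∈ S, (f₁ i + f₂ i) * (f₁ i + f₂ i) = if c i % 2 = 1 then 1 else 0 := by
    intro i hi
    have hp := par i hi
    have h1 := sq_le (F := fun i => f₁ i + f₂ i) hg hi
    have hlo : -2 ≤ f₁ i + f₂ i := by nlinarith
    have hhi : f₁ i + f₂ i ≤ 2 := by nlinarith
    by_cases h2 : (f₁ i + f₂ i) % 2 = 1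
    · have h3 : c i % 2 = 1 := by omega
      rw [if_pos h3]
      have : f₁ i + f₂ i = 1 ∨ f₁ i + f₂ i = -1 := by omega
      rcases this with h | h <;> rw [h] <;> norm_num
    · have h3 : ¬ c i % 2 = 1 := by omega
      rw [if_neg h3]
      have : f₁ i + f₂ i = 0 ∨ f₁ i + f₂ i = 2 ∨ f₁ i + f₂ i = -2 := by omega
      rcases this with h | h
      · rw [h]; norm_num
      · exfalso
        have hne : i0 ≠ i := by rintro rfl; exact h2 hodd0
        have hsub : ({i0, i} : Finset I) ⊆ S := by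
          intro x hx
          rcases Finset.mem_insert.1 hx with rfl | hx
          · exact hi0
          · rw [Finset.mem_singleton.1 hx]; exact hi
        have h4 := Finset.sum_le_sum_of_subset_of_nonneg (f := fun i => (f₁ i + f₂ i) * (f₁ i + f₂ i)) hsub
          (fun k _ _ => mul_self_nonneg _)
        rw [Finset.sum_pair hne, hg] at h4
        have h5 : 1 ≤ (f₁ i0 + f₂ i0) * (f₁ i0 + f₂ i0) := by
          have h6 : f₁ i0 + f₂ i0 ≠ 0 := by intro h7; rw [h7] at hodd0; norm_num at hodd0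
          have := mul_self_pos.2 h6
          linarith
        have h6 : (f₁ i + f₂ i) * (f₁ i + f₂ i) = 4 := by rcases h with h | h <;> rw [h] <;> norm_num
        rw [h6] at h4
        linarith
  have hY : (S.filter (fun i => c i % 2 = 1)).card = 4 := by
    rw [Finset.sum_congr rfl hg1, Finset.sum_ite, Finset.sum_const, Finset.sum_const_zero] at hg
    have : ((S.filter (fun i => c i % 2 = 1)).card : ℤ) = 4 := by simpa using hg
    exact_mod_cast this
  obtain ⟨hA, T, hTS, hTY, hT2, hT0⟩ := shape (Finset.filter_subset _ S) hY hc (fun i hi => (Finset.mem_filter.1 hi).2)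
    (fun i hi h => by
      have : ¬ c i % 2 = 1 := fun h2 => h (Finset.mem_filter.2 ⟨hi, h2⟩)
      omega)
  have hne : ∀ i ∈ S, c i ≠ 0 := by
    intro i hi h
    have h1 := (val i hi j0 hj0 hj00).2
    rw [hMz, h, zero_mul] at h1
    exact h1 (dvd_zero _)
  have hall : ∀ i ∈ S, c i % 2 = 1 ∨ i = T := by
    intro i hi
    by_contra hcon
    push Not at hcon
    exact hne i hi (hT0 i hi (fun h => hcon.1 (Finset.mem_filter.1 h).2) hcon.2)
  have hj0odd : c j0 % 2 = 1 := by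
    have h1 := (val j0 hj0 j0 hj0 hj00).2
    rw [hMz, hj00, zero_add, pow_one] at h1
    by_contra h2
    apply h1
    have : (2 : ℤ) ∣ c j0 := by omega
    exact this.mul_right _
  have hcj0 := hA j0 (Finset.mem_filter.2 ⟨hj0, hj0odd⟩)
  have hTodd : ¬ c T % 2 = 1 := fun h => hTY (Finset.mem_filter.2 ⟨hTS, h⟩)
  have hht0 : ∀ i ∈ S, c i % 2 = 1 → ht i = 0 := by
    intro i hi ho
    have h1 := (val i hi j0 hj0 hj00).1
    rw [hMz] at h1
    refine ht_zero ?_ h1
    rcases hcj0 with h | h <;> rw [h] <;> omega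
  have hht1 : ht T = 1 := by
    obtain ⟨h1, h2⟩ := val T hTS j0 hj0 hj00
    rw [hMz] at h1 h2
    refine ht_one ?_ h1 h2
    rcases hcj0 with h | h <;> rcases hT2 with h' | h' <;> rw [h, h'] <;> norm_num
  have hfil : S.filter (fun i => ht i = 0) = S.filter (fun i => c i % 2 = 1) := by
    apply Finset.filter_congr
    intro i hi
    constructor
    · intro h
      rcases hall i hi with h2 | h2
      · exact h2
      · rw [h2, hht1] at h
        exact absurd h (by norm_num)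
    · exact hht0 i hi
  refine ⟨?_, by rw [hfil, hY], ?_⟩
  · have h1 : S = insert T (S.filter (fun i => c i % 2 = 1)) := by
      ext i
      constructor
      · intro hi
        rcases hall i hi with h | h
        · exact Finset.mem_insert_of_mem (Finset.mem_filter.2 ⟨hi, h⟩)
        · rw [h]; exact Finset.mem_insert_self _ _
      · intro hi
        rcases Finset.mem_insert.1 hi with h | h
        · rw [h]; exact hTS
        · exact (Finset.mem_filter.1 h).1
    rw [h1, Finset.card_insert_of_notMem hTY, hY]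
  · intro i hi
    rcases hall i hi with h | h
    · exact Or.inl (hht0 i hi h)
    · right; rw [h, hht1]

/-- two of the vectors cannot have the same even place -/
theorem neT {Y : Finset I} {u v w : I → ℤ} {T j0 : I} (hY : Y.card = 4)
    (hu : ∀ i ∈ Y, u i = 1 ∨ u i = -1) (hv : ∀ i ∈ Y, v i = 1 ∨ v i = -1)
    (huT : u T = 2 ∨ u T = -2) (hvT : v T = 2 ∨ v T = -2)
    (huv : ∑ i ∈ Y, u i * v i = -(u T * v T)) (huw : ∑ i ∈ Y, u i * w i = -(u T * w T))
    (hvw : ∑ i ∈ Y, v i * w i = -(v T * w T)) (hj0 : j0 ∈ Y) :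
    u T * u j0 + v T * v j0 + w T * w j0 = 0 := by
  obtain ⟨s, hs, hsv⟩ : ∃ s : ℤ, (s = 1 ∨ s = -1) ∧ v T = s * u T := by
    rcases huT with h | h <;> rcases hvT with h' | h' <;> rw [h, h']
    · exact ⟨1, Or.inl rfl, by norm_num⟩
    · exact ⟨-1, Or.inr rfl, by norm_num⟩
    · exact ⟨-1, Or.inr rfl, by norm_num⟩
    · exact ⟨1, Or.inl rfl, by norm_num⟩
  have hs2 : s * s = 1 := by rcases hs with h | h <;> rw [h] <;> norm_num
  have huu : u T * u T = 4 := by rcases huT with h | h <;> rw [h] <;> norm_num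
  have hz : ∑ i ∈ Y, (v i + s * u i) * (v i + s * u i) = 0 := by
    have h1 : ∀ i ∈ Y, (v i + s * u i) * (v i + s * u i) = 2 + 2 * s * (u i * v i) := by
      intro i hi
      have e1 : v i * v i = 1 := by rcases hv i hi with h | h <;> rw [h] <;> norm_num
      have e2 : u i * u i = 1 := by rcases hu i hi with h | h <;> rw [h] <;> norm_num
      linear_combination e1 + s * s * e2 + hs2
    rw [Finset.sum_congr rfl h1, Finset.sum_add_distrib, ← Finset.mul_sum, huv, hsv, Finset.sum_const, hY]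
    have : (4 • (2 : ℤ)) = 8 := by norm_num
    rw [this]
    linear_combination (-2 * s * s) * huu - 8 * hs2
  rw [Finset.sum_eq_zero_iff_of_nonneg (fun i _ => mul_self_nonneg _)] at hz
  have hvi : ∀ i ∈ Y, v i = -s * u i := by
    intro i hi
    have := mul_self_eq_zero.1 (hz i hi)
    linarith
  have hwT : w T = 0 := by
    have h1 : ∑ i ∈ Y, v i * w i = -s * ∑ i ∈ Y, u i * w i := by
      rw [Finset.mul_sum]
      apply Finset.sum_congr rfl
      intro i hi
      rw [hvi i hi]; ring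
    rw [hvw, huw, hsv] at h1
    have h2 : s * u T * w T = 0 := by linarith
    have hs0 : s ≠ 0 := by rcases hs with h | h <;> rw [h] <;> norm_num
    have hu0 : u T ≠ 0 := by rcases huT with h | h <;> rw [h] <;> norm_num
    rcases mul_eq_zero.1 h2 with h3 | h3
    · rcases mul_eq_zero.1 h3 with h4 | h4
      · exact absurd h4 hs0
      · exact absurd h4 hu0
    · exact h3
  rw [hvi j0 hj0, hsv, hwT]
  linear_combination (-(u T) * u j0) * hs2

theorem q8_three {c : Fin 3 → I → ℤ} {f : I → ℤ} (hMz : ∀ i j, Mz i j = ∑ m, c m i * c m j)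
    (hcc : ∀ m m', ∑ i ∈ S, c m i * c m' i = if m = m' then 8 else 0) (hff : ∑ i ∈ S, f i * f i = 4)
    (hf : ∀ i ∈ S, f i = 0 ∨ f i = 1 ∨ f i = -1) (hfc : ∀ m, ∑ i ∈ S, f i * c m i = 0)
    (par : ∀ m, ∀ i ∈ S, (f i + c m i) % 2 = 0)
    (val : ∀ i ∈ S, ∀ j ∈ S, ht j = 0 → (2 : ℤ) ^ ht i ∣ Mz i j ∧ ¬ (2 : ℤ) ^ (ht i + 1) ∣ Mz i j)
    (ex0 : ∃ j ∈ S, ht j = 0) :
    S.card = 7 ∧ (S.filter (fun i => ht i = 0)).card = 4 ∧ ∀ i ∈ S, ht i = 0 ∨ ht i = 1 := by
  obtain ⟨j0, hj0, hj00⟩ := ex0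
  have hMz3 : ∀ i j, Mz i j = c 0 i * c 0 j + c 1 i * c 1 j + c 2 i * c 2 j := by
    intro i j
    rw [hMz, Fin.sum_univ_three]
  have hY : (S.filter (fun i => f i ≠ 0)).card = 4 := by
    have h1 : ∀ i ∈ S, f i * f i = if f i ≠ 0 then 1 else 0 := by
      intro i hi
      rcases hf i hi with h | h | h <;> rw [h] <;> norm_num
    rw [Finset.sum_congr rfl h1, Finset.sum_ite, Finset.sum_const, Finset.sum_const_zero] at hff
    have : ((S.filter (fun i => f i ≠ 0)).card : ℤ) = 4 := by simpa using hff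
    exact_mod_cast this
  have hYS : S.filter (fun i => f i ≠ 0) ⊆ S := Finset.filter_subset _ S
  have hsh : ∀ m, (∀ i ∈ S.filter (fun i => f i ≠ 0), c m i = 1 ∨ c m i = -1) ∧
      ∃ T ∈ S, T ∉ S.filter (fun i => f i ≠ 0) ∧ (c m T = 2 ∨ c m T = -2) ∧
        ∀ i ∈ S, i ∉ S.filter (fun i => f i ≠ 0) → i ≠ T → c m i = 0 := by
    intro m
    refine shape hYS hY (by rw [hcc, if_pos rfl]) ?_ ?_
    · intro i hi
      obtain ⟨h1, h2⟩ := Finset.mem_filter.1 hi
      have h3 := par m i h1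
      rcases hf i h1 with h | h | h
      · exact absurd h h2
      · omega
      · omega
    · intro i hi hiY
      have h1 : f i = 0 := by
        by_contra h
        exact hiY (Finset.mem_filter.2 ⟨hi, h⟩)
      have h3 := par m i hi
      omega
  choose hA T hTS hTY hT2 hT0 using hsh
  set Y := S.filter (fun i => f i ≠ 0) with hYdef
  have hj0Y : j0 ∈ Y := by
    by_contra hcon
    have h1 := (val j0 hj0 j0 hj0 hj00).2
    rw [hMz3, hj00, zero_add, pow_one] at h1
    apply h1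
    have h2 : f j0 = 0 := by
      by_contra h
      exact hcon (Finset.mem_filter.2 ⟨hj0, h⟩)
    have h3 : ∀ m, (2 : ℤ) ∣ c m j0 := by
      intro m
      have := par m j0 hj0
      omega
    exact dvd_add (dvd_add ((h3 0).mul_right _) ((h3 1).mul_right _)) ((h3 2).mul_right _)
  -- sums over Y
  have hsum : ∀ m m', m ≠ m' → ∑ i ∈ Y, c m i * c m' i = -(c m (T m) * c m' (T m)) := by
    intro m m' hmm
    have h1 := Finset.sum_sdiff (f := fun i => c m i * c m' i) hYS
    rw [hcc m m', if_neg hmm] at h1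
    have h2 : ∑ i ∈ S \ Y, c m i * c m' i = c m (T m) * c m' (T m) := by
      apply Finset.sum_eq_single_of_mem (T m) (Finset.mem_sdiff.2 ⟨hTS m, hTY m⟩)
      intro i hi hne
      obtain ⟨h3, h4⟩ := Finset.mem_sdiff.1 hi
      rw [hT0 m i h3 h4 hne, zero_mul]
    rw [h2] at h1
    linarith
  have hzero : ∀ i ∈ S, Mz i j0 ≠ 0 := by
    intro i hi h
    have h1 := (val i hi j0 hj0 hj00).2
    rw [h] at h1
    exact h1 (dvd_zero _)
  have hT01 : T 0 ≠ T 1 := by
    intro h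
    have h1 := neT (u := c 0) (v := c 1) (w := c 2) (T := T 0) hY (hA 0) (hA 1) (hT2 0) (by rw [h]; exact hT2 1)
      (hsum 0 1 (by decide)) (hsum 0 2 (by decide)) (by rw [hsum 1 2 (by decide), h]) hj0Y
    exact hzero (T 0) (hTS 0) (by rw [hMz3]; exact h1)
  have hT02 : T 0 ≠ T 2 := by
    intro h
    have h1 := neT (u := c 0) (v := c 2) (w := c 1) (T := T 0) hY (hA 0) (hA 2) (hT2 0) (by rw [h]; exact hT2 2)
      (hsum 0 2 (by decide)) (hsum 0 1 (by decide)) (by rw [hsum 2 1 (by decide), h]) hj0Y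
    exact hzero (T 0) (hTS 0) (by rw [hMz3]; linarith)
  have hT12 : T 1 ≠ T 2 := by
    intro h
    have h1 := neT (u := c 1) (v := c 2) (w := c 0) (T := T 1) hY (hA 1) (hA 2) (hT2 1) (by rw [h]; exact hT2 2)
      (hsum 1 2 (by decide)) (hsum 1 0 (by decide)) (by rw [hsum 2 0 (by decide), h]) hj0Y
    exact hzero (T 1) (hTS 1) (by rw [hMz3]; linarith)
  have hall : ∀ i ∈ S, i ∈ Y ∨ i = T 0 ∨ i = T 1 ∨ i = T 2 := by
    intro i hi
    by_contra hcon
    push Not at hcon
    obtain ⟨h1, h2, h3, h4⟩ := hcon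
    refine hzero i hi ?_
    rw [hMz3, hT0 0 i hi h1 h2, hT0 1 i hi h1 h3, hT0 2 i hi h1 h4]
    ring
  have hht0 : ∀ i ∈ Y, ht i = 0 := by
    intro i hi
    have h1 := (val i (hYS hi) j0 hj0 hj00).1
    rw [hMz3] at h1
    refine ht_zero ?_ h1
    rcases hA 0 i hi with a | a <;> rcases hA 1 i hi with b | b <;> rcases hA 2 i hi with d | d <;>
      rcases hA 0 j0 hj0Y with a' | a' <;> rcases hA 1 j0 hj0Y with b' | b' <;> rcases hA 2 j0 hj0Y with d' | d' <;>
      rw [a, b, d, a', b', d'] <;> decide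
  have hht1 : ∀ m, ht (T m) = 1 := by
    intro m
    obtain ⟨h1, h2⟩ := val (T m) (hTS m) j0 hj0 hj00
    have h3 : Mz (T m) j0 = c m (T m) * c m j0 := by
      fin_cases m
      · rw [hMz3]
        have e1 : c 1 (T 0) = 0 := hT0 1 _ (hTS 0) (hTY 0) hT01
        have e2 : c 2 (T 0) = 0 := hT0 2 _ (hTS 0) (hTY 0) hT02
        change _ = c 0 (T 0) * c 0 j0
        change c 0 (T 0) * c 0 j0 + c 1 (T 0) * c 1 j0 + c 2 (T 0) * c 2 j0 = _
        rw [e1, e2]; ring
      · rw [hMz3]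
        have e1 : c 0 (T 1) = 0 := hT0 0 _ (hTS 1) (hTY 1) hT01.symm
        have e2 : c 2 (T 1) = 0 := hT0 2 _ (hTS 1) (hTY 1) hT12
        change c 0 (T 1) * c 0 j0 + c 1 (T 1) * c 1 j0 + c 2 (T 1) * c 2 j0 = c 1 (T 1) * c 1 j0
        rw [e1, e2]; ring
      · rw [hMz3]
        have e1 : c 0 (T 2) = 0 := hT0 0 _ (hTS 2) (hTY 2) hT02.symm
        have e2 : c 1 (T 2) = 0 := hT0 1 _ (hTS 2) (hTY 2) hT12.symm
        change c 0 (T 2) * c 0 j0 + c 1 (T 2) * c 1 j0 + c 2 (T 2) * c 2 j0 = c 2 (T 2) * c 2 j0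
        rw [e1, e2]; ring
    rw [h3] at h1 h2
    refine ht_one ?_ h1 h2
    rcases hA m j0 hj0Y with h | h <;> rcases hT2 m with h' | h' <;> rw [h, h'] <;> norm_num
  have hfil : S.filter (fun i => ht i = 0) = Y := by
    ext i
    rw [Finset.mem_filter]
    constructor
    · rintro ⟨hi, h0⟩
      rcases hall i hi with h | h | h | h
      · exact h
      · rw [h, hht1 0] at h0; exact absurd h0 (by norm_num)
      · rw [h, hht1 1] at h0; exact absurd h0 (by norm_num)
      · rw [h, hht1 2] at h0; exact absurd h0 (by norm_num)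
    · intro hi
      exact ⟨hYS hi, hht0 i hi⟩
  refine ⟨?_, by rw [hfil, hY], ?_⟩
  · have h1 : S = insert (T 0) (insert (T 1) (insert (T 2) Y)) := by
      ext i
      simp only [Finset.mem_insert]
      constructor
      · intro hi
        rcases hall i hi with h | h | h | h
        · exact Or.inr (Or.inr (Or.inr h))
        · exact Or.inl h
        · exact Or.inr (Or.inl h)
        · exact Or.inr (Or.inr (Or.inl h))
      · rintro (h | h | h | h)
        · rw [h]; exact hTS 0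
        · rw [h]; exact hTS 1
        · rw [h]; exact hTS 2
        · exact hYS h
    rw [h1, Finset.card_insert_of_notMem, Finset.card_insert_of_notMem, Finset.card_insert_of_notMem (hTY 2), hY]
    · rw [Finset.mem_insert, not_or]
      exact ⟨hT12, hTY 1⟩
    · rw [Finset.mem_insert, Finset.mem_insert, not_or, not_or]
      exact ⟨hT01, hT02, hTY 0⟩
  · intro i hi
    rcases hall i hi with h | h | h | h
    · exact Or.inl (hht0 i h)
    · right; rw [h, hht1]
    · right; rw [h, hht1]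
    · right; rw [h, hht1]

end H7.QNum8
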