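import Cfsg.Agent.Lib.H95.SpBasic
import Cfsg.Agent.Lib.H95.SpGeom

set_option autoImplicit false

/-!
Irreducible subgroups of `Sp(V)`, characteristic two, containing many elements
`x ↦ x + B(x,a) w + (B(x,w) + b B(x,a)) a` for one vector `a`.
-/

namespace H7.SpTwo

open Module H95.SpBasic

variable {F V : Type*} [Field F] [AddCommGroup V] [Module F V]

/-- `L` contains the element `x ↦ x + B(x,a) w + (B(x,w) + b B(x,a)) a`. -/
def Us (B : LinearMap.BilinForm F V) (L : Subgroup (V ≃ₗ[F] V)) (a w : V) (b : F) : Prop :=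
  ∃ g ∈ L, ∀ x, g x = x + B x a • w + (B x w + b * B x a) • a

variable {B : LinearMap.BilinForm F V} {L : Subgroup (V ≃ₗ[F] V)}

/-- `B` is symmetric (characteristic two). -/
lemma symm [CharP F 2] (hB : B.IsAlt) (x y : V) : B x y = B y x := by
  rw [← LinearMap.BilinForm.IsAlt.neg_eq hB y x, CharTwo.neg_eq]

lemma inv_apply (g : V ≃ₗ[F] V) (x : V) : g⁻¹ (g x) = x := g.symm_apply_apply x
lemma apply_inv (g : V ≃ₗ[F] V) (x : V) : g (g⁻¹ x) = x := g.apply_symm_apply x

lemma Us.conj {a w : V} {b : F} (h : Us B L a w b) {g : V ≃ₗ[F] V} (hg : g ∈ L) (hgi : g ∈ isom B) :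
    Us B L (g a) (g w) b := by
  obtain ⟨u, hu, hux⟩ := h
  refine ⟨g * u * g⁻¹, L.mul_mem (L.mul_mem hg hu) (L.inv_mem hg), fun x => ?_⟩
  have e1 : B (g⁻¹ x) a = B x (g a) := by
    rw [← hgi (g⁻¹ x) a, apply_inv]
  have e2 : B (g⁻¹ x) w = B x (g w) := by
    rw [← hgi (g⁻¹ x) w, apply_inv]
  show g (u (g⁻¹ x)) = _
  rw [hux, map_add, map_add, map_smul, map_smul, apply_inv, e1, e2]

lemma Us.mul [CharP F 2] (hB : B.IsAlt) {a w w' : V} {b b' : F} (hw : B w a = 0) (hw' : B w' a = 0)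
    (h : Us B L a w b) (h' : Us B L a w' b') : Us B L a (w + w') (b + b' + B w w') := by
  obtain ⟨u, hu, hux⟩ := h
  obtain ⟨u', hu', hux'⟩ := h'
  refine ⟨u * u', L.mul_mem hu hu', fun x => ?_⟩
  show u (u' x) = _
  have haa : B a a = 0 := hB a
  have haw : B a w = 0 := by rw [symm hB, hw]
  rw [hux, hux']
  simp only [map_add, LinearMap.add_apply, map_smul, LinearMap.smul_apply, smul_eq_mul, hw', haa, haw,
    mul_zero, add_zero, symm hB w' w]
  module

lemma Us.add_smul [CharP F 2] {a w : V} {b : F} (c : F) (h : Us B L a w b) : Us B L a (w + c • a) b := by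
  obtain ⟨u, hu, hux⟩ := h
  refine ⟨u, hu, fun x => ?_⟩
  rw [hux]
  simp only [map_add, map_smul, smul_eq_mul]
  have h2 : (B x a * c + c * B x a) • a = 0 := by
    rw [mul_comm (B x a) c, CharTwo.add_self_eq_zero, zero_smul]
  have key : x + B x a • (w + c • a) + (B x w + c * B x a + b * B x a) • a =
      x + B x a • w + (B x w + b * B x a) • a + (B x a * c + c * B x a) • a := by module
  rw [key, h2, add_zero]

lemma Us.of_add_smul [CharP F 2] {a w : V} {b : F} (c : F) (h : Us B L a (w + c • a) b) : Us B L a w b := by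
  have := h.add_smul c
  rwa [add_assoc, ← _root_.add_smul, CharTwo.add_self_eq_zero, zero_smul, add_zero] at this

/-- change of the centre by a scalar -/
lemma Us.scale {a w : V} {b : F} (c : F) (h : Us B L (c • a) w b) : Us B L a (c • w) (c ^ 2 * b) := by
  obtain ⟨u, hu, hux⟩ := h
  refine ⟨u, hu, fun x => ?_⟩
  rw [hux]
  simp only [map_smul, smul_eq_mul]
  module

lemma Us.unscale {a w : V} {b : F} {c : F} (h : Us B L a (c • w) (c ^ 2 * b)) : Us B L (c • a) w b := by
  obtain ⟨u, hu, hux⟩ := h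
  refine ⟨u, hu, fun x => ?_⟩
  rw [hux]
  simp only [map_smul, smul_eq_mul]
  module

/-- the orbit of `a` -/
def Orb (L : Subgroup (V ≃ₗ[F] V)) (a v : V) : Prop := ∃ g ∈ L, g a = v

lemma Orb.refl (a : V) : Orb L a a := ⟨1, L.one_mem, rfl⟩

lemma Orb.map {a v : V} (h : Orb L a v) {g : V ≃ₗ[F] V} (hg : g ∈ L) : Orb L a (g v) := by
  obtain ⟨u, hu, rfl⟩ := h
  exact ⟨g * u, L.mul_mem hg hu, rfl⟩

lemma Orb.act {a v s w : V} {b : F} (h : Orb L a v) (hu : Us B L s w b) :
    Orb L a (v + B v s • w + (B v w + b * B v s) • s) := by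
  obtain ⟨g, hg, hgx⟩ := hu
  rw [← hgx]; exact h.map hg

lemma Orb.symm' {a v : V} (h : Orb L a v) : Orb L v a := by
  obtain ⟨u, hu, rfl⟩ := h
  exact ⟨u⁻¹, L.inv_mem hu, inv_apply u a⟩

lemma Orb.trans' {a v w : V} (h : Orb L a v) (h' : Orb L v w) : Orb L a w := by
  obtain ⟨u, hu, rfl⟩ := h
  obtain ⟨u', hu', rfl⟩ := h'
  exact ⟨u' * u, L.mul_mem hu' hu, rfl⟩

/-- the general situation -/
structure Sit (B : LinearMap.BilinForm F V) (L : Subgroup (V ≃ₗ[F] V)) (a : V) : Prop where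
  alt : B.IsAlt
  nd : ∀ v, (∀ w, B v w = 0) → v = 0
  iso : L ≤ isom B
  ne : a ≠ 0
  irr : ∀ W : Submodule F V, (∀ g ∈ L, ∀ w ∈ W, g w ∈ W) → W = ⊥ ∨ W = ⊤
  ex : ∀ w, B w a = 0 → ∃ b, Us B L a w b

variable {a : V}

lemma Sit.transfer (S : Sit B L a) {v : V} (h : Orb L a v) : Sit B L v := by
  obtain ⟨g, hg, rfl⟩ := h
  refine ⟨S.alt, S.nd, S.iso, ?_, S.irr, ?_⟩
  · intro h0; exact S.ne ((LinearEquiv.map_eq_zero_iff g).1 h0)
  · intro w hw
    have h1 : B (g⁻¹ w) a = 0 := by
      rw [← S.iso hg (g⁻¹ w) a, apply_inv, hw]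
    obtain ⟨b, hb⟩ := S.ex _ h1
    have := hb.conj hg (S.iso hg)
    rw [apply_inv] at this
    exact ⟨b, this⟩

/-- Every submodule containing the orbit is everything. -/
lemma Sit.span (S : Sit B L a) (W : Submodule F V) (h : ∀ v, Orb L a v → v ∈ W) : W = ⊤ := by
  have h1 := S.irr (Submodule.span F {v | Orb L a v}) (by
    intro g hg w hw
    have : Submodule.span F {v | Orb L a v} ≤ (Submodule.span F {v | Orb L a v}).comap (g : V →ₗ[F] V) := by
      rw [Submodule.span_le]
      intro v hv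
      exact Submodule.subset_span (Orb.map hv hg)
    exact this hw)
  rcases h1 with h1 | h1
  · exfalso
    have : a ∈ Submodule.span F {v | Orb L a v} := Submodule.subset_span (Orb.refl a)
    rw [h1, Submodule.mem_bot] at this
    exact S.ne this
  · rw [eq_top_iff, ← h1, Submodule.span_le]
    exact h

lemma Sit.exists_ne (S : Sit B L a) {x : V} (hx : x ≠ 0) : ∃ s, Orb L a s ∧ B x s ≠ 0 := by
  by_contra hcon
  push Not at hcon
  have := S.span (LinearMap.ker (B x)) (fun v hv => by rw [LinearMap.mem_ker]; exact hcon v hv)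
  apply hx
  apply S.nd
  intro w
  have hw : w ∈ LinearMap.ker (B x) := by rw [this]; trivial
  exact hw

/-- prescribed values on independent vectors -/
lemma exists_val [FiniteDimensional F V] (hnd : ∀ v, (∀ w, B v w = 0) → v = 0) {ι : Type*} [Finite ι] {x : ι → V}
    (hx : LinearIndependent F x) (c : ι → F) : ∃ v, ∀ i, B (x i) v = c i := by
  have : Fintype ι := Fintype.ofFinite ι
  have hinj : Function.Injective (B.flip : V →ₗ[F] Dual F V) ∨ True := Or.inr trivial
  -- the map `B` into the dual is injective hence the flip is surjective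
  have hBi : Function.Injective (B : V →ₗ[F] Dual F V) := by
    rw [← LinearMap.ker_eq_bot, LinearMap.ker_eq_bot']
    intro v hv
    exact hnd v (fun w => by rw [hv]; rfl)
  -- consider `ψ : V → (ι → F)`, its range is everything
  let ψ : V →ₗ[F] (ι → F) := LinearMap.pi fun i => B (x i)
  have hψ : LinearMap.range ψ = ⊤ := by
    by_contra hne
    obtain ⟨f, hf, hf2⟩ := Submodule.exists_le_ker_of_lt_top _ (lt_top_iff_ne_top.2 hne)
    -- f kills all (B (x i) v)_i
    classical
    have h1 : ∀ v, ∑ i, f (Pi.single i 1) * B (x i) v = 0 := by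
      intro v
      have : f (ψ v) = 0 := hf2 ⟨v, rfl⟩
      rw [← this]
      conv_rhs => rw [← Finset.univ_sum_single (ψ v)]
      rw [map_sum]
      refine Finset.sum_congr rfl fun i _ => ?_
      have e : Pi.single i (ψ v i) = (ψ v i) • (Pi.single i (1 : F) : ι → F) := by
        rw [← Pi.single_smul, smul_eq_mul, mul_one]
      rw [e, map_smul, smul_eq_mul, mul_comm]
      rfl
    have h2 : ∑ i, f (Pi.single i 1) • x i = 0 := by
      apply hnd
      intro w
      rw [map_sum, LinearMap.sum_apply]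
      rw [← h1 w]
      refine Finset.sum_congr rfl fun i _ => ?_
      rw [map_smul]; rfl
    have h3 := (Fintype.linearIndependent_iff.1 hx) _ h2
    apply hf
    ext i
    simp [h3 i]
  have : c ∈ LinearMap.range ψ := by rw [hψ]; trivial
  obtain ⟨v, hv⟩ := this
  exact ⟨v, fun i => by rw [← hv]; rfl⟩

lemma li2 {x y : V} (hx : x ≠ 0) (hy : y ∉ Submodule.span F {x}) : LinearIndependent F ![x, y] := by
  rw [LinearIndependent.pair_iff' hx]
  intro a ha
  exact hy (by rw [Submodule.mem_span_singleton]; exact ⟨a, ha⟩)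

lemma exists_val2 [FiniteDimensional F V] (hnd : ∀ v, (∀ w, B v w = 0) → v = 0) {x y : V} (hx : x ≠ 0)
    (hy : y ∉ Submodule.span F {x}) (c d : F) : ∃ v, B x v = c ∧ B y v = d := by
  obtain ⟨v, hv⟩ := exists_val (B := B) hnd (li2 hx hy) ![c, d]
  exact ⟨v, hv 0, hv 1⟩

end H7.SpTwo
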