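import Cfsg.Agent.Lib.H7.SpTwo

set_option autoImplicit false

/-!
The case with isotropic vectors, and the case with transvections.
-/

namespace H7.SpTwo

open Module H95.SpBasic

variable {F V : Type*} [Field F] [AddCommGroup V] [Module F V]
variable {B : LinearMap.BilinForm F V} {L : Subgroup (V ≃ₗ[F] V)} {a : V}

lemma det_notin {x y : V} (hx : x ≠ 0) (hy : y ∉ Submodule.span F {x}) {p q r s : F} (h : p * s ≠ q * r) :
    p • x + q • y ∉ Submodule.span F {r • x + s • y} := by
  intro hm
  obtain ⟨c, hc⟩ := Submodule.mem_span_singleton.1 hm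
  have hli := LinearIndependent.pair_iff.1 (li2 hx hy) (c * r - p) (c * s - q) (by
    have : (c * r - p) • x + (c * s - q) • y = c • (r • x + s • y) - (p • x + q • y) := by module
    rw [this, hc, sub_self])
  apply h
  have h1 : c * r = p := sub_eq_zero.1 hli.1
  have h2 : c * s = q := sub_eq_zero.1 hli.2
  rw [← h1, ← h2]; ring

lemma exists_perp_notin [FiniteDimensional F V] (B : LinearMap.BilinForm F V) (h3 : 3 ≤ finrank F V) (a : V) :
    ∃ w, B w a = 0 ∧ w ∉ Submodule.span F {a} := by
  by_contra hcon
  push Not at hcon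
  have hle : LinearMap.ker (B.flip a) ≤ Submodule.span F {a} := by
    intro w hw
    exact hcon w hw
  have h1 := Submodule.finrank_mono hle
  have h2 : finrank F (Submodule.span F {a}) ≤ 1 := by
    have := finrank_span_le_card (R := F) ({a} : Set V)
    simpa using this
  have h4 := LinearMap.finrank_range_add_finrank_ker (B.flip a)
  have h5 : finrank F (LinearMap.range (B.flip a)) ≤ 1 := by
    have := Submodule.finrank_le (LinearMap.range (B.flip a))
    rwa [finrank_self] at this
  omega

lemma Sit.perp_add [FiniteDimensional F V] [CharP F 2] (S : Sit B L a) {v e : V} (hv : Orb L a v)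
    (he : Orb L a e) (hev : B e v = 0) (hni : e ∉ Submodule.span F {v}) (c : F) : Orb L a (e + c • v) := by
  have Sv := S.transfer hv
  obtain ⟨z, hz1, hz2⟩ := exists_val2 (B := B) S.nd Sv.ne hni 0 c
  obtain ⟨b, hb⟩ := Sv.ex z (by rw [symm S.alt, hz1])
  have := he.act hb
  rw [hev, hz2, zero_smul, add_zero, mul_zero, add_zero] at this
  exact this

/-- a singular direction at `a` -/
def IsoAt (B : LinearMap.BilinForm F V) (L : Subgroup (V ≃ₗ[F] V)) (a : V) : Prop :=
  ∃ w, w ∉ Submodule.span F {a} ∧ B w a = 0 ∧ Us B L a w 0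

lemma notin_span_map {g : V ≃ₗ[F] V} {x y : V} (h : x ∉ Submodule.span F {y}) :
    g x ∉ Submodule.span F {g y} := by
  intro hm
  obtain ⟨c, hc⟩ := Submodule.mem_span_singleton.1 hm
  apply h
  rw [Submodule.mem_span_singleton]
  refine ⟨c, g.injective ?_⟩
  rw [map_smul, hc]

lemma IsoAt.transfer (S : Sit B L a) (h : IsoAt B L a) {v : V} (hv : Orb L a v) : IsoAt B L v := by
  obtain ⟨g, hg, rfl⟩ := hv
  obtain ⟨w, h1, h2, h3⟩ := h
  refine ⟨g w, notin_span_map h1, ?_, h3.conj hg (S.iso hg)⟩
  rw [S.iso hg, h2]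

lemma Sit.core [FiniteDimensional F V] [CharP F 2] (S : Sit B L a) {w : V} (h1 : w ∉ Submodule.span F {a})
    (h2 : B w a = 0) (h3 : Us B L a w 0) :
    ∃ m : F, m ≠ 0 ∧ ∀ k : F, Orb L a (m • w + k • a) := by
  obtain ⟨s, hs, hne⟩ := S.exists_ne S.ne
  obtain ⟨m, hm⟩ : ∃ m, m = B a s := ⟨_, rfl⟩
  rw [← hm] at hne
  have hsa : B s a = m := by rw [symm S.alt, hm]
  obtain ⟨k, hk⟩ : ∃ k, k = - B w s / m := ⟨_, rfl⟩
  obtain ⟨w', hw'⟩ : ∃ w', w' = w + k • a := ⟨_, rfl⟩
  have hw's : B w' s = 0 := by
    rw [hw', map_add, LinearMap.add_apply, map_smul, LinearMap.smul_apply, ← hm, hk, smul_eq_mul]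
    field_simp
    ring
  have hw'a : B w' a = 0 := by
    rw [hw', map_add, LinearMap.add_apply, map_smul, LinearMap.smul_apply, h2, S.alt a]; simp
  have hsw' : B s w' = 0 := by rw [symm S.alt, hw's]
  have haw' : B a w' = 0 := by rw [symm S.alt, hw'a]
  have hw'n : w' ∉ Submodule.span F {a} := by
    intro h
    apply h1
    have : w = w' - k • a := by rw [hw']; abel
    rw [this]
    exact Submodule.sub_mem _ h (Submodule.smul_mem _ _ (Submodule.mem_span_singleton_self a))
  have hw'0 : w' ≠ 0 := fun h => hw'n (by rw [h]; exact Submodule.zero_mem _)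
  have hU : Us B L a w' 0 := by rw [hw']; exact h3.add_smul k
  have hs1 := hs.act hU
  rw [hsa, hsw', zero_mul, add_zero, zero_smul, add_zero] at hs1
  have hB1 : B a (s + m • w') = m := by
    rw [map_add, map_smul, haw', ← hm]; simp
  have hB2 : B s (s + m • w') = 0 := by
    rw [map_add, map_smul, S.alt s, hsw']; simp
  have hni : s ∉ Submodule.span F {s + m • w'} := by
    intro h
    obtain ⟨c, hc⟩ := Submodule.mem_span_singleton.1 h
    have h4 : B a (c • (s + m • w')) = B a s := by rw [hc]
    rw [map_smul, hB1, ← hm, smul_eq_mul] at h4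
    have h5 : c = 1 := by
      have : c * m = 1 * m := by rw [h4, one_mul]
      exact mul_right_cancel₀ hne this
    rw [h5, one_smul] at hc
    have h6 : m • w' = 0 := by
      have : s + m • w' = s + 0 := by rw [hc, add_zero]
      exact add_left_cancel this
    rcases smul_eq_zero.1 h6 with h6 | h6
    · exact hne h6
    · exact hw'0 h6
  have h7 := S.perp_add hs1 hs hB2 hni 1
  have h8 : s + (1 : F) • (s + m • w') = m • w' := by
    have e : s + (1 : F) • (s + m • w') = m • w' + ((1 : F) + 1) • s := by module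
    rw [e, CharTwo.add_self_eq_zero, zero_smul, add_zero]
  rw [h8] at h7
  have h9 : m • w' ∉ Submodule.span F {a} := by
    intro h
    apply hw'n
    have : w' = m⁻¹ • (m • w') := by rw [smul_smul, inv_mul_cancel₀ hne, one_smul]
    rw [this]; exact Submodule.smul_mem _ _ h
  refine ⟨m, hne, fun k' => ?_⟩
  have h10 := S.perp_add (Orb.refl a) h7 (by rw [map_smul, LinearMap.smul_apply, hw'a]; simp) h9 (k' - m * k)
  have : m • w' + (k' - m * k) • a = m • w + k' • a := by rw [hw']; module
  rwa [this] at h10

lemma Sit.orb_of_us [FiniteDimensional F V] [CharP F 2] (S : Sit B L a) {w : V} (h1 : w ∉ Submodule.span F {a})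
    (h2 : B w a = 0) (h3 : Us B L a w 0) :
    (∀ c : F, c ≠ 0 → Orb L a (c • w)) ∧ ∀ c : F, c ≠ 0 → Orb L a (c • a) := by
  obtain ⟨m, hm, hO⟩ := S.core h1 h2 h3
  have hmw : Orb L a (m • w) := by have := hO 0; rwa [zero_smul, add_zero] at this
  have haw : B a w = 0 := by rw [symm S.alt, h2]
  have hperp : ∀ p q r s : F, B (p • a + q • w) (r • a + s • w) = 0 := by
    intro p q r s
    simp only [map_add, LinearMap.add_apply, map_smul, LinearMap.smul_apply, S.alt a, S.alt w, h2, haw]
    simp
  have hd := fun {p q r s : F} => det_notin (x := a) (y := w) S.ne h1 (p := p) (q := q) (r := r) (s := s)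
  -- a + n m w
  have h4 : ∀ n : F, Orb L a ((1 : F) • a + (n * m) • w) := by
    intro n
    have h5 := S.perp_add hmw (Orb.refl a) (by rw [map_smul, haw]; simp) (by
      have := hd (p := 1) (q := 0) (r := 0) (s := m) (by simpa using hm)
      simpa using this) n
    have e : (1 : F) • a + (n * m) • w = a + n • m • w := by module
    rw [e]; exact h5
  have h5 : ∀ k : F, Orb L a (k • a + m • w) := by
    intro k
    rw [add_comm]; exact hO k
  constructor
  · intro c hc
    have h6 := S.perp_add (h4 (c / m + 1)) (h5 1) (hperp _ _ _ _) (hd (by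
      have e : (c / m + 1) * m = c + m := by field_simp
      rw [e, mul_one, one_mul]
      intro h
      apply hc
      exact left_eq_add.1 (by rw [add_comm]; exact h.symm) )) 1
    have e : (1 : F) • a + m • w + (1 : F) • ((1 : F) • a + ((c / m + 1) * m) • w) = c • w := by
      have e1 : (c / m + 1) * m = c + m := by field_simp
      rw [e1]
      have e2 : (1 : F) • a + m • w + (1 : F) • ((1 : F) • a + (c + m) • w) =
          c • w + ((1 : F) + 1) • (a + m • w) := by module
      rw [e2, CharTwo.add_self_eq_zero, zero_smul, add_zero]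
    rwa [e] at h6
  · intro c hc
    have h6 := S.perp_add (h4 1) (h5 (c + 1)) (hperp _ _ _ _) (hd (by
      rw [one_mul, mul_one]
      intro h
      have h' : (c + 1) * m = 1 * m := by rw [h, one_mul]
      have := mul_right_cancel₀ hm h'
      exact hc (by simpa using this))) 1
    have e : (c + 1) • a + m • w + (1 : F) • ((1 : F) • a + ((1 : F) * m) • w) = c • a := by
      have e2 : (c + 1) • a + m • w + (1 : F) • ((1 : F) • a + ((1 : F) * m) • w) =
          c • a + ((1 : F) + 1) • (a + m • w) := by module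
      rw [e2, CharTwo.add_self_eq_zero, zero_smul, add_zero]
    rwa [e] at h6

lemma Sit.orb_smul [FiniteDimensional F V] [CharP F 2] (S : Sit B L a) (hI : IsoAt B L a) {v : V}
    (hv : Orb L a v) {c : F} (hc : c ≠ 0) : Orb L a (c • v) := by
  obtain ⟨w, h1, h2, h3⟩ := hI.transfer S hv
  have h := ((S.transfer hv).orb_of_us h1 h2 h3).2 c hc
  exact hv.trans' h

lemma Sit.cen_of [FiniteDimensional F V] [CharP F 2] (S : Sit B L a) (hC : Cen B S.alt L a) :
    ∀ v, Cen B S.alt L v := by
  -- the vectors outside `a^⊥`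
  obtain ⟨s, hs, hne⟩ := S.exists_ne S.ne
  have hsc : Cen B S.alt L s := by
    obtain ⟨g, hg, rfl⟩ := hs
    exact hC.map hg (S.iso hg)
  have hsa : B s a ≠ 0 := by rw [symm S.alt]; exact hne
  -- s + B s a • w + k • a
  have h1 : ∀ w, B w a = 0 → ∀ k : F, Cen B S.alt L (s + B s a • w + k • a) := by
    intro w hw k
    obtain ⟨b, g, hg, hgx⟩ := S.ex w hw
    have h2 := hsc.map hg (S.iso hg)
    rw [hgx] at h2
    have h3 := h2.add hC (by
      simp only [map_add, LinearMap.add_apply, map_smul, LinearMap.smul_apply, smul_eq_mul, hw, S.alt a]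
      simpa using hsa) (k - (B s w + b * B s a))
    have e : s + B s a • w + (B s w + b * B s a) • a + (k - (B s w + b * B s a)) • a = s + B s a • w + k • a := by
      module
    rwa [e] at h3
  have h2 : ∀ v, B v a ≠ 0 → Cen B S.alt L v := by
    intro v hv
    -- v = c (s + ..)
    obtain ⟨c, hc⟩ : ∃ c, c = B v a / B s a := ⟨_, rfl⟩
    have hc0 : c ≠ 0 := by rw [hc]; exact div_ne_zero hv hsa
    have hcs : c * B s a = B v a := by rw [hc]; field_simp
    have h3 := (h1 ((B s a)⁻¹ • (c⁻¹ • v - s)) (by
      rw [map_smul, LinearMap.smul_apply, map_sub, LinearMap.sub_apply, map_smul, LinearMap.smul_apply, ← hcs,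
        smul_eq_mul, smul_eq_mul, ← mul_assoc c⁻¹, inv_mul_cancel₀ hc0, one_mul, sub_self, mul_zero]) 0).smul c
    have e : c • (s + B s a • (B s a)⁻¹ • (c⁻¹ • v - s) + (0 : F) • a) = v := by
      rw [smul_smul, mul_inv_cancel₀ hsa, one_smul, zero_smul, add_zero, add_sub_cancel, smul_smul,
        mul_inv_cancel₀ hc0, one_smul]
    rwa [e] at h3
  intro v
  by_cases hv0 : v = 0
  · rw [hv0]; exact Cen.zero _ _ _
  by_cases hv : B v a = 0
  · obtain ⟨z, hz1, hz2⟩ := exists_both_ne (f := B a) (g := B v) (by
      by_contra hcon; push Not at hcon; exact S.ne (S.nd a hcon)) (by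
      by_contra hcon; push Not at hcon; exact hv0 (S.nd v hcon))
    have hz1' : B z a ≠ 0 := by rw [symm S.alt]; exact hz1
    have h3 := h2 z hz1'
    have h4 := h2 (v + z) (by rw [map_add, LinearMap.add_apply, hv, zero_add]; exact hz1')
    have h5 := h4.add h3 (by rw [map_add, LinearMap.add_apply, S.alt z, add_zero]; exact hz2) (-1)
    have e : v + z + (-1 : F) • z = v := by module
    rwa [e] at h5
  · exact h2 v hv

/-- If `L` contains a transvection with centre `a`, it is the symplectic group. -/
theorem Sit.caseA [FiniteDimensional F V] [CharP F 2] [Finite F] (S : Sit B L a) (h3 : 3 ≤ finrank F V)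
    (hT : ∃ b, b ≠ 0 ∧ Us B L a 0 b) : isom B ≤ L := by
  have : Fintype F := Fintype.ofFinite F
  have hsq : ∀ x : F, IsSquare x := fun x => FiniteField.isSquare_of_char_two (ringChar.eq_iff.2 inferInstance) x
  obtain ⟨t, ht0, ht⟩ := hT
  -- an isotropic direction
  have hI : IsoAt B L a := by
    obtain ⟨w, hw1, hw2⟩ := exists_perp_notin B h3 a
    have hw : ∀ c : F, B (c • w) a = 0 := fun c => by rw [map_smul, LinearMap.smul_apply, hw1, smul_zero]
    choose β hβ using fun c : F => S.ex (c • w) (hw c)
    have h00 : B (0 : V) a = 0 := by simp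
    have hβ' : ∀ c : F, Us B L a (c • w) (β c + t) := by
      intro c
      have := Us.mul S.alt (hw c) h00 (hβ c) ht
      simpa using this
    obtain ⟨p, q, hpq, he⟩ := Fintype.exists_ne_map_eq_of_card_lt
      (fun p : F × Bool => if p.2 then β p.1 + t else β p.1) (by
        rw [Fintype.card_prod, Fintype.card_bool]
        have := Fintype.card_pos (α := F)
        omega)
    have hpU : Us B L a (p.1 • w) (if p.2 then β p.1 + t else β p.1) := by
      split_ifs
      · exact hβ' _
      · exact hβ _
    have hqU : Us B L a (q.1 • w) (if q.2 then β q.1 + t else β q.1) := by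
      split_ifs
      · exact hβ' _
      · exact hβ _
    have he' : (if p.2 then β p.1 + t else β p.1) = (if q.2 then β q.1 + t else β q.1) := he
    have h1 : p.1 ≠ q.1 := by
      intro h1
      rw [h1] at he'
      apply hpq
      refine Prod.ext h1 ?_
      rcases hp : p.2 with _ | _ <;> rcases hq : q.2 with _ | _
      · rfl
      · rw [hp, hq] at he'
        exact absurd (by simpa using he') ht0
      · rw [hp, hq] at he'
        exact absurd (by simpa using he') ht0
      · rfl
    rw [he'] at hpU
    have h2 := Us.mul S.alt (hw _) (hw _) hpU hqU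
    have e : B (p.1 • w) (q.1 • w) = 0 := by simp [S.alt w]
    rw [e, add_zero, CharTwo.add_self_eq_zero, ← _root_.add_smul] at h2
    refine ⟨(p.1 + q.1) • w, ?_, hw _, h2⟩
    intro hm
    apply hw2
    have h3 : p.1 + q.1 ≠ 0 := by
      intro h3
      exact h1 (CharTwo.add_eq_zero.1 h3)
    have : w = (p.1 + q.1)⁻¹ • ((p.1 + q.1) • w) := by rw [smul_smul, inv_mul_cancel₀ h3, one_smul]
    rw [this]; exact Submodule.smul_mem _ _ hm
  -- full transvection group
  have hC : Cen B S.alt L a := by
    intro c
    obtain ⟨d, hd⟩ := hsq (c / t)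
    by_cases hc : c = 0
    · rw [hc, tr_zero]; exact L.one_mem
    have hd0 : d ≠ 0 := by
      intro h; rw [h, mul_zero] at hd
      exact hc (by rcases div_eq_zero_iff.1 hd with h | h; exacts [h, absurd h ht0])
    obtain ⟨g, hg, hga⟩ := S.orb_smul hI (Orb.refl a) hd0
    have h1 := ht.conj hg (S.iso hg)
    rw [hga, map_zero] at h1
    have h2 := h1.scale
    obtain ⟨u, hu, hux⟩ := h2
    have : u = tr B S.alt a c := by
      ext x
      rw [hux, tr_apply]
      have e : d ^ 2 * t = c := by rw [_root_.sq, ← hd]; field_simp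
      rw [e]; simp
    rw [← this]; exact hu
  exact isom_le_of_tr B S.alt S.nd L (S.cen_of hC)

end H7.SpTwo
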