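import Cfsg.Agent.Lib.H7.SpTwoA

set_option autoImplicit false

/-!
The case without transvections at `a`.
-/

namespace H7.SpTwo

open Module H95.SpBasic

variable {F V : Type*} [Field F] [AddCommGroup V] [Module F V]
variable {B : LinearMap.BilinForm F V} {L : Subgroup (V ≃ₗ[F] V)} {a : V}

/-- the situation without transvections at `a` -/
structure SitT (B : LinearMap.BilinForm F V) (L : Subgroup (V ≃ₗ[F] V)) (a : V) : Prop extends Sit B L a where
  tz : ∀ b, Us B L a 0 b → b = 0

/-- the scalar attached to `w` -/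
noncomputable def cf (B : LinearMap.BilinForm F V) (L : Subgroup (V ≃ₗ[F] V)) (a w : V) : F :=
  Classical.epsilon fun b => Us B L a w b

variable [CharP F 2]

omit [CharP F 2] in
lemma SitT.transfer (T : SitT B L a) {v : V} (hv : Orb L a v) : SitT B L v := by
  refine ⟨T.toSit.transfer hv, fun b hb => ?_⟩
  obtain ⟨g, hg, rfl⟩ := hv.symm'
  have := hb.conj hg (T.iso hg)
  rw [map_zero] at this
  exact T.tz b this

lemma SitT.uniq (T : SitT B L a) {w : V} {b b' : F} (hw : B w a = 0) (h : Us B L a w b) (h' : Us B L a w b') :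
    b = b' := by
  have := Us.mul T.alt hw hw h h'
  rw [T.alt w, add_zero] at this
  have e : w + w = 0 := by
    rw [← two_smul F w, CharTwo.two_eq_zero, zero_smul]
  rw [e] at this
  exact CharTwo.add_eq_zero.1 (T.tz _ this)

omit [CharP F 2] in
lemma SitT.us (T : SitT B L a) {w : V} (hw : B w a = 0) : Us B L a w (cf B L a w) :=
  Classical.epsilon_spec (p := fun b => Us B L a w b) (T.ex w hw)

lemma SitT.cf_eq (T : SitT B L a) {w : V} {b : F} (hw : B w a = 0) (h : Us B L a w b) : cf B L a w = b :=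
  T.uniq hw (T.us hw) h

lemma SitT.cf_add (T : SitT B L a) {w w' : V} (hw : B w a = 0) (hw' : B w' a = 0) :
    cf B L a (w + w') = cf B L a w + cf B L a w' + B w w' := by
  apply T.cf_eq
  · rw [map_add, LinearMap.add_apply, hw, hw', add_zero]
  · exact Us.mul T.alt hw hw' (T.us hw) (T.us hw')

lemma SitT.cf_add_smul (T : SitT B L a) {w : V} (hw : B w a = 0) (k : F) :
    cf B L a (w + k • a) = cf B L a w := by
  apply T.cf_eq
  · rw [map_add, LinearMap.add_apply, map_smul, LinearMap.smul_apply, hw, T.alt a]; simp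
  · exact (T.us hw).add_smul k

lemma SitT.cf_zero (T : SitT B L a) : cf B L a 0 = 0 := by
  apply T.cf_eq (by simp)
  refine ⟨1, L.one_mem, fun x => ?_⟩
  simp

lemma SitT.cf_smul_self (T : SitT B L a) (k : F) : cf B L a (k • a) = 0 := by
  have := T.cf_add_smul (w := 0) (by simp) k
  rwa [zero_add, T.cf_zero] at this

lemma SitT.cf_map (T : SitT B L a) {g : V ≃ₗ[F] V} (hg : g ∈ L) {w : V} (hw : B w a = 0) :
    cf B L (g a) (g w) = cf B L a w := by
  have T' := T.transfer (Orb.map (Orb.refl a) hg)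
  apply T'.cf_eq
  · rw [T.iso hg, hw]
  · exact (T.us hw).conj hg (T.iso hg)

/-- The element `t_{a,φ} t_{e,ψ}`. -/
lemma SitT.exists_tt (T : SitT B L a) {e : V} (he : Orb L a e) (hea : B e a = 0) (k : F) :
    ∃ g ∈ L, ∀ x, g x = x + (cf B L a (k • e) * B x a) • a + (cf B L e (k • a) * B x e) • e := by
  have hae : B a e = 0 := by rw [symm T.alt, hea]
  have T' := T.transfer he
  obtain ⟨u, hu, hux⟩ := T.us (w := k • e) (by rw [map_smul, LinearMap.smul_apply, hea, smul_zero])
  obtain ⟨u', hu', hux'⟩ := T'.us (w := k • a) (by rw [map_smul, LinearMap.smul_apply, hae, smul_zero])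
  refine ⟨u * u', L.mul_mem hu hu', fun x => ?_⟩
  show u (u' x) = _
  rw [hux, hux']
  simp only [map_add, LinearMap.add_apply, map_smul, LinearMap.smul_apply, smul_eq_mul, T.alt a, T.alt e, hea, hae,
    mul_zero, add_zero]
  obtain ⟨p, hp⟩ : ∃ p, p = cf B L a (k • e) := ⟨_, rfl⟩
  obtain ⟨r, hr⟩ : ∃ r, r = cf B L e (k • a) := ⟨_, rfl⟩
  rw [← hp, ← hr]
  have key : x + B x e • k • a + (k * B x a + r * B x e) • e + B x a • k • e + (k * B x e + p * B x a) • a =
      x + (p * B x a) • a + (r * B x e) • e + ((1 : F) + 1) • ((B x e * k) • a + (k * B x a) • e) := by module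
  rw [key, CharTwo.add_self_eq_zero, zero_smul, add_zero]

/-- The first relation between the functions at `a` and `e`. -/
lemma SitT.cf_rel [FiniteDimensional F V] (T : SitT B L a) {e : V} (hea : B e a = 0)
    (hni : e ∉ Submodule.span F {a}) {p r : F}
    (hg : ∃ g ∈ L, ∀ x, g x = x + (p * B x a) • a + (r * B x e) • e) (k : F) :
    cf B L a ((r * k) • e) = r * k ^ 2 := by
  have hae : B a e = 0 := by rw [symm T.alt, hea]
  obtain ⟨g, hg, hgx⟩ := hg
  obtain ⟨z, hz1, hz2⟩ := exists_val2 (B := B) T.nd T.ne hni 0 k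
  obtain ⟨b, u, hu, hux⟩ := T.ex z (by rw [symm T.alt, hz1])
  have hua : u a = a := by
    rw [hux, T.alt a, hz1]; simp
  have hue : u e = e + k • a := by
    rw [hux, hea, hz2]; simp
  apply T.cf_eq
  · rw [map_smul, LinearMap.smul_apply, hea, smul_zero]
  refine ⟨u * g * u⁻¹ * g, L.mul_mem (L.mul_mem (L.mul_mem hu hg) (L.inv_mem hu)) hg, fun x => ?_⟩
  show u (g (u⁻¹ (g x))) = _
  have e1 : ∀ y, B (u⁻¹ y) a = B y a := by
    intro y
    rw [← T.iso hu (u⁻¹ y) a, apply_inv, hua]
  have e2 : ∀ y, B (u⁻¹ y) e = B y e + k * B y a := by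
    intro y
    rw [← T.iso hu (u⁻¹ y) e, apply_inv, hue, map_add, map_smul, smul_eq_mul]
  rw [hgx (u⁻¹ (g x)), map_add, map_add, map_smul, map_smul, hua, hue, apply_inv, e1, e2, hgx x]
  simp only [map_add, LinearMap.add_apply, map_smul, LinearMap.smul_apply, smul_eq_mul, T.alt a, T.alt e, hea, hae,
    mul_zero, add_zero]
  have key : x + (p * B x a) • a + (r * B x e) • e + (p * B x a) • a + (r * (B x e + k * B x a)) • (e + k • a) =
      x + B x a • (r * k) • e + (r * k * B x e + r * k ^ 2 * B x a) • a +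
        ((1 : F) + 1) • ((p * B x a) • a + (r * B x e) • e) := by module
  rw [key, CharTwo.add_self_eq_zero, zero_smul, add_zero]

/-- Lemma P. -/
lemma SitT.perp [FiniteDimensional F V] (T : SitT B L a) {e : V} (he : Orb L a e) (hea : B e a = 0)
    (hni : e ∉ Submodule.span F {a}) : (cf B L a e = 0 ∧ cf B L e a = 0) ∨
      ((∀ x : F, x ≠ 0 → x = 1) ∧ cf B L a e = 1 ∧ cf B L e a = 1) := by
  have hae : B a e = 0 := by rw [symm T.alt, hea]
  have T' := T.transfer he
  have hne0 : e ≠ 0 := T'.ne
  have hni' : a ∉ Submodule.span F {e} := by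
    have := det_notin (F := F) (x := a) (y := e) T.ne hni (p := 1) (q := 0) (r := 0) (s := 1) (by simp)
    simpa using this
  -- relations
  have h1 : ∀ l k : F, cf B L a ((cf B L e (l • a) * k) • e) = cf B L e (l • a) * k ^ 2 := by
    intro l k
    exact T.cf_rel hea hni (T.exists_tt he hea l) k
  have h2 : ∀ l k : F, cf B L e ((cf B L a (l • e) * k) • a) = cf B L a (l • e) * k ^ 2 := by
    intro l k
    exact T'.cf_rel hae hni' (T'.exists_tt he.symm' hae l) k
  have h1' : ∀ l m : F, cf B L e (l • a) ≠ 0 → cf B L a (m • e) = m ^ 2 / cf B L e (l • a) := by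
    intro l m h
    have := h1 l (m / cf B L e (l • a))
    have e1 : cf B L e (l • a) * (m / cf B L e (l • a)) = m := by field_simp
    rw [e1] at this
    rw [this]; field_simp
  have h2' : ∀ l m : F, cf B L a (l • e) ≠ 0 → cf B L e (m • a) = m ^ 2 / cf B L a (l • e) := by
    intro l m h
    have := h2 l (m / cf B L a (l • e))
    have e1 : cf B L a (l • e) * (m / cf B L a (l • e)) = m := by field_simp
    rw [e1] at this
    rw [this]; field_simp
  by_cases h0 : cf B L e a = 0
  · left
    refine ⟨?_, h0⟩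
    by_contra hne
    have := h2' 1 1 (by rwa [one_smul])
    rw [one_smul, one_smul, h0] at this
    have h3 : (1 : F) ^ 2 / cf B L a e ≠ 0 := by
      rw [one_pow]; exact one_div_ne_zero hne
    exact h3 this.symm
  · right
    have h3 : ∀ m : F, cf B L a (m • e) = m ^ 2 / cf B L e a := by
      intro m
      have := h1' 1 m (by rwa [one_smul])
      rwa [one_smul] at this
    have h4 : ∀ m : F, m ≠ 0 → m = 1 := by
      intro m hm
      have h5 : cf B L a (m • e) ≠ 0 := by
        rw [h3]; exact div_ne_zero (pow_ne_zero 2 hm) h0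
      have h6 := h2' m 1 h5
      rw [one_smul, h3, one_pow, one_div_div] at h6
      have h8 : m ^ 2 = 1 := by
        field_simp at h6
        exact h6
      have h9 : (m + 1) ^ 2 = 0 := by
        have : (m + 1) ^ 2 = m ^ 2 + 1 + (m + m) := by ring
        rw [this, h8, CharTwo.add_self_eq_zero, CharTwo.add_self_eq_zero, add_zero]
      have h10 : m + 1 = 0 := pow_eq_zero_iff (two_ne_zero) |>.1 h9
      exact CharTwo.add_eq_zero.1 h10
    have h5 : cf B L e a = 1 := h4 _ h0
    refine ⟨h4, ?_, h5⟩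
    have := h3 1
    rw [one_smul, h5] at this
    simpa using this

omit [CharP F 2] in
/-- If all vectors off one hyperplane are in the orbit, all non-zero vectors are. -/
lemma Sit.all_orb (S : Sit B L a) {x0 : V} (hx0 : x0 ≠ 0) (h : ∀ x, B x0 x ≠ 0 → Orb L a x) :
    ∀ x, x ≠ 0 → Orb L a x := by
  intro x hx
  by_contra hcon
  have h1 := S.irr (Submodule.span F {v | v ≠ 0 ∧ ¬ Orb L a v}) (by
    intro g hg w hw
    have : Submodule.span F {v | v ≠ 0 ∧ ¬ Orb L a v} ≤
        (Submodule.span F {v | v ≠ 0 ∧ ¬ Orb L a v}).comap (g : V →ₗ[F] V) := by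
      rw [Submodule.span_le]
      intro v hv
      refine Submodule.subset_span ⟨?_, ?_⟩
      · intro h0; exact hv.1 ((LinearEquiv.map_eq_zero_iff g).1 h0)
      · intro ho
        apply hv.2
        have := ho.map (L.inv_mem hg)
        rwa [LinearEquiv.coe_coe, inv_apply] at this
    exact this hw)
  have hle : Submodule.span F {v | v ≠ 0 ∧ ¬ Orb L a v} ≤ LinearMap.ker (B x0) := by
    rw [Submodule.span_le]
    intro v hv
    by_contra hne
    exact hv.2 (h v hne)
  rcases h1 with h1 | h1
  · have : x ∈ Submodule.span F {v | v ≠ 0 ∧ ¬ Orb L a v} := Submodule.subset_span ⟨hx, hcon⟩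
    rw [h1, Submodule.mem_bot] at this
    exact hx this
  · rw [h1] at hle
    apply hx0
    apply S.nd
    intro w
    have : w ∈ LinearMap.ker (B x0) := hle trivial
    exact this

end H7.SpTwo
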