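import Cfsg.Agent.Lib.H7.SpTwoB
import Cfsg.Agent.Lib.H95.SpOrthEven

set_option autoImplicit false

/-!
The isotropic case without transvections at `a`.
-/

namespace H7.SpTwo

open Module H95.SpBasic H95.SpGeom H95.SpOrthEven

variable {F V : Type*} [Field F] [AddCommGroup V] [Module F V]
variable {B : LinearMap.BilinForm F V} {L : Subgroup (V ≃ₗ[F] V)} {a : V}
variable [CharP F 2]

omit [CharP F 2] in
lemma notin_of_val {x y z : V} (h1 : B z x ≠ 0) (h2 : B z y = 0) : x ∉ Submodule.span F {y} := by
  intro hm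
  obtain ⟨c, hc⟩ := Submodule.mem_span_singleton.1 hm
  apply h1
  rw [← hc, map_smul, h2, smul_zero]

lemma SitT.orb_of_zero [FiniteDimensional F V] (T : SitT B L a) {w : V} (h1 : w ∉ Submodule.span F {a})
    (h2 : B w a = 0) (h3 : cf B L a w = 0) : Orb L a w := by
  have h4 := T.us h2
  rw [h3] at h4
  have := (T.toSit.orb_of_us h1 h2 h4).1 1 one_ne_zero
  rwa [one_smul] at this

lemma SitT.all_of_pair [FiniteDimensional F V] (T : SitT B L a) (hI : IsoAt B L a) (hF : ∀ x : F, x ≠ 0 → x = 1)
    {e : V} (he : Orb L a e) (hea : B e a = 0) (h1 : cf B L a e = 1) : ∀ x, x ≠ 0 → Orb L a x := by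
  obtain ⟨z, hz1, hz2, hz3⟩ := hI
  have hcz : cf B L a z = 0 := T.cf_eq hz2 hz3
  have hw : ∃ w, B w a = 0 ∧ B e w = 1 ∧ cf B L a w = 0 := by
    by_cases hez : B e z = 0
    · have hli : LinearIndependent F ![a, e, z] := by
        rw [Fintype.linearIndependent_iff]
        intro c hc
        rw [Fin.sum_univ_three] at hc
        have hc' : c 0 • a + c 1 • e + c 2 • z = 0 := hc
        have hc1 : c 1 = 0 := by
          by_contra hne
          have hone := hF _ hne
          rw [hone, one_smul] at hc'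
          have hee : e = c 2 • z + c 0 • a := by
            have : e = (c 2 • z + c 0 • a) + ((1 : F) + 1) • e - (c 0 • a + e + c 2 • z) - 
              ((1 : F) + 1) • (c 2 • z + c 0 • a) + ((1 : F) + 1) • (c 0 • a + c 2 • z) := by module
            rw [this, hc', CharTwo.add_self_eq_zero, zero_smul, zero_smul, zero_smul]
            abel
          have h3 : cf B L a e = cf B L a (c 2 • z) := by
            conv_lhs => rw [hee]
            exact T.cf_add_smul (by rw [map_smul, LinearMap.smul_apply, hz2, smul_zero]) _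
          have h4 : cf B L a (c 2 • z) = 0 := by
            by_cases h5 : c 2 = 0
            · rw [h5, zero_smul, T.cf_zero]
            · rw [hF _ h5, one_smul, hcz]
          rw [h1, h4] at h3
          exact one_ne_zero h3
        rw [hc1, zero_smul, add_zero] at hc'
        have h6 := LinearIndependent.pair_iff.1 (li2 T.ne hz1) _ _ hc'
        intro i
        fin_cases i
        · exact h6.1
        · exact hc1
        · exact h6.2
      obtain ⟨v, hv⟩ := exists_val (B := B) T.nd hli ![0, 1, 1]
      have hv0 : B a v = 0 := hv 0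
      have hv1 : B e v = 1 := hv 1
      have hv2 : B z v = 1 := hv 2
      have hva : B v a = 0 := by rw [symm T.alt, hv0]
      by_cases hcv : cf B L a v = 0
      · exact ⟨v, hva, hv1, hcv⟩
      · refine ⟨v + z, ?_, ?_, ?_⟩
        · rw [map_add, LinearMap.add_apply, hva, hz2, add_zero]
        · rw [map_add, hv1, hez, add_zero]
        · rw [T.cf_add hva hz2, hF _ hcv, hcz, symm T.alt, hv2, add_zero, CharTwo.add_self_eq_zero]
    · exact ⟨z, hz2, hF _ hez, hcz⟩
  obtain ⟨w, hwa, hew, hcw⟩ := hw
  have hwe : B w e = 1 := by rw [symm T.alt, hew]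
  have how : Orb L a w := T.orb_of_zero (notin_of_val (by rw [hew]; exact one_ne_zero) hea) hwa hcw
  have howe : Orb L a (e + w) := by
    refine T.orb_of_zero (notin_of_val (z := e) (by rw [map_add, T.alt e, hew, zero_add]; exact one_ne_zero) hea) ?_ ?_
    · rw [map_add, LinearMap.add_apply, hea, hwa, add_zero]
    · rw [T.cf_add hea hwa, h1, hcw, hew, add_zero, CharTwo.add_self_eq_zero]
  have T' := T.transfer he
  refine T.toSit.all_orb T'.ne (fun x hx => ?_)
  have hx1 : B e x = 1 := hF _ hx
  have hxe : B x e = 1 := by rw [symm T.alt, hx1]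
  obtain ⟨α, hα⟩ : ∃ α, α = B x w := ⟨_, rfl⟩
  obtain ⟨v, hv⟩ : ∃ v, v = x - α • e - w := ⟨_, rfl⟩
  have hve : B v e = 0 := by
    rw [hv]; simp only [map_sub, LinearMap.sub_apply, map_smul, LinearMap.smul_apply, hxe, T.alt e, hwe]; simp
  have hvw : B v w = 0 := by
    rw [hv]; simp only [map_sub, LinearMap.sub_apply, map_smul, LinearMap.smul_apply, hew, T.alt w, ← hα]; simp
  have hev : B e v = 0 := by rw [symm T.alt, hve]
  have hwv : B w v = 0 := by rw [symm T.alt, hvw]
  have hxx : x = w + v + α • e := by rw [hv]; abel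
  have h3 := how.act (T'.us hve)
  rw [hwe, hwv, one_smul, mul_one, zero_add] at h3
  have h4 := howe.act (T'.us hve)
  have e1 : B (e + w) e = 1 := by rw [map_add, LinearMap.add_apply, T.alt e, hwe, zero_add]
  have e2 : B (e + w) v = 0 := by rw [map_add, LinearMap.add_apply, hev, hwv, zero_add]
  rw [e1, e2, one_smul, mul_one, zero_add] at h4
  by_cases hc : cf B L e v = α
  · rw [hxx, ← hc]; exact h3
  · have h5 : cf B L e v + 1 = α := by
      have h6 : cf B L e v + α = 1 := hF _ (fun h => hc (CharTwo.add_eq_zero.1 h))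
      rw [← h6, ← add_assoc, CharTwo.add_self_eq_zero, zero_add]
    rw [hxx, ← h5]
    have e3 : w + v + (cf B L e v + 1) • e = e + w + v + cf B L e v • e := by module
    rw [e3]; exact h4

lemma SitT.no_all [FiniteDimensional F V] (T : SitT B L a) (hF : ∀ x : F, x ≠ 0 → x = 1)
    (hall : ∀ x, x ≠ 0 → Orb L a x) (h5 : 5 ≤ finrank F V) : False := by
  have hT : ∀ x, x ≠ 0 → SitT B L x := fun x hx => T.transfer (hall x hx)
  have hsy : ∀ x y, x ≠ 0 → y ≠ 0 → x ≠ y → B x y = 0 → cf B L x y = cf B L y x := by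
    intro x y hx hy hxy h0
    have hni : y ∉ Submodule.span F {x} := by
      intro hm
      obtain ⟨c, hc⟩ := Submodule.mem_span_singleton.1 hm
      by_cases hc0 : c = 0
      · rw [hc0, zero_smul] at hc; exact hy hc.symm
      · rw [hF c hc0, one_smul] at hc; exact hxy hc
    rcases (hT x hx).perp ((hall x hx).symm'.trans' (hall y hy)) (by rw [symm T.alt, h0]) hni with h | h
    · rw [h.1, h.2]
    · rw [h.2.1, h.2.2]
  obtain ⟨w, hw⟩ : ∃ w, B a w = 1 := by
    by_contra hcon
    push Not at hcon
    apply T.ne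
    apply T.nd
    intro w
    by_contra h
    exact hcon w (hF _ h)
  have hwa : B w a = 1 := by rw [symm T.alt, hw]
  have hfr := orth2_finrank T.alt (U := (⊤ : Submodule F V)) (Submodule.mem_top (x := a)) (Submodule.mem_top (x := w)) hw
  rw [finrank_top] at hfr
  obtain ⟨U, hU⟩ : ∃ U, U = orth2 B (⊤ : Submodule F V) a w := ⟨_, rfl⟩
  rw [← hU] at hfr
  have hmU : ∀ x ∈ U, B x a = 0 ∧ B x w = 0 := by
    intro x hx
    rw [hU, mem_orth2] at hx
    exact hx.2
  have hU0 : U ≠ ⊥ := by
    intro h
    rw [h, finrank_bot] at hfr; omega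
  obtain ⟨v, hvU, hv0⟩ := Submodule.exists_mem_ne_zero_of_ne_bot hU0
  obtain ⟨v', hv'1, hv'2⟩ := exists_perp_notin (B.restrict U) (by omega) ⟨v, hvU⟩
  have hv'1' : B (v' : V) v = 0 := hv'1
  have hv'3 : (v' : V) ≠ 0 := by
    intro h
    apply hv'2
    have : v' = 0 := Subtype.ext h
    rw [this]; exact Submodule.zero_mem _
  have hv'4 : v + (v' : V) ≠ 0 := by
    intro h
    apply hv'2
    rw [Submodule.mem_span_singleton]
    refine ⟨1, Subtype.ext ?_⟩
    rw [one_smul]
    show v = (v' : V)
    have h2 : (v' : V) + v' = 0 := by rw [← two_smul F, CharTwo.two_eq_zero, zero_smul]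
    have : v + (v' : V) = v' + v' := by rw [h, h2]
    exact add_right_cancel this
  have haw0 : a + w ≠ 0 := by
    intro h
    have : B a (a + w) = 0 := by rw [h, map_zero]
    rw [map_add, T.alt a, hw, zero_add] at this
    exact one_ne_zero this
  have hw0 : w ≠ 0 := by
    intro h; rw [h, map_zero] at hw; exact zero_ne_one hw
  have key : ∀ u ∈ U, u ≠ 0 → cf B L (a + w) u = cf B L a u + cf B L w u + 1 := by
    intro u hu hu0
    obtain ⟨h1, h2⟩ := hmU u hu
    have h1' : B a u = 0 := by rw [symm T.alt, h1]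
    have h2' : B w u = 0 := by rw [symm T.alt, h2]
    have n1 : a + w ≠ u := by
      intro h; rw [← h, map_add, LinearMap.add_apply, T.alt a, hwa, zero_add] at h1
      exact one_ne_zero h1
    have n2 : a ≠ u := by
      intro h; rw [← h, hw] at h2; exact one_ne_zero h2
    have n3 : w ≠ u := by
      intro h; rw [← h, hwa] at h1; exact one_ne_zero h1
    rw [hsy _ _ haw0 hu0 n1 (by rw [map_add, LinearMap.add_apply, h1', h2', add_zero]),
      (hT u hu0).cf_add h1' h2', hw, hsy a u T.ne hu0 n2 h1', hsy w u hw0 hu0 n3 h2']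
  have hadd : ∀ x, x ≠ 0 → B v x = 0 → B (v' : V) x = 0 → cf B L x (v + v') = cf B L x v + cf B L x v' := by
    intro x hx h1 h2
    rw [(hT x hx).cf_add h1 h2, symm T.alt v, hv'1', add_zero]
  obtain ⟨e1, e2⟩ := hmU v hvU
  obtain ⟨e3, e4⟩ := hmU v' v'.2
  have k1 := key v hvU hv0
  have k2 := key v' v'.2 hv'3
  have k3 := key _ (U.add_mem hvU v'.2) hv'4
  rw [hadd _ haw0 (by rw [map_add, e1, e2, add_zero]) (by rw [map_add, e3, e4, add_zero]), hadd _ T.ne e1 e3,
    hadd _ hw0 e2 e4, k1, k2] at k3
  have h2 : (2 : F) = 0 := CharTwo.two_eq_zero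
  have : (1 : F) = 0 := by linear_combination (-1 : F) * k3 + h2
  exact one_ne_zero this

/-- The final structure: `Q` is a quadratic form, the orbit consists of the singular vectors. -/
structure FinQ (B : LinearMap.BilinForm F V) (L : Subgroup (V ≃ₗ[F] V)) (a : V) (Q : V → F) : Prop where
  isq : IsQ B Q
  orb : ∀ v, v ≠ 0 → (Orb L a v ↔ Q v = 0)
  us : ∀ w, B w a = 0 → Us B L a w (Q w)

/-- The final structure from data on `W = ⟨a,s⟩^⊥`. -/
theorem SitT.finQ_of [FiniteDimensional F V] (T : SitT B L a) {s : V} (hs : Orb L a s) (has : B a s = 1)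
    (q2 : ∀ v, B v a = 0 → B v s = 0 → cf B L s v = cf B L a v ∧ ∀ k : F, cf B L a (k • v) = k ^ 2 * cf B L a v)
    (hsm : ∀ v, Orb L a v → ∀ c : F, c ≠ 0 → Orb L a (c • v))
    (hZ : ∀ v, B v a = 0 → v ∉ Submodule.span F {a} → (Orb L a v ↔ cf B L a v = 0))
    (hsurj : ∀ θ : F, ∃ w, B w a = 0 ∧ B w s = 0 ∧ cf B L a w = θ) : ∃ Q, FinQ B L a Q := by
  have hsa : B s a = 1 := by rw [symm T.alt, has]
  have Ts := T.transfer hs
  have hWa : ∀ w, w ≠ 0 → B w a = 0 → B w s = 0 → w ∉ Submodule.span F {a} := by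
    intro w hw0 hwa hws hm
    obtain ⟨c, hc⟩ := Submodule.mem_span_singleton.1 hm
    have : c = 0 := by
      rw [← hc, map_smul, LinearMap.smul_apply, has, smul_eq_mul, mul_one] at hws; exact hws
    rw [this, zero_smul] at hc; exact hw0 hc.symm
  -- the form
  obtain ⟨π, hπ⟩ : ∃ π : V → V, ∀ x, π x = x - B x s • a - B x a • s := ⟨_, fun _ => rfl⟩
  have hπa : ∀ x, B (π x) a = 0 := by
    intro x
    rw [hπ]; simp only [map_sub, LinearMap.sub_apply, map_smul, LinearMap.smul_apply, T.alt a, hsa]; simp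
  have hπs : ∀ x, B (π x) s = 0 := by
    intro x
    rw [hπ]; simp only [map_sub, LinearMap.sub_apply, map_smul, LinearMap.smul_apply, T.alt s, has]; simp
  have hπB : ∀ x y, B x y = B x s * B y a + B x a * B y s + B (π x) (π y) := by
    intro x y
    have h1 : B (π x) (π y) = B (π x) y := by
      conv_lhs => rw [hπ y]
      simp only [map_sub, map_smul, hπa, hπs]; simp
    rw [h1, hπ x]
    simp only [map_sub, LinearMap.sub_apply, map_smul, LinearMap.smul_apply, smul_eq_mul]
    rw [symm T.alt a y, symm T.alt s y]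
    ring
  have hπadd : ∀ x y, π (x + y) = π x + π y := by
    intro x y
    rw [hπ, hπ, hπ]; simp only [map_add, LinearMap.add_apply]; module
  have hπsmul : ∀ (c : F) x, π (c • x) = c • π x := by
    intro c x
    rw [hπ, hπ]; simp only [map_smul, LinearMap.smul_apply, smul_eq_mul]; module
  have hQ2 : ∀ w, B w a = 0 → cf B L a (π w) = cf B L a w := by
    intro w hw
    have : π w = w + (- B w s) • a := by rw [hπ, hw]; module
    rw [this, T.cf_add_smul hw]
  refine ⟨fun x => B x s * B x a + cf B L a (π x), ⟨?_, ?_⟩, ?_, ?_⟩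
  · intro c v
    show B (c • v) s * B (c • v) a + cf B L a (π (c • v)) = c ^ 2 * (B v s * B v a + cf B L a (π v))
    rw [hπsmul, (q2 _ (hπa v) (hπs v)).2]
    simp only [map_smul, LinearMap.smul_apply, smul_eq_mul]
    ring
  · intro x y
    show B (x + y) s * B (x + y) a + cf B L a (π (x + y)) = B x s * B x a + cf B L a (π x) +
      (B y s * B y a + cf B L a (π y)) + B x y
    rw [hπadd, T.cf_add (hπa x) (hπa y), hπB x y]
    simp only [map_add, LinearMap.add_apply]
    ring
  · intro v hv0
    show Orb L a v ↔ B v s * B v a + cf B L a (π v) = 0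
    by_cases hva : B v a = 0
    · rw [hva, mul_zero, zero_add, hQ2 v hva]
      by_cases hm : v ∈ Submodule.span F {a}
      · obtain ⟨c, hc⟩ := Submodule.mem_span_singleton.1 hm
        have hc0 : c ≠ 0 := by
          intro h; rw [h, zero_smul] at hc; exact hv0 hc.symm
        rw [← hc, T.cf_smul_self]
        exact ⟨fun _ => rfl, fun _ => hsm _ (Orb.refl a) _ hc0⟩
      · exact hZ v hva hm
    · obtain ⟨r, hr⟩ : ∃ r, r = B v a := ⟨_, rfl⟩
      obtain ⟨p, hp⟩ : ∃ p, p = B v s := ⟨_, rfl⟩
      obtain ⟨w, hw⟩ : ∃ w, w = π v := ⟨_, rfl⟩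
      rw [← hr] at hva
      have hwa : B w a = 0 := by rw [hw, hπa]
      have hws : B w s = 0 := by rw [hw, hπs]
      have haw : B a w = 0 := by rw [symm T.alt, hwa]
      have hsw : B s w = 0 := by rw [symm T.alt, hws]
      have hvv : v = p • a + r • s + w := by
        rw [hw, hπ, hp, hr]; abel
      rw [← hr, ← hp, ← hw]
      -- move by an element of X_a
      have hUs := T.us (w := r⁻¹ • w) (by rw [map_smul, LinearMap.smul_apply, hwa, smul_zero])
      rw [(q2 w hwa hws).2] at hUs
      obtain ⟨u, hu, hux⟩ := hUs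
      have h1 : u v = ((p * r + cf B L a w) / r) • a + r • s := by
        rw [hux]
        have e1 : B v (r⁻¹ • w) = 0 := by
          rw [hvv]; simp only [map_add, LinearMap.add_apply, map_smul, LinearMap.smul_apply, haw, hsw, T.alt w]; simp
        rw [e1, ← hr, zero_add, smul_smul, mul_inv_cancel₀ hva, one_smul]
        conv_lhs => rw [hvv]
        have e2 : (p * r + cf B L a w) / r = p + r⁻¹ ^ 2 * cf B L a w * r := by field_simp
        rw [e2]
        have e3 : p • a + r • s + w + w + (r⁻¹ ^ 2 * cf B L a w * r) • a =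
            (p + r⁻¹ ^ 2 * cf B L a w * r) • a + r • s + ((1 : F) + 1) • w := by module
        rw [e3, CharTwo.add_self_eq_zero, zero_smul, add_zero]
      have h2 : Orb L a v ↔ Orb L a (((p * r + cf B L a w) / r) • a + r • s) := by
        rw [← h1]
        refine ⟨fun h => h.map hu, fun h => ?_⟩
        have := h.map (L.inv_mem hu)
        rwa [inv_apply] at this
      rw [h2]
      constructor
      · intro h
        by_contra hne
        obtain ⟨p', hp'⟩ : ∃ p', p' = (p * r + cf B L a w) / r := ⟨_, rfl⟩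
        have hp'0 : p' ≠ 0 := by rw [hp']; exact div_ne_zero hne hva
        rw [← hp'] at h
        obtain ⟨y, hya, hys, hyc⟩ := hsurj (r / p')
        have hay : B a y = 0 := by rw [symm T.alt, hya]
        have hsy : B s y = 0 := by rw [symm T.alt, hys]
        have hUy := Ts.us hys
        rw [(q2 y hya hys).1, hyc] at hUy
        have h3 := h.act hUy
        have e1 : B (p' • a + r • s) s = p' := by
          simp only [map_add, LinearMap.add_apply, map_smul, LinearMap.smul_apply, has, T.alt s]; simp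
        have e2 : B (p' • a + r • s) y = 0 := by
          simp only [map_add, LinearMap.add_apply, map_smul, LinearMap.smul_apply, hay, hsy]; simp
        rw [e1, e2, zero_add] at h3
        have e3 : p' • a + r • s + p' • y + (r / p' * p') • s = p' • y + p' • a := by
          have : r / p' * p' = r := by field_simp
          rw [this]
          have e4 : p' • a + r • s + p' • y + r • s = p' • y + p' • a + ((1 : F) + 1) • (r • s) := by module
          rw [e4, CharTwo.add_self_eq_zero, zero_smul, add_zero]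
        rw [e3] at h3
        have hy0 : y ≠ 0 := by
          intro h0
          rw [h0, T.cf_zero] at hyc
          exact (div_ne_zero hva hp'0) hyc.symm
        have h4 : B (p' • y) a = 0 := by rw [map_smul, LinearMap.smul_apply, hya, smul_zero]
        have h5 : cf B L a (p' • y + p' • a) = 0 := by
          refine (hZ _ ?_ ?_).1 h3
          · rw [map_add, LinearMap.add_apply, h4, map_smul, LinearMap.smul_apply, T.alt a]; simp
          · intro hm
            apply hWa y hy0 hya hys
            have : y = p'⁻¹ • ((p' • y + p' • a) - p' • a) := by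
              rw [add_sub_cancel_right, smul_smul, inv_mul_cancel₀ hp'0, one_smul]
            rw [this]
            exact Submodule.smul_mem _ _ (Submodule.sub_mem _ hm
              (Submodule.smul_mem _ _ (Submodule.mem_span_singleton_self a)))
        rw [T.cf_add_smul h4, (q2 y hya hys).2, hyc] at h5
        exact (mul_ne_zero (pow_ne_zero 2 hp'0) (div_ne_zero hva hp'0)) h5
      · intro h
        rw [h, zero_div, zero_smul, zero_add]
        exact hsm _ hs _ hva
  · intro w hw
    show Us B L a w (B w s * B w a + cf B L a (π w))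
    rw [hw, mul_zero, zero_add, hQ2 w hw]
    exact T.us hw

theorem SitT.finQ_iso [FiniteDimensional F V] (T : SitT B L a) (hI : IsoAt B L a)
    (hP : ∀ e, Orb L a e → B e a = 0 → e ∉ Submodule.span F {a} → cf B L a e = 0) : ∃ Q, FinQ B L a Q := by
  have hP' : ∀ v, Orb L a v → ∀ e, Orb L a e → B e v = 0 → e ∉ Submodule.span F {v} → cf B L v e = 0 := by
    intro v hv e he hev hni
    obtain ⟨g, hg, rfl⟩ := hv
    have e1 : g (g⁻¹ e) = e := apply_inv g e
    have h1 : B (g⁻¹ e) a = 0 := by rw [← T.iso hg (g⁻¹ e) a, e1, hev]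
    rw [← e1, T.cf_map hg h1]
    refine hP _ (he.map (L.inv_mem hg)) h1 (fun hm => hni ?_)
    obtain ⟨c, hc⟩ := Submodule.mem_span_singleton.1 hm
    rw [Submodule.mem_span_singleton]
    exact ⟨c, by rw [← map_smul, hc, e1]⟩
  -- a partner
  obtain ⟨s, hs, has⟩ : ∃ s, Orb L a s ∧ B a s = 1 := by
    obtain ⟨s, hs, hne⟩ := T.toSit.exists_ne T.ne
    refine ⟨(B a s)⁻¹ • s, T.toSit.orb_smul hI hs (inv_ne_zero hne), ?_⟩
    rw [map_smul, smul_eq_mul, inv_mul_cancel₀ hne]
  have hsa : B s a = 1 := by rw [symm T.alt, has]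
  have Ts := T.transfer hs
  -- nonzero vectors of W are off the lines
  have hWa : ∀ w, w ≠ 0 → B w a = 0 → B w s = 0 → w ∉ Submodule.span F {a} := by
    intro w hw0 hwa hws hm
    obtain ⟨c, hc⟩ := Submodule.mem_span_singleton.1 hm
    have : c = 0 := by
      rw [← hc, map_smul, LinearMap.smul_apply, has, smul_eq_mul, mul_one] at hws; exact hws
    rw [this, zero_smul] at hc; exact hw0 hc.symm
  have hWs : ∀ w, w ≠ 0 → B w a = 0 → B w s = 0 → w ∉ Submodule.span F {s} := by
    intro w hw0 hwa hws hm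
    obtain ⟨c, hc⟩ := Submodule.mem_span_singleton.1 hm
    have : c = 0 := by
      rw [← hc, map_smul, LinearMap.smul_apply, hsa, smul_eq_mul, mul_one] at hwa; exact hwa
    rw [this, zero_smul] at hc; exact hw0 hc.symm
  -- zeros
  have z1 : ∀ w, w ≠ 0 → B w a = 0 → B w s = 0 → (Orb L a w ↔ cf B L a w = 0) := by
    intro w hw0 hwa hws
    exact ⟨fun h => hP w h hwa (hWa w hw0 hwa hws), fun h => T.orb_of_zero (hWa w hw0 hwa hws) hwa h⟩
  have z2 : ∀ w, w ≠ 0 → B w a = 0 → B w s = 0 → (Orb L a w ↔ cf B L s w = 0) := by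
    intro w hw0 hwa hws
    exact ⟨fun h => hP' s hs w h hws (hWs w hw0 hwa hws), fun h => hs.trans' (Ts.orb_of_zero (hWs w hw0 hwa hws) hws h)⟩
  -- a singular vector in W
  obtain ⟨w0, hw00, hw0a, hw0s, hcw0⟩ : ∃ w0, w0 ≠ 0 ∧ B w0 a = 0 ∧ B w0 s = 0 ∧ cf B L a w0 = 0 := by
    obtain ⟨z, hz1, hz2, hz3⟩ := hI
    refine ⟨z + (- B z s) • a, ?_, ?_, ?_, ?_⟩
    · intro h
      apply hz1
      have : z = (B z s) • a := by
        have e : z = z + (- B z s) • a + (B z s) • a := by module
        rw [e, h, zero_add]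
        simp [has]
      rw [this]; exact Submodule.smul_mem _ _ (Submodule.mem_span_singleton_self a)
    · rw [map_add, LinearMap.add_apply, map_smul, LinearMap.smul_apply, hz2, T.alt a]; simp
    · rw [map_add, LinearMap.add_apply, map_smul, LinearMap.smul_apply, has]; simp
    · rw [T.cf_add_smul hz2]; exact T.cf_eq hz2 hz3
  have how0 : Orb L a w0 := (z1 w0 hw00 hw0a hw0s).2 hcw0
  have hls : ∀ l : F, cf B L a (l • w0) = 0 ∧ cf B L s (l • w0) = 0 := by
    intro l
    by_cases hl : l = 0
    · rw [hl, zero_smul, T.cf_zero, Ts.cf_zero]; exact ⟨rfl, rfl⟩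
    have h1 : Orb L a (l • w0) := T.toSit.orb_smul hI how0 hl
    have h2 : l • w0 ≠ 0 := smul_ne_zero hl hw00
    have h3 : B (l • w0) a = 0 := by rw [map_smul, LinearMap.smul_apply, hw0a, smul_zero]
    have h4 : B (l • w0) s = 0 := by rw [map_smul, LinearMap.smul_apply, hw0s, smul_zero]
    exact ⟨(z1 _ h2 h3 h4).1 h1, (z2 _ h2 h3 h4).1 h1⟩
  -- first on vectors not orthogonal to w0
  have q1 : ∀ v, B v a = 0 → B v s = 0 → B v w0 ≠ 0 → cf B L s v = cf B L a v ∧
      ∀ k : F, cf B L a (k • v) = k ^ 2 * cf B L a v := by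
    intro v hva hvs hvw
    obtain ⟨l, hl⟩ : ∃ l, l = cf B L a v / B v w0 := ⟨_, rfl⟩
    have hl' : l * B v w0 = cf B L a v := by rw [hl]; field_simp
    have h3 : B (l • w0) a = 0 := by rw [map_smul, LinearMap.smul_apply, hw0a, smul_zero]
    have h4 : B (l • w0) s = 0 := by rw [map_smul, LinearMap.smul_apply, hw0s, smul_zero]
    have e0 : B v (l • w0) = cf B L a v := by rw [map_smul, smul_eq_mul, hl']
    have h5 : cf B L a (v + l • w0) = 0 := by
      rw [T.cf_add hva h3, (hls l).1, add_zero, e0, CharTwo.add_self_eq_zero]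
    have h6 : v + l • w0 ≠ 0 := by
      intro h
      have : B (v + l • w0) w0 = 0 := by rw [h]; simp
      rw [map_add, LinearMap.add_apply, map_smul, LinearMap.smul_apply, T.alt w0, smul_zero, add_zero] at this
      exact hvw this
    have h7 : B (v + l • w0) a = 0 := by rw [map_add, LinearMap.add_apply, hva, h3, add_zero]
    have h8 : B (v + l • w0) s = 0 := by rw [map_add, LinearMap.add_apply, hvs, h4, add_zero]
    have h9 : Orb L a (v + l • w0) := (z1 _ h6 h7 h8).2 h5
    constructor
    · have h10 := (z2 _ h6 h7 h8).1 h9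
      rw [Ts.cf_add hvs h4, (hls l).2, add_zero, e0] at h10
      exact CharTwo.add_eq_zero.1 h10
    · intro k
      by_cases hk : k = 0
      · rw [hk, zero_smul, T.cf_zero]; ring
      have h10 : Orb L a (k • (v + l • w0)) := T.toSit.orb_smul hI h9 hk
      have h11 : B (k • (v + l • w0)) a = 0 := by rw [map_smul, LinearMap.smul_apply, h7, smul_zero]
      have h12 : B (k • (v + l • w0)) s = 0 := by rw [map_smul, LinearMap.smul_apply, h8, smul_zero]
      have h13 := (z1 _ (smul_ne_zero hk h6) h11 h12).1 h10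
      have e1 : k • (v + l • w0) = k • v + (k * l) • w0 := by module
      have h14 : B (k • v) a = 0 := by rw [map_smul, LinearMap.smul_apply, hva, smul_zero]
      have h15 : B ((k * l) • w0) a = 0 := by rw [map_smul, LinearMap.smul_apply, hw0a, smul_zero]
      have e2 : B (k • v) ((k * l) • w0) = k ^ 2 * cf B L a v := by
        simp only [map_smul, LinearMap.smul_apply, smul_eq_mul]
        rw [← hl']
        ring
      rw [e1, T.cf_add h14 h15, (hls _).1, add_zero, e2] at h13
      exact CharTwo.add_eq_zero.1 h13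
  -- an auxiliary vector
  obtain ⟨v1, hv1a, hv1s, hv1w⟩ : ∃ v1, B v1 a = 0 ∧ B v1 s = 0 ∧ B v1 w0 ≠ 0 := by
    obtain ⟨x, hx⟩ : ∃ x, B w0 x ≠ 0 := by
      by_contra hcon; push Not at hcon; exact hw00 (T.nd w0 hcon)
    have hx' : B x w0 ≠ 0 := by rw [symm T.alt]; exact hx
    have haw0 : B a w0 = 0 := by rw [symm T.alt, hw0a]
    have hsw0 : B s w0 = 0 := by rw [symm T.alt, hw0s]
    refine ⟨x - B x s • a - B x a • s, ?_, ?_, ?_⟩
    · simp only [map_sub, LinearMap.sub_apply, map_smul, LinearMap.smul_apply, T.alt a, hsa]; simp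
    · simp only [map_sub, LinearMap.sub_apply, map_smul, LinearMap.smul_apply, T.alt s, has]; simp
    · simp only [map_sub, LinearMap.sub_apply, map_smul, LinearMap.smul_apply, haw0, hsw0]; simpa using hx'
  have q2 : ∀ v, B v a = 0 → B v s = 0 → cf B L s v = cf B L a v ∧
      ∀ k : F, cf B L a (k • v) = k ^ 2 * cf B L a v := by
    intro v hva hvs
    by_cases hvw : B v w0 = 0
    · have h1 := q1 v1 hv1a hv1s hv1w
      have hd1 : B (v + v1) a = 0 := by rw [map_add, LinearMap.add_apply, hva, hv1a, add_zero]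
      have hd2 : B (v + v1) s = 0 := by rw [map_add, LinearMap.add_apply, hvs, hv1s, add_zero]
      have h2 := q1 (v + v1) hd1 hd2 (by rw [map_add, LinearMap.add_apply, hvw, zero_add]; exact hv1w)
      have e0 : v = (v + v1) + v1 := by
        have : v1 + v1 = 0 := by rw [← two_smul F, CharTwo.two_eq_zero, zero_smul]
        rw [add_assoc, this, add_zero]
      constructor
      · rw [e0, Ts.cf_add hd2 hv1s, T.cf_add hd1 hv1a, h1.1, h2.1]
      · intro k
        have e1 : k • v = k • (v + v1) + k • v1 := by rw [← smul_add, ← e0]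
        have hd3 : B (k • (v + v1)) a = 0 := by rw [map_smul, LinearMap.smul_apply, hd1, smul_zero]
        have hd4 : B (k • v1) a = 0 := by rw [map_smul, LinearMap.smul_apply, hv1a, smul_zero]
        rw [e1, T.cf_add hd3 hd4, h1.2, h2.2]
        conv_rhs => rw [e0, T.cf_add hd1 hv1a]
        simp only [map_smul, LinearMap.smul_apply, smul_eq_mul]
        ring
    · exact q1 v hva hvs hvw
  -- surjectivity
  have hsurj : ∀ θ : F, ∃ w, B w a = 0 ∧ B w s = 0 ∧ cf B L a w = θ := by
    intro θ
    obtain ⟨l, hl⟩ : ∃ l, l = (cf B L a v1 + θ) / B v1 w0 := ⟨_, rfl⟩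
    have hl' : l * B v1 w0 = cf B L a v1 + θ := by rw [hl]; field_simp
    have h3 : B (l • w0) a = 0 := by rw [map_smul, LinearMap.smul_apply, hw0a, smul_zero]
    have h4 : B (l • w0) s = 0 := by rw [map_smul, LinearMap.smul_apply, hw0s, smul_zero]
    refine ⟨v1 + l • w0, ?_, ?_, ?_⟩
    · rw [map_add, LinearMap.add_apply, hv1a, h3, add_zero]
    · rw [map_add, LinearMap.add_apply, hv1s, h4, add_zero]
    · rw [T.cf_add hv1a h3, (hls l).1, add_zero, map_smul, smul_eq_mul, hl', ← add_assoc, CharTwo.add_self_eq_zero,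
        zero_add]
  refine T.finQ_of hs has q2 (fun v hv c hc => T.toSit.orb_smul hI hv hc) ?_ hsurj
  intro v hva hm
  exact ⟨fun h => hP v h hva hm, fun h => T.orb_of_zero hm hva h⟩

end H7.SpTwo
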