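import Cfsg.Agent.Lib.H7.SpTwoA

set_option autoImplicit false

/-!
Level sets of an anisotropic "quadratic" function on a plane are not contained in proper
additive cosets.
-/

namespace H7.SpTwo

open Module

variable {F W : Type*} [Field F] [Finite F] [CharP F 2] [AddCommGroup W] [Module F W]

/-- an additive functional on a plane vanishes on a line -/
lemma exists_line (h2 : 2 ≤ finrank F W) (θ : W →+ ZMod 2) : ∃ u : W, u ≠ 0 ∧ ∀ l : F, θ (l • u) = 0 := by
  let _ : Algebra (ZMod 2) F := ZMod.algebra F 2
  obtain ⟨e1, he1⟩ : ∃ e1 : W, e1 ≠ 0 := by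
    have : Nontrivial W := Module.nontrivial_of_finrank_pos (R := F) (by omega)
    exact exists_ne 0
  obtain ⟨e2, he2⟩ : ∃ e2 : W, e2 ∉ Submodule.span F {e1} := by
    by_contra hcon
    push Not at hcon
    have : Submodule.span F {e1} = ⊤ := by rw [eq_top_iff]; intro x _; exact hcon x
    have h3 : finrank F (Submodule.span F {e1}) ≤ 1 := by
      have := finrank_span_le_card (R := F) ({e1} : Set W)
      simpa using this
    rw [this, finrank_top] at h3
    omega
  -- the functionals
  let P : W → F →+ ZMod 2 := fun e => θ.comp ((smulAddHom F W).flip e)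
  have hP : ∀ e l, P e l = θ (l • e) := fun e l => rfl
  by_cases hπ : ∀ l, P e1 l = 0
  · exact ⟨e1, he1, hπ⟩
  push Not at hπ
  let M0 : F →+ Dual (ZMod 2) F :=
    { toFun := fun t => AddMonoidHom.toZModLinearMap 2 (P (t • e1))
      map_zero' := by
        ext l
        show P ((0 : F) • e1) l = 0
        rw [hP, zero_smul, smul_zero, map_zero]
      map_add' := by
        intro s t
        ext l
        show P ((s + t) • e1) l = P (s • e1) l + P (t • e1) l
        rw [hP, hP, hP, add_smul, smul_add, map_add] }
  let M : F →ₗ[ZMod 2] Dual (ZMod 2) F := AddMonoidHom.toZModLinearMap 2 M0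
  have hM : ∀ t l, M t l = θ (l • t • e1) := fun t l => rfl
  have hinj : Function.Injective M := by
    rw [← LinearMap.ker_eq_bot, LinearMap.ker_eq_bot']
    intro t ht
    by_contra ht0
    obtain ⟨l, hl⟩ := hπ
    apply hl
    rw [hP]
    have h1 : M t (l * t⁻¹) = 0 := by rw [ht]; rfl
    rw [hM, smul_smul, mul_assoc, inv_mul_cancel₀ ht0, mul_one] at h1
    exact h1
  have hsurj : Function.Surjective M :=
    (LinearMap.injective_iff_surjective_of_finrank_eq_finrank (Subspace.dual_finrank_eq (K := ZMod 2) (V := F)).symm).1 hinj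
  obtain ⟨t, ht⟩ := hsurj (AddMonoidHom.toZModLinearMap 2 (P e2))
  refine ⟨e2 + t • e1, ?_, fun l => ?_⟩
  · intro h
    apply he2
    have : e2 = (-t) • e1 := by rw [neg_smul]; exact eq_neg_of_add_eq_zero_left h
    rw [this]; exact Submodule.smul_mem _ _ (Submodule.mem_span_singleton_self _)
  · have h1 : M t l = θ (l • e2) := by rw [ht]; rfl
    rw [hM] at h1
    rw [smul_add, map_add, h1, CharTwo.add_self_eq_zero]

theorem span_lemma [FiniteDimensional F W] (b : LinearMap.BilinForm F W) (hb : b.IsAlt) (hnd : ∀ v, (∀ w, b v w = 0) → v = 0)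
    (h2 : finrank F W = 2) (d : W → F) (hd : ∀ x y, d (x + y) = d x + d y + b x y) (ha : ∀ x, d x = 0 → x = 0)
    {ν : F} (hν : ν ≠ 0) (θ : W →+ ZMod 2) (κ : ZMod 2) (hθ : ∀ w, d w = ν → θ w = κ) : θ = 0 := by
  classical
  have : Fintype F := Fintype.ofFinite F
  obtain ⟨u, hu0, hu⟩ := exists_line (F := F) (by omega) θ
  have hsymm : ∀ x y, b x y = b y x := symm hb
  obtain ⟨e, he⟩ : ∃ e, b e u = 1 := by
    obtain ⟨x, hx⟩ : ∃ x, b u x ≠ 0 := by
      by_contra hcon; push Not at hcon; exact hu0 (hnd u hcon)
    refine ⟨(b u x)⁻¹ • x, ?_⟩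
    rw [map_smul, LinearMap.smul_apply, hsymm x u, smul_eq_mul, inv_mul_cancel₀ hx]
  have hd0 : d 0 = 0 := by
    have := hd 0 0
    rw [add_zero, map_zero, add_zero, CharTwo.add_self_eq_zero] at this
    exact this
  -- decomposition
  have hdec : ∀ w, ∃ α : F, w = α • u + (b w u) • e := by
    intro w
    have h1 : w - (b w u) • e ∈ Submodule.span F {u} := by
      by_contra hni
      have hli := li2 hu0 hni
      have hsp : Submodule.span F (Set.range ![u, w - (b w u) • e]) = ⊤ :=
        hli.span_eq_top_of_card_eq_finrank (by rw [h2]; simp)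
      apply hu0
      apply hnd
      have hle : Submodule.span F (Set.range ![u, w - (b w u) • e]) ≤ LinearMap.ker (b u) := by
        rw [Submodule.span_le]
        rintro _ ⟨i, rfl⟩
        fin_cases i
        · exact hb u
        · show b u (w - (b w u) • e) = 0
          rw [map_sub, map_smul, hsymm u e, he, hsymm u w]; simp
      intro y
      have : y ∈ LinearMap.ker (b u) := hle (by rw [hsp]; trivial)
      exact this
    obtain ⟨α, hα⟩ := Submodule.mem_span_singleton.1 h1
    exact ⟨α, by rw [hα]; abel⟩
  -- additive bijections on lines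
  have hline : ∀ x : W, x ≠ 0 → ∀ y : F, ∃ l : F, d (l • x) = y := by
    intro x hx
    have hadd : ∀ s t : F, d ((s + t) • x) = d (s • x) + d (t • x) := by
      intro s t
      rw [add_smul, hd]
      simp [hb x]
    have hinj : Function.Injective (fun l : F => d (l • x)) := by
      intro s t hst
      have hst' : d (s • x) = d (t • x) := hst
      have h1 : d ((s + t) • x) = 0 := by rw [hadd, hst', CharTwo.add_self_eq_zero]
      rcases smul_eq_zero.1 (ha _ h1) with h | h
      · exact CharTwo.add_eq_zero.1 h
      · exact absurd h hx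
    exact fun y => (Finite.injective_iff_surjective.1 hinj) y
  have hD1 : ∀ s t : F, d ((s + t) • u) = d (s • u) + d (t • u) := by
    intro s t
    rw [add_smul, hd]
    simp [hb u]
  -- κ = 0
  have hκ : κ = 0 := by
    obtain ⟨l, hl⟩ := hline u hu0 ν
    rw [← hθ _ hl, hu]
  subst hκ
  by_contra hθ0
  -- π β = θ (β e) is not zero
  have hdir : ∀ α β : F, θ (α • u + β • e) = θ (β • e) := by
    intro α β
    rw [map_add, hu, zero_add]
  obtain ⟨x0, hx0⟩ : ∃ x0 : F, θ (x0 • e) ≠ 0 := by
    by_contra hcon
    push Not at hcon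
    apply hθ0
    ext w
    obtain ⟨α, hα⟩ := hdec w
    rw [hα, hdir, hcon]
    rfl
  have hz2 : ∀ z : ZMod 2, z ≠ 0 → z = 1 := by decide
  -- the function λ
  have hne : ∀ τ : F, e + τ • u ≠ 0 := by
    intro τ h
    have : b (e + τ • u) u = 0 := by rw [h]; simp
    rw [map_add, LinearMap.add_apply, map_smul, LinearMap.smul_apply, he, hb u] at this
    simp at this
  choose lam hlam using fun τ : F => hline (e + τ • u) (hne τ) ν
  have hlam0 : ∀ τ, lam τ ≠ 0 := by
    intro τ h
    have := hlam τ
    rw [h, zero_smul, hd0] at this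
    exact hν this.symm
  have hlamπ : ∀ τ, θ (lam τ • e) = 0 := by
    intro τ
    have h1 := hθ _ (hlam τ)
    rw [smul_add, map_add, smul_smul, hu, add_zero] at h1
    exact h1
  let K' : Finset F := Finset.univ.filter fun β => β ≠ 0 ∧ θ (β • e) = 0
  let K : Finset F := Finset.univ.filter fun β => θ (β • e) = 0
  let N : Finset F := Finset.univ.filter fun β => θ (β • e) ≠ 0
  let A : F → Finset F := fun β => Finset.univ.filter fun α => α ≠ 0 ∧ d (α • u) = α * β
  have hKN : K.card = N.card := by
    refine Finset.card_bij (fun β _ => β + x0) ?_ ?_ ?_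
    · intro β hβ
      simp only [K, N, Finset.mem_filter, Finset.mem_univ, true_and] at hβ ⊢
      rw [add_smul, map_add, hβ, zero_add]; exact hx0
    · intro β _ β' _ h
      exact add_right_cancel h
    · intro β hβ
      simp only [N, Finset.mem_filter, Finset.mem_univ, true_and] at hβ
      refine ⟨β + x0, ?_, ?_⟩
      · simp only [K, Finset.mem_filter, Finset.mem_univ, true_and]
        rw [add_smul, map_add, hz2 _ hβ, hz2 _ hx0]; decide
      · rw [add_assoc, CharTwo.add_self_eq_zero, add_zero]
  have hK'K : K'.card + 1 = K.card := by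
    have : K = insert 0 K' := by
      ext β
      simp only [K, K', Finset.mem_insert, Finset.mem_filter, Finset.mem_univ, true_and]
      by_cases h : β = 0
      · simp [h]
      · simp [h]
    rw [this, Finset.card_insert_of_notMem]
    simp [K']
  -- there is β in N with A β empty
  have hex : ∃ β ∈ N, A β = ∅ := by
    by_contra hcon
    push Not at hcon
    -- total count of the A β
    have hA : (Finset.univ.filter fun α : F => α ≠ 0).card = ∑ β : F, (A β).card := by
      rw [Finset.card_eq_sum_card_fiberwise (f := fun α => d (α • u) / α) (t := Finset.univ)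
        (fun _ _ => Finset.mem_coe.2 (Finset.mem_univ _))]
      refine Finset.sum_congr rfl fun β _ => ?_
      congr 1
      ext α
      simp only [A, Finset.mem_filter, Finset.mem_univ, true_and]
      constructor
      · rintro ⟨h1, h2⟩
        refine ⟨h1, ?_⟩
        rw [← h2]; field_simp
      · rintro ⟨h1, h2⟩
        refine ⟨h1, ?_⟩
        rw [h2]; field_simp
    have hq : (Finset.univ.filter fun α : F => α ≠ 0).card + 1 = Fintype.card F := by
      have := Finset.card_erase_add_one (Finset.mem_univ (0 : F))
      rw [Finset.card_univ] at this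
      rw [← this]
      congr 1
      congr 1
      ext α; simp
    have hdis : Disjoint K' N := by
      rw [Finset.disjoint_left]
      intro β h1 h2
      simp only [K', N, Finset.mem_filter, Finset.mem_univ, true_and] at h1 h2
      exact h2 h1.2
    have h3 : ∑ β ∈ K', (A β).card + ∑ β ∈ N, (A β).card ≤ ∑ β : F, (A β).card := by
      rw [← Finset.sum_union hdis]
      exact Finset.sum_le_sum_of_subset (Finset.subset_univ _)
    have h4 : N.card ≤ ∑ β ∈ N, (A β).card := by
      rw [Finset.card_eq_sum_ones]
      refine Finset.sum_le_sum fun β hβ => ?_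
      exact Finset.card_pos.2 (hcon β hβ)
    have h5 : Fintype.card F = ∑ β ∈ K', (Finset.univ.filter fun τ => lam τ = β).card := by
      rw [← Finset.card_univ]
      refine Finset.card_eq_sum_card_fiberwise (f := lam) ?_
      intro τ _
      simp only [K', Finset.coe_filter, Finset.mem_univ, true_and, Set.mem_ofPred_eq]
      exact ⟨hlam0 τ, hlamπ τ⟩
    have h6 : ∀ β ∈ K', (Finset.univ.filter fun τ => lam τ = β).card ≤ (A β).card + 1 := by
      intro β hβ
      simp only [K', Finset.mem_filter, Finset.mem_univ, true_and] at hβ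
      by_cases hem : (Finset.univ.filter fun τ => lam τ = β) = ∅
      · rw [hem]; simp
      obtain ⟨τ0, hτ0⟩ := Finset.nonempty_iff_ne_empty.2 hem
      simp only [Finset.mem_filter, Finset.mem_univ, true_and] at hτ0
      refine le_trans ?_ (Finset.card_insert_le 0 (A β))
      refine Finset.card_le_card_of_injOn (fun τ => β * (τ + τ0)) ?_ ?_
      · intro τ hτ
        simp only [Finset.coe_filter, Finset.mem_univ, true_and, Set.mem_ofPred_eq] at hτ
        simp only [Finset.coe_insert, Set.mem_insert_iff, A, Finset.coe_filter, Finset.mem_univ, true_and,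
          Set.mem_ofPred_eq]
        by_cases h0 : β * (τ + τ0) = 0
        · left; exact h0
        right
        refine ⟨h0, ?_⟩
        have e1 := hlam τ
        have e2 := hlam τ0
        rw [hτ] at e1
        rw [hτ0] at e2
        have e3 : ∀ t : F, d (β • (e + t • u)) = d (β • e) + d ((β * t) • u) + β * (β * t) := by
          intro t
          rw [smul_add, smul_smul, hd]
          simp only [map_smul, LinearMap.smul_apply, smul_eq_mul, he]
          ring
        rw [e3] at e1 e2
        rw [mul_add, hD1]
        have e4 : d (β • e) + d ((β * τ) • u) + β * (β * τ) = d (β • e) + d ((β * τ0) • u) + β * (β * τ0) := by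
          rw [e1, e2]
        have h2' : (2 : F) = 0 := CharTwo.two_eq_zero
        linear_combination e4 + (d ((β * τ0) • u) - β * (β * τ)) * h2'
      · intro τ _ τ' _ h
        have h' : β * (τ + τ0) = β * (τ' + τ0) := h
        exact add_right_cancel (mul_left_cancel₀ hβ.1 h')
    have h7 : Fintype.card F ≤ ∑ β ∈ K', ((A β).card + 1) := by
      rw [h5]; exact Finset.sum_le_sum h6
    rw [Finset.sum_add_distrib, Finset.sum_const, smul_eq_mul, mul_one] at h7
    omega
  obtain ⟨β, hβN, hAβ⟩ := hex
  have hinj : Function.Injective (fun α : F => d (α • u) + α * β) := by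
    intro s t hst
    have hst' : d (s • u) + s * β = d (t • u) + t * β := hst
    by_contra hne
    have h1 : s + t ∈ A β := by
      simp only [A, Finset.mem_filter, Finset.mem_univ, true_and]
      refine ⟨fun h => hne (CharTwo.add_eq_zero.1 h), ?_⟩
      rw [hD1]
      have h2' : (2 : F) = 0 := CharTwo.two_eq_zero
      linear_combination hst' + (d (t • u) - s * β) * h2'
    rw [hAβ] at h1
    exact absurd h1 (Finset.notMem_empty _)
  obtain ⟨α, hα⟩ := (Finite.injective_iff_surjective.1 hinj) (ν + d (β • e))
  have hα' : d (α • u) + α * β = ν + d (β • e) := hα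
  have h8 : d (α • u + β • e) = ν := by
    rw [hd]
    simp only [map_smul, LinearMap.smul_apply, smul_eq_mul, hsymm u e, he, mul_one]
    have h2' : (2 : F) = 0 := CharTwo.two_eq_zero
    linear_combination hα' + d (β • e) * h2'
  have h9 := hθ _ h8
  rw [hdir] at h9
  simp only [N, Finset.mem_filter, Finset.mem_univ, true_and] at hβN
  exact hβN h9

theorem span_lemma' [FiniteDimensional F W] (b : LinearMap.BilinForm F W) (hb : b.IsAlt) (hnd : ∀ v, (∀ w, b v w = 0) → v = 0)
    (h2 : finrank F W = 2) (d : W → F) (hd : ∀ x y, d (x + y) = d x + d y + b x y) (ha : ∀ x, d x = 0 → x = 0)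
    {ν : F} (hν : ν ≠ 0) (g : W →+ F) (hg : ∀ w w', d w = ν → d w' = ν → g w = g w') : g = 0 := by
  let _ : Algebra (ZMod 2) F := ZMod.algebra F 2
  ext w
  show g w = 0
  rw [← Module.forall_dual_apply_eq_zero_iff (ZMod 2) (g w)]
  intro φ
  have h1 : ∃ κ : ZMod 2, ∀ w, d w = ν → (φ.toAddMonoidHom.comp g) w = κ := by
    by_cases h : ∃ w0, d w0 = ν
    · obtain ⟨w0, hw0⟩ := h
      refine ⟨φ (g w0), fun w hw => ?_⟩
      show φ (g w) = φ (g w0)
      rw [hg w w0 hw hw0]
    · push Not at h
      exact ⟨0, fun w hw => absurd hw (h w)⟩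
  obtain ⟨κ, hκ⟩ := h1
  have h2 := span_lemma b hb hnd h2 d hd ha hν (φ.toAddMonoidHom.comp g) κ hκ
  have h3 : (φ.toAddMonoidHom.comp g) w = 0 := by rw [h2]; rfl
  exact h3

end H7.SpTwo
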