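import Cfsg.Agent.Lib.H7.SpTwoC
import Cfsg.Agent.Lib.H7.SpTwoSpan

set_option autoImplicit false

/-!
The anisotropic case without transvections at `a`.
-/

namespace H7.SpTwo

open Module H95.SpBasic H95.SpGeom H95.SpOrthEven

variable {F V : Type*} [Field F] [AddCommGroup V] [Module F V]
variable {B : LinearMap.BilinForm F V} {L : Subgroup (V ≃ₗ[F] V)} {a : V}
variable [CharP F 2]

lemma SitT.surj_cf [FiniteDimensional F V] [Finite F] (T : SitT B L a) (h3 : 3 ≤ finrank F V) (θ : F) :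
    ∃ w, B w a = 0 ∧ cf B L a w = θ := by
  have : Fintype F := Fintype.ofFinite F
  obtain ⟨w0, hw0, hw0n⟩ := exists_perp_notin B h3 a
  obtain ⟨w1, h1, h01⟩ := exists_val2 (B := B) T.nd T.ne hw0n 0 1
  have hw1 : B w1 a = 0 := by rw [symm T.alt, h1]
  have hs0 : ∀ c : F, B (c • w0) a = 0 := fun c => by rw [map_smul, LinearMap.smul_apply, hw0, smul_zero]
  have hs1 : ∀ c : F, B (c • w1) a = 0 := fun c => by rw [map_smul, LinearMap.smul_apply, hw1, smul_zero]
  have hadd : ∀ s t : F, cf B L a ((s + t) • w1) = cf B L a (s • w1) + cf B L a (t • w1) := by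
    intro s t
    rw [add_smul, T.cf_add (hs1 s) (hs1 t)]
    simp [T.alt w1]
  -- some α gives an injective map
  have hex : ∃ α : F, ∀ β : F, cf B L a (β • w1) + α * β = 0 → β = 0 := by
    by_contra hcon
    push Not at hcon
    choose f hf using hcon
    have hinj : Function.Injective f := by
      intro s t hst
      have h5 := (hf s).1
      have h6 := (hf t).1
      rw [← hst] at h6
      have h7 : s * f s = t * f s := by
        have h8 : cf B L a (f s • w1) + s * f s = cf B L a (f s • w1) + t * f s := by rw [h5, h6]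
        exact add_left_cancel h8
      exact mul_right_cancel₀ (hf s).2 h7
    obtain ⟨s, hs⟩ := (Finite.injective_iff_surjective.1 hinj) 0
    exact (hf s).2 hs
  obtain ⟨α, hα⟩ := hex
  have hinj : Function.Injective (fun β : F => cf B L a (β • w1) + α * β) := by
    intro s t hst
    have hst' : cf B L a (s • w1) + α * s = cf B L a (t • w1) + α * t := hst
    have h5 := hα (s + t) (by
      rw [hadd]
      have h2 : (2 : F) = 0 := CharTwo.two_eq_zero
      linear_combination hst' + (cf B L a (t • w1) + α * t) * h2)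
    exact CharTwo.add_eq_zero.1 h5
  obtain ⟨β, hβ⟩ := (Finite.injective_iff_surjective.1 hinj) (θ + cf B L a (α • w0))
  have hβ' : cf B L a (β • w1) + α * β = θ + cf B L a (α • w0) := hβ
  refine ⟨α • w0 + β • w1, by rw [map_add, LinearMap.add_apply, hs0, hs1, add_zero], ?_⟩
  rw [T.cf_add (hs0 α) (hs1 β)]
  simp only [map_smul, LinearMap.smul_apply, smul_eq_mul, h01, mul_one]
  have h2 : (2 : F) = 0 := CharTwo.two_eq_zero
  linear_combination hβ' + cf B L a (α • w0) * h2

lemma SitT.surj_W [FiniteDimensional F V] [Finite F] (T : SitT B L a) (h3 : 3 ≤ finrank F V) {s : V}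
    (hs : B a s ≠ 0) (θ : F) : ∃ w, B w a = 0 ∧ B w s = 0 ∧ cf B L a w = θ := by
  obtain ⟨w, hw, hc⟩ := T.surj_cf h3 θ
  refine ⟨w + (- B w s / B a s) • a, ?_, ?_, ?_⟩
  · rw [map_add, LinearMap.add_apply, map_smul, LinearMap.smul_apply, hw, T.alt a]; simp
  · rw [map_add, LinearMap.add_apply, map_smul, LinearMap.smul_apply, smul_eq_mul]
    field_simp
    ring
  · rw [T.cf_add_smul hw, hc]

lemma SitT.partner1 [FiniteDimensional F V] [Finite F] (T : SitT B L a) (h3 : 3 ≤ finrank F V) :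
    ∃ s, Orb L a s ∧ B a s = 1 := by
  obtain ⟨s0, hs0, hne⟩ := T.toSit.exists_ne T.ne
  obtain ⟨m, hm⟩ : ∃ m, m = B a s0 := ⟨_, rfl⟩
  have hne' : m ≠ 0 := by rw [hm]; exact hne
  obtain ⟨w, hwa, hws, hc⟩ := T.surj_W h3 hne ((m ^ 2)⁻¹)
  have h1 := hs0.act (T.us hwa)
  have hsw : B s0 w = 0 := by rw [symm T.alt, hws]
  have hsa : B s0 a = m := by rw [symm T.alt, hm]
  rw [hsw, hsa, hc, zero_add] at h1
  have h2 : B s0 (s0 + m • w + ((m ^ 2)⁻¹ * m) • a) = 1 := by
    simp only [map_add, map_smul, smul_eq_mul, T.alt s0, hsw, hsa]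
    field_simp
    ring
  obtain ⟨g, hg, hgs⟩ := hs0
  refine ⟨g⁻¹ (s0 + m • w + ((m ^ 2)⁻¹ * m) • a), h1.map (L.inv_mem hg), ?_⟩
  rw [← T.iso hg a, apply_inv, hgs, h2]

lemma SitT.iso_of_dim [FiniteDimensional F V] [Finite F] (T : SitT B L a) (h5 : 5 ≤ finrank F V) :
    IsoAt B L a := by
  have : Fintype F := Fintype.ofFinite F
  obtain ⟨s, hs⟩ : ∃ s, B a s = 1 := by
    obtain ⟨x, hx⟩ : ∃ x, B a x ≠ 0 := by
      by_contra hcon; push Not at hcon; exact T.ne (T.nd a hcon)
    exact ⟨(B a x)⁻¹ • x, by rw [map_smul, smul_eq_mul, inv_mul_cancel₀ hx]⟩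
  have hfr := orth2_finrank T.alt (U := (⊤ : Submodule F V)) (Submodule.mem_top (x := a)) (Submodule.mem_top (x := s)) hs
  rw [finrank_top] at hfr
  obtain ⟨U, hU⟩ : ∃ U, U = orth2 B (⊤ : Submodule F V) a s := ⟨_, rfl⟩
  rw [← hU] at hfr
  have hmU : ∀ x ∈ U, B x a = 0 ∧ B x s = 0 := by
    intro x hx
    rw [hU, mem_orth2] at hx
    exact hx.2
  have hU0 : U ≠ ⊥ := by
    intro h
    rw [h, finrank_bot] at hfr; omega
  obtain ⟨v, hvU, hv0⟩ := Submodule.exists_mem_ne_zero_of_ne_bot hU0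
  obtain ⟨v', hv'1, hv'2⟩ := exists_perp_notin (B.restrict U) (by omega) ⟨v, hvU⟩
  have hv'1' : B (v' : V) v = 0 := hv'1
  have hv'3 : (v' : V) ∉ Submodule.span F {v} := by
    intro h
    obtain ⟨c, hc⟩ := Submodule.mem_span_singleton.1 h
    apply hv'2
    rw [Submodule.mem_span_singleton]
    exact ⟨c, Subtype.ext hc⟩
  obtain ⟨p, q, hpq, he⟩ := Fintype.exists_ne_map_eq_of_card_lt
    (fun p : F × F => cf B L a (p.1 • v + p.2 • (v' : V))) (by
      rw [Fintype.card_prod]
      have := Fintype.one_lt_card (α := F)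
      nlinarith)
  have he' : cf B L a (p.1 • v + p.2 • (v' : V)) = cf B L a (q.1 • v + q.2 • (v' : V)) := he
  have hpU : p.1 • v + p.2 • (v' : V) ∈ U := U.add_mem (U.smul_mem _ hvU) (U.smul_mem _ v'.2)
  have hqU : q.1 • v + q.2 • (v' : V) ∈ U := U.add_mem (U.smul_mem _ hvU) (U.smul_mem _ v'.2)
  have hsum : p.1 • v + p.2 • (v' : V) + (q.1 • v + q.2 • (v' : V)) ∈ U := U.add_mem hpU hqU
  have hvv' : B v (v' : V) = 0 := by rw [symm T.alt, hv'1']
  refine ⟨p.1 • v + p.2 • (v' : V) + (q.1 • v + q.2 • (v' : V)), ?_, (hmU _ hsum).1, ?_⟩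
  · intro hm
    obtain ⟨c, hc⟩ := Submodule.mem_span_singleton.1 hm
    have h1 := (hmU _ hsum).2
    rw [← hc, map_smul, LinearMap.smul_apply, hs, smul_eq_mul, mul_one] at h1
    rw [h1, zero_smul] at hc
    have h2 := LinearIndependent.pair_iff.1 (li2 hv0 hv'3) (p.1 + q.1) (p.2 + q.2) (by
      rw [add_smul, add_smul, hc]; abel)
    exact hpq (Prod.ext (CharTwo.add_eq_zero.1 h2.1) (CharTwo.add_eq_zero.1 h2.2))
  · have h1 := T.us (hmU _ hsum).1
    rw [T.cf_add (hmU _ hpU).1 (hmU _ hqU).1, he', CharTwo.add_self_eq_zero, zero_add] at h1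
    have h2 : B (p.1 • v + p.2 • (v' : V)) (q.1 • v + q.2 • (v' : V)) = 0 := by
      simp only [map_add, LinearMap.add_apply, map_smul, LinearMap.smul_apply, T.alt v, T.alt (v' : V), hv'1', hvv']
      simp
    rwa [h2] at h1

lemma SitT.beta0 [FiniteDimensional F V] [Finite F] (T : SitT B L a) (h3 : 3 ≤ finrank F V)
    (hN : ∀ v, Orb L a v → ∀ e, Orb L a e → B e v = 0 → e ∈ Submodule.span F {v})
    {s : V} (hs : Orb L a s) {β : F} (hsb : Orb L a (s + β • a)) (hne : B a s ≠ 0) : β = 0 := by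
  obtain ⟨m, hm⟩ : ∃ m, m = B a s := ⟨_, rfl⟩
  have hne' : m ≠ 0 := by rw [hm]; exact hne
  obtain ⟨w, hwa, hws, hc⟩ := T.surj_W h3 hne (β / m)
  have haw : B a w = 0 := by rw [symm T.alt, hwa]
  have hsw : B s w = 0 := by rw [symm T.alt, hws]
  have hsa : B s a = m := by rw [symm T.alt, hm]
  have h1 := hsb.act (T.us hwa)
  have e1 : B (s + β • a) a = m := by
    rw [map_add, LinearMap.add_apply, map_smul, LinearMap.smul_apply, T.alt a, hsa]; simp
  have e2 : B (s + β • a) w = 0 := by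
    rw [map_add, LinearMap.add_apply, map_smul, LinearMap.smul_apply, haw, hsw]; simp
  rw [e1, e2, hc, zero_add] at h1
  have e3 : s + β • a + m • w + (β / m * m) • a = s + m • w := by
    have : β / m * m = β := by field_simp
    rw [this]
    have e4 : s + β • a + m • w + β • a = s + m • w + ((1 : F) + 1) • (β • a) := by module
    rw [e4, CharTwo.add_self_eq_zero, zero_smul, add_zero]
  rw [e3] at h1
  have h2 := hN s hs _ h1 (by rw [map_add, LinearMap.add_apply, T.alt s, map_smul, LinearMap.smul_apply, hws]; simp)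
  obtain ⟨c, hc2⟩ := Submodule.mem_span_singleton.1 h2
  have h4 : B a (c • s) = B a (s + m • w) := by rw [hc2]
  rw [map_smul, map_add, map_smul, haw, ← hm, smul_zero, add_zero, smul_eq_mul] at h4
  have h5 : c = 1 := by
    have : c * m = 1 * m := by rw [h4, one_mul]
    exact mul_right_cancel₀ hne' this
  rw [h5, one_smul] at hc2
  have h6 : m • w = 0 := by
    have : s + m • w = s + 0 := by rw [← hc2, add_zero]
    exact add_left_cancel this
  have h7 : w = 0 := by
    rcases smul_eq_zero.1 h6 with h | h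
    · exact absurd h hne'
    · exact h
  rw [h7, T.cf_zero] at hc
  by_contra hβ
  exact (div_ne_zero hβ hne') hc.symm

theorem SitT.finQ_aniso [FiniteDimensional F V] [Finite F] (T : SitT B L a) (h4 : finrank F V = 4)
    (hA : ∀ w, B w a = 0 → w ∉ Submodule.span F {a} → cf B L a w ≠ 0)
    (hN : ∀ e, Orb L a e → B e a = 0 → e ∈ Submodule.span F {a}) : ∃ Q, FinQ B L a Q := by
  have h3 : 3 ≤ finrank F V := by omega
  have hN' : ∀ v, Orb L a v → ∀ e, Orb L a e → B e v = 0 → e ∈ Submodule.span F {v} := by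
    intro v hv e he hev
    obtain ⟨g, hg, rfl⟩ := hv
    have e1 : g (g⁻¹ e) = e := apply_inv g e
    have h1 : B (g⁻¹ e) a = 0 := by rw [← T.iso hg (g⁻¹ e) a, e1, hev]
    obtain ⟨c, hc⟩ := Submodule.mem_span_singleton.1 (hN _ (he.map (L.inv_mem hg)) h1)
    rw [Submodule.mem_span_singleton]
    exact ⟨c, by rw [← map_smul, hc, e1]⟩
  have hA' : ∀ v, Orb L a v → ∀ w, B w v = 0 → w ∉ Submodule.span F {v} → cf B L v w ≠ 0 := by
    intro v hv w hwv hni
    obtain ⟨g, hg, rfl⟩ := hv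
    have e1 : g (g⁻¹ w) = w := apply_inv g w
    have h1 : B (g⁻¹ w) a = 0 := by rw [← T.iso hg (g⁻¹ w) a, e1, hwv]
    rw [← e1, T.cf_map hg h1]
    refine hA _ h1 (fun hm => hni ?_)
    obtain ⟨c, hc⟩ := Submodule.mem_span_singleton.1 hm
    rw [Submodule.mem_span_singleton]
    exact ⟨c, by rw [← map_smul, hc, e1]⟩
  obtain ⟨s, hs, has⟩ := T.partner1 h3
  have hsa : B s a = 1 := by rw [symm T.alt, has]
  have Ts := T.transfer hs
  have hne1 : B a s ≠ 0 := by rw [has]; exact one_ne_zero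
  have hWs : ∀ w, w ≠ 0 → B w a = 0 → B w s = 0 → w ∉ Submodule.span F {s} := by
    intro w hw0 hwa hws hm
    obtain ⟨c, hc⟩ := Submodule.mem_span_singleton.1 hm
    have : c = 0 := by
      rw [← hc, map_smul, LinearMap.smul_apply, hsa, smul_eq_mul, mul_one] at hwa; exact hwa
    rw [this, zero_smul] at hc; exact hw0 hc.symm
  -- the plane
  have hfr := orth2_finrank T.alt (U := (⊤ : Submodule F V)) (Submodule.mem_top (x := a)) (Submodule.mem_top (x := s)) has
  rw [finrank_top, h4] at hfr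
  have hndU := orth2_nondeg T.alt (U := (⊤ : Submodule F V)) (fun v _ h => T.nd v (fun w => h w trivial))
    (Submodule.mem_top (x := a)) (Submodule.mem_top (x := s)) has
  obtain ⟨U, hU⟩ : ∃ U, U = orth2 B (⊤ : Submodule F V) a s := ⟨_, rfl⟩
  rw [← hU] at hfr hndU
  have hmU : ∀ x, x ∈ U ↔ B x a = 0 ∧ B x s = 0 := by
    intro x
    rw [hU, mem_orth2]
    simp
  -- the vectors a_w
  have haw : ∀ w, B w a = 0 → B w s = 0 → Orb L a (a + w + cf B L s w • s) := by
    intro w hwa hws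
    have h1 := (Orb.refl (L := L) a).act (Ts.us hws)
    have h2 : B a w = 0 := by rw [symm T.alt, hwa]
    rw [has, one_smul, h2, zero_add, mul_one] at h1
    exact h1
  -- first relation
  have hrel : ∀ ν : F, ν ≠ 0 → ∀ w w', B w a = 0 → B w s = 0 → B w' a = 0 → B w' s = 0 →
      cf B L s w = ν → cf B L s w' = ν → cf B L a (ν⁻¹ • w) = cf B L a (ν⁻¹ • w') := by
    intro ν hν w w' hwa hws hwa' hws' hc hc'
    have h1 := haw w hwa hws
    have h1' := haw w' hwa' hws'
    rw [hc] at h1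
    rw [hc'] at h1'
    obtain ⟨v, hv⟩ : ∃ v, v = ν⁻¹ • (w + w') := ⟨_, rfl⟩
    have hva : B v a = 0 := by
      rw [hv, map_smul, LinearMap.smul_apply, map_add, LinearMap.add_apply, hwa, hwa', add_zero, smul_zero]
    have hav : B a v = 0 := by rw [symm T.alt, hva]
    have hsv : B s v = 0 := by
      rw [symm T.alt, hv, map_smul, LinearMap.smul_apply, map_add, LinearMap.add_apply, hws, hws', add_zero, smul_zero]
    have hνv : ν • v = w + w' := by rw [hv, smul_smul, mul_inv_cancel₀ hν, one_smul]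
    have h2 := h1.act (T.us hva)
    have e1 : B (a + w + ν • s) a = ν := by
      simp only [map_add, LinearMap.add_apply, map_smul, LinearMap.smul_apply, T.alt a, hwa, hsa]; simp
    have e2 : B (a + w + ν • s) v = ν⁻¹ * B w w' := by
      simp only [map_add, LinearMap.add_apply, map_smul, LinearMap.smul_apply, hav, hsv]
      rw [hv]
      simp only [map_add, map_smul, T.alt w]
      simp
    rw [e1, e2, hνv] at h2
    obtain ⟨κ, hκ⟩ : ∃ κ, κ = ν⁻¹ * B w w' + cf B L a v * ν := ⟨_, rfl⟩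
    rw [← hκ] at h2
    have e3 : a + w + ν • s + (w + w') + κ • a = a + w' + ν • s + κ • a + ((1 : F) + 1) • w := by module
    rw [e3, CharTwo.add_self_eq_zero, zero_smul, add_zero] at h2
    have h3' := T.beta0 h3 hN' h1' h2 (by
      simp only [map_add, map_smul, T.alt a, has]
      rw [symm T.alt a w', hwa']
      simpa using hν)
    rw [hκ] at h3'
    have h5 : cf B L a v = cf B L a (ν⁻¹ • w) + cf B L a (ν⁻¹ • w') + ν⁻¹ * (ν⁻¹ * B w w') := by
      rw [hv, smul_add, T.cf_add (by rw [map_smul, LinearMap.smul_apply, hwa, smul_zero])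
        (by rw [map_smul, LinearMap.smul_apply, hwa', smul_zero])]
      simp only [map_smul, LinearMap.smul_apply, smul_eq_mul]
    have h6 : ν * (cf B L a (ν⁻¹ • w) + cf B L a (ν⁻¹ • w')) = 0 := by
      rw [h5] at h3'
      have h2' : (2 : F) = 0 := CharTwo.two_eq_zero
      have h7 : ν⁻¹ * ν = 1 := inv_mul_cancel₀ hν
      linear_combination h3' - (ν⁻¹ * B w w') * h7 - (ν⁻¹ * B w w') * h2'
    rcases mul_eq_zero.1 h6 with h | h
    · exact absurd h hν
    · exact CharTwo.add_eq_zero.1 h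
  -- the key: g_ν = 0
  have hkey : ∀ ν : F, ν ≠ 0 → ∀ w, B w a = 0 → B w s = 0 → cf B L s w = ν ^ 2 * cf B L a (ν⁻¹ • w) := by
    intro ν hν w hwa hws
    let g : U →+ F :=
      { toFun := fun w => ν ^ 2 * cf B L a (ν⁻¹ • (w : V)) + cf B L s (w : V)
        map_zero' := by
          show ν ^ 2 * cf B L a (ν⁻¹ • (0 : V)) + cf B L s (0 : V) = 0
          rw [smul_zero, T.cf_zero, Ts.cf_zero]; ring
        map_add' := by
          intro x y
          show ν ^ 2 * cf B L a (ν⁻¹ • ((x : V) + y)) + cf B L s ((x : V) + y) =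
            ν ^ 2 * cf B L a (ν⁻¹ • (x : V)) + cf B L s (x : V) + (ν ^ 2 * cf B L a (ν⁻¹ • (y : V)) + cf B L s (y : V))
          obtain ⟨x1, x2⟩ := (hmU x).1 x.2
          obtain ⟨y1, y2⟩ := (hmU y).1 y.2
          rw [smul_add, T.cf_add (by rw [map_smul, LinearMap.smul_apply, x1, smul_zero])
            (by rw [map_smul, LinearMap.smul_apply, y1, smul_zero]), Ts.cf_add x2 y2]
          simp only [map_smul, LinearMap.smul_apply, smul_eq_mul]
          have h2' : (2 : F) = 0 := CharTwo.two_eq_zero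
          have h7 : ν⁻¹ * ν = 1 := inv_mul_cancel₀ hν
          linear_combination (B (x : V) y) * h2' + (B (x : V) y) * (ν⁻¹ * ν + 1) * h7 }
    have hg0 : g = 0 := by
      refine span_lemma' (B.restrict U) (fun x => T.alt (x : V)) ?_ (by omega) (fun w => cf B L s (w : V)) ?_ ?_ hν g ?_
      · intro v hv
        have := hndU v v.2 (fun w hw => hv ⟨w, hw⟩)
        exact Subtype.ext this
      · intro x y
        obtain ⟨x1, x2⟩ := (hmU x).1 x.2
        obtain ⟨y1, y2⟩ := (hmU y).1 y.2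
        exact Ts.cf_add x2 y2
      · intro x hx
        by_contra hne
        obtain ⟨x1, x2⟩ := (hmU x).1 x.2
        have hx0 : (x : V) ≠ 0 := fun h => hne (Subtype.ext h)
        exact hA' s hs x x2 (hWs x hx0 x1 x2) hx
      · intro x y hx hy
        obtain ⟨x1, x2⟩ := (hmU x).1 x.2
        obtain ⟨y1, y2⟩ := (hmU y).1 y.2
        show ν ^ 2 * cf B L a (ν⁻¹ • (x : V)) + cf B L s (x : V) = ν ^ 2 * cf B L a (ν⁻¹ • (y : V)) + cf B L s (y : V)
        have hx' : cf B L s (x : V) = ν := hx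
        have hy' : cf B L s (y : V) = ν := hy
        rw [hx', hy', hrel ν hν x y x1 x2 y1 y2 hx' hy']
    have h8 : g ⟨w, (hmU w).2 ⟨hwa, hws⟩⟩ = 0 := by rw [hg0]; rfl
    have h9 : ν ^ 2 * cf B L a (ν⁻¹ • w) + cf B L s w = 0 := h8
    exact (CharTwo.add_eq_zero.1 h9).symm
  have q2 : ∀ v, B v a = 0 → B v s = 0 → cf B L s v = cf B L a v ∧ ∀ k : F, cf B L a (k • v) = k ^ 2 * cf B L a v := by
    intro v hva hvs
    have h1 : cf B L s v = cf B L a v := by
      have := hkey 1 one_ne_zero v hva hvs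
      rwa [one_pow, one_mul, inv_one, one_smul] at this
    refine ⟨h1, fun k => ?_⟩
    by_cases hk : k = 0
    · rw [hk, zero_smul, T.cf_zero]; ring
    have := hkey k⁻¹ (inv_ne_zero hk) v hva hvs
    rw [inv_inv, h1] at this
    rw [this]; field_simp
  refine T.finQ_of hs has q2 ?_ ?_ (T.surj_W h3 hne1)
  · intro v hv ν hν
    obtain ⟨w, hwa, hws, hc⟩ := T.surj_W h3 hne1 ν
    have h1 := haw w hwa hws
    rw [(q2 w hwa hws).1, hc] at h1
    have hva : B (ν⁻¹ • w) a = 0 := by rw [map_smul, LinearMap.smul_apply, hwa, smul_zero]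
    have h2 := h1.act (T.us hva)
    have e1 : B (a + w + ν • s) a = ν := by
      simp only [map_add, LinearMap.add_apply, map_smul, LinearMap.smul_apply, T.alt a, hwa, hsa]; simp
    have e2 : B (a + w + ν • s) (ν⁻¹ • w) = 0 := by
      have h5 : B a w = 0 := by rw [symm T.alt, hwa]
      have h6 : B s w = 0 := by rw [symm T.alt, hws]
      simp only [map_add, LinearMap.add_apply, map_smul, LinearMap.smul_apply, T.alt w, h5, h6]; simp
    rw [e1, e2, (q2 w hwa hws).2, hc, zero_add, smul_smul, mul_inv_cancel₀ hν, one_smul] at h2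
    have e3 : a + w + ν • s + w + (ν⁻¹ ^ 2 * ν * ν) • a = ν • s := by
      have : ν⁻¹ ^ 2 * ν * ν = 1 := by field_simp
      rw [this, one_smul]
      have e4 : a + w + ν • s + w + a = ν • s + ((1 : F) + 1) • (a + w) := by module
      rw [e4, CharTwo.add_self_eq_zero, zero_smul, add_zero]
    rw [e3] at h2
    -- Orb (ν • s)
    obtain ⟨g, hg, hgs⟩ := hs.symm'.trans' hv
    have := h2.map hg
    rwa [map_smul, hgs] at this
  · intro v hva hni
    exact ⟨fun h => absurd (hN v h hva) hni, fun h => absurd h (hA v hva hni)⟩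

end H7.SpTwo
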