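import Cfsg.Agent.Lib.H7.SpTwoD

set_option autoImplicit false

/-!
The exceptional cases over the field with two elements in dimension four.
-/

namespace H7.SpTwo

open Module H95.SpBasic H95.SpGeom H95.SpOrthEven

variable {F V : Type*} [Field F] [AddCommGroup V] [Module F V]
variable {B : LinearMap.BilinForm F V} {L : Subgroup (V ≃ₗ[F] V)} {a : V}

lemma plane_ne [FiniteDimensional F V] (hb : B.IsAlt) (hnd : ∀ v, (∀ w, B v w = 0) → v = 0)
    (h2 : finrank F V = 2) {x y : V} (hx : x ≠ 0) (hy : y ∉ Submodule.span F {x}) : B x y ≠ 0 := by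
  intro h0
  have hsp : Submodule.span F (Set.range ![x, y]) = ⊤ :=
    (li2 hx hy).span_eq_top_of_card_eq_finrank (by rw [h2]; simp)
  apply hx
  apply hnd
  have hle : Submodule.span F (Set.range ![x, y]) ≤ LinearMap.ker (B x) := by
    rw [Submodule.span_le]
    rintro _ ⟨i, rfl⟩
    fin_cases i
    · exact hb x
    · exact h0
  intro z
  have : z ∈ LinearMap.ker (B x) := hle (by rw [hsp]; trivial)
  exact this

lemma plane_dec [FiniteDimensional F V] (hb : B.IsAlt) (hnd : ∀ v, (∀ w, B v w = 0) → v = 0)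
    (h2 : finrank F V = 2) {u e : V} (hue : B e u = 1) (w : V) : ∃ α : F, w = α • u + (B w u) • e := by
  have hu0 : u ≠ 0 := by
    intro h; rw [h, map_zero] at hue; exact zero_ne_one hue
  have h1 : w - (B w u) • e ∈ Submodule.span F {u} := by
    by_contra hni
    apply plane_ne hb hnd h2 hu0 hni
    have h3 : B (w - (B w u) • e) u = 0 := by
      rw [map_sub, LinearMap.sub_apply, map_smul, LinearMap.smul_apply, hue]; simp
    rw [← LinearMap.BilinForm.IsAlt.neg_eq hb, h3, neg_zero]
  obtain ⟨α, hα⟩ := Submodule.mem_span_singleton.1 h1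
  exact ⟨α, by rw [hα]; abel⟩

variable [CharP F 2]

theorem SitT.main [FiniteDimensional F V] [Finite F] (T : SitT B L a) (h4 : 4 ≤ finrank F V) :
    (∃ Q, FinQ B L a Q) ∨ ((∀ x : F, x ≠ 0 → x = 1) ∧ finrank F V = 4 ∧
      ∃ e, Orb L a e ∧ B e a = 0 ∧ e ∉ Submodule.span F {a} ∧ cf B L a e = 1) := by
  by_cases hp : ∃ e, Orb L a e ∧ B e a = 0 ∧ e ∉ Submodule.span F {a} ∧ cf B L a e ≠ 0
  · right
    obtain ⟨e, he, hea, hni, hc⟩ := hp
    rcases T.perp he hea hni with h | h
    · exact absurd h.1 hc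
    refine ⟨h.1, ?_, e, he, hea, hni, h.2.1⟩
    by_contra hne
    have h5 : 5 ≤ finrank F V := by omega
    exact T.no_all h.1 (T.all_of_pair (T.iso_of_dim h5) h.1 he hea h.2.1) h5
  · left
    push Not at hp
    by_cases hI : IsoAt B L a
    · exact T.finQ_iso hI hp
    · have hA : ∀ w, B w a = 0 → w ∉ Submodule.span F {a} → cf B L a w ≠ 0 := by
        intro w hw hn hc
        have := T.us hw
        rw [hc] at this
        exact hI ⟨w, hn, hw, this⟩
      refine T.finQ_aniso ?_ hA ?_
      · by_contra hne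
        exact hI (T.iso_of_dim (by omega))
      · intro e he hea
        by_contra hni
        exact hA e hea hni (hp e he hea hni)

lemma notin_of_two (hF : ∀ x : F, x ≠ 0 → x = 1) {x y : V} (hx : x ≠ 0) (hxy : x ≠ y) :
    x ∉ Submodule.span F {y} := by
  intro hm
  obtain ⟨c, hc⟩ := Submodule.mem_span_singleton.1 hm
  by_cases h : c = 0
  · rw [h, zero_smul] at hc; exact hx hc.symm
  · rw [hF c h, one_smul] at hc; exact hxy hc.symm

/-- The `A_6` case: `L` has index two. -/
theorem SitT.exc_aniso [FiniteDimensional F V] (T : SitT B L a) (hF : ∀ x : F, x ≠ 0 → x = 1)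
    (h4 : finrank F V = 4) {e : V} (he : Orb L a e) (hea : B e a = 0) (hni : e ∉ Submodule.span F {a})
    (hc1 : cf B L a e = 1) (hI : ¬ IsoAt B L a) :
    ∃ t ∈ isom B, t ∉ L ∧ ∀ g ∈ isom B, g ∈ L ∨ g * t ∈ L := by
  obtain ⟨s, hs, hne⟩ := T.toSit.exists_ne T.ne
  have has : B a s = 1 := hF _ hne
  have hsa : B s a = 1 := by rw [symm T.alt, has]
  -- e' in W
  obtain ⟨e', he'⟩ : ∃ e', e' = e + B e s • a := ⟨_, rfl⟩
  have he'o : Orb L a e' := by rw [he']; exact T.toSit.perp_add (Orb.refl a) he hea hni _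
  have he'a : B e' a = 0 := by
    rw [he', map_add, LinearMap.add_apply, map_smul, LinearMap.smul_apply, hea, T.alt a]; simp
  have he's : B e' s = 0 := by
    rw [he', map_add, LinearMap.add_apply, map_smul, LinearMap.smul_apply, has, smul_eq_mul, mul_one,
      CharTwo.add_self_eq_zero]
  have hc' : cf B L a e' = 1 := by rw [he', T.cf_add_smul hea, hc1]
  have hni' : e' ∉ Submodule.span F {a} := by
    intro hm
    apply hni
    have : e = e' - B e s • a := by rw [he']; abel
    rw [this]
    exact Submodule.sub_mem _ hm (Submodule.smul_mem _ _ (Submodule.mem_span_singleton_self a))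
  have hce' : cf B L e' a = 1 := by
    rcases T.perp he'o he'a hni' with h | h
    · rw [hc'] at h; exact absurd h.1 one_ne_zero
    · exact h.2.2
  have hsa' : Orb L a (s + a) := by
    obtain ⟨g, hg, hgx⟩ := T.exists_tt he'o he'a 1
    have h1 := hs.map hg
    have hse' : B s e' = 0 := by rw [symm T.alt, he's]
    rw [hgx, one_smul, one_smul, hc', hce', hsa, hse'] at h1
    simpa using h1
  have hall : ∀ x, x ≠ 0 → Orb L a x := by
    refine T.toSit.all_orb T.ne (fun x hx => ?_)
    have hax : B a x = 1 := hF _ hx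
    have hxa : B x a = 1 := by rw [symm T.alt, hax]
    obtain ⟨κ, hκ⟩ : ∃ κ, κ = B x s := ⟨_, rfl⟩
    obtain ⟨w, hw⟩ : ∃ w, w = x - s - κ • a := ⟨_, rfl⟩
    have hwa : B w a = 0 := by
      rw [hw]; simp only [map_sub, LinearMap.sub_apply, map_smul, LinearMap.smul_apply, hxa, hsa, T.alt a]; simp
    have hws : B w s = 0 := by
      rw [hw]; simp only [map_sub, LinearMap.sub_apply, map_smul, LinearMap.smul_apply, has, T.alt s, ← hκ]; simp
    have hsw : B s w = 0 := by rw [symm T.alt, hws]
    have haw : B a w = 0 := by rw [symm T.alt, hwa]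
    have hx' : x = s + w + κ • a := by rw [hw]; abel
    have h1 := hs.act (T.us hwa)
    rw [hsa, hsw, one_smul, mul_one, zero_add] at h1
    have h2 := hsa'.act (T.us hwa)
    have e1 : B (s + a) a = 1 := by rw [map_add, LinearMap.add_apply, T.alt a, hsa, add_zero]
    have e2 : B (s + a) w = 0 := by rw [map_add, LinearMap.add_apply, haw, hsw, add_zero]
    rw [e1, e2, one_smul, mul_one, zero_add] at h2
    by_cases hc : cf B L a w = κ
    · rw [hx', ← hc]; exact h1
    · have h5 : cf B L a w + 1 = κ := by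
        have h6 : cf B L a w + κ = 1 := hF _ (fun h => hc (CharTwo.add_eq_zero.1 h))
        rw [← h6, ← add_assoc, CharTwo.add_self_eq_zero, zero_add]
      rw [hx', ← h5]
      have e3 : s + w + (cf B L a w + 1) • a = s + a + w + cf B L a w • a := by module
      rw [e3]; exact h2
  have hT : ∀ x, x ≠ 0 → SitT B L x := fun x hx => T.transfer (hall x hx)
  have hIx : ∀ x, x ≠ 0 → ¬ IsoAt B L x := by
    intro x hx h
    exact hI (h.transfer (hT x hx).toSit (hall x hx).symm')
  have hcx : ∀ x y, x ≠ 0 → y ≠ 0 → y ≠ x → B y x = 0 → cf B L x y = 1 := by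
    intro x y hx hy hxy h0
    apply hF
    intro hc
    have := (hT x hx).us h0
    rw [hc] at this
    exact hIx x hx ⟨y, notin_of_two hF hy hxy, h0, this⟩
  have htt : ∀ x y, x ≠ 0 → y ≠ 0 → y ≠ x → B y x = 0 → tr B T.alt x 1 * tr B T.alt y 1 ∈ L := by
    intro x y hx hy hxy h0
    obtain ⟨g, hg, hgx⟩ := (hT x hx).exists_tt ((hall x hx).symm'.trans' (hall y hy)) h0 1
    have h0' : B x y = 0 := by rw [symm T.alt, h0]
    rw [one_smul, one_smul, hcx x y hx hy hxy h0, hcx y x hy hx (Ne.symm hxy) h0'] at hgx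
    have : tr B T.alt x 1 * tr B T.alt y 1 = g := by
      ext z
      show tr B T.alt x 1 (tr B T.alt y 1 z) = _
      rw [hgx, tr_apply, tr_apply]
      simp only [map_add, LinearMap.add_apply, map_smul, LinearMap.smul_apply, h0, smul_zero, add_zero]
      abel
    rw [this]; exact hg
  have hsq : ∀ x, tr B T.alt x 1 * tr B T.alt x 1 = 1 := by
    intro x
    rw [tr_mul, CharTwo.add_self_eq_zero, tr_zero]
  have htt' : ∀ x y, x ≠ 0 → y ≠ 0 → tr B T.alt x 1 * tr B T.alt y 1 ∈ L := by
    intro x y hx hy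
    by_cases hxy : y = x
    · rw [hxy, hsq]; exact L.one_mem
    by_cases h0 : B y x = 0
    · exact htt x y hx hy hxy h0
    -- an intermediate vector
    have hyx : B y x = 1 := hF _ h0
    have hfr := orth2_finrank T.alt (U := (⊤ : Submodule F V)) (Submodule.mem_top (x := y)) (Submodule.mem_top (x := x)) hyx
    rw [finrank_top, h4] at hfr
    obtain ⟨U, hU⟩ : ∃ U, U = orth2 B (⊤ : Submodule F V) y x := ⟨_, rfl⟩
    rw [← hU] at hfr
    have hU0 : U ≠ ⊥ := by
      intro h
      rw [h, finrank_bot] at hfr; omega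
    obtain ⟨z, hzU, hz0⟩ := Submodule.exists_mem_ne_zero_of_ne_bot hU0
    rw [hU, mem_orth2] at hzU
    obtain ⟨-, hzy, hzx⟩ := hzU
    have hyz : B y z = 0 := by rw [symm T.alt, hzy]
    have n1 : z ≠ x := by
      intro h; rw [h, symm T.alt, hyx] at hzy; exact one_ne_zero hzy
    have n2 : y ≠ z := by
      intro h; rw [← h, hyx] at hzx; exact one_ne_zero hzx
    have h1 := L.mul_mem (htt x z hx hz0 n1 hzx) (htt z y hz0 hy n2 hyz)
    have e1 : tr B T.alt x 1 * tr B T.alt z 1 * (tr B T.alt z 1 * tr B T.alt y 1) =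
        tr B T.alt x 1 * tr B T.alt y 1 := by
      rw [mul_assoc, ← mul_assoc (tr B T.alt z 1), hsq, one_mul]
    rwa [e1] at h1
  obtain ⟨t, ht⟩ : ∃ t, t = tr B T.alt a 1 := ⟨_, rfl⟩
  have ht2 : t * t = 1 := by rw [ht]; exact hsq a
  have htL : t ∉ L := by
    intro h
    have : Us B L a 0 1 := ⟨t, h, fun x => by rw [ht, tr_apply]; simp⟩
    exact one_ne_zero (T.tz 1 this)
  have hconj : ∀ h ∈ L, t * h * t ∈ L := by
    intro h hh
    have h1 : h⁻¹ * t * h = tr B T.alt (h⁻¹ a) 1 := by
      have := tr_conj B T.alt a 1 h⁻¹ ((isom B).inv_mem (T.iso hh))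
      rw [inv_inv] at this
      rw [ht]; exact this
    have h2 : h⁻¹ a ≠ 0 := by
      intro h0
      apply T.ne
      rw [← apply_inv h a, h0, map_zero]
    have h3 := htt' _ _ h2 T.ne
    rw [← h1, ← ht] at h3
    have h5 : t * h * t = h * (h⁻¹ * t * h * t) := by group
    rw [h5]
    exact L.mul_mem hh h3
  let M : Subgroup (V ≃ₗ[F] V) :=
    { carrier := {g | g ∈ L ∨ g * t ∈ L}
      one_mem' := Or.inl L.one_mem
      mul_mem' := by
        rintro g h (hg | hg) (hh | hh)
        · exact Or.inl (L.mul_mem hg hh)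
        · right
          rw [mul_assoc]; exact L.mul_mem hg hh
        · right
          have : g * h * t = (g * t) * (t * h * t) := by
            rw [mul_assoc g t, ← mul_assoc t (t * h) t, ← mul_assoc t t h, ht2, one_mul, mul_assoc]
          rw [this]; exact L.mul_mem hg (hconj h hh)
        · left
          have : g * h = (g * t) * (t * (h * t) * t) := by
            rw [mul_assoc t (h * t) t, mul_assoc h t t, ht2, mul_one, mul_assoc g t, ← mul_assoc t t h, ht2, one_mul]
          rw [this]; exact L.mul_mem hg (hconj _ hh)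
      inv_mem' := by
        rintro g (hg | hg)
        · exact Or.inl (L.inv_mem hg)
        · right
          have h1 := hconj _ (L.inv_mem hg)
          have htinv : t⁻¹ = t := inv_eq_of_mul_eq_one_right ht2
          have : t * (g * t)⁻¹ * t = g⁻¹ * t := by
            rw [mul_inv_rev, htinv, ← mul_assoc t t, ht2, one_mul]
          rwa [this] at h1 }
  have hM : ∀ g, g ∈ M ↔ g ∈ L ∨ g * t ∈ L := fun g => Iff.rfl
  have hle : isom B ≤ M := by
    apply isom_le_of_tr B T.alt T.nd
    intro v c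
    by_cases hc : c = 0
    · rw [hc, tr_zero]; exact M.one_mem
    by_cases hv : v = 0
    · have : tr B T.alt v c = 1 := by ext x; rw [hv]; simp
      rw [this]; exact M.one_mem
    rw [hF c hc, hM]
    right
    rw [ht]; exact htt' v a hv T.ne
  exact ⟨t, by rw [ht]; exact tr_mem_isom _ _ _ _, htL, fun g hg => (hM g).1 (hle hg)⟩

/-- The `S_5` case. -/
theorem SitT.exc_iso [FiniteDimensional F V] (T : SitT B L a) (hF : ∀ x : F, x ≠ 0 → x = 1)
    (h4 : finrank F V = 4) {e : V} (he : Orb L a e) (hea : B e a = 0) (hni : e ∉ Submodule.span F {a})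
    (hc1 : cf B L a e = 1) (hI : IsoAt B L a) :
    Nat.card L = Nat.card {p : V × V // B p.1 p.2 = 1} := by
  have hall := T.all_of_pair hI hF he hea hc1
  obtain ⟨s, hs, hne⟩ := T.toSit.exists_ne T.ne
  have has : B a s = 1 := hF _ hne
  have hsa : B s a = 1 := by rw [symm T.alt, has]
  have h01 : ∀ x : F, x = 0 ∨ x = 1 := fun x => by
    by_cases h : x = 0
    · exact Or.inl h
    · exact Or.inr (hF x h)
  -- e in W
  obtain ⟨e', he'⟩ : ∃ e', e' = e + B e s • a := ⟨_, rfl⟩
  have he'a : B e' a = 0 := by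
    rw [he', map_add, LinearMap.add_apply, map_smul, LinearMap.smul_apply, hea, T.alt a]; simp
  have he's : B e' s = 0 := by
    rw [he', map_add, LinearMap.add_apply, map_smul, LinearMap.smul_apply, has, smul_eq_mul, mul_one,
      CharTwo.add_self_eq_zero]
  have hc' : cf B L a e' = 1 := by rw [he', T.cf_add_smul hea, hc1]
  have hni' : e' ∉ Submodule.span F {a} := by
    intro hm
    apply hni
    have : e = e' - B e s • a := by rw [he']; abel
    rw [this]
    exact Submodule.sub_mem _ hm (Submodule.smul_mem _ _ (Submodule.mem_span_singleton_self a))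
  have he'0 : e' ≠ 0 := fun h => hni' (by rw [h]; exact Submodule.zero_mem _)
  have he'o : Orb L a e' := hall e' he'0
  have hce' : cf B L e' a = 1 := by
    rcases T.perp he'o he'a hni' with h | h
    · rw [hc'] at h; exact absurd h.1 one_ne_zero
    · exact h.2.2
  -- w0 in W
  obtain ⟨w0, hw00, hw0a, hw0s, hcw0⟩ : ∃ w0, w0 ≠ 0 ∧ B w0 a = 0 ∧ B w0 s = 0 ∧ cf B L a w0 = 0 := by
    obtain ⟨z, hz1, hz2, hz3⟩ := hI
    refine ⟨z + (- B z s) • a, ?_, ?_, ?_, ?_⟩
    · intro h
      apply hz1
      have : z = (B z s) • a := by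
        have e : z = z + (- B z s) • a + (B z s) • a := by module
        rw [e, h, zero_add]
        simp [has]
      rw [this]; exact Submodule.smul_mem _ _ (Submodule.mem_span_singleton_self a)
    · rw [map_add, LinearMap.add_apply, map_smul, LinearMap.smul_apply, hz2, T.alt a]; simp
    · rw [map_add, LinearMap.add_apply, map_smul, LinearMap.smul_apply, has]; simp
    · rw [T.cf_add_smul hz2]; exact T.cf_eq hz2 hz3
  have haw0 : B a w0 = 0 := by rw [symm T.alt, hw0a]
  have hsw0 : B s w0 = 0 := by rw [symm T.alt, hw0s]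
  have hae' : B a e' = 0 := by rw [symm T.alt, he'a]
  have hse' : B s e' = 0 := by rw [symm T.alt, he's]
  -- the plane W
  have hfr := orth2_finrank T.alt (U := (⊤ : Submodule F V)) (Submodule.mem_top (x := a)) (Submodule.mem_top (x := s)) has
  rw [finrank_top, h4] at hfr
  have hndU := orth2_nondeg T.alt (U := (⊤ : Submodule F V)) (fun v _ h => T.nd v (fun w => h w trivial))
    (Submodule.mem_top (x := a)) (Submodule.mem_top (x := s)) has
  obtain ⟨U, hU⟩ : ∃ U, U = orth2 B (⊤ : Submodule F V) a s := ⟨_, rfl⟩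
  rw [← hU] at hfr hndU
  have hmU : ∀ x, x ∈ U ↔ B x a = 0 ∧ B x s = 0 := by
    intro x
    rw [hU, mem_orth2]
    simp
  have hndU' : ∀ v : U, (∀ w : U, (B.restrict U) v w = 0) → v = 0 := by
    intro v hv
    exact Subtype.ext (hndU v v.2 (fun w hw => hv ⟨w, hw⟩))
  have heU : e' ∈ U := (hmU _).2 ⟨he'a, he's⟩
  have hwU : w0 ∈ U := (hmU _).2 ⟨hw0a, hw0s⟩
  have hew0 : B e' w0 = 1 := by
    apply hF
    refine plane_ne (B := B.restrict U) (fun x => T.alt (x : V)) hndU' (by omega) (x := ⟨e', heU⟩) (y := ⟨w0, hwU⟩)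
      (fun h => he'0 (congrArg Subtype.val h)) (notin_of_two hF (fun h => hw00 (congrArg Subtype.val h)) ?_)
    intro h
    have h1 : w0 = e' := congrArg Subtype.val h
    rw [h1, hc'] at hcw0
    exact one_ne_zero hcw0
  have hw0e : B w0 e' = 1 := by rw [symm T.alt, hew0]
  have hdecW : ∀ v, B v a = 0 → B v s = 0 → ∃ α β : F, v = α • w0 + β • e' := by
    intro v hva hvs
    obtain ⟨α, hα⟩ := plane_dec (B := B.restrict U) (fun x => T.alt (x : V)) hndU' (by omega) (u := ⟨w0, hwU⟩)
      (e := ⟨e', heU⟩) hew0 ⟨v, (hmU v).2 ⟨hva, hvs⟩⟩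
    exact ⟨α, _, congrArg Subtype.val hα⟩
  have hdec : ∀ x, ∃ v, B v a = 0 ∧ B v s = 0 ∧ x = B x s • a + B x a • s + v := by
    intro x
    refine ⟨x - B x s • a - B x a • s, ?_, ?_, by abel⟩
    · simp only [map_sub, LinearMap.sub_apply, map_smul, LinearMap.smul_apply, T.alt a, hsa]; simp
    · simp only [map_sub, LinearMap.sub_apply, map_smul, LinearMap.smul_apply, T.alt s, has]; simp
  -- stabiliser of the pair
  have hstab : ∀ g ∈ L, g a = a → g s = s → g = 1 := by
    intro g hg hga hgs
    have hgW : ∀ v, B v a = 0 → B v s = 0 → B (g v) a = 0 ∧ B (g v) s = 0 ∧ cf B L a (g v) = cf B L a v := by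
      intro v hva hvs
      refine ⟨?_, ?_, ?_⟩
      · rw [← hga, T.iso hg, hva]
      · rw [← hgs, T.iso hg, hvs]
      · have := T.cf_map hg hva
        rwa [hga] at this
    have hcomb : ∀ α β : F, cf B L a (α • w0 + β • e') = α ^ 2 * 0 + β ^ 2 * 1 + α * β := by
      intro α β
      rcases h01 α with h | h <;> rcases h01 β with h' | h' <;> rw [h, h']
      · rw [zero_smul, zero_smul, add_zero, T.cf_zero]; ring
      · rw [zero_smul, one_smul, zero_add, hc']; ring
      · rw [zero_smul, one_smul, add_zero, hcw0]; ring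
      · rw [one_smul, one_smul, T.cf_add hw0a he'a, hcw0, hc', hw0e]; ring
    have hge : g e' = e' := by
      obtain ⟨h1, h2, h3⟩ := hgW e' he'a he's
      obtain ⟨α, β, hαβ⟩ := hdecW _ h1 h2
      rw [hαβ, hcomb, hc'] at h3
      rcases h01 α with h | h <;> rcases h01 β with h' | h'
      · rw [h, h'] at h3; simp at h3
      · rw [hαβ, h, h', zero_smul, one_smul, zero_add]
      · rw [h, h'] at h3; simp at h3
      · rw [h, h'] at h3
        simp [CharTwo.add_self_eq_zero] at h3
    have hgw : g w0 = w0 ∨ g w0 = w0 + e' := by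
      obtain ⟨h1, h2, h3⟩ := hgW w0 hw0a hw0s
      obtain ⟨α, β, hαβ⟩ := hdecW _ h1 h2
      rw [hαβ, hcomb, hcw0] at h3
      rcases h01 α with h | h <;> rcases h01 β with h' | h'
      · exfalso
        rw [h, h', zero_smul, zero_smul, add_zero] at hαβ
        exact hw00 ((LinearEquiv.map_eq_zero_iff g).1 hαβ)
      · rw [h, h'] at h3; simp at h3
      · left; rw [hαβ, h, h', zero_smul, one_smul, add_zero]
      · right; rw [hαβ, h, h', one_smul, one_smul]
    rcases hgw with hgw | hgw
    · ext x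
      obtain ⟨v, hva, hvs, hx⟩ := hdec x
      obtain ⟨α, β, hαβ⟩ := hdecW v hva hvs
      show g x = x
      have : g x = g (B x s • a + B x a • s + v) := by rw [← hx]
      rw [this, hαβ]
      simp only [map_add, map_smul, hga, hgs, hgw, hge]
      rw [← hαβ, ← hx]
    · exfalso
      have Te := T.transfer he'o
      have : Us B L e' 0 1 := by
        refine ⟨g, hg, fun x => ?_⟩
        obtain ⟨v, hva, hvs, hx⟩ := hdec x
        obtain ⟨α, β, hαβ⟩ := hdecW v hva hvs
        have hBx : B x e' = α := by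
          rw [hx, hαβ]
          simp only [map_add, LinearMap.add_apply, map_smul, LinearMap.smul_apply, hae', hse', hw0e, T.alt e']
          simp
        have h1 : g x = g (B x s • a + B x a • s + v) := by rw [← hx]
        rw [h1, hαβ]
        simp only [map_add, map_smul, hga, hgs, hgw, hge]
        rw [hBx]
        conv_rhs => rw [hx, hαβ]
        simp only [smul_add, smul_zero, map_zero, zero_add, add_zero, one_mul]
        abel
      exact one_ne_zero (Te.tz 1 this)
  -- transitivity on the pairs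
  have htr : ∀ y, B a y = 1 → ∃ h ∈ L, h a = a ∧ h s = y := by
    intro y hy
    have hya : B y a = 1 := by rw [symm T.alt, hy]
    obtain ⟨w, hwa, hws, hyw⟩ := hdec y
    obtain ⟨u, hu, hux⟩ := T.us hwa
    have hsw : B s w = 0 := by rw [symm T.alt, hws]
    have haw : B a w = 0 := by rw [symm T.alt, hwa]
    have hua : u a = a := by
      rw [hux, T.alt a, haw]; simp
    have hus : u s = s + w + cf B L a w • a := by
      rw [hux, hsa, hsw]; simp
    by_cases hc : cf B L a w = B y s
    · refine ⟨u, hu, hua, ?_⟩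
      rw [hus, hc]
      conv_rhs => rw [hyw]
      rw [hya, one_smul]; abel
    · obtain ⟨t, ht, htx⟩ := T.exists_tt he'o he'a 1
      rw [one_smul, one_smul, hc', hce'] at htx
      have hta : t a = a := by
        rw [htx, T.alt a, hae']; simp
      have hts : t s = s + a := by
        rw [htx, hsa, hse']; simp
      refine ⟨u * t, L.mul_mem hu ht, ?_, ?_⟩
      · show u (t a) = a
        rw [hta, hua]
      · show u (t s) = y
        rw [hts, map_add, hus, hua]
        have h5 : cf B L a w + 1 = B y s := by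
          have h6 : cf B L a w + B y s = 1 := hF _ (fun h => hc (CharTwo.add_eq_zero.1 h))
          rw [← h6, ← add_assoc, CharTwo.add_self_eq_zero, zero_add]
        conv_rhs => rw [hyw]
        rw [← h5, hya]
        module
  refine Nat.card_congr (Equiv.ofBijective (fun g : L => ⟨((g : V ≃ₗ[F] V) a, (g : V ≃ₗ[F] V) s), ?_⟩) ⟨?_, ?_⟩)
  · show B ((g : V ≃ₗ[F] V) a) ((g : V ≃ₗ[F] V) s) = 1
    rw [T.iso g.2, has]
  · intro g h hgh
    have h1 : ((g : V ≃ₗ[F] V) a, (g : V ≃ₗ[F] V) s) = ((h : V ≃ₗ[F] V) a, (h : V ≃ₗ[F] V) s) :=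
      congrArg Subtype.val hgh
    have ha := (Prod.ext_iff.1 h1).1
    have hs' := (Prod.ext_iff.1 h1).2
    have h2 := hstab (h⁻¹ * g : V ≃ₗ[F] V) (L.mul_mem (L.inv_mem h.2) g.2) (by
      show (h : V ≃ₗ[F] V)⁻¹ ((g : V ≃ₗ[F] V) a) = a
      have : (g : V ≃ₗ[F] V) a = (h : V ≃ₗ[F] V) a := ha
      rw [this, inv_apply]) (by
      show (h : V ≃ₗ[F] V)⁻¹ ((g : V ≃ₗ[F] V) s) = s
      have : (g : V ≃ₗ[F] V) s = (h : V ≃ₗ[F] V) s := hs'
      rw [this, inv_apply])
    exact Subtype.ext (inv_mul_eq_one.1 h2).symm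
  · rintro ⟨⟨x, y⟩, hxy⟩
    have hxy' : B x y = 1 := hxy
    have hx0 : x ≠ 0 := by
      intro h; rw [h] at hxy'; simp at hxy'
    obtain ⟨g, hg, hgx⟩ := hall x hx0
    obtain ⟨h, hh, hha, hhs⟩ := htr (g⁻¹ y) (by
      rw [← T.iso hg a, apply_inv, hgx, hxy'])
    refine ⟨⟨g * h, L.mul_mem hg hh⟩, ?_⟩
    apply Subtype.ext
    show (g (h a), g (h s)) = (x, y)
    rw [hha, hhs, hgx, apply_inv]

end H7.SpTwo
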