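import Cfsg.Agent.Lib.H7.SpTwoE
import Cfsg.Agent.Lib.H7.DickHom

set_option autoImplicit false

/-!
Subgroups of an orthogonal group in characteristic two containing all Siegel elements.
-/

namespace H7.SpTwo

open Module H95.SpBasic H95.SpGeom H95.SpOrthEven
open H7.DickHom (Fx mem_Fx)

variable {F V : Type*} [Field F] [AddCommGroup V] [Module F V]
variable {B : LinearMap.BilinForm F V} {L : Subgroup (V ≃ₗ[F] V)} {a : V} {Q : V → F}

/-- the quadratic form as an object of Mathlib -/
def IsQ.toQF (h : IsQ B Q) : QuadraticForm F V where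
  toFun := Q
  toFun_smul := fun c v => by rw [h.smul, smul_eq_mul, _root_.sq]
  exists_companion' := ⟨B, h.add⟩

lemma IsQ.toQF_apply (h : IsQ B Q) (v : V) : (IsQ.toQF h) v = Q v := rfl

lemma IsQ.polar (h : IsQ B Q) (x y : V) : QuadraticMap.polar (IsQ.toQF h) x y = B x y := by
  rw [QuadraticMap.polar, IsQ.toQF_apply, IsQ.toQF_apply, IsQ.toQF_apply, h.add]
  ring

/-- isometries of the form -/
def isoQ (Q : V → F) (g : V ≃ₗ[F] V) : Prop := ∀ v, Q (g v) = Q v

lemma isoQ.toB (h : IsQ B Q) {g : V ≃ₗ[F] V} (hg : isoQ Q g) : g ∈ isom B := by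
  intro x y
  have h1 := h.add (g x) (g y)
  have h2 := h.add x y
  rw [← map_add, hg, hg, hg, h2] at h1
  exact (add_left_cancel h1).symm

lemma isoQ.mul {g h : V ≃ₗ[F] V} (hg : isoQ Q g) (hh : isoQ Q h) : isoQ Q (g * h) := by
  intro v
  show Q (g (h v)) = _
  rw [hg, hh]

lemma isoQ.inv {g : V ≃ₗ[F] V} (hg : isoQ Q g) : isoQ Q g⁻¹ := by
  intro v
  rw [← hg (g⁻¹ v), apply_inv]

lemma isoQ.one : isoQ Q (1 : V ≃ₗ[F] V) := fun _ => rfl

variable [CharP F 2]

lemma refl_isoQ (hB : B.IsAlt) (h : IsQ B Q) {v : V} (hv : Q v ≠ 0) : isoQ Q (tr B hB v (Q v)⁻¹) :=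
  fun x => tr_isQ hB h (inv_mul_cancel₀ hv) x

lemma tr_sq (hB : B.IsAlt) (v : V) (c : F) : tr B hB v c * tr B hB v c = 1 := by
  rw [tr_mul, CharTwo.add_self_eq_zero, tr_zero]

/-- the subgroup generated by the Siegel elements of `L` -/
def SE (B : LinearMap.BilinForm F V) (Q : V → F) : Subgroup (V ≃ₗ[F] V) :=
  Subgroup.closure {g | ∃ a w, a ≠ 0 ∧ Q a = 0 ∧ B w a = 0 ∧ ∀ x, g x = x + B x a • w + (B x w + Q w * B x a) • a}

/-- all Siegel elements exist in `L` -/
def HasS (B : LinearMap.BilinForm F V) (Q : V → F) (L : Subgroup (V ≃ₗ[F] V)) : Prop :=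
  ∀ a w, a ≠ 0 → Q a = 0 → B w a = 0 → Us B L a w (Q w)

omit [CharP F 2] in
lemma HasS.us (h : HasS B Q L) {a w : V} (ha : a ≠ 0) (hQa : Q a = 0) (hw : B w a = 0) : Us B (SE B Q) a w (Q w) := by
  obtain ⟨g, _, hgx⟩ := h a w ha hQa hw
  exact ⟨g, Subgroup.subset_closure ⟨a, w, ha, hQa, hw, hgx⟩, hgx⟩

omit [CharP F 2] in
lemma HasS.le (h : HasS B Q L) : SE B Q ≤ L := by
  rw [SE, Subgroup.closure_le]
  rintro g ⟨a, w, ha, hQa, hw, hgx⟩
  obtain ⟨g', hg', hgx'⟩ := h a w ha hQa hw
  have : g = g' := by ext x; rw [hgx, hgx']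
  rw [this]; exact hg'

lemma siegel_isoQ (hq : IsQ B Q) {g : V ≃ₗ[F] V} {a w : V} (hQa : Q a = 0) (hw : B w a = 0)
    (hgx : ∀ x, g x = x + B x a • w + (B x w + Q w * B x a) • a) : isoQ Q g := by
  intro x
  rw [hgx, hq.add, hq.add, hq.smul, hq.smul, hQa]
  simp only [map_add, LinearMap.add_apply, map_smul, LinearMap.smul_apply, smul_eq_mul, hw]
  have h2 : (2 : F) = 0 := CharTwo.two_eq_zero
  linear_combination (B x a * B x w + B x a ^ 2 * Q w) * h2

lemma SE_isoQ (hq : IsQ B Q) {g : V ≃ₗ[F] V} (hg : g ∈ SE B Q) : isoQ Q g := by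
  rw [SE] at hg
  induction hg using Subgroup.closure_induction with
  | mem g hg =>
    obtain ⟨a, w, _, hQa, hw, hgx⟩ := hg
    exact siegel_isoQ hq hQa hw hgx
  | one => exact isoQ.one
  | mul g h _ _ hg hh => exact hg.mul hh
  | inv g _ hg => exact hg.inv

omit [CharP F 2] in
lemma SE_conj (hq : IsQ B Q) {g h : V ≃ₗ[F] V} (hg : g ∈ SE B Q) (hh : isoQ Q h) : h * g * h⁻¹ ∈ SE B Q := by
  have hB' := isoQ.toB hq hh
  rw [SE] at hg
  induction hg using Subgroup.closure_induction with
  | mem g hg =>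
    obtain ⟨a, w, ha, hQa, hw, hgx⟩ := hg
    refine Subgroup.subset_closure ⟨h a, h w, ?_, ?_, ?_, fun x => ?_⟩
    · intro h0; exact ha ((LinearEquiv.map_eq_zero_iff h).1 h0)
    · rw [hh, hQa]
    · rw [hB', hw]
    · have e1 : B (h⁻¹ x) a = B x (h a) := by
        rw [← hB' (h⁻¹ x) a, apply_inv]
      have e2 : B (h⁻¹ x) w = B x (h w) := by
        rw [← hB' (h⁻¹ x) w, apply_inv]
      show h (g (h⁻¹ x)) = _
      rw [hgx, map_add, map_add, map_smul, map_smul, apply_inv, e1, e2, hh]
  | one => rw [mul_one, mul_inv_cancel]; exact Subgroup.one_mem _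
  | mul g g' _ _ hg hg' =>
    have : h * (g * g') * h⁻¹ = (h * g * h⁻¹) * (h * g' * h⁻¹) := by group
    rw [this]; exact Subgroup.mul_mem _ hg hg'
  | inv g _ hg =>
    have : h * g⁻¹ * h⁻¹ = (h * g * h⁻¹)⁻¹ := by group
    rw [this]; exact Subgroup.inv_mem _ hg

/-- products of two reflections: perpendicular vectors of norm one -/
lemma refl2_perp (hB : B.IsAlt) (hq : IsQ B Q) (hS : HasS B Q L) {v v' : V} (hv : Q v = 1)
    (hv' : Q v' = 1) (h0 : B v v' = 0) : tr B hB v 1 * tr B hB v' 1 ∈ SE B Q := by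
  by_cases hvv : v + v' = 0
  · have : v = v' := by
      have h2 : v' + v' = 0 := by rw [← two_smul F, CharTwo.two_eq_zero, zero_smul]
      exact add_right_cancel (hvv.trans h2.symm)
    rw [this, tr_sq]; exact Subgroup.one_mem _
  have hz : Q (v + v') = 0 := by rw [hq.add, hv, hv', h0, add_zero, CharTwo.add_self_eq_zero]
  have hvz : B v (v + v') = 0 := by rw [map_add, hB v, h0, add_zero]
  obtain ⟨g, hg, hgx⟩ := hS.us (a := v + v') (w := v) hvv hz hvz
  have : tr B hB v 1 * tr B hB v' 1 = g := by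
    ext x
    show tr B hB v 1 (tr B hB v' 1 x) = _
    have h0' : B v' v = 0 := by rw [symm hB, h0]
    rw [hgx, hv, tr_apply, tr_apply]
    simp only [map_add, LinearMap.add_apply, map_smul, LinearMap.smul_apply, smul_eq_mul, h0', one_mul, mul_zero,
      add_zero]
    have key : x + (B x v + B x v') • v + (B x v + (B x v + B x v')) • (v + v') =
        x + B x v' • v' + B x v • v + ((1 : F) + 1) • ((B x v + B x v') • v + B x v • v') := by module
    rw [key, CharTwo.add_self_eq_zero, zero_smul, add_zero]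
  rw [this]; exact hg

omit [CharP F 2] in
lemma exists_nonsing (hq : IsQ B Q) (U : Submodule F V) (hU : U ≠ ⊥)
    (hnd : ∀ x ∈ U, (∀ w ∈ U, B x w = 0) → x = 0) : ∃ x ∈ U, Q x ≠ 0 := by
  by_contra hcon
  push Not at hcon
  obtain ⟨x, hx, hx0⟩ := Submodule.exists_mem_ne_zero_of_ne_bot hU
  apply hx0
  apply hnd x hx
  intro w hw
  have := hq.add x w
  rw [hcon _ (U.add_mem hx hw), hcon _ hx, hcon _ hw, add_zero, zero_add] at this
  exact this.symm

lemma refl2 [FiniteDimensional F V] (hsq : ∀ x : F, IsSquare x) (hB : B.IsAlt)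
    (hnd : ∀ v, (∀ w, B v w = 0) → v = 0) (hq : IsQ B Q) (hS : HasS B Q L) (h4 : 4 ≤ finrank F V) {v v' : V}
    (hv : Q v ≠ 0) (hv' : Q v' ≠ 0) : tr B hB v (Q v)⁻¹ * tr B hB v' (Q v')⁻¹ ∈ SE B Q := by
  have norm1 : ∀ v, Q v ≠ 0 → ∃ c : F, c ≠ 0 ∧ Q (c • v) = 1 ∧ tr B hB v (Q v)⁻¹ = tr B hB (c • v) 1 := by
    intro v hv
    obtain ⟨d, hd⟩ := hsq (Q v)
    have hd0 : d ≠ 0 := by rintro rfl; rw [mul_zero] at hd; exact hv hd
    refine ⟨d⁻¹, inv_ne_zero hd0, ?_, ?_⟩
    · rw [hq.smul, hd]; field_simp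
    · rw [tr_smul, hd, one_mul, mul_inv, _root_.sq]
  obtain ⟨c, hc, h1, h2⟩ := norm1 v hv
  obtain ⟨c', hc', h1', h2'⟩ := norm1 v' hv'
  rw [h2, h2']
  obtain ⟨x, hx⟩ : ∃ x, x = c • v := ⟨_, rfl⟩
  obtain ⟨y, hy⟩ : ∃ y, y = c' • v' := ⟨_, rfl⟩
  rw [← hx, ← hy]
  rw [← hx] at h1
  rw [← hy] at h1'
  by_cases h0 : B x y = 0
  · exact refl2_perp hB hq hS h1 h1' h0
  -- intermediate vector
  obtain ⟨x', hx'⟩ : ∃ x', x' = (B x y)⁻¹ • x := ⟨_, rfl⟩
  have hxy : B x' y = 1 := by rw [hx', map_smul, LinearMap.smul_apply, smul_eq_mul, inv_mul_cancel₀ h0]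
  have hfr := orth2_finrank hB (U := (⊤ : Submodule F V)) (Submodule.mem_top (x := x')) (Submodule.mem_top (x := y)) hxy
  rw [finrank_top] at hfr
  have hndU := orth2_nondeg hB (U := (⊤ : Submodule F V)) (fun v _ h => hnd v (fun w => h w trivial))
    (Submodule.mem_top (x := x')) (Submodule.mem_top (x := y)) hxy
  have hU0 : orth2 B (⊤ : Submodule F V) x' y ≠ ⊥ := by
    intro h
    rw [h, finrank_bot] at hfr; omega
  obtain ⟨z, hz, hQz⟩ := exists_nonsing hq _ hU0 hndU
  rw [mem_orth2] at hz
  obtain ⟨-, hzx', hzy⟩ := hz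
  have hzx : B z x = 0 := by
    rw [hx', map_smul, smul_eq_mul] at hzx'
    rcases mul_eq_zero.1 hzx' with h | h
    · exact absurd h (inv_ne_zero h0)
    · exact h
  obtain ⟨k, hk, hk1, -⟩ := norm1 z hQz
  have e1 : B x (k • z) = 0 := by rw [map_smul, symm hB, hzx, smul_zero]
  have e2 : B (k • z) y = 0 := by rw [map_smul, LinearMap.smul_apply, hzy, smul_zero]
  have h3 := Subgroup.mul_mem _ (refl2_perp hB hq hS h1 hk1 e1) (refl2_perp hB hq hS hk1 h1' e2)
  have e3 : tr B hB x 1 * tr B hB (k • z) 1 * (tr B hB (k • z) 1 * tr B hB y 1) = tr B hB x 1 * tr B hB y 1 := by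
    rw [mul_assoc, ← mul_assoc (tr B hB (k • z) 1), tr_sq, one_mul]
  rwa [e3] at h3

omit [CharP F 2] in
lemma exists_sep [FiniteDimensional F V] (hnd : ∀ v, (∀ w, B v w = 0) → v = 0) (K : Submodule F V) {x : V}
    (hx : x ∉ K) : ∃ w, (∀ y ∈ K, B y w = 0) ∧ B x w = 1 := by
  obtain ⟨f, hf, hfK⟩ := Submodule.exists_dual_map_eq_bot_of_notMem hx inferInstance
  -- `f` is represented
  have hBi : Function.Injective (B : V →ₗ[F] Dual F V) := by
    rw [← LinearMap.ker_eq_bot, LinearMap.ker_eq_bot']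
    intro v hv
    exact hnd v (fun w => by rw [hv]; rfl)
  have hflip : Function.Surjective (B.flip : V →ₗ[F] Dual F V) := by
    have hinj : Function.Injective (B.flip : V →ₗ[F] Dual F V) := by
      have h1 : Function.Surjective (B : V →ₗ[F] Dual F V) :=
        (LinearMap.injective_iff_surjective_of_finrank_eq_finrank (Subspace.dual_finrank_eq).symm).1 hBi
      rw [← LinearMap.ker_eq_bot, LinearMap.ker_eq_bot']
      intro v hv
      by_contra hv0
      obtain ⟨φ, hφ⟩ : ∃ φ : Dual F V, φ v ≠ 0 := by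
        by_contra hcon
        push Not at hcon
        exact hv0 ((Module.forall_dual_apply_eq_zero_iff F v).1 hcon)
      obtain ⟨u, hu⟩ := h1 φ
      apply hφ
      rw [← hu]
      have : B.flip v u = 0 := by rw [hv]; rfl
      exact this
    exact (LinearMap.injective_iff_surjective_of_finrank_eq_finrank (Subspace.dual_finrank_eq).symm).1 hinj
  obtain ⟨w, hw⟩ := hflip f
  have hw' : ∀ y, B y w = f y := fun y => by rw [← hw]; rfl
  refine ⟨(f x)⁻¹ • w, fun y hy => ?_, ?_⟩
  · have : f y ∈ K.map f := ⟨y, hy, rfl⟩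
    rw [hfK, Submodule.mem_bot] at this
    rw [map_smul, hw', this, smul_zero]
  · rw [map_smul, hw', smul_eq_mul, inv_mul_cancel₀ hf]

/-- every isometry is a Siegel product, possibly times a reflection -/
theorem gen [FiniteDimensional F V] (hsq : ∀ x : F, IsSquare x) (hB : B.IsAlt)
    (hnd : ∀ v, (∀ w, B v w = 0) → v = 0) (hq : IsQ B Q) (hS : HasS B Q L) (h4 : 4 ≤ finrank F V)
    (g : V ≃ₗ[F] V) (hg : isoQ Q g) : g ∈ SE B Q ∨ ∃ v, Q v ≠ 0 ∧ g * tr B hB v (Q v)⁻¹ ∈ SE B Q := by
  have key : ∀ n : ℕ, ∀ g : V ≃ₗ[F] V, isoQ Q g → finrank F V - finrank F (Fx g) = n →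
      g ∈ SE B Q ∨ ∃ v, Q v ≠ 0 ∧ g * tr B hB v (Q v)⁻¹ ∈ SE B Q := by
    intro n
    induction n using Nat.strong_induction_on with
    | _ n ih =>
      intro g hg hn
      have hgB := isoQ.toB hq hg
      by_cases hg1 : g = 1
      · left; rw [hg1]; exact Subgroup.one_mem _
      -- increase of the fixed space
      have up : ∀ h : V ≃ₗ[F] V, isoQ Q h → (∀ y, g y = y → h y = y) → (∃ x, g x ≠ x ∧ h (g x) = x) →
          (h * g ∈ SE B Q ∨ ∃ v, Q v ≠ 0 ∧ h * g * tr B hB v (Q v)⁻¹ ∈ SE B Q) := by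
        intro h hh hfix ⟨x, hx, hhx⟩
        have hlt : Fx g < Fx (h * g) := by
          refine lt_of_le_of_ne ?_ ?_
          · intro y hy
            rw [mem_Fx] at hy ⊢
            show h (g y) = y
            rw [hy, hfix y hy]
          · intro heq
            have : x ∈ Fx (h * g) := by rw [mem_Fx]; exact hhx
            rw [← heq, mem_Fx] at this
            exact hx this
        have h1 := Submodule.finrank_lt_finrank_of_lt hlt
        have h2 := Submodule.finrank_le (Fx (h * g))
        exact ih _ (by omega) (h * g) (hh.mul hg) rfl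
      by_cases hR : ∃ x, g x ≠ x ∧ Q (g x - x) ≠ 0
      · obtain ⟨x, hx, hQx⟩ := hR
        obtain ⟨z, hz⟩ : ∃ z, z = g x - x := ⟨_, rfl⟩
        rw [← hz] at hQx
        obtain ⟨r, hr⟩ : ∃ r, r = tr B hB z (Q z)⁻¹ := ⟨_, rfl⟩
        have hrQ : isoQ Q r := by rw [hr]; exact refl_isoQ hB hq hQx
        have hr2 : r * r = 1 := by rw [hr]; exact tr_sq hB _ _
        have hQz : Q z = B (g x) x := by
          have h1 : g x = x + z := by rw [hz]; abel
          have h2 := hq.add x z
          rw [← h1, hg] at h2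
          have h3 : Q z = B x z := by
            have : Q z + B x z = 0 := by
              have h5 : Q x + 0 = Q x + (Q z + B x z) := by rw [add_zero, ← add_assoc]; exact h2
              exact (add_left_cancel h5).symm
            exact CharTwo.add_eq_zero.1 this
          rw [h3, hz, map_sub, hB x, sub_zero, symm hB]
        have h1 := up r hrQ (fun y hy => by
          have h0 : B y z = 0 := by
            have := hgB y x
            rw [hy] at this
            rw [hz, map_sub, this, sub_self]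
          rw [hr, tr_apply, h0]; simp) ⟨x, hx, by
            have h0 : B (g x) z = Q z := by
              rw [hQz, hz, map_sub, hB (g x), zero_sub, CharTwo.neg_eq]
            rw [hr, tr_apply, h0, inv_mul_cancel₀ hQx, one_smul, hz]
            have e : g x + (g x - x) = x + ((1 : F) + 1) • (g x - x) := by module
            rw [e, CharTwo.add_self_eq_zero, zero_smul, add_zero]⟩
        have hrinv : r⁻¹ = r := inv_eq_of_mul_eq_one_right hr2
        have hgr : g = r * (r * g) := by rw [← mul_assoc, hr2, one_mul]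
        rcases h1 with h1 | ⟨v, hv, h1⟩
        · right
          refine ⟨z, hQx, ?_⟩
          have h3 := SE_conj hq h1 hrQ
          rw [hrinv, ← hgr, hr] at h3
          exact h3
        · left
          have h3 := SE_conj hq h1 hrQ
          rw [hrinv] at h3
          have h5 := refl2 hsq hB hnd hq hS h4 (v := z) (v' := v) hQx hv
          rw [← hr] at h5
          have h6 := Subgroup.mul_mem _ h3 h5
          obtain ⟨r', hr'⟩ : ∃ r', r' = tr B hB v (Q v)⁻¹ := ⟨_, rfl⟩
          have hr'2 : r' * r' = 1 := by rw [hr']; exact tr_sq hB _ _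
          rw [← hr'] at h6
          have e : r * (r * g * r') * r * (r * r') = g := by
            have : r * (r * g * r') * r * (r * r') = (r * r) * g * (r' * (r * r) * r') := by group
            rw [this, hr2, one_mul, mul_one, hr'2, mul_one]
          rwa [e] at h6
      · push Not at hR
        have hR' : ∀ x, Q (g x - x) = 0 := by
          intro x
          by_cases h : g x = x
          · rw [h, sub_self, hq.zero]
          · exact hR x h
        obtain ⟨x, hx⟩ : ∃ x, g x ≠ x := by
          by_contra hcon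
          push Not at hcon
          exact hg1 (LinearEquiv.ext hcon)
        obtain ⟨z, hz⟩ : ∃ z, z = g x - x := ⟨_, rfl⟩
        have hz0 : z ≠ 0 := by rw [hz]; exact sub_ne_zero.2 hx
        have hQz : Q z = 0 := by rw [hz]; exact hR' x
        have hgx : g x = x + z := by rw [hz]; abel
        have hxK : x ∉ Fx g ⊔ Submodule.span F {z} := by
          intro hm
          obtain ⟨k, hk, z', hz', hkz⟩ := Submodule.mem_sup.1 hm
          obtain ⟨l, hl⟩ := Submodule.mem_span_singleton.1 hz'
          rw [mem_Fx] at hk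
          have hzl : z = l • (g z - z) := by
            conv_lhs => rw [hz, ← hkz, ← hl]
            rw [map_add, map_smul, hk]
            module
          have hl0 : l ≠ 0 := by
            intro h; rw [h, zero_smul] at hzl; exact hz0 hzl
          have hgz : g z = z + l⁻¹ • z := by
            have : l⁻¹ • z = g z - z := by
              conv_lhs => rw [hzl]
              rw [smul_smul, inv_mul_cancel₀ hl0, one_smul]
            rw [this]; abel
          obtain ⟨y, hy⟩ : ∃ y, B z y = 1 := by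
            obtain ⟨x, hx⟩ : ∃ x, B z x ≠ 0 := by
              by_contra hcon; push Not at hcon; exact hz0 (hnd z hcon)
            exact ⟨(B z x)⁻¹ • x, by rw [map_smul, smul_eq_mul, inv_mul_cancel₀ hx]⟩
          have h1 : B (g z) (g y) = 1 := by rw [hgB, hy]
          rw [hgz, map_add, LinearMap.add_apply, map_smul, LinearMap.smul_apply, smul_eq_mul] at h1
          have h2 : B z (g y - y) = 0 := by
            have h3 := hq.add z (g y - y)
            have h5 : z + (g y - y) = g (x + y) - (x + y) := by rw [hz, map_add]; abel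
            rw [h5, hR', hR', hQz, add_zero, zero_add] at h3
            exact h3.symm
          rw [map_sub, hy] at h2
          have h3 : B z (g y) = 1 := sub_eq_zero.1 h2
          rw [h3] at h1
          have : l⁻¹ = 0 := by linear_combination h1
          exact inv_ne_zero hl0 this
        obtain ⟨w, hw1, hw2⟩ := exists_sep hnd _ hxK
        have hzw : B z w = 0 := hw1 z (Submodule.mem_sup_right (Submodule.mem_span_singleton_self z))
        have hwz : B w z = 0 := by rw [symm hB, hzw]
        obtain ⟨u, hu, hux⟩ := hS.us hz0 hQz hwz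
        have huQ : isoQ Q u := SE_isoQ hq hu
        have hBxz : B x z = 0 := by
          have h3 := hq.add x z
          rw [← hgx, hg, hQz, add_zero] at h3
          have h5 : Q x + 0 = Q x + B x z := by rw [add_zero]; exact h3
          exact (add_left_cancel h5).symm
        have h1 := up u huQ (fun y hy => by
          have h0 : B y z = 0 := by
            have := hgB y x
            rw [hy] at this
            rw [hz, map_sub, this, sub_self]
          have h0' : B y w = 0 := hw1 y (Submodule.mem_sup_left (mem_Fx.2 hy))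
          rw [hux, h0, h0']; simp) ⟨x, hx, by
            have e1 : B (g x) z = 0 := by rw [hgx, map_add, LinearMap.add_apply, hBxz, hB z, add_zero]
            have e2 : B (g x) w = 1 := by rw [hgx, map_add, LinearMap.add_apply, hw2, hzw, add_zero]
            rw [hux, e1, e2, hgx]
            have e : x + z + (0 : F) • w + ((1 : F) + Q w * 0) • z = x + ((1 : F) + 1) • z := by module
            rw [e, CharTwo.add_self_eq_zero, zero_smul, add_zero]⟩
        have hgu : g = u⁻¹ * (u * g) := by group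
        rcases h1 with h1 | ⟨v, hv, h1⟩
        · left
          rw [hgu]; exact Subgroup.mul_mem _ (Subgroup.inv_mem _ hu) h1
        · right
          refine ⟨v, hv, ?_⟩
          have e : g * tr B hB v (Q v)⁻¹ = u⁻¹ * (u * g * tr B hB v (Q v)⁻¹) := by group
          rw [e]; exact Subgroup.mul_mem _ (Subgroup.inv_mem _ hu) h1
  exact key _ g hg rfl

end H7.SpTwo
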