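import Cfsg.Agent.Lib.H7.SpTwoF

set_option autoImplicit false

/-!
Conclusion in the case of an invariant quadratic form.
-/

namespace H7.SpTwo

open Module H95.SpBasic H95.SpGeom H95.SpOrthEven
open H7.DickHom (Fx mem_Fx)

variable {F V : Type*} [Field F] [AddCommGroup V] [Module F V]
variable {B : LinearMap.BilinForm F V} {L : Subgroup (V ≃ₗ[F] V)} {a : V} {Q : V → F}
variable [CharP F 2]

lemma FinQ.isoQ (T : SitT B L a) (h : FinQ B L a Q) {g : V ≃ₗ[F] V} (hg : g ∈ L) : isoQ Q g := by
  have hadd : ∀ x y, Q (g (x + y)) + Q (x + y) = (Q (g x) + Q x) + (Q (g y) + Q y) := by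
    intro x y
    rw [map_add, h.isq.add, h.isq.add, T.iso hg]
    have h2 : (2 : F) = 0 := CharTwo.two_eq_zero
    linear_combination (B x y) * h2
  let W : Submodule F V :=
    { carrier := {v | Q (g v) + Q v = 0}
      zero_mem' := by show Q (g 0) + Q 0 = 0; rw [map_zero, h.isq.zero, add_zero]
      add_mem' := by
        intro x y hx hy
        show Q (g (x + y)) + Q (x + y) = 0
        rw [hadd]
        have hx' : Q (g x) + Q x = 0 := hx
        have hy' : Q (g y) + Q y = 0 := hy
        rw [hx', hy', add_zero]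
      smul_mem' := by
        intro c x hx
        show Q (g (c • x)) + Q (c • x) = 0
        have hx' : Q (g x) + Q x = 0 := hx
        rw [map_smul, h.isq.smul, h.isq.smul, ← mul_add, hx', mul_zero] }
  have hW : W = ⊤ := by
    apply T.toSit.span
    intro v hv
    show Q (g v) + Q v = 0
    have h1 : Q v = 0 := (h.orb v (T.transfer hv).ne).1 hv
    have h2 : Q (g v) = 0 := (h.orb (g v) (T.transfer (hv.map hg)).ne).1 (hv.map hg)
    rw [h1, h2, add_zero]
  intro v
  have : v ∈ W := by rw [hW]; trivial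
  exact CharTwo.add_eq_zero.1 this

lemma FinQ.hasS (T : SitT B L a) (h : FinQ B L a Q) : HasS B Q L := by
  intro a' w ha' hQa' hw
  obtain ⟨g, hg, rfl⟩ := (h.orb a' ha').2 hQa'
  have e1 : g (g⁻¹ w) = w := apply_inv g w
  have h1 : B (g⁻¹ w) a = 0 := by rw [← T.iso hg (g⁻¹ w) a, e1, hw]
  have h2 := (h.us _ h1).conj hg (T.iso hg)
  rw [e1] at h2
  have h3 : Q (g⁻¹ w) = Q w := by rw [← h.isoQ T hg, e1]
  rwa [h3] at h2

section parity

variable [FiniteDimensional F V] [Finite F]

lemma fx_mul' (hnd : ∀ v, (∀ w, B v w = 0) → v = 0) (hq : IsQ B Q) (h4 : 4 ≤ finrank F V)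
    (hev : Even (finrank F V)) {g h : V ≃ₗ[F] V} (hg : SpTwo.isoQ Q g) (hh : SpTwo.isoQ Q h) :
    ((finrank F (Fx (g * h)) : ℕ) : ZMod 2) = finrank F (Fx g) + finrank F (Fx h) := by
  refine H7.DickHom.fx_mul (Q := IsQ.toQF hq) ?_ (by omega) hev hg hh
  intro x hx
  apply hnd
  intro w
  rw [← IsQ.polar hq]; exact hx w

omit [CharP F 2] [Finite F] in
lemma fx_siegel (hnd : ∀ v, (∀ w, B v w = 0) → v = 0) (hq : IsQ B Q) (hB : B.IsAlt) (hev : Even (finrank F V))
    [CharP F 2] {g : V ≃ₗ[F] V} {a w : V} (ha : a ≠ 0) (hQa : Q a = 0)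
    (hgx : ∀ x, g x = x + B x a • w + (B x w + Q w * B x a) • a) : Even (finrank F (Fx g)) := by
  by_cases hm : w ∈ Submodule.span F {a}
  · obtain ⟨c, hc⟩ := Submodule.mem_span_singleton.1 hm
    have : Fx g = ⊤ := by
      rw [eq_top_iff]
      intro x _
      rw [mem_Fx, hgx, ← hc, hq.smul, hQa]
      simp only [map_smul, smul_eq_mul]
      have e : x + B x a • c • a + (c * B x a + c ^ 2 * 0 * B x a) • a = x + ((1 : F) + 1) • ((c * B x a) • a) := by
        module
      rw [e, CharTwo.add_self_eq_zero, zero_smul, add_zero]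
    rw [this, finrank_top]; exact hev
  · let f : V →ₗ[F] F × F := LinearMap.prod (B.flip a) (B.flip w)
    have hf : Function.Surjective f := by
      rintro ⟨c, d⟩
      obtain ⟨v, hv1, hv2⟩ := exists_val2 (B := B) hnd ha hm c d
      refine ⟨v, Prod.ext ?_ ?_⟩
      · show B v a = c
        rw [symm hB, hv1]
      · show B v w = d
        rw [symm hB, hv2]
    have h1 := LinearMap.finrank_range_add_finrank_ker f
    rw [LinearMap.range_eq_top.2 hf, finrank_top, finrank_prod, finrank_self] at h1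
    have h2 : Fx g = LinearMap.ker f := by
      ext x
      rw [mem_Fx, LinearMap.mem_ker, hgx]
      constructor
      · intro h
        have h3 : B x a • w + (B x w + Q w * B x a) • a = 0 := by
          have : x + (B x a • w + (B x w + Q w * B x a) • a) = x + 0 := by rw [← add_assoc, h, add_zero]
          exact add_left_cancel this
        obtain ⟨h5, h6⟩ := LinearIndependent.pair_iff.1 (li2 ha hm) _ _ (by rw [add_comm]; exact h3)
        rw [h6, mul_zero, add_zero] at h5
        exact Prod.ext h6 h5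
      · intro h
        have h5 : B x a = 0 := congrArg Prod.fst h
        have h6 : B x w = 0 := congrArg Prod.snd h
        rw [h5, h6]; simp
    rw [h2]
    obtain ⟨k, hk⟩ := hev
    exact ⟨k - 1, by omega⟩

omit [Finite F] in
lemma fx_refl (hnd : ∀ v, (∀ w, B v w = 0) → v = 0) (hq : IsQ B Q) (hB : B.IsAlt) {v : V} (hv : Q v ≠ 0) :
    finrank F (Fx (tr B hB v (Q v)⁻¹)) + 1 = finrank F V := by
  have hv0 : v ≠ 0 := by
    rintro rfl; exact hv hq.zero
  have hf : Function.Surjective (B.flip v : V →ₗ[F] F) := by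
    intro c
    obtain ⟨x, hx⟩ : ∃ x, B v x ≠ 0 := by
      by_contra hcon; push Not at hcon; exact hv0 (hnd v hcon)
    refine ⟨(c * (B x v)⁻¹) • x, ?_⟩
    show B ((c * (B x v)⁻¹) • x) v = c
    have hx' : B x v ≠ 0 := by rw [symm hB]; exact hx
    rw [map_smul, LinearMap.smul_apply, smul_eq_mul, mul_assoc, inv_mul_cancel₀ hx', mul_one]
  have h1 := LinearMap.finrank_range_add_finrank_ker (B.flip v)
  rw [LinearMap.range_eq_top.2 hf, finrank_top, finrank_self] at h1
  have h2 : Fx (tr B hB v (Q v)⁻¹) = LinearMap.ker (B.flip v) := by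
    ext x
    rw [mem_Fx, LinearMap.mem_ker, tr_apply]
    constructor
    · intro h
      have h3 : ((Q v)⁻¹ * B x v) • v = 0 := by
        have : x + ((Q v)⁻¹ * B x v) • v = x + 0 := by rw [h, add_zero]
        exact add_left_cancel this
      rcases smul_eq_zero.1 h3 with h5 | h5
      · rcases mul_eq_zero.1 h5 with h6 | h6
        · exact absurd h6 (inv_ne_zero hv)
        · exact h6
      · exact absurd h5 hv0
    · intro h
      have h5 : B x v = 0 := h
      rw [h5]; simp
  rw [h2]; omega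

lemma fx_SE (hnd : ∀ v, (∀ w, B v w = 0) → v = 0) (hq : IsQ B Q) (hB : B.IsAlt) (h4 : 4 ≤ finrank F V)
    (hev : Even (finrank F V)) {g : V ≃ₗ[F] V} (hg : g ∈ SE B Q) : ((finrank F (Fx g) : ℕ) : ZMod 2) = 0 := by
  have key : ∀ g ∈ SE B Q, ((finrank F (Fx g) : ℕ) : ZMod 2) = 0 := by
    intro g hg
    rw [SE] at hg
    induction hg using Subgroup.closure_induction with
    | mem g hg =>
      obtain ⟨a, w, ha, hQa, _, hgx⟩ := hg
      rw [ZMod.natCast_eq_zero_iff]
      exact (fx_siegel hnd hq hB hev ha hQa hgx).two_dvd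
    | one =>
      have : Fx (1 : V ≃ₗ[F] V) = ⊤ := by
        rw [eq_top_iff]; intro x _; rw [mem_Fx]; rfl
      rw [this, finrank_top, ZMod.natCast_eq_zero_iff]
      exact hev.two_dvd
    | mul g h hg' hh' hg hh =>
      have h1 : SpTwo.isoQ Q g := SE_isoQ hq hg'
      have h2 : SpTwo.isoQ Q h := SE_isoQ hq hh'
      rw [fx_mul' hnd hq h4 hev h1 h2, hg, hh, add_zero]
    | inv g _ hg =>
      have : Fx g⁻¹ = Fx g := by
        ext x
        rw [mem_Fx, mem_Fx]
        constructor
        · intro h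
          conv_lhs => rw [← h]
          exact apply_inv g x
        · intro h
          conv_lhs => rw [← h]
          exact inv_apply g x
      rw [this, hg]
  exact key g hg

/-- Conclusion for an invariant quadratic form. -/
theorem FinQ.final (T : SitT B L a) (h : FinQ B L a Q) (h4 : 4 ≤ finrank F V) (hev : Even (finrank F V)) :
    (∀ g, g ∈ L ↔ SpTwo.isoQ Q g) ∨ (∀ g, g ∈ L ↔ (SpTwo.isoQ Q g ∧ Even (finrank F (Fx g)))) := by
  have : Fintype F := Fintype.ofFinite F
  have hsq : ∀ x : F, IsSquare x := fun x => FiniteField.isSquare_of_char_two (ringChar.eq_iff.2 inferInstance) x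
  have hS := h.hasS T
  have hle := hS.le
  have hB := T.alt
  have hnd := T.nd
  have hq := h.isq
  have hVev : ((finrank F V : ℕ) : ZMod 2) = 0 := by
    rw [ZMod.natCast_eq_zero_iff]; exact hev.two_dvd
  have even_iff : ∀ n : ℕ, ((n : ℕ) : ZMod 2) = 0 ↔ Even n := fun n => by
    rw [ZMod.natCast_eq_zero_iff, even_iff_two_dvd]
  have hker : ∀ g, SpTwo.isoQ Q g → ((finrank F (Fx g) : ℕ) : ZMod 2) = 0 → g ∈ SE B Q := by
    intro g hg hg0
    rcases gen hsq hB hnd hq hS h4 g hg with h1 | ⟨v, hv, h1⟩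
    · exact h1
    · exfalso
      have h2 := fx_SE hnd hq hB h4 hev h1
      rw [fx_mul' hnd hq h4 hev hg (refl_isoQ hB hq hv), hg0, zero_add] at h2
      have h3 := fx_refl hnd hq hB hv
      have h5 : ((finrank F (Fx (tr B hB v (Q v)⁻¹)) + 1 : ℕ) : ZMod 2) = 0 := by rw [h3, hVev]
      push_cast at h5
      rw [h2, zero_add] at h5
      exact one_ne_zero h5
  by_cases hall : ∀ g ∈ L, ((finrank F (Fx g) : ℕ) : ZMod 2) = 0
  · right
    intro g
    constructor
    · intro hg
      exact ⟨h.isoQ T hg, (even_iff _).1 (hall g hg)⟩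
    · rintro ⟨hg, hg2⟩
      exact hle (hker g hg ((even_iff _).2 hg2))
  · left
    push Not at hall
    obtain ⟨g0, hg0, hne⟩ := hall
    have hone : ∀ z : ZMod 2, z ≠ 0 → z = 1 := by decide
    have h01 := hone _ hne
    intro g
    refine ⟨fun hg => h.isoQ T hg, fun hg => ?_⟩
    by_cases hgz : ((finrank F (Fx g) : ℕ) : ZMod 2) = 0
    · exact hle (hker g hg hgz)
    · have h1 := hone _ hgz
      have hg0Q := h.isoQ T hg0
      have h2 : ((finrank F (Fx (g * g0)) : ℕ) : ZMod 2) = 0 := by
        rw [fx_mul' hnd hq h4 hev hg hg0Q, h1, h01]; decide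
      have h3 := hle (hker _ (hg.mul hg0Q) h2)
      exact (Subgroup.mul_mem_cancel_right L hg0).1 h3

end parity

end H7.SpTwo
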