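import Cfsg.Agent.Lib.H7.SpTwoA
import Cfsg.Agent.Lib.H50.PGroupFix

set_option autoImplicit false

/-!
The shape of normal 2-subgroups of the stabiliser of a vector in `Sp(V)`, characteristic two.
-/

namespace H7.SpTwo

open Module H95.SpBasic H95.SpGeom

variable {F V : Type*} [Field F] [AddCommGroup V] [Module F V]
variable {B : LinearMap.BilinForm F V} {L : Subgroup (V ≃ₗ[F] V)} {a : V}

lemma exists_tr_vec [FiniteDimensional F V] [CharP F 2] (hB : B.IsAlt) (hnd : ∀ v, (∀ w, B v w = 0) → v = 0)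
    (ha : a ≠ 0) {v v' : V} (hv : B v a = 0) (hv' : B v' a = 0)
    (hn : v ∉ Submodule.span F {a}) (hn' : v' ∉ Submodule.span F {a}) : ∃ h ∈ isom B, h a = a ∧ h v = v' := by
  have key : ∀ v v' : V, B v a = 0 → B v' a = 0 → B v v' ≠ 0 → ∃ h ∈ isom B, h a = a ∧ h v = v' := by
    intro v v' hv hv' hne
    refine ⟨tr B hB (v' - v) ((B v v')⁻¹), tr_mem_isom _ _ _ _, ?_, tr_move B hB v v' hne⟩
    have : B a (v' - v) = 0 := by rw [map_sub, symm hB a, symm hB a, hv, hv', sub_zero]
    rw [tr_apply, this]; simp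
  obtain ⟨x, hx1, hx2⟩ := exists_val2 (B := B) hnd ha hn 0 1
  obtain ⟨y, hy1, hy2⟩ := exists_val2 (B := B) hnd ha hn' 0 1
  obtain ⟨z, hza, hz1, hz2⟩ : ∃ z, B z a = 0 ∧ B v z ≠ 0 ∧ B v' z ≠ 0 := by
    by_cases h1 : B v' x = 0
    · by_cases h2 : B v y = 0
      · refine ⟨x + y, ?_, ?_, ?_⟩
        · rw [map_add, LinearMap.add_apply, symm hB x, symm hB y, hx1, hy1, add_zero]
        · rw [map_add, hx2, h2, add_zero]; exact one_ne_zero
        · rw [map_add, hy2, h1, zero_add]; exact one_ne_zero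
      · exact ⟨y, by rw [symm hB, hy1], h2, by rw [hy2]; exact one_ne_zero⟩
    · exact ⟨x, by rw [symm hB, hx1], by rw [hx2]; exact one_ne_zero, h1⟩
  obtain ⟨h1, m1, f1, e1⟩ := key v z hv hza hz1
  obtain ⟨h2, m2, f2, e2⟩ := key z v' hza hv' (by rw [symm hB]; exact hz2)
  refine ⟨h2 * h1, (isom B).mul_mem m2 m1, ?_, ?_⟩
  · show h2 (h1 a) = a
    rw [f1, f2]
  · show h2 (h1 v) = v'
    rw [e1, e2]

theorem core_form [FiniteDimensional F V] [CharP F 2] [Finite F] (hB : B.IsAlt) (hnd : ∀ v, (∀ w, B v w = 0) → v = 0)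
    (h3 : 3 ≤ finrank F V) (ha : a ≠ 0) (N : Subgroup (V ≃ₗ[F] V)) (hN : ∀ g ∈ N, g ∈ isom B ∧ g a = a)
    (hnorm : ∀ h ∈ isom B, h a = a → ∀ g ∈ N, h * g * h⁻¹ ∈ N) (hp : IsPGroup 2 N) :
    ∀ g ∈ N, ∃ w b, B w a = 0 ∧ ∀ x, g x = x + B x a • w + (B x w + b * B x a) • a := by
  have : Finite V := Module.finite_of_finite F
  have hfinN : Finite N := by
    have : Function.Injective (fun g : N => ((g : V ≃ₗ[F] V) : V → V)) := by
      intro g h hgh
      apply Subtype.ext
      exact LinearEquiv.ext (fun x => congrFun hgh x)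
    exact Finite.of_injective _ this
  have : Fact (Nat.Prime 2) := ⟨Nat.prime_two⟩
  -- a vector fixed modulo `a`
  obtain ⟨v, hva, hvn, hvN⟩ : ∃ v, B v a = 0 ∧ v ∉ Submodule.span F {a} ∧ ∀ g ∈ N, g v - v ∈ Submodule.span F {a} := by
    obtain ⟨S, hS⟩ : ∃ S : Submodule F V, S = Submodule.span F {a} := ⟨_, rfl⟩
    have : Finite (V ⧸ S) := Finite.of_surjective S.mkQ S.mkQ_surjective
    have hSg : ∀ g ∈ N, S ≤ S.comap (g : V →ₗ[F] V) := by
      intro g hg x hx
      rw [hS] at hx ⊢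
      obtain ⟨c, rfl⟩ := Submodule.mem_span_singleton.1 hx
      show g (c • a) ∈ Submodule.span F {a}
      rw [map_smul, (hN g hg).2]
      exact Submodule.smul_mem _ _ (Submodule.mem_span_singleton_self a)
    let ρ : N →* ((V ⧸ S) →ₗ[F] (V ⧸ S)) :=
      { toFun := fun g => S.mapQ S ((g : V ≃ₗ[F] V) : V →ₗ[F] V) (hSg g g.2)
        map_one' := by
          ext x
          rfl
        map_mul' := by
          intro g h
          ext x
          rfl }
    have hρ : ∀ (g : N) (x : V), ρ g (S.mkQ x) = S.mkQ ((g : V ≃ₗ[F] V) x) := fun g x => rfl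
    obtain ⟨v0, hv0, hv0n⟩ := exists_perp_notin B h3 a
    obtain ⟨y, hy, hy0, hyf⟩ := H50.PGroupFix.exists_fixed_linear hp ρ ((LinearMap.ker (B.flip a)).map S.mkQ) (by
      rintro g _ ⟨x, hx, rfl⟩
      refine ⟨(g : V ≃ₗ[F] V) x, ?_, (hρ g x).symm⟩
      have hx' : B x a = 0 := hx
      show B ((g : V ≃ₗ[F] V) x) a = 0
      obtain ⟨h1, h2⟩ := hN g g.2
      rw [← h2, h1, hx']) (by
      intro h
      have h1 : S.mkQ v0 ∈ (LinearMap.ker (B.flip a)).map S.mkQ := ⟨v0, hv0, rfl⟩
      rw [h, Submodule.mem_bot, Submodule.mkQ_apply, Submodule.Quotient.mk_eq_zero, hS] at h1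
      exact hv0n h1)
    obtain ⟨v, hv, rfl⟩ := hy
    refine ⟨v, hv, ?_, ?_⟩
    · intro h
      apply hy0
      rw [Submodule.mkQ_apply, Submodule.Quotient.mk_eq_zero, hS]; exact h
    · intro g hg
      have h1 := hyf ⟨g, hg⟩
      rw [hρ] at h1
      have h2 : S.mkQ (g v) = S.mkQ v := h1
      rw [Submodule.mkQ_apply, Submodule.mkQ_apply, Submodule.Quotient.eq, hS] at h2
      exact h2
  -- trivial action on `a^⊥ / a`
  have htriv : ∀ g ∈ N, ∀ v', B v' a = 0 → g v' - v' ∈ Submodule.span F {a} := by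
    intro g hg v' hv'
    by_cases hn' : v' ∈ Submodule.span F {a}
    · obtain ⟨c, rfl⟩ := Submodule.mem_span_singleton.1 hn'
      rw [map_smul, (hN g hg).2, sub_self]; exact Submodule.zero_mem _
    obtain ⟨h, hh, hha, hhv⟩ := exists_tr_vec hB hnd ha hva hv' hvn hn'
    have h1 : h⁻¹ * g * h ∈ N := by
      have := hnorm h⁻¹ ((isom B).inv_mem hh) (by
        have : h⁻¹ (h a) = a := inv_apply h a
        rwa [hha] at this) g hg
      rwa [inv_inv] at this
    obtain ⟨c, hc⟩ := Submodule.mem_span_singleton.1 (hvN _ h1)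
    have h2 : (h⁻¹ * g * h) v = h⁻¹ (g v') := by
      show h⁻¹ (g (h v)) = _
      rw [hhv]
    rw [h2] at hc
    have h4 : h (c • a) = h (h⁻¹ (g v') - v) := by rw [hc]
    rw [map_smul, hha, map_sub, apply_inv, hhv] at h4
    rw [← h4]; exact Submodule.smul_mem _ _ (Submodule.mem_span_singleton_self a)
  -- the shape
  obtain ⟨s, hs⟩ : ∃ s, B a s = 1 := by
    obtain ⟨x, hx⟩ : ∃ x, B a x ≠ 0 := by
      by_contra hcon; push Not at hcon; exact ha (hnd a hcon)
    exact ⟨(B a x)⁻¹ • x, by rw [map_smul, smul_eq_mul, inv_mul_cancel₀ hx]⟩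
  have hsa : B s a = 1 := by rw [symm hB, hs]
  intro g hg
  obtain ⟨hgi, hga⟩ := hN g hg
  obtain ⟨w, hw⟩ : ∃ w, w = g s - s := ⟨_, rfl⟩
  have hgs : g s = s + w := by rw [hw]; abel
  have hwa : B w a = 0 := by
    have := hgi s a
    rw [hga, hgs, map_add, LinearMap.add_apply] at this
    have h2 : B s a + B w a = B s a + 0 := by rw [this, add_zero]
    exact add_left_cancel h2
  have haw : B a w = 0 := by rw [symm hB, hwa]
  refine ⟨w, B s w, hwa, fun x => ?_⟩
  obtain ⟨x0, hx0⟩ : ∃ x0, x0 = x - B x a • s := ⟨_, rfl⟩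
  have hx0a : B x0 a = 0 := by
    rw [hx0, map_sub, LinearMap.sub_apply, map_smul, LinearMap.smul_apply, hsa]; simp
  obtain ⟨c, hc⟩ := Submodule.mem_span_singleton.1 (htriv g hg x0 hx0a)
  have hgx0 : g x0 = x0 + c • a := by rw [hc]; abel
  have hcw : c = B x0 w := by
    have := hgi x0 s
    rw [hgx0, hgs] at this
    simp only [map_add, LinearMap.add_apply, map_smul, LinearMap.smul_apply, smul_eq_mul, hs, haw, mul_one,
      mul_zero, add_zero] at this
    have h2 : B x0 w + c = 0 := by linear_combination this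
    exact (CharTwo.add_eq_zero.1 h2).symm
  have hx : x = x0 + B x a • s := by rw [hx0]; abel
  have hB1 : B x w = B x0 w + B x a * B s w := by
    conv_lhs => rw [hx]
    rw [map_add, LinearMap.add_apply, map_smul, LinearMap.smul_apply, smul_eq_mul]
  have h5 : g x = g (x0 + B x a • s) := by rw [← hx]
  rw [h5, map_add, map_smul, hgx0, hgs, hcw, hB1]
  conv_rhs => rw [hx]
  have e1 : B (x0 + B x a • s) a = B x a := by rw [← hx]
  rw [e1]
  have h2 : (B x a * B s w) + (B s w * B x a) = 0 := by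
    rw [mul_comm (B s w), CharTwo.add_self_eq_zero]
  have key : x0 + B x a • s + B x a • w + (B x0 w + B x a * B s w + B s w * B x a) • a =
      x0 + B x0 w • a + B x a • (s + w) + ((B x a * B s w) + (B s w * B x a)) • a := by module
  rw [key, h2, zero_smul, add_zero]

/-- A subgroup of elements of the given shape, of the right order and without transvections,
contains one element for each `w`. -/
theorem ex_of_card [FiniteDimensional F V] [CharP F 2] [Fintype F] (hB : B.IsAlt) (hnd : ∀ v, (∀ w, B v w = 0) → v = 0)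
    (ha : a ≠ 0) (X : Subgroup (V ≃ₗ[F] V))
    (hX : ∀ g ∈ X, ∃ w b, B w a = 0 ∧ ∀ x, g x = x + B x a • w + (B x w + b * B x a) • a)
    (hcard : Nat.card X = Fintype.card F ^ (finrank F V - 2))
    (hnt : ∀ g ∈ X, ∀ b : F, (∀ x, g x = x + (b * B x a) • a) → g = 1) :
    ∀ w, B w a = 0 → ∃ b, Us B X a w b := by
  obtain ⟨s, hs⟩ : ∃ s, B a s = 1 := by
    obtain ⟨x, hx⟩ : ∃ x, B a x ≠ 0 := by
      by_contra hcon; push Not at hcon; exact ha (hnd a hcon)
    exact ⟨(B a x)⁻¹ • x, by rw [map_smul, smul_eq_mul, inv_mul_cancel₀ hx]⟩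
  have hsa : B s a = 1 := by rw [symm hB, hs]
  have hfr := orth2_finrank hB (U := (⊤ : Submodule F V)) (Submodule.mem_top (x := a)) (Submodule.mem_top (x := s)) hs
  rw [finrank_top] at hfr
  obtain ⟨U, hU⟩ : ∃ U, U = orth2 B (⊤ : Submodule F V) a s := ⟨_, rfl⟩
  rw [← hU] at hfr
  obtain ⟨π, hπ⟩ : ∃ π : V → V, ∀ x, π x = x - B x s • a - B x a • s := ⟨_, fun _ => rfl⟩
  have hπU : ∀ x, π x ∈ U := by
    intro x
    rw [hU, mem_orth2]
    refine ⟨trivial, ?_, ?_⟩
    · rw [hπ]; simp only [map_sub, LinearMap.sub_apply, map_smul, LinearMap.smul_apply, hB a, hsa]; simp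
    · rw [hπ]; simp only [map_sub, LinearMap.sub_apply, map_smul, LinearMap.smul_apply, hB s, hs]; simp
  -- the map
  let f : X → U := fun g => ⟨π ((g : V ≃ₗ[F] V) s - s), hπU _⟩
  have hf : ∀ (g : X) (w : V) (b : F), B w a = 0 →
      (∀ x, (g : V ≃ₗ[F] V) x = x + B x a • w + (B x w + b * B x a) • a) → (f g : V) = w - B w s • a := by
    intro g w b hw hg
    show π ((g : V ≃ₗ[F] V) s - s) = _
    have e : (g : V ≃ₗ[F] V) s - s = w + (B s w + b) • a := by
      rw [hg, hsa, one_smul, mul_one]; abel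
    rw [e, hπ]
    simp only [map_add, LinearMap.add_apply, map_smul, LinearMap.smul_apply, hw, hB a, hs, smul_eq_mul]
    module
  have hinj : Function.Injective f := by
    intro g h hgh
    obtain ⟨w, b, hw, hg⟩ := hX g g.2
    obtain ⟨w', b', hw', hh⟩ := hX h h.2
    have h1 : w - B w s • a = w' - B w' s • a := by
      rw [← hf g w b hw hg, ← hf h w' b' hw' hh, hgh]
    obtain ⟨c, hc⟩ : ∃ c : F, w' = w + c • a := ⟨B w' s - B w s, by
      have h0 : w' = (w - B w s • a) + B w' s • a := by rw [h1]; abel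
      have h0' : w + (B w' s - B w s) • a = (w - B w s • a) + B w' s • a := by module
      rw [h0', ← h0]⟩
    -- rewrite h
    have hh' : ∀ x, (h : V ≃ₗ[F] V) x = x + B x a • w + (B x w + b' * B x a) • a := by
      intro x
      rw [hh, hc]
      simp only [map_add, map_smul, smul_eq_mul]
      have e : x + B x a • (w + c • a) + (B x w + c * B x a + b' * B x a) • a =
          x + B x a • w + (B x w + b' * B x a) • a + ((1 : F) + 1) • ((c * B x a) • a) := by module
      rw [e, CharTwo.add_self_eq_zero, zero_smul, add_zero]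
    have haw : B a w = 0 := by rw [symm hB, hw]
    have hmul : ∀ (k l : V ≃ₗ[F] V) (p q : F), (∀ x, k x = x + B x a • w + (B x w + p * B x a) • a) →
        (∀ x, l x = x + B x a • w + (B x w + q * B x a) • a) → ∀ x, (k * l) x = x + ((p + q) * B x a) • a := by
      intro k l p q hk hl x
      show k (l x) = _
      rw [hk, hl]
      simp only [map_add, LinearMap.add_apply, map_smul, LinearMap.smul_apply, smul_eq_mul, hB a, hB w, hw, haw,
        mul_zero, add_zero]
      have e : x + B x a • w + (B x w + q * B x a) • a + B x a • w + (B x w + p * B x a) • a =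
          x + ((p + q) * B x a) • a + ((1 : F) + 1) • (B x a • w + B x w • a) := by module
      rw [e, CharTwo.add_self_eq_zero, zero_smul, add_zero]
    have h2 := hnt _ (X.mul_mem h.2 g.2) _ (hmul _ _ _ _ hh' hg)
    have h3 := hnt _ (X.mul_mem h.2 h.2) _ (hmul _ _ _ _ hh' hh')
    have h4 : (h : V ≃ₗ[F] V) * g = (h : V ≃ₗ[F] V) * h := by rw [h2, h3]
    exact Subtype.ext (mul_left_cancel h4)
  have hcU : Nat.card U = Fintype.card F ^ (finrank F V - 2) := by
    rw [Module.natCard_eq_pow_finrank (K := F), Nat.card_eq_fintype_card]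
    congr 1
    omega
  have : Finite V := Module.finite_of_finite F
  have hbij := hinj.bijective_of_nat_card_le (by rw [hcard, hcU])
  intro w hw
  obtain ⟨g, hg⟩ := hbij.2 ⟨π w, hπU w⟩
  obtain ⟨w', b', hw', hg'⟩ := hX g g.2
  have h1 := hf g w' b' hw' hg'
  rw [hg] at h1
  have h2 : π w = w' - B w' s • a := h1
  rw [hπ, hw, zero_smul, sub_zero] at h2
  have h3 : w' = w + (B w' s - B w s) • a := by
    have h0 : w' = (w - B w s • a) + B w' s • a := by rw [h2]; abel
    have h0' : w + (B w' s - B w s) • a = (w - B w s • a) + B w' s • a := by module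
    rw [h0', ← h0]
  have h4 : Us B X a w' b' := ⟨g, g.2, hg'⟩
  rw [h3] at h4
  exact ⟨b', h4.of_add_smul _⟩

end H7.SpTwo
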