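import Cfsg.Agent.Lib.H7.SpTwoH
import Cfsg.Agent.Lib.H7.SpTwoG
import Cfsg.Agent.Lib.H95.Bridge
import Cfsg.Agent.Lib.H13.Cores
import Cfsg.Agent.Lib.H41.SpMatEquiv
import Cfsg.Agent.S0247
import Cfsg.Agent.S5945

set_option autoImplicit false

/-!
Translation to matrices.
-/

namespace H7.SpTwo

open Module H95.SpBasic H95.SpGeom H95.Bridge
open H7.DickHom (Fx mem_Fx)
open scoped Matrix MatrixGroups

variable {F : Type*} [Field F] [CharP F 2] {n : ℕ}

/-- the alternating form of the statement -/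
abbrev frm (n : ℕ) (F : Type*) [Field F] : (Fin n ⊕ Fin n → F) → (Fin n ⊕ Fin n → F) → F :=
  fun u v => ∑ i : Fin n, (u (Sum.inl i) * v (Sum.inr i) + u (Sum.inr i) * v (Sum.inl i))

lemma spB_frm (u v : Fin n ⊕ Fin n → F) : spB n F u v = frm n F u v := by
  rw [spB_apply, sympForm_eq]
  refine Finset.sum_congr rfl fun i _ => ?_
  rw [CharTwo.sub_eq_add, add_comm]

lemma mem_pres {g : GL (Fin n ⊕ Fin n) F} :
    g ∈ Cfsg.preserving (Units.coeHom (Matrix (Fin n ⊕ Fin n) (Fin n ⊕ Fin n) F)) (frm n F) ↔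
      toEq _ F g ∈ isom (spB n F) := by
  constructor
  · intro h x y
    rw [spB_frm, spB_frm, toEq_apply, toEq_apply]
    exact h x y
  · intro h x y
    have := h x y
    rw [spB_frm, spB_frm, toEq_apply, toEq_apply] at this
    exact this

omit [CharP F 2] in
/-- rank of `g - 1` -/
lemma rank_sub (g : GL (Fin n ⊕ Fin n) F) :
    ((g : Matrix (Fin n ⊕ Fin n) (Fin n ⊕ Fin n) F) - 1).rank + finrank F (Fx (toEq _ F g)) = 2 * n := by
  have h1 := LinearMap.finrank_range_add_finrank_ker
    (Matrix.mulVecLin ((g : Matrix (Fin n ⊕ Fin n) (Fin n ⊕ Fin n) F) - 1))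
  have h2 : LinearMap.ker (Matrix.mulVecLin ((g : Matrix (Fin n ⊕ Fin n) (Fin n ⊕ Fin n) F) - 1)) =
      Fx (toEq _ F g) := by
    ext x
    rw [LinearMap.mem_ker, mem_Fx, toEq_apply, Matrix.mulVecLin_apply, Matrix.sub_mulVec, Matrix.one_mulVec,
      sub_eq_zero]
  rw [h2] at h1
  rw [Matrix.rank, h1, finrank_fintype_fun_eq_card]
  simp; omega

omit [CharP F 2] in
lemma finrank_eq : finrank F (Fin n ⊕ Fin n → F) = 2 * n := by
  rw [finrank_fintype_fun_eq_card]
  simp; omega

/-- `isom` in dimension four over the field of two elements -/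
noncomputable def isoS6 (F : Type*) [Field F] [Fintype F] (hF : Fintype.card F = 2) :
    isom (spB 2 F) ≃* Equiv.Perm (Fin 6) := by
  have e1 := (H41.SpMatEquiv.equiv (m := 2) (F := F)).symm
  have e2 := Classical.choice (Cfsg.Agent.S0247.result hF)
  have h : H41.SpA.Sp (H16.Symp.sympBilin 2 F) = isom (spB 2 F) := by
    ext g
    have : ∀ u v, H16.Symp.sympBilin 2 F u v = spB 2 F u v := by
      intro u v
      rw [spB_apply]; rfl
    constructor
    · intro hg x y
      rw [← this, ← this]; exact hg x y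
    · intro hg x y
      rw [this, this]; exact hg x y
  exact ((MulEquiv.subgroupCongr h).symm.trans e1).trans e2

lemma card_pairs [Fintype F] {V : Type*} [AddCommGroup V] [Module F V] [FiniteDimensional F V]
    {B : LinearMap.BilinForm F V} (hnd : ∀ v, (∀ w, B v w = 0) → v = 0)
    (hF : Fintype.card F = 2) (h4 : finrank F V = 4) : Nat.card {p : V × V // B p.1 p.2 = 1} = 120 := by
  classical
  have hfinV : Finite V := Module.finite_of_finite F
  have hcV : Nat.card V = 16 := by
    rw [Module.natCard_eq_pow_finrank (K := F), Nat.card_eq_fintype_card, hF, h4]; norm_num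
  have : Fintype V := Fintype.ofFinite V
  have hfib : ∀ x : V, x ≠ 0 → Nat.card {y : V // B x y = 1} = 8 := by
    intro x hx
    obtain ⟨y0, hy0⟩ : ∃ y0, B x y0 = 1 := by
      obtain ⟨y, hy⟩ : ∃ y, B x y ≠ 0 := by
        by_contra hcon; push Not at hcon; exact hx (hnd x hcon)
      exact ⟨(B x y)⁻¹ • y, by rw [map_smul, smul_eq_mul, inv_mul_cancel₀ hy]⟩
    let e : {y : V // B x y = 1} ≃ LinearMap.ker (B x) :=
      { toFun := fun y => ⟨(y : V) - y0, by rw [LinearMap.mem_ker, map_sub, y.2, hy0, sub_self]⟩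
        invFun := fun z => ⟨(z : V) + y0, by
          have : B x (z : V) = 0 := z.2
          rw [map_add, this, hy0, zero_add]⟩
        left_inv := fun y => Subtype.ext (sub_add_cancel _ _)
        right_inv := fun z => Subtype.ext (add_sub_cancel_right _ _) }
    rw [Nat.card_congr e, Module.natCard_eq_pow_finrank (K := F), Nat.card_eq_fintype_card, hF]
    have h1 := LinearMap.finrank_range_add_finrank_ker (B x)
    have h2 : LinearMap.range (B x) = ⊤ := by
      rw [LinearMap.range_eq_top]
      intro c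
      exact ⟨c • y0, by rw [map_smul, hy0, smul_eq_mul, mul_one]⟩
    rw [h2, finrank_top, finrank_self, h4] at h1
    have : finrank F (LinearMap.ker (B x)) = 3 := by omega
    rw [this]; norm_num
  let e : {p : V × V // B p.1 p.2 = 1} ≃ Σ x : {x : V // x ≠ 0}, {y : V // B (x : V) y = 1} :=
    { toFun := fun p => ⟨⟨p.1.1, fun h => by
        have := p.2
        rw [h] at this
        simp at this⟩, ⟨p.1.2, p.2⟩⟩
      invFun := fun q => ⟨((q.1 : V), (q.2 : V)), q.2.2⟩
      left_inv := fun p => rfl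
      right_inv := fun q => rfl }
  rw [Nat.card_congr e, Nat.card_sigma]
  rw [Finset.sum_congr rfl (fun (x : {x : V // x ≠ 0}) _ => hfib x.1 x.2), Finset.sum_const, Finset.card_univ, smul_eq_mul]
  have h3 : Fintype.card {x : V // x ≠ 0} = 15 := by
    rw [Fintype.card_subtype_compl, Fintype.card_subtype_eq, ← Nat.card_eq_fintype_card, hcV]
  rw [h3]

end H7.SpTwo
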